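import Cfsg.Agent.H1.GA3

/-!
# Gauss decomposition: squares of classes of elements of the Levi subgroup
-/

set_option autoImplicit false
set_option linter.unusedSectionVars false

namespace Cfsg.Agent.H1

open Matrix Cfsg.Agent.H2
open scoped MatrixGroups

/-- product of two conjugates of `x` -/
def Sq2 {Γ : Type*} [Group Γ] (x g : Γ) : Prop := ∃ u v, g = u * x * u⁻¹ * (v * x * v⁻¹)

theorem Sq2.conj {Γ : Type*} [Group Γ] {x g : Γ} (h : Sq2 x g) (m : Γ) : Sq2 x (m * g * m⁻¹) := by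
  obtain ⟨u, v, rfl⟩ := h
  exact ⟨m * u, m * v, by group⟩

theorem Sq2.of_conj {Γ : Type*} [Group Γ] {x g : Γ} (m : Γ) (h : Sq2 x (m * g * m⁻¹)) : Sq2 x g := by
  simpa [mul_assoc] using h.conj m⁻¹

namespace GaussD

variable {Γ F : Type*} [Group Γ] [Field F] {ψ : SL(2, F) →* Γ} {H R R' B Pa Ua Ra : Subgroup Γ}
  {na : Γ} {ℓ : Γ → ℕ} {p : ℕ} (D : GaussD ψ H R R' B Pa Ua Ra na ℓ p)
include D

theorem sq2_of [Finite Γ] {x : Γ} (hx : x ∈ D.L) (hR : ∀ r ∈ R, x * r = r * x → r = 1)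
    (hR' : ∀ r ∈ R', x * r = r * x → r = 1) {v u l₁ l₂ : Γ} (hv : v ∈ R') (hu : u ∈ R)
    (h₁ : l₁ ∈ D.L) (h₂ : l₂ ∈ D.L) : Sq2 x (v * (l₁ * x * l₁⁻¹ * (l₂ * x * l₂⁻¹)) * u) := by
  obtain ⟨c, hc⟩ := exists_conj_of_fpf (N := R') (t := x) (fun r hr => D.LR' hx hr) hR'
    (D.LR' (inv_mem h₁) hv)
  obtain ⟨c', hc'⟩ := exists_conj_of_fpf (N := R) (t := x) (fun r hr => D.LR hx hr) hR
    (D.LR hx (D.LR (inv_mem h₂) hu))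
  refine ⟨l₁ * c, l₂ * c', ?_⟩
  calc _ = l₁ * (l₁⁻¹ * v * l₁⁻¹⁻¹ * x) * l₁⁻¹ * (l₂ * (x * (l₂⁻¹ * u * l₂⁻¹⁻¹) * x⁻¹ * x) * l₂⁻¹) := by
        group
    _ = _ := by rw [hc, hc']; group

/-- cosets of `ψ(SL₂)` in the Levi subgroup -/
def Cos (ψ : SL(2, F) →* Γ) (h l : Γ) : Prop := ∃ Y, l = ψ Y * h

theorem Cos.mul {h h' l l' : Γ} (hh : h ∈ H) (h1 : Cos ψ h l) (h2 : Cos ψ h' l') :
    Cos ψ (h * h') (l * l') := by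
  obtain ⟨Y, rfl⟩ := h1
  obtain ⟨Y', rfl⟩ := h2
  obtain ⟨Z, e⟩ := D.Hconj hh Y'
  exact ⟨Y * Z, by rw [map_mul, ← e]; group⟩

theorem cos_mul_ψ {h : Γ} (hh : h ∈ H) (A : SL(2, F)) : Cos ψ h (h * ψ A) := by
  simpa using Cos.mul D hh (h' := 1) (l := h) (l' := ψ A) ⟨1, by simp⟩ ⟨A, by simp⟩

theorem exists_up [Finite F] {h₀ : Γ} {d : F} (hd : d ≠ 0) (hact : ∀ A, h₀ * ψ A * h₀⁻¹ = ψ (cD d hd A))
    (A₀ : SL(2, F)) (hdisc : (!![d, 0; 0, 1] * A₀.1).trace ^ 2 ≠ 4 * d) {l : Γ} (hl : Cos ψ (h₀ * h₀) l) :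
    ∃ s a b, ψ (upS s) * l = ψ a * (h₀ * ψ A₀) * (ψ a)⁻¹ * (ψ b * (h₀ * ψ A₀) * (ψ b)⁻¹) := by
  obtain ⟨Y, rfl⟩ := hl
  set E : Matrix (Fin 2) (Fin 2) F := !![d, 0; 0, 1] with hE
  have hEd : E.det = d := by simp [hE]
  have hXd : (E * A₀.1).det = d := by rw [det_mul, hEd, A₀.det_coe, mul_one]
  obtain ⟨s, a, b, e⟩ := exists_unip_mul_eq (X := E * A₀.1) (M := Y.1 * E * E) (by rwa [hXd])
    (by rwa [hXd]) (by rw [det_mul, det_mul, Y.det_coe, hXd, hEd]; ring)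
  refine ⟨s, a, b, ?_⟩
  have key : upS s * Y = a * cD d hd (A₀ * a⁻¹ * b) * cD d hd (cD d hd (A₀ * b⁻¹)) := by
    apply SL_ext
    have hu : IsUnit (E * E) := by
      rw [Matrix.isUnit_iff_isUnit_det, det_mul, hEd]
      exact (mul_ne_zero hd hd).isUnit
    apply hu.mul_right_cancel
    have s1 := cD_spec hd (A₀ * a⁻¹ * b)
    have s2 := cD_spec hd (A₀ * b⁻¹)
    have s3 := cD_spec hd (cD d hd (A₀ * b⁻¹))
    rw [← hE] at s1 s2 s3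
    simp only [Matrix.SpecialLinearGroup.coe_mul] at s1 s2 ⊢
    rw [upS_val]
    calc _ = !![1, s; 0, 1] * (Y.1 * E * E) := by simp only [mul_assoc]
      _ = a.1 * (E * (A₀.1 * (a⁻¹).1 * b.1)) * (E * (A₀.1 * (b⁻¹).1)) := by
        rw [e]; simp only [mul_assoc]
      _ = a.1 * (cD d hd (A₀ * a⁻¹ * b)).1 * (E * (cD d hd (A₀ * b⁻¹)).1 * E) := by
        rw [← s1, ← s2]; simp only [mul_assoc]
      _ = _ := by rw [← s3]; simp only [mul_assoc]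
  rw [← mul_assoc, ← map_mul, key, map_mul, map_mul, ← hact, ← hact, ← hact]
  simp only [map_mul, map_inv]
  group

theorem main [Finite Γ] [Finite F] [Fact p.Prime] {h₀ : Γ} (hh₀ : h₀ ∈ H) {d : F} (hd : d ≠ 0)
    (hact : ∀ A, h₀ * ψ A * h₀⁻¹ = ψ (cD d hd A))
    (A₀ : SL(2, F)) (hdisc : (!![d, 0; 0, 1] * A₀.1).trace ^ 2 ≠ 4 * d)
    (hR : ∀ r ∈ R, h₀ * ψ A₀ * r = r * (h₀ * ψ A₀) → r = 1)
    (hR' : ∀ r ∈ R', h₀ * ψ A₀ * r = r * (h₀ * ψ A₀) → r = 1) {g : Γ} (hg : g ≠ 1) :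
    Sq2 (h₀ * ψ A₀) g := by
  have hx : h₀ * ψ A₀ ∈ D.L := ⟨h₀, hh₀, A₀, rfl⟩
  have fin : ∀ l₀ m : Γ, m ∈ D.L → Cos ψ (h₀ * h₀) (l₀ * m) → ∃ s, ∀ v ∈ R', ∀ u ∈ R,
      Sq2 (h₀ * ψ A₀) (v * (m * ψ (upS s) * l₀) * u) := by
    intro l₀ m hm hc
    obtain ⟨s, a, b, e⟩ := D.exists_up hd hact A₀ hdisc hc
    refine ⟨s, fun v hv u hu => ?_⟩
    have := D.sq2_of hx hR hR' hv hu (mul_mem hm (D.ψL a)) (mul_mem hm (D.ψL b))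
    convert this using 3
    calc _ = m * (ψ (upS s) * (l₀ * m)) * m⁻¹ := by group
      _ = _ := by rw [e]; group
  obtain ⟨τ, _, ⟨l₀, hl₀, u, hu, rfl⟩, e⟩ := D.exists_cell hg
  refine Sq2.of_conj τ ?_
  obtain ⟨h₁, hh₁, A₁, hl₁⟩ := id hl₀
  have hh : h₁⁻¹ * (h₀ * h₀) ∈ H := mul_mem (inv_mem hh₁) (mul_mem hh₀ hh₀)
  obtain ⟨A, hA, x, hx, x', hx', v, hv, -, e1⟩ := D.rk1 _ hh
  have c0 : Cos ψ (h₀ * h₀) (l₀ * (h₁⁻¹ * (h₀ * h₀) * ψ A)) := by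
    have := Cos.mul D hh₁ (D.cos_mul_ψ hh₁ A₁) (D.cos_mul_ψ hh A)
    rwa [← hl₁, mul_inv_cancel_left] at this
  set h := h₁⁻¹ * (h₀ * h₀) * ψ A with hdef
  rcases e with e | e
  · obtain ⟨s, hs⟩ := fin l₀ h (D.HL hA) c0
    have hy := R.mul_mem (D.UaR hx) (D.c1 s)
    refine Sq2.of_conj _ (?_ : Sq2 _ (x * (na * ψ (upS s) * na⁻¹) * _ * _))
    have hl := mul_mem (D.ψL (upS s)) hl₀
    convert hs v hv _ (mul_mem (mul_mem (D.LR (inv_mem hl) (D.UaR hx')) hu) (inv_mem hy)) using 1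
    calc _ = x * na * ψ (upS s) * l₀ * u * (x * (na * ψ (upS s) * na⁻¹))⁻¹ := by rw [e]; group
      _ = _ := by rw [e1]; group
  · obtain ⟨A₂, hA₂, x₂, hx₂, x₂', hx₂', v₂, hv₂, hv₂', e2⟩ := D.rk1 1 (one_mem _)
    rw [one_mul] at hA₂ e2
    have hm : h * ψ (wS F) * ψ A₂ ∈ D.L := mul_mem (mul_mem (D.HL hA) (D.ψL _)) (D.ψL _)
    obtain ⟨s, hs⟩ := fin l₀ _ hm (by
      have := Cos.mul D (mul_mem hh₀ hh₀) c0 (h' := 1) (l' := ψ (wS F * A₂)) ⟨wS F * A₂, by simp⟩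
      simpa [mul_assoc] using this)
    obtain ⟨s₁, r', hr', e3⟩ := D.RaU _ (D.RaPa _ (inv_mem (mul_mem hv₂' (D.BPa (D.HB hA₂)))) _
      (D.nbUa x' hx'))
    have hy := R.mul_mem (R.mul_mem (D.UaR hx) (D.c2 x₂ hx₂)) (D.c3 (s - s₁))
    refine Sq2.of_conj _ (?_ : Sq2 _ (x * (na * ψ (wS F) * x₂ * (na * ψ (wS F))⁻¹) *
      (na * ψ (wS F) * na * ψ (upS (s - s₁)) * (na * ψ (wS F) * na)⁻¹) * _ * _))
    have hl := mul_mem (D.ψL (upS (s - s₁))) hl₀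
    convert hs _ (mul_mem hv (D.LR' (mul_mem (D.HL hA) (D.ψL (wS F))) hv₂)) _
      (mul_mem (mul_mem (D.LR (inv_mem hl) (mul_mem hr' (D.UaR hx₂'))) hu) (inv_mem hy)) using 1
    have e4 : ψ (upS s) = ψ (upS s₁) * ψ (upS (s - s₁)) := by rw [← map_mul, ← upS_add]; simp
    set y := x * (na * ψ (wS F) * x₂ * (na * ψ (wS F))⁻¹) *
      (na * ψ (wS F) * na * ψ (upS (s - s₁)) * (na * ψ (wS F) * na)⁻¹) with hy'
    calc _ = x * na * ψ (wS F) * (x₂ * na) * ψ (upS (s - s₁)) * l₀ * u * y⁻¹ := by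
          rw [e, hy']; group
      _ = v * h * ψ (wS F) * (v₂ * ψ A₂) * ((v₂ * ψ A₂)⁻¹ * ((ψ (wS F))⁻¹ * x' * ψ (wS F)) *
          (v₂ * ψ A₂)⁻¹⁻¹) * x₂' * ψ (upS (s - s₁)) * l₀ * u * y⁻¹ := by rw [e1, e2]; group
      _ = _ := by rw [e3, e4]; group

end GaussD

end Cfsg.Agent.H1
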