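import Cfsg.Agent.H3.Core
import Cfsg.Agent.H1.GA4

/-!
# Backtrack certificates: every element of a permutation group is a product of two conjugates
-/

set_option autoImplicit false

namespace Cfsg.Agent.H1

open L0

/-- certificate trees -/
inductive BtT where
  | nil : BtT
  | sub (w : ℕ) (t rest : BtT) : BtT
  | cj (k : ℕ) (rest : BtT) : BtT
  | lf (s t : ℕ) (rest : BtT) : BtT
  | one (rest : BtT) : BtT

/-- evaluate a number first -/
noncomputable def frc (n : ℕ) (f : ℕ → Bool) : Bool :=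
  Nat.rec (motive := fun _ => Bool) false (fun d _ => f d) (Nat.succ n)

/-- evaluate a list first -/
noncomputable def frcL (l : List ℕ) : (List ℕ → Bool) → Bool :=
  List.rec (motive := fun _ => (List ℕ → Bool) → Bool) (fun f => f [])
    (fun a _ ih f => frc a fun a' => ih fun l' => f (a' :: l')) l

theorem frcL_eq (l : List ℕ) (f : List ℕ → Bool) : frcL l f = f l := by
  induction l generalizing f with
  | nil => rfl
  | cons a l ih => exact ih _

/-- hexadecimal digits -/
noncomputable def hexW (f : ℕ) : ℕ → List ℕ :=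
  Nat.rec (motive := fun _ => ℕ → List ℕ) (fun _ => [])
    (fun _ ih n => Bool.rec (motive := fun _ => List ℕ) (Nat.land n 15 :: ih (Nat.shiftRight n 4)) [] (Nat.ble n 1)) f

/-- the inverse word -/
noncomputable def invW (iv : ℕ → ℕ) (w : List ℕ) : List ℕ → List ℕ :=
  List.rec (motive := fun _ => List ℕ → List ℕ) (fun acc => acc) (fun a _ ih acc => ih (iv a :: acc)) w

/-- `f` maps the first list to the second -/
noncomputable def agrF (f : ℕ → ℕ) (bs : List ℕ) : List ℕ → Bool :=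
  List.rec (motive := fun _ => List ℕ → Bool)
    (fun ys => List.rec (motive := fun _ => Bool) true (fun _ _ _ => false) ys)
    (fun b _ ih ys => List.rec (motive := fun _ => Bool) false
      (fun y ys' _ => Bool.rec (motive := fun _ => Bool) false (ih ys') (Nat.beq (f b) y)) ys) bs

theorem agrF_spec {f : ℕ → ℕ} {bs ys : List ℕ} (h : agrF f bs ys = true) : bs.map f = ys := by
  induction bs generalizing ys with
  | nil => cases ys with
    | nil => rfl
    | cons y ys => exact absurd h (by simp [agrF])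
  | cons b bs ih => cases ys with
    | nil => exact absurd h (by simp [agrF])
    | cons y ys =>
      obtain ⟨h1, h2⟩ := brec_true h
      rw [List.map_cons, Nat.eq_of_beq_eq_true h1, ih h2]

/-- membership -/
noncomputable def memN (a : ℕ) (l : List ℕ) : Bool :=
  List.rec (motive := fun _ => Bool) false (fun b _ ih => Bool.rec (motive := fun _ => Bool) ih true (Nat.beq a b)) l

theorem memN_spec {a : ℕ} {l : List ℕ} (h : memN a l = true) : a ∈ l := by
  induction l with
  | nil => exact absurd h (by simp [memN])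
  | cons b l ih =>
    have : memN a (b :: l) = Bool.rec (motive := fun _ => Bool) (memN a l) true (Nat.beq a b) := rfl
    rw [this] at h
    cases e : Nat.beq a b with
    | true => exact Nat.eq_of_beq_eq_true e ▸ List.mem_cons_self
    | false => rw [e] at h; exact List.mem_cons_of_mem _ (ih h)

/-- strict conjunction -/
noncomputable def band (a b : Bool) : Bool := Bool.rec (motive := fun _ => Bool) false b a

/-- empty list -/
noncomputable def nilB {α : Type} (l : List α) : Bool := List.rec (motive := fun _ => Bool) true (fun _ _ _ => false) l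

/-- the conjugate of `Y` by `s` -/
noncomputable def cjT (T : ℕ → ℕ → ℕ) (Y s si : List ℕ) (b : ℕ) : ℕ := tr T s (tr T Y (tr T si b))

/-- the checker -/
noncomputable def btChk (T : ℕ → ℕ → ℕ) (k : ℕ) (iv : ℕ → ℕ) (Y : List ℕ) (t : BtT) :
    List (ℕ × ℕ × ℕ) → ℕ → ℕ → List ℕ → List ℕ → List ℕ → ℕ → List ℕ → Bool :=
  BtT.rec (motive := fun _ => List (ℕ × ℕ × ℕ) → ℕ → ℕ → List ℕ → List ℕ → List ℕ → ℕ → List ℕ → Bool)
    (fun _ _ hi _ _ _ c _ => Nat.ble hi c)
    (fun w' _ _ ih ihr L β hi bs ys w c done => frc (tr T w c) fun y => frcL (hexW 32 w') fun w' =>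
      List.rec (motive := fun _ => Bool) false (fun p L' _ =>
        band (allL w' fun i => Nat.blt i k) (band (agrF (tr T w') (β :: bs) (y :: ys))
          (band (ih L' p.1 (Nat.add p.2.1 p.2.2) (β :: bs) (y :: ys) w' p.2.1 [])
            (frc (Nat.succ c) fun c' => ihr L β hi bs ys w c' (y :: done))))) L)
    (fun κ _ ihr L β hi bs ys w c done => frc (tr T w c) fun y => frcL (hexW 32 κ) fun κ =>
      band (allL κ fun i => Nat.blt i k) (band (agrF (tr T κ) (β :: bs) (β :: bs)) (band (agrF (tr T κ) ys ys)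
        (band (memN (tr T κ y) done) (frc (Nat.succ c) fun c' => ihr L β hi bs ys w c' done)))))
    (fun s t _ ihr L β hi bs ys w c done => frc (tr T w c) fun y => frcL (hexW 32 s) fun s => frcL (hexW 32 t) fun t =>
      frcL (invW iv s []) fun si => frcL (invW iv t []) fun ti =>
      band (nilB L) (band (allL s fun i => Nat.blt i k) (band (allL t fun i => Nat.blt i k)
        (band (agrF (fun b => cjT T Y t ti (cjT T Y s si b)) (β :: bs) (y :: ys))
          (frc (Nat.succ c) fun c' => ihr L β hi bs ys w c' (y :: done))))))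
    (fun _ ihr L β hi bs ys w c done => frc (tr T w c) fun y =>
      band (nilB L) (band (agrF (fun b => b) (β :: bs) (y :: ys))
        (frc (Nat.succ c) fun c' => ihr L β hi bs ys w c' (y :: done)))) t

/-- a packed row of leaves -/
noncomputable def lfN (x : ℕ) (rest : BtT) (n : ℕ) : BtT :=
  Nat.rec (motive := fun _ => BtT) rest (fun i ih =>
    BtT.lf (Nat.land (Nat.shiftRight x (Nat.mul (nat_lit 96) i)) (nat_lit 0xffffffffffff))
      (Nat.land (Nat.shiftRight x (Nat.add (Nat.mul (nat_lit 96) i) (nat_lit 48))) (nat_lit 0xffffffffffff)) ih) n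

/-- a packed row of conjugations -/
noncomputable def cjN (x : ℕ) (rest : BtT) (n : ℕ) : BtT :=
  Nat.rec (motive := fun _ => BtT) rest (fun i ih =>
    BtT.cj (Nat.land (Nat.shiftRight x (Nat.mul (nat_lit 48) i)) (nat_lit 0xffffffffffff)) ih) n

/-- the checker for a node -/
noncomputable def btNode (T : ℕ → ℕ → ℕ) (k : ℕ) (iv : ℕ → ℕ) (Y : List ℕ) (p : ℕ × ℕ × ℕ) (L : List (ℕ × ℕ × ℕ))
    (bs ys w done : List ℕ) (t : BtT) : Bool :=
  band (allL w fun i => Nat.blt i k) (band (agrF (tr T w) bs ys)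
    (btChk T k iv Y t L p.1 (Nat.add p.2.1 p.2.2) bs ys w p.2.1 done))

section sound

variable {G : Type*} [Group G] [Finite G] {N : ℕ} {A : RAct G N} {g : ℕ → G} {k : ℕ} {T : ℕ → ℕ → ℕ}
  {iv : ℕ → ℕ} {Y : List ℕ}

variable (A g Y) in
/-- all elements with prescribed images are trivial or products of two conjugates -/
def BtCl (bs ys : List ℕ) : Prop := ∀ x : G, bs.map (fun b => A.act b x) = ys → x = 1 ∨ Sq2 (ev g Y) x

variable (A) in
/-- an exact stabiliser chain -/
def BtEx (bs : List ℕ) (L : List (ℕ × ℕ × ℕ)) : Prop :=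
  A.Chain ⊤ bs (H3.ivl L) ∧ Nat.card ↥(⊤ ⊓ A.fixL bs) ≤ RAct.chainProd (H3.ivl L) ∧ ∀ b ∈ bs, b < N

theorem BtEx.tail {bs : List ℕ} {p : ℕ × ℕ × ℕ} {L : List (ℕ × ℕ × ℕ)} (h : BtEx A bs (p :: L)) :
    BtEx A (p.1 :: bs) L :=
  ⟨h.1.2, h.1.tail_exact h.2.1, List.forall_mem_cons.2 ⟨h.1.1.1, h.2.2⟩⟩

omit [Finite G] in
theorem letters_of {w : List ℕ} (h : (allL w fun i => Nat.blt i k) = true) : ∀ i ∈ w, i < k := fun i hi => by
  simpa [Nat.blt_eq] using (allL_iff _ _).1 h i hi

omit [Finite G] in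
theorem map_act (hT : A.Tab g k T) {w bs : List ℕ} (hw : ∀ i ∈ w, i < k) (hb : ∀ b ∈ bs, b < N) :
    bs.map (fun b => A.act b (ev g w)) = bs.map (tr T w) :=
  List.map_congr_left fun b h => hT.act_ev hw (hb b h)

omit [Finite G] in
theorem fix_of_map {bs : List ℕ} {x x' : G} (h : bs.map (fun b => A.act b x) = bs.map fun b => A.act b x') :
    x * x'⁻¹ ∈ A.fixL bs := fun b hb hN => by
  rw [A.mul _ _ hN, List.map_inj_left.1 h b hb, A.act_inv _ hN]

theorem BtEx.cl (hT : A.Tab g k T) {bs ys w : List ℕ} {p : ℕ × ℕ × ℕ} {L : List (ℕ × ℕ × ℕ)} (h : BtEx A bs (p :: L))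
    (hw : ∀ i ∈ w, i < k) (hy : bs.map (tr T w) = ys)
    (H : ∀ c, p.2.1 ≤ c → c < p.2.1 + p.2.2 → BtCl A g Y (p.1 :: bs) (tr T w c :: ys)) : BtCl A g Y bs ys := by
  intro x hx
  have h1 := h.1.orbit_mem h.2.1 (x := x * (ev g w)⁻¹) ⟨trivial, fix_of_map (by rw [hx, map_act hT hw h.2.2, hy])⟩
  have h2 := Finset.mem_Ico.1 h1
  have hβ : p.1 < N := h.1.1.1
  refine H _ h2.1 h2.2 x ?_
  rw [List.map_cons, hx, ← hT.act_ev hw (A.lt _ hβ), ← A.mul _ _ hβ, inv_mul_cancel_right]

theorem BtEx.eq {bs : List ℕ} (h : BtEx A bs []) {x x' : G}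
    (e : bs.map (fun b => A.act b x) = bs.map fun b => A.act b x') : x = x' :=
  mul_inv_eq_one.1 (h.1.base h.2.1 trivial (fix_of_map e) (by simp [H3.ivl, RAct.fixL_nil]))

omit [Finite G] in
theorem invW_spec (hiv : ∀ i < k, iv i < k ∧ g (iv i) = (g i)⁻¹) {w : List ℕ} (hw : ∀ i ∈ w, i < k) :
    ∀ acc : List ℕ, (∀ i ∈ acc, i < k) → (∀ i ∈ invW iv w acc, i < k) ∧ ev g (invW iv w acc) = (ev g w)⁻¹ * ev g acc := by
  induction w with
  | nil => exact fun acc h => ⟨h, by simp [invW]⟩
  | cons a w ih =>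
    intro acc h
    obtain ⟨h1, h2⟩ := List.forall_mem_cons.1 hw
    obtain ⟨h3, h4⟩ := ih h2 (iv a :: acc) (List.forall_mem_cons.2 ⟨(hiv a h1).1, h⟩)
    exact ⟨h3, h4.trans (by simp [(hiv a h1).2, mul_assoc])⟩

omit [Finite G] in
theorem cjT_spec (hT : A.Tab g k T) (hiv : ∀ i < k, iv i < k ∧ g (iv i) = (g i)⁻¹) (hY : ∀ i ∈ Y, i < k)
    {s : List ℕ} (hs : ∀ i ∈ s, i < k) {b : ℕ} (hb : b < N) :
    cjT T Y s (invW iv s []) b = A.act b ((ev g s)⁻¹ * ev g Y * (ev g s)⁻¹⁻¹) := by
  obtain ⟨h1, h2⟩ := invW_spec hiv hs [] (by simp)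
  rw [cjT, ← hT.act_ev h1 hb, ← hT.act_ev hY (A.lt _ hb), ← hT.act_ev hs (A.lt _ (A.lt _ hb)), h2]
  simp [A.mul _ _ hb]

theorem btChk_sound (hT : A.Tab g k T) (hiv : ∀ i < k, iv i < k ∧ g (iv i) = (g i)⁻¹) (hY : ∀ i ∈ Y, i < k) (t : BtT) :
    ∀ {L : List (ℕ × ℕ × ℕ)} {β hi : ℕ} {bs ys w : List ℕ} {c : ℕ} {done : List ℕ},
      btChk T k iv Y t L β hi bs ys w c done = true → BtEx A (β :: bs) L →
      (∀ y ∈ done, BtCl A g Y (β :: bs) (y :: ys)) → ∀ c', c ≤ c' → c' < hi → BtCl A g Y (β :: bs) (tr T w c' :: ys) := by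
  have step : ∀ {β hi : ℕ} {bs ys w : List ℕ} {c : ℕ}, BtCl A g Y (β :: bs) (tr T w c :: ys) →
      (∀ c', c + 1 ≤ c' → c' < hi → BtCl A g Y (β :: bs) (tr T w c' :: ys)) →
      ∀ c', c ≤ c' → c' < hi → BtCl A g Y (β :: bs) (tr T w c' :: ys) := fun h1 h2 c' h3 h4 =>
    h3.eq_or_lt.elim (fun e => e ▸ h1) fun e => h2 c' e h4
  induction t with
  | nil => exact fun h _ _ c' h1 h2 => absurd (Nat.le_of_ble_eq_true h) (by omega)
  | sub w' t rest ih ihr =>
    intro L β hi bs ys w c done h hE hd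
    have h := (frcL_eq _ _).symm.trans h
    cases L with
    | nil => exact absurd h (by simp)
    | cons p L =>
      obtain ⟨h1, h⟩ := brec_true h
      obtain ⟨h2, h⟩ := brec_true h
      obtain ⟨h3, h4⟩ := brec_true h
      have h5 := hE.cl hT (letters_of h1) (agrF_spec h2) (ih h3 hE.tail (by simp))
      exact step h5 (ihr h4 hE (List.forall_mem_cons.2 ⟨h5, hd⟩))
  | cj κ rest ihr =>
    intro L β hi bs ys w c done h hE hd
    have h := (frcL_eq _ _).symm.trans h
    obtain ⟨h1, h⟩ := brec_true h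
    obtain ⟨h2, h⟩ := brec_true h
    obtain ⟨h3, h⟩ := brec_true h
    obtain ⟨h4, h5⟩ := brec_true h
    refine step (fun x hx => ?_) (ihr h5 hE hd)
    have hκ := letters_of h1
    set u := ev g (hexW 32 κ) with hu
    have h6 : ∀ b ∈ β :: bs, A.act b (u⁻¹ * x * u) = tr T (hexW 32 κ) (A.act b x) := fun b hb => by
      have hN := hE.2.2 b hb
      have h7 : tr T (hexW 32 κ) b = b := List.map_inj_left.1 ((agrF_spec h2).trans (List.map_id _).symm) b hb
      have h8 : A.act b u = b := (hT.act_ev hκ hN).trans h7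
      rw [A.mul _ _ hN, A.mul _ _ hN, A.act_inv_eq hN h8, hT.act_ev hκ (A.lt _ hN)]
    rcases hd _ (memN_spec h4) (u⁻¹ * x * u) (by
      refine (List.map_congr_left h6).trans ((List.map_map (g := tr T (hexW 32 κ))
        (f := fun b => A.act b x)).symm.trans ?_)
      rw [hx, List.map_cons, agrF_spec h3]) with e | e
    · left
      rwa [mul_assoc, inv_mul_eq_one, eq_comm, mul_eq_right] at e
    · exact Or.inr (Sq2.of_conj u⁻¹ (by rwa [inv_inv]))
  | lf s t rest ihr =>
    intro L β hi bs ys w c done h hE hd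
    have h := (frcL_eq _ _).symm.trans h
    have h := (frcL_eq _ _).symm.trans h
    have h := (frcL_eq _ _).symm.trans h
    have h := (frcL_eq _ _).symm.trans h
    obtain ⟨h0, h⟩ := brec_true h
    obtain ⟨h1, h⟩ := brec_true h
    obtain ⟨h2, h⟩ := brec_true h
    obtain ⟨h3, h4⟩ := brec_true h
    cases L with
    | cons p L => exact absurd h0 (by simp [nilB])
    | nil =>
      have h5 : BtCl A g Y (β :: bs) (tr T w c :: ys) := fun x hx => Or.inr ⟨_, _, hE.eq (by
        rw [hx, ← agrF_spec h3]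
        refine List.map_congr_left fun b hb => ?_
        have hN := hE.2.2 b hb
        rw [cjT_spec hT hiv hY (letters_of h1) hN, cjT_spec hT hiv hY (letters_of h2) (A.lt _ hN), ← A.mul _ _ hN])⟩
      exact step h5 (ihr h4 hE (List.forall_mem_cons.2 ⟨h5, hd⟩))
  | one rest ihr =>
    intro L β hi bs ys w c done h hE hd
    obtain ⟨h0, h⟩ := brec_true h
    obtain ⟨h3, h4⟩ := brec_true h
    cases L with
    | cons p L => exact absurd h0 (by simp [nilB])
    | nil =>
      have h5 : BtCl A g Y (β :: bs) (tr T w c :: ys) := fun x hx => Or.inl (hE.eq (by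
        rw [hx, ← agrF_spec h3]
        exact List.map_congr_left fun b hb => (A.one (hE.2.2 b hb)).symm))
      exact step h5 (ihr h4 hE (List.forall_mem_cons.2 ⟨h5, hd⟩))

theorem BtEx.node (hT : A.Tab g k T) (hiv : ∀ i < k, iv i < k ∧ g (iv i) = (g i)⁻¹) (hY : ∀ i ∈ Y, i < k)
    {bs ys w done : List ℕ} {p : ℕ × ℕ × ℕ} {L : List (ℕ × ℕ × ℕ)} (h : BtEx A bs (p :: L)) {t : BtT}
    (hc : btNode T k iv Y p L bs ys w done t = true)
    (hd : ∀ y ∈ done, BtCl A g Y (p.1 :: bs) (y :: ys)) : BtCl A g Y bs ys := by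
  obtain ⟨h1, hc⟩ := brec_true hc
  obtain ⟨h2, hc⟩ := brec_true hc
  exact h.cl hT (letters_of h1) (agrF_spec h2) (btChk_sound hT hiv hY t hc h.tail hd)

end sound

end Cfsg.Agent.H1
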