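import Cfsg.Agent.H1.Bt
import Cfsg.Agent.H3.Mu.Tits.Tab

/-! Inverse letters of the permutation model of the Tits group. -/

set_option autoImplicit false

namespace Cfsg.Agent.H1

/-- inverse letters -/
noncomputable def titsIv (i : ℕ) : ℕ := Nat.land (Nat.shiftRight (nat_lit 0xbca8967453210) (Nat.mul (nat_lit 4) i)) (nat_lit 15)

end Cfsg.Agent.H1
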