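import Cfsg.Agent.H1.BtC0
import Cfsg.Agent.H1.BtC1
import Cfsg.Agent.H1.BtC2
import Cfsg.Agent.H1.BtC3
import Cfsg.Agent.H3.TitsModel
import Cfsg.Agent.H3.Mu.Tits.Core

/-! Every non-identity element of the Tits group is a product of two conjugates of an element of order three. -/

set_option autoImplicit false
set_option maxRecDepth 100000

namespace Cfsg.Agent.H1

open L0 TitsSq

theorem tits_cl {G : Type*} [Group G] [Finite G] {A : RAct G 1755} {g : ℕ → G} (hT : A.Tab g 13 H3.Tits.T)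
    (hiv : ∀ i < 13, titsIv i < 13 ∧ g (titsIv i) = (g i)⁻¹) (hE : BtEx A [] H3.Tits.L) :
    BtCl A g [0, 1] [] [] := by
  have hY : ∀ i ∈ [0, 1], i < 13 := by decide
  have h_0_82 := BtEx.node hT hiv hY hE.tail.tail c_0_82 (by simp)
  have h_0_1 := BtEx.node hT hiv hY hE.tail.tail c_0_1 (by simp)
  have h_0_83 := BtEx.node hT hiv hY hE.tail.tail c_0_83 (by simp)
  have h_0 := BtEx.node hT hiv hY hE.tail c_0
    (List.forall_mem_cons.2 ⟨h_0_82, (List.forall_mem_cons.2 ⟨h_0_1, (List.forall_mem_cons.2 ⟨h_0_83, (by simp)⟩)⟩)⟩)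
  have h_10_1 := BtEx.node hT hiv hY hE.tail.tail c_10_1 (by simp)
  have h_10_11 := BtEx.node hT hiv hY hE.tail.tail c_10_11 (by simp)
  have h_10_173 := BtEx.node hT hiv hY hE.tail.tail c_10_173 (by simp)
  have h_10 := BtEx.node hT hiv hY hE.tail c_10
    (List.forall_mem_cons.2 ⟨h_10_1, (List.forall_mem_cons.2 ⟨h_10_11, (List.forall_mem_cons.2 ⟨h_10_173, (by simp)⟩)⟩)⟩)
  have h_18_90 := BtEx.node hT hiv hY hE.tail.tail c_18_90 (by simp)
  have h_18_225 := BtEx.node hT hiv hY hE.tail.tail c_18_225 (by simp)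
  have h_18_776 := BtEx.node hT hiv hY hE.tail.tail c_18_776 (by simp)
  have h_18_609 := BtEx.node hT hiv hY hE.tail.tail c_18_609 (by simp)
  have h_18_1199 := BtEx.node hT hiv hY hE.tail.tail c_18_1199 (by simp)
  have h_18_1021 := BtEx.node hT hiv hY hE.tail.tail c_18_1021 (by simp)
  have h_18 := BtEx.node hT hiv hY hE.tail c_18
    (List.forall_mem_cons.2 ⟨h_18_90, (List.forall_mem_cons.2 ⟨h_18_225, (List.forall_mem_cons.2 ⟨h_18_776, (List.forall_mem_cons.2 ⟨h_18_609, (List.forall_mem_cons.2 ⟨h_18_1199, (List.forall_mem_cons.2 ⟨h_18_1021, (by simp)⟩)⟩)⟩)⟩)⟩)⟩)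
  have h_82_0 := BtEx.node hT hiv hY hE.tail.tail c_82_0 (by simp)
  have h_82_1 := BtEx.node hT hiv hY hE.tail.tail c_82_1 (by simp)
  have h_82_2 := BtEx.node hT hiv hY hE.tail.tail c_82_2 (by simp)
  have h_82 := BtEx.node hT hiv hY hE.tail c_82
    (List.forall_mem_cons.2 ⟨h_82_0, (List.forall_mem_cons.2 ⟨h_82_1, (List.forall_mem_cons.2 ⟨h_82_2, (by simp)⟩)⟩)⟩)
  have h_307_115 := BtEx.node hT hiv hY hE.tail.tail c_307_115 (by simp)
  have h_307_435 := BtEx.node hT hiv hY hE.tail.tail c_307_435 (by simp)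
  have h_307_78 := BtEx.node hT hiv hY hE.tail.tail c_307_78 (by simp)
  have h_307_1152 := BtEx.node hT hiv hY hE.tail.tail c_307_1152 (by simp)
  have h_307_57 := BtEx.node hT hiv hY hE.tail.tail c_307_57 (by simp)
  have h_307_1001 := BtEx.node hT hiv hY hE.tail.tail c_307_1001 (by simp)
  have h_307 := BtEx.node hT hiv hY hE.tail c_307
    (List.forall_mem_cons.2 ⟨h_307_115, (List.forall_mem_cons.2 ⟨h_307_435, (List.forall_mem_cons.2 ⟨h_307_78, (List.forall_mem_cons.2 ⟨h_307_1152, (List.forall_mem_cons.2 ⟨h_307_57, (List.forall_mem_cons.2 ⟨h_307_1001, (by simp)⟩)⟩)⟩)⟩)⟩)⟩)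
  exact BtEx.node hT hiv hY hE c
    (List.forall_mem_cons.2 ⟨h_0, (List.forall_mem_cons.2 ⟨h_10, (List.forall_mem_cons.2 ⟨h_18, (List.forall_mem_cons.2 ⟨h_82, (List.forall_mem_cons.2 ⟨h_307, (by simp)⟩)⟩)⟩)⟩)⟩)

theorem sq2_tits : ∃ x : Cfsg.Lie.TitsGroup, Odd (orderOf x) ∧ ∀ g, g ≠ 1 → Sq2 x g := by
  obtain ⟨A, g, h⟩ := H3.Tits.core' H3.Tits.tits_model
  have := h.fin
  have h1 := h.base.ev_eq_one h.tab (S := [[0, 1, 0, 1, 0, 1], [0, 0], [1, 1], [2, 2], [3, 3], [4, 5], [5, 4], [6, 7],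
    [7, 6], [8, 9], [9, 8], [10, 10], [11, 12], [12, 11]]) (by decide +kernel) (by decide +kernel)
  have h2 : ∀ i j, [i, j] ∈ [[0, 1, 0, 1, 0, 1], [0, 0], [1, 1], [2, 2], [3, 3], [4, 5], [5, 4], [6, 7],
      [7, 6], [8, 9], [9, 8], [10, 10], [11, 12], [12, 11]] → g j = (g i)⁻¹ := fun i j hm =>
    eq_inv_of_mul_eq_one_right (by simpa using h1 _ hm)
  refine ⟨ev g [0, 1], ?_, fun x hx => (tits_cl h.tab (fun i hi => ?_) ⟨H3.Tits.chain h.tab, ?_, by simp⟩ x rfl).resolve_left hx⟩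
  · refine Odd.of_dvd_nat (by decide : Odd 3) (orderOf_dvd_of_pow_eq_one ?_)
    simpa [pow_succ, mul_assoc] using h1 _ List.mem_cons_self
  · interval_cases i <;> exact ⟨by decide +kernel, h2 _ _ (by decide +kernel)⟩
  · rw [H3.chainProd_ivl]
    refine (Nat.card_le_card_of_injective _ Subtype.val_injective).trans (h.card.trans ?_).le
    decide +kernel

end Cfsg.Agent.H1
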