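import Cfsg.Agent.H1.CharInd

/-!
# Counting irreducible characters by degree
-/

set_option autoImplicit false

namespace Cfsg.Agent.H1

open Cfsg Module
open scoped ComplexConjugate

variable {G : Type*} [Group G] [Fintype G]

theorem sum_irr_by_degree (D : Finset ℂ) (hD : ∀ χ, IsIrrCharacter G χ → χ 1 ∈ D) (f : ℂ → ℂ) :
    ∑ χ : IrrCharacter G, f ((χ : G → ℂ) 1) =
      ∑ d ∈ D, (Nat.card {χ : IrrCharacter G // (χ : G → ℂ) 1 = d} : ℂ) * f d := by
  classical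
  rw [← Finset.sum_fiberwise_of_maps_to (s := Finset.univ) (t := D)
    (g := fun χ : IrrCharacter G => (χ : G → ℂ) 1) (fun χ _ => hD χ χ.2)]
  refine Finset.sum_congr rfl (fun d _ => ?_)
  rw [Finset.sum_congr rfl (g := fun _ => f d)]
  · simp [Fintype.card_subtype]
  · intro χ hχ
    rw [(Finset.mem_filter.mp hχ).2]

theorem sum_count_by_degree (D : Finset ℂ) (hD : ∀ χ, IsIrrCharacter G χ → χ 1 ∈ D) :
    ∑ d ∈ D, (Nat.card {χ : IrrCharacter G // (χ : G → ℂ) 1 = d} : ℂ) =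
      Nat.card (ConjClasses G) := by
  have := sum_irr_by_degree D hD (fun _ => 1)
  simp only [mul_one, Finset.sum_const, Finset.card_univ, nsmul_eq_mul] at this
  rw [← this, ← card_irr_eq_card_conjClasses, Nat.card_eq_fintype_card]

theorem sum_sq_by_degree (D : Finset ℂ) (hD : ∀ χ, IsIrrCharacter G χ → χ 1 ∈ D) :
    ∑ d ∈ D, (Nat.card {χ : IrrCharacter G // (χ : G → ℂ) 1 = d} : ℂ) * d ^ 2 = Nat.card G := by
  rw [← sum_irr_by_degree D hD (fun d => d ^ 2), sum_sq_degree]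

omit [Fintype G] in
theorem card_degree_eq_of_param {ι : Type*} (d : ℂ) (f : ι → G → ℂ)
    (h1 : ∀ i, IsIrrCharacter G (f i)) (h2 : ∀ i, f i 1 = d) (h3 : Function.Injective f)
    (h4 : ∀ χ, IsIrrCharacter G χ → χ 1 = d → ∃ i, χ = f i) :
    Nat.card {χ : IrrCharacter G // (χ : G → ℂ) 1 = d} = Nat.card ι := by
  symm
  refine Nat.card_eq_of_bijective (fun i => ⟨⟨f i, h1 i⟩, h2 i⟩) ⟨?_, ?_⟩
  · intro i j h
    exact h3 (congrArg (fun x => x.1.1) h)
  · rintro ⟨⟨χ, hχ⟩, hd⟩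
    obtain ⟨i, rfl⟩ := h4 χ hχ hd
    exact ⟨i, rfl⟩

end Cfsg.Agent.H1
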