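import Mathlib

/-!
# Rank two groups: every element is conjugate into a product of two minimal parabolic subgroups
-/

set_option autoImplicit false

namespace Cfsg.Agent.H1

open Matrix

theorem trace_eq_one_of_pow {k ι : Type*} [Field k] [Fintype ι] [DecidableEq ι] [Nonempty ι]
    (A : Matrix ι ι k) {N : ℕ} (h : ∀ j, N ≤ j → A ^ j = Matrix.of fun _ _ => 1) : A.trace = 1 := by
  set J : Matrix ι ι k := Matrix.of fun _ _ => 1 with hJ
  have h1 : A * J = J := by rw [← h N le_rfl, ← pow_succ', h N le_rfl, h _ (Nat.le_succ N)]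
  have h2 : J * A = J := by rw [← h N le_rfl, ← pow_succ, h N le_rfl, h _ (Nat.le_succ N)]
  have h3 : J * J = J := by
    have := h (N + N) (Nat.le_add_right _ _)
    rwa [pow_add, h N le_rfl] at this
  have h4 : ∀ n, (A - J) ^ (n + 1) = A ^ (n + 1) - J := by
    intro n
    induction n with
    | zero => simp
    | succ n ih =>
      have h5 : ∀ m, A ^ m * J = J := by
        intro m
        induction m with
        | zero => simp
        | succ m ih => rw [pow_succ, mul_assoc, h1, ih]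
      rw [pow_succ, ih, sub_mul, mul_sub, mul_sub, h5, h2, h3, ← pow_succ]
      abel
  have h5 : IsNilpotent (A - J) := ⟨N + 1, by rw [h4, h _ (Nat.le_succ N), sub_self]⟩
  have h6 := (Matrix.isNilpotent_trace_of_isNilpotent h5).eq_zero
  rw [Matrix.trace_sub, sub_eq_zero] at h6
  have i : ι := Classical.arbitrary ι
  have h7 := congrFun (congrFun h3 i) i
  simp only [hJ, Matrix.mul_apply, Matrix.of_apply, mul_one] at h7
  rw [h6, Matrix.trace, ← h7]
  simp [hJ]

section rank2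

variable {Γ : Type*} [Group Γ] (B : Subgroup Γ)

/-- two cosets of `B` in the same coset of `P` -/
def PRel (P : Subgroup Γ) (a b : Γ ⧸ B) : Prop :=
  ∃ g y : Γ, y ∈ P ∧ a = (g : Γ ⧸ B) ∧ b = ((g * y : Γ) : Γ ⧸ B)

variable {B}

theorem pRel_mk {P : Subgroup Γ} (hBP : B ≤ P) {g g' : Γ} :
    PRel B P (g : Γ ⧸ B) (g' : Γ ⧸ B) ↔ g⁻¹ * g' ∈ P := by
  constructor
  · rintro ⟨a, y, hy, h1, h2⟩
    have h3 := hBP (QuotientGroup.eq.1 h1)
    have h4 := hBP (QuotientGroup.eq.1 h2)
    have := P.mul_mem (P.mul_mem h3 hy) (P.inv_mem h4)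
    simpa [mul_assoc] using this
  · intro h
    exact ⟨g, _, h, rfl, by simp⟩

theorem pRel_smul {P : Subgroup Γ} (hBP : B ≤ P) (t : Γ) (a b : Γ ⧸ B) :
    PRel B P (t • a) (t • b) ↔ PRel B P a b := by
  induction a using QuotientGroup.induction_on with | H a => ?_
  induction b using QuotientGroup.induction_on with | H b => ?_
  rw [MulAction.Quotient.smul_mk, MulAction.Quotient.smul_mk, pRel_mk hBP, pRel_mk hBP]
  simp [mul_assoc]

open Classical in
theorem sum_pRel {k : Type*} [Field k] [Fintype (Γ ⧸ B)] [Finite Γ] {P U : Subgroup Γ} {n : Γ}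
    (hBP : B ≤ P) (hUB : U ≤ B) (hn : n ∈ P)
    (hP : ∀ g ∈ P, g ∈ B ∨ ∃ x ∈ U, ∃ b ∈ B, g = x * n * b)
    (huniq : ∀ x ∈ U, n⁻¹ * x * n ∈ B → x = 1) (hp : (Nat.card U : k) = 0)
    (r : Γ ⧸ B → k) (hr : ∀ b ∈ B, ∀ a, r (b • a) = r a) {g y : Γ} (hy : y ∈ P)
    (hv : ∀ x ∈ U, g * y * x * (g * y)⁻¹ ∈ B) :
    ∑ a, r a * (if PRel B P a (g : Γ ⧸ B) then 1 else 0) = r (g * y : Γ) := by
  have := Fintype.ofFinite U
  have hnB : n ∉ B := fun h => by
    have : Subsingleton U := ⟨fun a b => Subtype.ext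
      ((huniq a.1 a.2 (B.mul_mem (B.mul_mem (B.inv_mem h) (hUB a.2)) h)).trans
        (huniq b.1 b.2 (B.mul_mem (B.mul_mem (B.inv_mem h) (hUB b.2)) h)).symm)⟩
    rw [Nat.card_of_subsingleton (1 : U)] at hp
    simp at hp
  let f : Option U → Γ ⧸ B := fun o => o.elim (g * y : Γ) fun x => (g * y * x * n : Γ)
  have hf : Function.Injective f := by
    rintro (_ | a) (_ | b) h
    · rfl
    · exfalso
      have h1 := QuotientGroup.eq.1 h
      apply hnB
      have := B.mul_mem (B.inv_mem (hUB b.2)) h1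
      simpa [mul_assoc] using this
    · exfalso
      have h1 := QuotientGroup.eq.1 h.symm
      apply hnB
      have := B.mul_mem (B.inv_mem (hUB a.2)) h1
      simpa [mul_assoc] using this
    · have h1 := QuotientGroup.eq.1 h
      have h2 := huniq _ (U.mul_mem (U.inv_mem a.2) b.2) (by simpa [mul_assoc] using h1)
      rw [Subtype.ext (inv_mul_eq_one.1 h2)]
  have e : ∑ a, r a * (if PRel B P a (g : Γ ⧸ B) then 1 else 0) = ∑ o, r (f o) := by
    simp only [mul_ite, mul_one, mul_zero]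
    rw [← Finset.sum_filter, ← Finset.sum_image (f := r) (s := Finset.univ) (g := f) (fun a _ b _ h => hf h)]
    refine Finset.sum_congr ?_ fun _ _ => rfl
    ext a
    induction a using QuotientGroup.induction_on with | H a => ?_
    simp only [Finset.mem_filter, Finset.mem_univ, true_and, Finset.mem_image, pRel_mk hBP]
    constructor
    · intro h
      rcases hP _ (P.inv_mem (P.mul_mem h hy)) with h1 | ⟨x, hx, b, hb, h1⟩
      · exact ⟨none, QuotientGroup.eq.2 (by simpa [mul_assoc] using h1)⟩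
      · refine ⟨some ⟨x, hx⟩, QuotientGroup.eq.2 ?_⟩
        have : a = g * y * (x * n * b) := by rw [← h1]; group
        simpa [this, mul_assoc] using hb
    · rintro ⟨_ | x, h⟩
      · have h1 := hBP (QuotientGroup.eq.1 h)
        have := P.inv_mem (P.mul_mem hy h1)
        simpa [mul_assoc] using this
      · have h1 := hBP (QuotientGroup.eq.1 h)
        have := P.inv_mem (P.mul_mem (P.mul_mem (P.mul_mem hy (hBP (hUB x.2))) hn) h1)
        simpa [mul_assoc] using this
  rw [e, Fintype.sum_option]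
  have e2 : ∀ x : U, r (f (some x)) = r (g * y * n : Γ) := fun x => by
    rw [← hr _ (hv x x.2) (g * y * n : Γ), MulAction.Quotient.smul_mk]
    simp [f, mul_assoc]
  simp only [e2, Finset.sum_const, Finset.card_univ, nsmul_eq_mul]
  rw [← Nat.card_eq_fintype_card, hp, zero_mul, add_zero]
  rfl

theorem exists_conj_mem_mul [Finite Γ] (p : ℕ) [Fact p.Prime] (P U : Bool → Subgroup Γ)
    (n : Bool → Γ) (ℓ : Γ → ℕ) (hBP : ∀ s, B ≤ P s) (hUB : ∀ s, U s ≤ B) (hn : ∀ s, n s ∈ P s)
    (hP : ∀ s, ∀ g ∈ P s, g ∈ B ∨ ∃ x ∈ U s, ∃ b ∈ B, g = x * n s * b)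
    (huniq : ∀ s, ∀ x ∈ U s, (n s)⁻¹ * x * n s ∈ B → x = 1) (hp : ∀ s, p ∣ Nat.card (U s))
    (red : ∀ s g, ∃ y ∈ P s, (∀ x ∈ U s, g * y * x * (g * y)⁻¹ ∈ B) ∧ (y ∈ B ∨ ℓ (g * y) < ℓ g))
    (red' : ∀ g, g ∉ B → ∃ s, ∃ y ∈ P s, (∀ x ∈ U s, g * y * x * (g * y)⁻¹ ∈ B) ∧ ℓ (g * y) < ℓ g)
    (g : Γ) : ∃ τ, ∃ a ∈ P false, ∃ b ∈ P true, τ⁻¹ * g * τ = a * b := by
  classical
  have := Fintype.ofFinite (Γ ⧸ B)
  let E : Bool → Matrix (Γ ⧸ B) (Γ ⧸ B) (ZMod p) := fun s => Matrix.of fun a b =>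
    if PRel B (P s) a b then 1 else 0
  obtain ⟨Wd, W0, WS⟩ : ∃ Wd : ℕ → Bool → Matrix (Γ ⧸ B) (Γ ⧸ B) (ZMod p), (∀ s, Wd 0 s = 1) ∧
      ∀ j s, Wd (j + 1) s = Wd j (!s) * E s :=
    ⟨fun j => Nat.rec (fun _ => 1) (fun _ f s => f (!s) * E s) j, fun _ => rfl, fun _ _ => rfl⟩
  have Eeq : ∀ s (t : Γ) a b, E s (t • a) (t • b) = E s a b := fun s t a b => by
    simp only [E, Matrix.of_apply, pRel_smul (hBP s)]
  have meq : ∀ M N : Matrix (Γ ⧸ B) (Γ ⧸ B) (ZMod p), (∀ (t : Γ) a b, M (t • a) (t • b) = M a b) →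
      (∀ (t : Γ) a b, N (t • a) (t • b) = N a b) → ∀ (t : Γ) a b, (M * N) (t • a) (t • b) = (M * N) a b := by
    intro M N hM hN t a b
    simp only [Matrix.mul_apply]
    rw [← Equiv.sum_comp (MulAction.toPerm t)]
    simp only [MulAction.toPerm_apply, hM, hN]
  have Weq : ∀ j s (t : Γ) a b, Wd j s (t • a) (t • b) = Wd j s a b := by
    intro j
    induction j with
    | zero => intro s t a b; simp [W0, Matrix.one_apply]
    | succ j ih => intro s; rw [WS]; exact meq _ _ (ih _) (Eeq s)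
  have o1 : ∀ b ∈ B, b • ((1 : Γ) : Γ ⧸ B) = (1 : Γ) := fun b hb => by
    rw [MulAction.Quotient.smul_mk]; exact QuotientGroup.eq.2 (by simpa using hb)
  have step : ∀ j s (g y : Γ), y ∈ P s → (∀ x ∈ U s, g * y * x * (g * y)⁻¹ ∈ B) →
      Wd (j + 1) s (1 : Γ) g = Wd j (!s) (1 : Γ) (g * y : Γ) := by
    intro j s g y hy hv
    rw [WS, Matrix.mul_apply]
    refine sum_pRel (hBP s) (hUB s) (hn s) (hP s) (huniq s) ?_ _ (fun b hb a => ?_) hy hv
    · exact (ZMod.natCast_eq_zero_iff _ _).2 (hp s)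
    · conv_rhs => rw [← Weq j _ b, o1 b hb]
  have base : ∀ j s, Wd j s (1 : Γ) (1 : Γ) = 1 := by
    intro j
    induction j with
    | zero => intro s; simp [W0]
    | succ j ih =>
      intro s
      rw [step j s 1 1 (one_mem _) (fun x hx => by simpa using hUB s hx), mul_one, ih]
  have main : ∀ m (g : Γ), ℓ g = m → ∀ j s, 2 * m ≤ j → Wd j s (1 : Γ) g = 1 := by
    intro m
    induction m using Nat.strong_induction_on with | _ m ih => ?_
    intro g hg
    by_cases hB : g ∈ B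
    · intro j s _
      rw [show (g : Γ ⧸ B) = (1 : Γ) from QuotientGroup.eq.2 (by simpa using hB), base]
    · obtain ⟨s₀, y₀, hy₀, hv₀, hl₀⟩ := red' g hB
      have h1 : ∀ j, 2 * m ≤ j + 1 → Wd j s₀ (1 : Γ) g = 1 := by
        intro j hj
        obtain ⟨j, rfl⟩ : ∃ i, j = i + 1 := ⟨j - 1, by omega⟩
        rw [step j s₀ g y₀ hy₀ hv₀]
        exact ih _ (hg ▸ hl₀) _ rfl _ _ (by omega)
      intro j s hj
      by_cases hs : s = s₀
      · rw [hs]; exact h1 j (by omega)
      · obtain ⟨j, rfl⟩ : ∃ i, j = i + 1 := ⟨j - 1, by omega⟩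
        obtain ⟨y, hy, hv, h | h⟩ := red s g
        · rw [step j s g y hy hv, show ((g * y : Γ) : Γ ⧸ B) = g from QuotientGroup.eq.2 (by simpa using h),
            show (!s) = s₀ from (Bool.eq_not_iff.2 (Ne.symm hs)).symm]
          exact h1 j hj
        · rw [step j s g y hy hv]
          exact ih _ (hg ▸ h) _ rfl _ _ (by omega)
  let M := E false * E true
  have WM : ∀ j, Wd (2 * j) true = M ^ j := by
    intro j
    induction j with
    | zero => simp [W0]
    | succ j ih =>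
      rw [show 2 * (j + 1) = 2 * j + 1 + 1 by ring, WS, WS, Bool.not_true, Bool.not_false, ih, pow_succ,
        mul_assoc]
  obtain ⟨N, hN⟩ : ∃ N, ∀ g, ℓ g ≤ N := (Set.finite_range ℓ).bddAbove.imp fun N h g => h ⟨g, rfl⟩
  let A : Matrix (Γ ⧸ B) (Γ ⧸ B) (ZMod p) := Matrix.of fun a b => M a (g • b)
  have Apow : ∀ j a b, (A ^ j) a b = (M ^ j) a (g ^ j • b) := by
    intro j
    induction j with
    | zero => intro a b; simp [Matrix.one_apply]
    | succ j ih =>
      intro a b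
      rw [pow_succ, pow_succ, Matrix.mul_apply, Matrix.mul_apply]
      conv_rhs => rw [← Equiv.sum_comp (MulAction.toPerm (g ^ j))]
      refine Finset.sum_congr rfl fun c _ => ?_
      rw [ih, MulAction.toPerm_apply, pow_succ, mul_smul]
      congr 1
      exact (meq _ _ (Eeq false) (Eeq true) _ _ _).symm
  have hA := trace_eq_one_of_pow A (N := N) (fun j hj => by
    ext a b
    induction a using QuotientGroup.induction_on with | H a => ?_
    rw [Apow, ← WM, ← Weq _ _ a⁻¹, MulAction.Quotient.smul_mk, smul_eq_mul, inv_mul_cancel]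
    generalize a⁻¹ • g ^ j • b = c
    induction c using QuotientGroup.induction_on with | H c => ?_
    exact main _ c rfl _ _ (by have := hN c; omega))
  obtain ⟨a, -, ha⟩ := Finset.exists_ne_zero_of_sum_ne_zero (hA ▸ one_ne_zero : A.trace ≠ 0)
  obtain ⟨c, -, hc⟩ := Finset.exists_ne_zero_of_sum_ne_zero (ha : ∑ c, E false a c * E true c (g • a) ≠ 0)
  induction a using QuotientGroup.induction_on with | H a => ?_
  induction c using QuotientGroup.induction_on with | H c => ?_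
  have h1 : PRel B (P false) a c := by
    by_contra h
    simp [E, h] at hc
  have h2 : PRel B (P true) c (g • (a : Γ ⧸ B)) := by
    by_contra h
    simp only [E, Matrix.of_apply, if_neg h, mul_zero, ne_eq, not_true_eq_false] at hc
  rw [MulAction.Quotient.smul_mk, pRel_mk (hBP _)] at h2
  rw [pRel_mk (hBP _)] at h1
  exact ⟨a, _, h1, _, h2, by simp [mul_assoc]⟩

end rank2

end Cfsg.Agent.H1
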