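import Cfsg.Agent.H2.SL2Conj

/-!
# Products of two conjugates of a regular semisimple element of `GL₂`
-/

set_option autoImplicit false

namespace Cfsg.Agent.H1

open Matrix Cfsg.Agent.H2
open scoped MatrixGroups

variable {F : Type*} [Field F] [Finite F]

theorem macbeath_GL {τ δ : F} (h : τ ^ 2 ≠ 4 * δ) (γ : F) :
    ∃ A B : Matrix (Fin 2) (Fin 2) F, (A.trace = τ ∧ A.det = δ) ∧ (B.trace = τ ∧ B.det = δ) ∧
      (A * B).trace = γ := by
  have h' : 4 * δ - τ ^ 2 ≠ 0 := sub_ne_zero.mpr h.symm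
  obtain ⟨x, hx⟩ : ∃ x, (4 * δ - τ ^ 2) * x = 2 * δ * τ - τ * γ := ⟨_, mul_div_cancel₀ _ h'⟩
  obtain ⟨z, hz⟩ : ∃ z, (4 * δ - τ ^ 2) * z = τ ^ 2 - 2 * γ := ⟨_, mul_div_cancel₀ _ h'⟩
  have h1 : 2 * x - τ * z = τ := mul_left_cancel₀ h' (by linear_combination 2 * hx - τ * hz)
  have h2 : 2 * δ * z - τ * x = -γ := mul_left_cancel₀ h' (by linear_combination 2 * δ * hz - τ * hx)
  obtain ⟨a, b, hab⟩ := exists_form_eq (t := -τ) (d := δ) (Or.inr (by simpa using h))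
    (-(x ^ 2 - τ * x * z + δ * z ^ 2 - τ * x + γ * z + δ))
  refine ⟨!![τ, -δ; 1, 0], !![a + x, γ + δ * (b + z) - τ * (a + x); b + z, τ - (a + x)],
    ⟨?_, ?_⟩, ⟨?_, ?_⟩, ?_⟩
  · simp [trace_fin_two]
  · simp [det_fin_two]
  · simp [trace_fin_two]
  · rw [det_fin_two_of]; linear_combination -hab - a * h1 - b * h2
  · simp [trace_fin_two]; ring

omit [Finite F] in
theorem not_isScal_of_disc {A : Matrix (Fin 2) (Fin 2) F} (h : A.trace ^ 2 ≠ 4 * A.det) : ¬ IsScal A := by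
  intro hs
  obtain ⟨a, rfl⟩ := isScal_iff.1 hs
  apply h
  simp [trace_fin_two, det_fin_two]
  ring

omit [Finite F] in
theorem prod_transport {τ δ : F} {A B M : Matrix (Fin 2) (Fin 2) F} (hA : A.trace = τ ∧ A.det = δ)
    (hB : B.trace = τ ∧ B.det = δ) (h1 : ¬ IsScal (A * B)) (h2 : ¬ IsScal M)
    (h3 : (A * B).trace = M.trace) (h4 : M.det = δ ^ 2) :
    ∃ A B : Matrix (Fin 2) (Fin 2) F, (A.trace = τ ∧ A.det = δ) ∧ (B.trace = τ ∧ B.det = δ) ∧
      M = A * B := by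
  obtain ⟨c, hc, h5⟩ := exists_intertwine h1 h2 h3 (by rw [det_mul, hA.2, hB.2, h4, sq])
  have hu : IsUnit c.det := hc.isUnit
  have key : ∀ A : Matrix (Fin 2) (Fin 2) F, A.trace = τ ∧ A.det = δ →
      (c * A * c⁻¹).trace = τ ∧ (c * A * c⁻¹).det = δ := fun A hA =>
    ⟨by rw [trace_mul_cycle, nonsing_inv_mul _ hu, one_mul, hA.1], by simp [hA.2]; field_simp⟩
  refine ⟨_, _, key A hA, key B hB, ?_⟩
  simp only [Matrix.mul_assoc, nonsing_inv_mul_cancel_left _ _ hu]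
  rw [← Matrix.mul_assoc A, ← Matrix.mul_assoc c, h5, mul_nonsing_inv_cancel_right _ _ hu]

theorem exists_unip_mul_eq' {τ δ : F} (h : τ ^ 2 ≠ 4 * δ) (h0 : δ ≠ 0) {M : Matrix (Fin 2) (Fin 2) F}
    (hM : M.det = δ ^ 2) : ∃ s : F, ∃ A B : Matrix (Fin 2) (Fin 2) F,
      (A.trace = τ ∧ A.det = δ) ∧ (B.trace = τ ∧ B.det = δ) ∧ !![1, s; 0, 1] * M = A * B := by
  have hd : ∀ s : F, (!![1, s; 0, 1] * M).det = δ ^ 2 := fun s => by rw [det_mul, hM]; simp
  have good : ∀ s : F, (!![1, s; 0, 1] * M).trace ^ 2 ≠ 4 * δ ^ 2 → ∃ A B : Matrix (Fin 2) (Fin 2) F,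
      (A.trace = τ ∧ A.det = δ) ∧ (B.trace = τ ∧ B.det = δ) ∧ !![1, s; 0, 1] * M = A * B := by
    intro s hs
    obtain ⟨A, B, hA, hB, h3⟩ := macbeath_GL h (!![1, s; 0, 1] * M).trace
    exact prod_transport hA hB (not_isScal_of_disc (by rw [h3, det_mul, hA.2, hB.2, ← sq δ]; exact hs))
      (not_isScal_of_disc (by rw [hd]; exact hs)) h3 (hd s)
  have ht : ∀ s : F, (!![1, s; 0, 1] * M).trace = M 0 0 + s * M 1 0 + M 1 1 := fun s => by
    simp [trace_fin_two, m2_mul_apply, vecMul, dotProduct]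
  by_cases h10 : M 1 0 = 0
  · rw [det_fin_two, h10, mul_zero, sub_zero] at hM
    by_cases h1 : M 0 0 = M 1 1
    · have h11 : M 1 1 ≠ 0 := fun e => h0 (by rw [e, mul_zero] at hM; exact pow_eq_zero_iff two_ne_zero |>.1 hM.symm)
      rw [h1, ← sq, sq_eq_sq_iff_eq_or_eq_neg] at hM
      have e : ∀ c : F, !![1, (c - M 0 1) / M 1 1; 0, 1] * M = !![M 1 1, c; 0, M 1 1] := fun c => by
        apply m2_ext <;> simp [m2_mul_apply, h10, h1]
        field_simp; ring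
      by_cases h2 : M 1 1 = δ
      · refine ⟨_, !![τ, -δ; 1, 0], !![0, δ; -1, τ], ⟨?_, ?_⟩, ⟨?_, ?_⟩, (e 0).trans ?_⟩ <;>
          simp [trace_fin_two, det_fin_two, h2]
        ring_nf
      have h3 := hM.resolve_left h2
      by_cases h4 : τ = 0
      · refine ⟨_, !![0, -δ; 1, 0], !![0, -δ; 1, 0], ⟨?_, ?_⟩, ⟨?_, ?_⟩, (e 0).trans ?_⟩ <;>
          simp [trace_fin_two, det_fin_two, h3, h4]
      have h5 : (2 : F) ≠ 0 := fun e => h2 (by rw [h3]; linear_combination -δ * e)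
      obtain ⟨A, B, hA, hB, h6⟩ := macbeath_GL h (-2 * δ)
      refine ⟨(1 - M 0 1) / M 1 1, prod_transport hA hB (fun hs => h4 ?_) ?_ ?_ (hd _)⟩
      · obtain ⟨μ, hμ⟩ := isScal_iff.1 hs
        have h7 : μ = -δ := by
          rw [hμ] at h6
          simp [trace_fin_two] at h6
          exact mul_left_cancel₀ h5 (by linear_combination h6)
        subst h7
        have e1 := m2_ext_iff.1 hμ
        simp only [m2_mul_apply] at e1
        simp at e1
        obtain ⟨a1, a2, a3, a4⟩ := e1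
        have b1 := hA.1
        have b2 := hA.2
        have b3 := hB.1
        rw [trace_fin_two] at b1 b3
        rw [det_fin_two] at b2
        apply mul_left_cancel₀ (mul_ne_zero h5 h0)
        linear_combination (-δ) * b3 - δ * b1 + A 1 1 * a1 - A 0 1 * a3 + A 0 0 * a4 - A 1 0 * a2
          - (B 0 0 + B 1 1) * b2
      · rw [e]; intro hs; obtain ⟨a, ha⟩ := isScal_iff.1 hs
        have := congrFun (congrFun ha 0) 1
        simp at this
      · rw [h6, e]; simp [trace_fin_two, h3]; ring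
    · refine ⟨0, good 0 ?_⟩
      rw [ht, ← hM]
      intro e
      exact h1 (sub_eq_zero.1 (pow_eq_zero_iff two_ne_zero |>.1 (by linear_combination e)))
  · by_cases h5 : (2 : F) = 0
    · refine ⟨(1 - M 0 0 - M 1 1) / M 1 0, good _ ?_⟩
      rw [ht, div_mul_cancel₀ _ h10]
      intro e
      exact one_ne_zero (by linear_combination e + 2 * δ ^ 2 * h5 : (1 : F) = 0)
    · refine ⟨(0 - M 0 0 - M 1 1) / M 1 0, good _ ?_⟩
      rw [ht, div_mul_cancel₀ _ h10]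
      intro e
      exact mul_ne_zero (mul_ne_zero h5 h5) (pow_ne_zero 2 h0) (by linear_combination -e)

theorem exists_unip_mul_eq {X M : Matrix (Fin 2) (Fin 2) F} (h : X.trace ^ 2 ≠ 4 * X.det)
    (h0 : X.det ≠ 0) (hM : M.det = X.det ^ 2) : ∃ s : F, ∃ a b : SL(2, F),
      !![1, s; 0, 1] * M = a.1 * X * (a⁻¹).1 * (b.1 * X * (b⁻¹).1) := by
  obtain ⟨s, A, B, hA, hB, e⟩ := exists_unip_mul_eq' h h0 hM
  have key : ∀ A : Matrix (Fin 2) (Fin 2) F, A.trace = X.trace ∧ A.det = X.det →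
      ∃ a : SL(2, F), A = a.1 * X * (a⁻¹).1 := fun A hA => by
    obtain ⟨g, hg, h1⟩ := exists_intertwine_SL (not_isScal_of_disc h)
      (not_isScal_of_disc (by rw [hA.1, hA.2]; exact h)) hA.1.symm hA.2.symm (Or.inr h)
    refine ⟨toSL g hg, ?_⟩
    change A = g * X * _
    rw [h1, Matrix.mul_assoc]
    change A = A * ((toSL g hg).1 * _)
    rw [← Matrix.SpecialLinearGroup.coe_mul, mul_inv_cancel]
    simp
  obtain ⟨a, ha⟩ := key A hA
  obtain ⟨b, hb⟩ := key B hB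
  exact ⟨s, a, b, by rw [e, ← ha, ← hb]⟩

end Cfsg.Agent.H1
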