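import Cfsg.Agent.H1.GA1
import Cfsg.Agent.H1.GA2
import Cfsg.Agent.H6.StMult

/-!
# Gauss decomposition in rank two groups with a Levi subgroup of type `GL₂`
-/

set_option autoImplicit false
set_option linter.unusedSectionVars false

namespace Cfsg.Agent.H1

open Matrix Cfsg.Agent.H2
open scoped MatrixGroups

section SL2

variable {F : Type*} [Field F]

/-- upper unitriangular matrix -/
abbrev upS (s : F) : SL(2, F) := H6.slX F 0 1 s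

/-- lower unitriangular matrix -/
abbrev loS (s : F) : SL(2, F) := H6.slX F 1 0 s

theorem upS_val (s : F) : (upS s).1 = !![1, s; 0, 1] := by
  rw [H6.slX_val (by decide)]
  apply m2_ext <;> simp [transvection]

theorem loS_val (s : F) : (loS s).1 = !![1, 0; s, 1] := by
  rw [H6.slX_val (by decide)]
  apply m2_ext <;> simp [transvection]

theorem upS_add (s t : F) : upS (s + t) = upS s * upS t :=
  (H6.isSt_slX (K := F) (ι := Fin 2)).add (by decide) s t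

theorem upS_zero : upS (0 : F) = 1 := H6.add_fam_zero upS_add

theorem upS_neg (s : F) : upS (-s) = (upS s)⁻¹ := by
  rw [eq_inv_iff_mul_eq_one, ← upS_add, neg_add_cancel, upS_zero]

/-- the Weyl element -/
def wS (F : Type*) [Field F] : SL(2, F) := H6.stW upS loS 1

/-- diagonal matrix -/
def dS (t : F) : SL(2, F) := H6.stH upS loS t

theorem wS_val : (wS F).1 = !![0, 1; -1, 0] := by
  simp only [wS, H6.stW, Matrix.SpecialLinearGroup.coe_mul, upS_val, loS_val]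
  apply m2_ext <;> simp [m2_mul_apply]

theorem dS_val {t : F} (ht : t ≠ 0) : (dS t).1 = !![t, 0; 0, t⁻¹] := by
  simp only [dS, H6.stH, H6.stW, Matrix.SpecialLinearGroup.coe_mul, upS_val, loS_val]
  apply m2_ext <;> simp [m2_mul_apply, ht]

theorem wS_conj (s : F) : (wS F)⁻¹ * upS s * wS F = loS (-s) := by
  rw [mul_assoc, inv_mul_eq_iff_eq_mul]
  apply SL_ext
  simp only [Matrix.SpecialLinearGroup.coe_mul, upS_val, loS_val, wS_val]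
  apply m2_ext <;> simp [m2_mul_apply]

theorem SL2_bruhat (A : SL(2, F)) : (∃ t ≠ 0, ∃ s, A = dS t * upS s) ∨
    ∃ s, ∃ t ≠ 0, ∃ s', A = upS s * wS F * (dS t * upS s') := by
  have hd := A.det_coe
  rw [det_fin_two] at hd
  by_cases h : A.1 1 0 = 0
  · rw [h, mul_zero, sub_zero] at hd
    have h0 := left_ne_zero_of_mul_eq_one hd
    refine Or.inl ⟨A.1 0 0, h0, A.1 0 1 / A.1 0 0, SL_ext ?_⟩
    simp only [Matrix.SpecialLinearGroup.coe_mul, upS_val, dS_val h0]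
    apply m2_ext <;> simp [m2_mul_apply, h]
    · field_simp
    · exact eq_inv_of_mul_eq_one_right hd
  · refine Or.inr ⟨A.1 0 0 / A.1 1 0, -A.1 1 0, neg_ne_zero.2 h, A.1 1 1 / A.1 1 0, SL_ext ?_⟩
    simp only [Matrix.SpecialLinearGroup.coe_mul, upS_val, dS_val (neg_ne_zero.2 h), wS_val]
    apply m2_ext <;> simp [m2_mul_apply] <;> field_simp
    linear_combination -hd

/-- conjugation by a diagonal matrix -/
def cD (d : F) (hd : d ≠ 0) : SL(2, F) →* SL(2, F) where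
  toFun A := toSL !![A.1 0 0, d * A.1 0 1; d⁻¹ * A.1 1 0, A.1 1 1] (by
    have := A.det_coe
    rw [det_fin_two] at this
    rw [det_fin_two_of]
    field_simp
    linear_combination this)
  map_one' := by apply SL_ext; apply m2_ext <;> simp
  map_mul' A B := by
    apply SL_ext
    apply m2_ext <;> simp [m2_mul_apply] <;> field_simp

theorem cD_spec {d : F} (hd : d ≠ 0) (A : SL(2, F)) :
    (cD d hd A).1 * !![d, 0; 0, 1] = !![d, 0; 0, 1] * A.1 := by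
  apply m2_ext <;> simp [cD, m2_mul_apply, vecMul, dotProduct] <;> field_simp

theorem conj_eq_cD {Γ : Type*} [Group Γ] (ψ : SL(2, F) →* Γ) {h : Γ} {d : F} (hd : d ≠ 0)
    (h1 : ∀ s, h * ψ (upS s) * h⁻¹ = ψ (upS (d * s)))
    (h2 : ∀ s, h * ψ (loS s) * h⁻¹ = ψ (loS (d⁻¹ * s))) (A : SL(2, F)) :
    h * ψ A * h⁻¹ = ψ (cD d hd A) := by
  have : (MulAut.conj h).toMonoidHom.comp ψ = ψ.comp (cD d hd) := by
    apply H6.slX_hom_ext
    intro i j hij t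
    fin_cases i <;> fin_cases j
    · exact absurd rfl hij
    · refine (h1 t).trans (congrArg ψ (SL_ext ?_))
      change (upS _).1 = (cD d hd (upS t)).1
      apply m2_ext <;> simp [cD, upS_val]
    · refine (h2 t).trans (congrArg ψ (SL_ext ?_))
      change (loS _).1 = (cD d hd (loS t)).1
      apply m2_ext <;> simp [cD, loS_val]
    · exact absurd rfl hij
  exact DFunLike.congr_fun this A

end SL2

theorem exists_conj_of_fpf {Γ : Type*} [Group Γ] [Finite Γ] {N : Subgroup Γ} {t : Γ}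
    (h1 : ∀ r ∈ N, t * r * t⁻¹ ∈ N) (h2 : ∀ r ∈ N, t * r = r * t → r = 1) {v : Γ} (hv : v ∈ N) :
    ∃ c, v * t = c * t * c⁻¹ := by
  let f : N → N := fun c => ⟨c * (t * c⁻¹ * t⁻¹), N.mul_mem c.2 (h1 _ (N.inv_mem c.2))⟩
  have hf : Function.Injective f := by
    intro a b h
    have h3 : a.1 * (t * a.1⁻¹ * t⁻¹) = b.1 * (t * b.1⁻¹ * t⁻¹) := congrArg Subtype.val h
    have h4 := h2 (b.1⁻¹ * a.1) (N.mul_mem (N.inv_mem b.2) a.2) (by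
      calc t * (b.1⁻¹ * a.1) = b.1⁻¹ * (b.1 * (t * b.1⁻¹ * t⁻¹)) * t * a.1 := by group
        _ = _ := by rw [← h3]; group)
    exact Subtype.ext (inv_mul_eq_one.1 h4).symm
  obtain ⟨c, hc⟩ := Finite.surjective_of_injective hf ⟨v, hv⟩
  refine ⟨c, ?_⟩
  have : c.1 * (t * c.1⁻¹ * t⁻¹) = v := congrArg Subtype.val hc
  rw [← this]; group

/-- Rank two data with a Levi subgroup of type `GL₂`. -/
structure GaussD {Γ F : Type*} [Group Γ] [Field F] (ψ : SL(2, F) →* Γ)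
    (H R R' B Pa Ua Ra : Subgroup Γ) (na : Γ) (ℓ : Γ → ℕ) (p : ℕ) : Prop where
  Hcomm : ∀ h ∈ H, ∀ h' ∈ H, h * h' = h' * h
  Hact : ∀ h ∈ H, ∃ d : F, d ≠ 0 ∧ (∀ s, h * ψ (upS s) * h⁻¹ = ψ (upS (d * s))) ∧
    ∀ s, h * ψ (loS s) * h⁻¹ = ψ (loS (d⁻¹ * s))
  diag : ∀ t ≠ 0, ψ (dS t) ∈ H
  RH : ∀ h ∈ H, ∀ r ∈ R, h * r * h⁻¹ ∈ R
  Rψ : ∀ A, ∀ r ∈ R, ψ A * r * (ψ A)⁻¹ ∈ R
  R'H : ∀ h ∈ H, ∀ r ∈ R', h * r * h⁻¹ ∈ R'
  R'ψ : ∀ A, ∀ r ∈ R', ψ A * r * (ψ A)⁻¹ ∈ R'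
  memB : ∀ g, g ∈ B ↔ ∃ h ∈ H, ∃ s, ∃ r ∈ R, g = h * ψ (upS s) * r
  loB : ∀ s, ψ (loS s) ∈ B → s = 0
  UaR : Ua ≤ R
  BPa : B ≤ Pa
  naPa : na ∈ Pa
  memPa : ∀ g ∈ Pa, g ∈ B ∨ ∃ x ∈ Ua, ∃ b ∈ B, g = x * na * b
  uniq : ∀ x ∈ Ua, na⁻¹ * x * na ∈ B → x = 1
  pa : p ∣ Nat.card Ua
  pb : p ∣ Nat.card F
  rk1 : ∀ h ∈ H, ∃ A, h * ψ A ∈ H ∧ ∃ x ∈ Ua, ∃ x' ∈ Ua, ∃ v ∈ R', v ∈ Pa ∧ x * na = v * (h * ψ A) * x'
  RaPa : ∀ g ∈ Pa, ∀ r ∈ Ra, g * r * g⁻¹ ∈ Ra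
  RaU : ∀ r ∈ Ra, ∃ s, ∃ r' ∈ R, r = ψ (upS s) * r'
  nbUa : ∀ x ∈ Ua, (ψ (wS F))⁻¹ * x * ψ (wS F) ∈ Ra
  c1 : ∀ s, na * ψ (upS s) * na⁻¹ ∈ R
  c2 : ∀ x ∈ Ua, na * ψ (wS F) * x * (na * ψ (wS F))⁻¹ ∈ R
  c3 : ∀ s, na * ψ (wS F) * na * ψ (upS s) * (na * ψ (wS F) * na)⁻¹ ∈ R
  reda : ∀ g, ∃ y ∈ Pa, (∀ x ∈ Ua, g * y * x * (g * y)⁻¹ ∈ B) ∧ (y ∈ B ∨ ℓ (g * y) < ℓ g)
  redb : ∀ g, ∃ y, (∀ s, g * y * ψ (upS s) * (g * y)⁻¹ ∈ B) ∧
    (y ∈ B ∨ (y * ψ (wS F) ∈ B ∧ ℓ (g * y) < ℓ g))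
  red' : ∀ g, g ∉ B → (∃ y ∈ Pa, (∀ x ∈ Ua, g * y * x * (g * y)⁻¹ ∈ B) ∧ ℓ (g * y) < ℓ g) ∨
    ∃ y, (∀ s, g * y * ψ (upS s) * (g * y)⁻¹ ∈ B) ∧ y * ψ (wS F) ∈ B ∧ ℓ (g * y) < ℓ g
  core : ∀ g, (∀ τ, ∃ h ∈ H, ∃ A, ∃ r ∈ R, τ * g * τ⁻¹ = h * ψ A * r) → g = 1

namespace GaussD

variable {Γ F : Type*} [Group Γ] [Field F] {ψ : SL(2, F) →* Γ} {H R R' B Pa Ua Ra : Subgroup Γ}
  {na : Γ} {ℓ : Γ → ℕ} {p : ℕ} (D : GaussD ψ H R R' B Pa Ua Ra na ℓ p)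
include D

theorem Hconj {h : Γ} (hh : h ∈ H) (A : SL(2, F)) : ∃ A', h * ψ A * h⁻¹ = ψ A' := by
  obtain ⟨d, hd, h1, h2⟩ := D.Hact h hh
  exact ⟨_, conj_eq_cD ψ hd h1 h2 A⟩

/-- the Levi subgroup -/
def L : Subgroup Γ where
  carrier := {g | ∃ h ∈ H, ∃ A, g = h * ψ A}
  one_mem' := ⟨1, one_mem _, 1, by simp⟩
  mul_mem' := by
    rintro _ _ ⟨h, hh, A, rfl⟩ ⟨h', hh', A', rfl⟩
    obtain ⟨A'', e⟩ := D.Hconj (H.inv_mem hh') A
    exact ⟨h * h', H.mul_mem hh hh', A'' * A', by rw [map_mul, ← e]; group⟩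
  inv_mem' := by
    rintro _ ⟨h, hh, A, rfl⟩
    obtain ⟨A'', e⟩ := D.Hconj hh A⁻¹
    exact ⟨h⁻¹, H.inv_mem hh, A'', by rw [← e, map_inv]; group⟩

theorem HL {h : Γ} (hh : h ∈ H) : h ∈ D.L := ⟨h, hh, 1, by simp⟩

theorem ψL (A : SL(2, F)) : ψ A ∈ D.L := ⟨1, one_mem _, A, by simp⟩

theorem LR {l r : Γ} (hl : l ∈ D.L) (hr : r ∈ R) : l * r * l⁻¹ ∈ R := by
  obtain ⟨h, hh, A, rfl⟩ := hl
  have := D.RH h hh _ (D.Rψ A r hr)
  simpa [mul_assoc] using this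

theorem LR' {l r : Γ} (hl : l ∈ D.L) (hr : r ∈ R') : l * r * l⁻¹ ∈ R' := by
  obtain ⟨h, hh, A, rfl⟩ := hl
  have := D.R'H h hh _ (D.R'ψ A r hr)
  simpa [mul_assoc] using this

/-- the parabolic subgroup -/
def P : Subgroup Γ where
  carrier := {g | ∃ l ∈ D.L, ∃ r ∈ R, g = l * r}
  one_mem' := ⟨1, one_mem _, 1, one_mem _, by simp⟩
  mul_mem' := by
    rintro _ _ ⟨l, hl, r, hr, rfl⟩ ⟨l', hl', r', hr', rfl⟩
    exact ⟨l * l', mul_mem hl hl', _, mul_mem (D.LR (inv_mem hl') hr) hr', by group⟩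
  inv_mem' := by
    rintro _ ⟨l, hl, r, hr, rfl⟩
    exact ⟨l⁻¹, inv_mem hl, _, D.LR hl (inv_mem hr), by group⟩

theorem LP {l : Γ} (hl : l ∈ D.L) : l ∈ D.P := ⟨l, hl, 1, one_mem _, by simp⟩

theorem RP {r : Γ} (hr : r ∈ R) : r ∈ D.P := ⟨1, one_mem _, r, hr, by simp⟩

theorem PR {g r : Γ} (hg : g ∈ D.P) (hr : r ∈ R) : g * r * g⁻¹ ∈ R := by
  obtain ⟨l, hl, r', hr', rfl⟩ := hg
  have := D.LR hl (R.mul_mem (R.mul_mem hr' hr) (R.inv_mem hr'))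
  simpa [mul_assoc] using this

theorem BP : B ≤ D.P := fun g hg => by
  obtain ⟨h, hh, s, r, hr, rfl⟩ := (D.memB g).1 hg
  exact mul_mem (mul_mem (D.LP (D.HL hh)) (D.LP (D.ψL _))) (D.RP hr)

theorem HB {h : Γ} (hh : h ∈ H) : h ∈ B :=
  (D.memB h).2 ⟨h, hh, 0, 1, one_mem _, by simp [upS_zero]⟩

theorem RB {r : Γ} (hr : r ∈ R) : r ∈ B :=
  (D.memB r).2 ⟨1, one_mem _, 0, r, hr, by simp [upS_zero]⟩

theorem upB (s : F) : ψ (upS s) ∈ B :=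
  (D.memB _).2 ⟨1, one_mem _, s, 1, one_mem _, by simp⟩

theorem memP {g : Γ} (hg : g ∈ D.P) : g ∈ B ∨ ∃ s, ∃ b ∈ B, g = ψ (upS s) * ψ (wS F) * b := by
  obtain ⟨_, ⟨h, hh, A, rfl⟩, r, hr, rfl⟩ := hg
  obtain ⟨A', e⟩ := D.Hconj hh A
  have e' : h * ψ A * r = ψ A' * (h * r) := by rw [← e]; group
  have hb := B.mul_mem (D.HB hh) (D.RB hr)
  rw [e']
  rcases SL2_bruhat A' with ⟨t, ht, s, rfl⟩ | ⟨s, t, ht, s', rfl⟩
  · left
    rw [map_mul]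
    exact mul_mem (mul_mem (D.HB (D.diag t ht)) (D.upB s)) hb
  · right
    refine ⟨s, _, mul_mem (mul_mem (D.HB (D.diag t ht)) (D.upB s')) hb, ?_⟩
    simp only [map_mul, mul_assoc]

/-- the root subgroup of the Levi subgroup -/
def Ub (ψ : SL(2, F) →* Γ) : Subgroup Γ where
  carrier := Set.range fun s => ψ (upS s)
  one_mem' := ⟨0, by simp [upS_zero]⟩
  mul_mem' := by
    rintro _ _ ⟨s, rfl⟩ ⟨t, rfl⟩
    exact ⟨s + t, by simp [upS_add]⟩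
  inv_mem' := by
    rintro _ ⟨s, rfl⟩
    exact ⟨-s, by simp [upS_neg]⟩

theorem up_eq_one {s : F} (h : (ψ (wS F))⁻¹ * ψ (upS s) * ψ (wS F) ∈ B) : s = 0 := by
  rw [← map_inv, ← map_mul, ← map_mul, wS_conj] at h
  exact neg_eq_zero.1 (D.loB _ h)

theorem exists_conj [Finite Γ] [Fact p.Prime] (g : Γ) :
    ∃ τ, ∃ a ∈ Pa, ∃ b ∈ D.P, τ⁻¹ * g * τ = a * b := by
  have hy : ∀ {y}, y * ψ (wS F) ∈ B → y ∈ D.P := fun {y} h => by
    have := mul_mem (D.BP h) (inv_mem (D.LP (D.ψL (wS F))))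
    simpa using this
  refine exists_conj_mem_mul (B := B) p (fun s => cond s D.P Pa) (fun s => cond s (Ub ψ) Ua)
    (fun s => cond s (ψ (wS F)) na) ℓ ?_ ?_ ?_ ?_ ?_ ?_ ?_ ?_ g
  · rintro (_ | _)
    exacts [D.BPa, D.BP]
  · rintro (_ | _)
    · exact fun x hx => D.RB (D.UaR hx)
    · rintro _ ⟨s, rfl⟩; exact D.upB s
  · rintro (_ | _)
    exacts [D.naPa, D.LP (D.ψL _)]
  · rintro (_ | _)
    · exact D.memPa
    · intro g hg
      rcases D.memP hg with h | ⟨s, b, hb, rfl⟩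
      · exact Or.inl h
      · exact Or.inr ⟨_, ⟨s, rfl⟩, b, hb, rfl⟩
  · rintro (_ | _)
    · exact D.uniq
    · rintro _ ⟨s, rfl⟩ h
      simp [D.up_eq_one h, upS_zero]
  · rintro (_ | _)
    · exact D.pa
    · have : Nat.card (Ub ψ) = Nat.card F := by
        refine (Nat.card_eq_of_bijective (fun s => ⟨ψ (upS s), s, rfl⟩) ⟨fun s t h => ?_, ?_⟩).symm
        · have h1 : ψ (upS s) = ψ (upS t) := congrArg Subtype.val h
          refine sub_eq_zero.1 (D.up_eq_one ?_)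
          rw [sub_eq_add_neg, upS_add, upS_neg, map_mul, map_inv, h1]
          simp
        · rintro ⟨_, s, rfl⟩; exact ⟨s, rfl⟩
      exact this ▸ D.pb
  · rintro (_ | _) g
    · exact D.reda g
    · obtain ⟨y, h1, h2 | h2⟩ := D.redb g
      · exact ⟨y, D.BP h2, by rintro _ ⟨s, rfl⟩; exact h1 s, Or.inl h2⟩
      · exact ⟨y, hy h2.1, by rintro _ ⟨s, rfl⟩; exact h1 s, Or.inr h2.2⟩
  · intro g hg
    rcases D.red' g hg with h | ⟨y, h1, h2, h3⟩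
    · exact ⟨false, h⟩
    · exact ⟨true, y, hy h2, by rintro _ ⟨s, rfl⟩; exact h1 s, h3⟩

theorem eq_top {M : Subgroup Γ} (h1 : D.P ≤ M) (h2 : na ∈ M) (g : Γ) : g ∈ M := by
  have hPa : Pa ≤ M := fun y hy => by
    rcases D.memPa y hy with h | ⟨x, hx, b, hb, rfl⟩
    · exact h1 (D.BP h)
    · exact mul_mem (mul_mem (h1 (D.RP (D.UaR hx))) h2) (h1 (D.BP hb))
  induction h : ℓ g using Nat.strong_induction_on generalizing g with | _ m ih => ?_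
  by_cases hB : g ∈ B
  · exact h1 (D.BP hB)
  rcases D.red' g hB with ⟨y, hy, -, h3⟩ | ⟨y, -, hy, h3⟩
  · exact (M.mul_mem_cancel_right (hPa hy)).1 (ih _ (h ▸ h3) _ rfl)
  · refine (M.mul_mem_cancel_right (x := y) ?_).1 (ih _ (h ▸ h3) _ rfl)
    exact (M.mul_mem_cancel_right (h1 (D.LP (D.ψL (wS F))))).1 (h1 (D.BP hy))

theorem exists_cell [Finite Γ] [Fact p.Prime] {g : Γ} (hg : g ≠ 1) :
    ∃ τ, ∃ b ∈ D.P, τ * g * τ⁻¹ = na * b ∨ τ * g * τ⁻¹ = na * ψ (wS F) * na * b := by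
  have cA : ∀ a ∈ Pa, ∀ b ∈ D.P, ∀ τ, τ * g * τ⁻¹ = a * b → τ * g * τ⁻¹ ∉ D.P →
      ∃ τ, ∃ b ∈ D.P, τ * g * τ⁻¹ = na * b ∨ τ * g * τ⁻¹ = na * ψ (wS F) * na * b := by
    intro a ha b hb τ e hn
    rcases D.memPa a ha with h | ⟨x, hx, b', hb', rfl⟩
    · exact absurd (e ▸ mul_mem (D.BP h) hb) hn
    · refine ⟨x⁻¹ * τ, b' * b * x, mul_mem (mul_mem (D.BP hb') hb) (D.RP (D.UaR hx)), Or.inl ?_⟩
      rw [show x⁻¹ * τ * g * (x⁻¹ * τ)⁻¹ = x⁻¹ * (τ * g * τ⁻¹) * x by group, e]; group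
  by_contra hc
  have key : ∀ τ, τ * g * τ⁻¹ ∈ D.P → na * τ * g * (na * τ)⁻¹ ∈ D.P := by
    intro τ h
    by_contra hn
    apply hc
    rcases D.memP h with h1 | ⟨s, b, hb, e⟩
    · refine cA (na * (τ * g * τ⁻¹) * na⁻¹) (mul_mem (mul_mem D.naPa (D.BPa h1)) (inv_mem D.naPa)) 1
        (one_mem _) _ (by group) hn
    · rcases D.memPa (b * na⁻¹) (mul_mem (D.BPa hb) (inv_mem D.naPa)) with h2 | ⟨x, hx, b', hb', e'⟩
      · refine cA na D.naPa (ψ (upS s) * ψ (wS F) * (b * na⁻¹))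
          (mul_mem (mul_mem (D.LP (D.ψL _)) (D.LP (D.ψL _))) (D.BP h2)) _ ?_ hn
        rw [show na * τ * g * (na * τ)⁻¹ = na * (τ * g * τ⁻¹) * na⁻¹ by group, e]; group
      · have hr := R.mul_mem (D.c1 s) (D.c2 x hx)
        set r := na * ψ (upS s) * na⁻¹ * (na * ψ (wS F) * x * (na * ψ (wS F))⁻¹) with hr'
        refine ⟨r⁻¹ * (na * τ), b' * r, mul_mem (D.BP hb') (D.RP hr), Or.inr ?_⟩
        rw [show r⁻¹ * (na * τ) * g * (r⁻¹ * (na * τ))⁻¹ = r⁻¹ * (na * (τ * g * τ⁻¹) * na⁻¹) * r by group, e,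
          show na * (ψ (upS s) * ψ (wS F) * b) * na⁻¹ = na * ψ (upS s) * ψ (wS F) * (b * na⁻¹) by group, e', hr']
        group
  obtain ⟨τ₀, a, ha, b, hb, e⟩ := D.exists_conj g
  have h0 : τ₀⁻¹ * g * τ₀⁻¹⁻¹ ∈ D.P := by
    by_contra hn
    exact hc (cA a ha b hb _ (by rw [inv_inv, e]) hn)
  let M : Subgroup Γ :=
    { carrier := {y | ∀ τ, τ * g * τ⁻¹ ∈ D.P → y * τ * g * (y * τ)⁻¹ ∈ D.P}
      one_mem' := fun τ h => by simpa using h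
      mul_mem' := fun {a b} ha hb τ h => by
        have := ha _ (hb τ h)
        simpa [mul_assoc] using this
      inv_mem' := fun {a} ha τ h => by
        have h1 : ∀ n : ℕ, a ^ n * τ * g * (a ^ n * τ)⁻¹ ∈ D.P := by
          intro n
          induction n with
          | zero => simpa using h
          | succ n ih =>
            have := ha _ ih
            simpa [pow_succ', mul_assoc] using this
        have h2 := h1 (orderOf a - 1)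
        rwa [show a ^ (orderOf a - 1) = a⁻¹ from eq_inv_of_mul_eq_one_left (by
          rw [← pow_succ, Nat.sub_add_cancel (orderOf_pos a), pow_orderOf_eq_one])] at h2 }
  have hM := D.eq_top (M := M) (fun y hy τ h => by
    have := mul_mem (mul_mem hy h) (inv_mem hy)
    simpa [mul_assoc] using this) key
  refine hg (D.core g fun τ => ?_)
  obtain ⟨_, ⟨h, hh, A, rfl⟩, r, hr, e⟩ := hM (τ * τ₀) _ h0
  exact ⟨h, hh, A, r, hr, by rw [← e]; group⟩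

end GaussD

end Cfsg.Agent.H1
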