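import Cfsg.Agent.H1.GA4
import Cfsg.Agent.H7.TwAut4

/-!
# Gauss decomposition in twisted rank two groups
-/

set_option autoImplicit false
set_option linter.unusedSectionVars false

namespace Cfsg.Agent.H1

open Matrix Cfsg.Lie Cfsg.Agent.H7 Cfsg.Agent.H8
open scoped MatrixGroups

theorem SL2_mem {Γ L : Type*} [Group Γ] [Field L] (ψ : SL(2, L) →* Γ) {M : Subgroup Γ}
    (h1 : ∀ s, ψ (upS s) ∈ M) (h2 : ∀ s, ψ (loS s) ∈ M) (A : SL(2, L)) : ψ A ∈ M := by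
  have h3 : ∀ t, ψ (H6.stW upS loS t) ∈ M := fun t => by
    simp only [H6.stW, map_mul]; exact mul_mem (mul_mem (h1 _) (h2 _)) (h1 _)
  have h4 : ∀ t, ψ (dS t) ∈ M := fun t => by
    simp only [dS, H6.stH, map_mul]; exact mul_mem (h3 _) (h3 _)
  rcases SL2_bruhat A with ⟨t, -, s, rfl⟩ | ⟨s, t, -, s', rfl⟩ <;> simp only [map_mul]
  · exact mul_mem (h4 _) (h1 _)
  · exact mul_mem (mul_mem (h1 _) (h3 _)) (mul_mem (h4 _) (h1 _))

variable {D : ChevalleyDatum} {K : Type*} [Field K] {G : Type*} [Group G] {x : ℕ → K → G}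
  [hD : RootFacts D] [hN : NFacts D]

section tw

variable {σ : G →* G} {ρ : Equiv.Perm ℕ} {π : Fin D.rank → Fin D.rank} {f : ℕ → K → K} {S : Subgroup G}
  {O : Fin D.rank → Set ℕ} {e : Fin D.rank → ℕ} {z : Fin D.rank → S} (h : TwD D x σ ρ π f S O e z)
include h

/-- the length of the Bruhat cell -/
noncomputable def twLen (g : S) : ℕ := len D (h.exists_cell g).choose

theorem twLen_eq {g : S} {w : Equiv.Perm ℕ} (hg : (g : G) ∈ Cell D x w) : twLen h g = len D w := by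
  rw [twLen, h.faith.cell_unique (h.exists_cell g).choose_spec.2.2 hg]

theorem tw_red {g : S} {w : Equiv.Perm ℕ} (hg : (g : G) ∈ Cell D x w) (i : Fin D.rank) {m : S}
    (hm : NRep D x m (wJ D (O i))) : ∃ y : S, (∀ u ∈ XJ D x (O i), g * y * u * (g * y : G)⁻¹ ∈ BB D x) ∧
      ((y : G) ∈ BB D x ∧ D.IsPosRoot (w (D.simple i)) ∨
        (y * (m : G)⁻¹ ∈ BB D x ∧ twLen h (g * y) < twLen h g)) := by
  have hx := h.st
  have hW := Cell.mem_W hg
  have hw := h.tw.commute_of_cell h.faith hg (h.sub.fix _ g.2)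
  obtain ⟨u, n, u', hu, hn, hu', e⟩ := h.bruhat _ hg
  have key : ∀ {n' : G} {w'}, NRep D x n' w' → (∀ j : Fin D.rank, j.1 ∈ O i → D.IsPosRoot (w' (D.simple j))) →
      ∀ v ∈ XJ D x (O i), u * n' * v * (u * n' : G)⁻¹ ∈ BB D x := fun {n' w'} hn' hp v hv => by
    have := hn'.conj_XS hx (T := {r | D.IsPosRoot r}) (fun r hr => W_pos_of_J hn'.mem_W hp hr.1 hr.2) hv
    simpa [mul_assoc] using UU_le_BB x (mul_mem (mul_mem hu this) (inv_mem hu))
  have hb := inv_mem (UU_le_BB x (Um_le_UU x w hu'))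
  rcases pos_or_neg (W_lt hW (simple_lt i)) with hi | hi
  · refine ⟨u'⁻¹, ?_, Or.inl ⟨hb, hi⟩⟩
    simpa [e] using key hn fun j hj => h.pos_orb hw hi hj
  · have h4 := mul_mem hW (wJ_mem_W (D := D) (O i))
    have h5 : ∀ j : Fin D.rank, j.1 ∈ O i → D.IsPosRoot ((w * wJ D (O i)) (D.simple j)) := fun j hj => by
      have h6 := wJ_simple (D := D) hj
      exact W_neg_pos hW h6 (W_neg_of_J hW (fun k hk => h.neg_orb hW hw hi hk) ((neg_pos_iff h6.1).2 h6)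
        (H8.inRootSub_neg ((inRootSub_WJ (wJ_mem _)).2 (simple_inRootSub.2 hj))))
    have h6 := len_mul_WJ h4 h5 (wJ_mem (O i))
    have h8 := len_wJ_pos (h.sub.self i)
    rw [mul_assoc, wJ_mul_self, mul_one] at h6
    have e' : (g * (u'⁻¹ * m : S) : G) = u * (n * m) := by simp [e, mul_assoc]
    refine ⟨u'⁻¹ * m, ?_, Or.inr ⟨by simpa using hb, ?_⟩⟩
    · rw [e']; exact key (hn.mul hx hm) h5
    · rw [twLen_eq h hg, twLen_eq h (w := w * wJ D (O i)) (by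
        rw [Subgroup.coe_mul, e']; exact Cell.mul_left (hn.mul hx hm).mem_cell (UU_le_BB x hu))]
      omega

theorem tw_split (i : Fin D.rank) {g : S} (hg : (g : G) ∈ UU D x) :
    ∃ a b : S, (a : G) ∈ XJ D x (O i) ∧ (b : G) ∈ UJ D x (O i) ∧ g = a * b := by
  obtain ⟨a, ha, b, hb, e⟩ := h.st.UU_eq_Um_Up (wJ_mem_W (O i)) hg
  obtain ⟨h1, h2⟩ := h.tw.fix_Um_Up h.faith (wJ_mem_W _) (h.sub.commute_wJ h.tw h.faith i) ha hb
    (e ▸ h.sub.fix _ g.2)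
  exact ⟨⟨a, h.sub.mem_of_UU h.tw h.faith (Um_le_UU x _ ha) h1⟩, ⟨b, h.sub.mem_of_UU h.tw h.faith (Up_le_UU x _ hb) h2⟩,
    Um_wJ (D := D) (x := x) (O i) ▸ ha,
    XS_mono x (fun r hr => And.intro hr.1 fun h' => not_neg_of_pos hr.2 (wJ_neg hr.1 h')) hb, Subtype.ext e⟩

theorem tw_eq_one {g : S} (hg : ∀ τ : S, ∀ i, Commute (τ * g * τ⁻¹) (z i)) : g = 1 := by
  have key : ∀ τ : S, τ * g * (τ : G)⁻¹ ∈ BB D x := fun τ => h.mem_BB_of_conj fun i => by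
    have := congrArg Subtype.val (hg τ i).mul_inv_cancel
    simp only [Subgroup.coe_mul, Subgroup.coe_inv] at this
    rw [this]; exact UU_le_BB x (h.zco i).mem_UU
  have h1 : (g : G) ∈ HH D x := by
    refine h.faith.mem_HH_of_BB (by simpa using key 1) ?_
    obtain ⟨n, hn⟩ := h.exists_n0
    obtain ⟨u, hu, a, ha, e⟩ := h.st.mem_BB.1 (key n⁻¹)
    rw [show (g : G) = n * u * (n : G)⁻¹ * (n * a * (n : G)⁻¹) by
      rw [show (g : G) = n * (u * a) * (n : G)⁻¹ by rw [← e]; simp [mul_assoc]]; group]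
    exact Subgroup.mul_mem_sup (IsFaith.conj_UU_mem_VV h.st hn hu) (h.st.NN_conj_HH hn.mem_NN ha)
  obtain ⟨a, ha⟩ := h.st.acts_of_mem_HH h1
  refine Subtype.ext (h.chev.HH_ext_simple h1 (one_mem _) fun i => ?_)
  have h2 := (h.zco i).acts ha
  have h3 := congrArg Subtype.val (hg 1 i).mul_inv_cancel
  simp only [Subgroup.coe_mul, Subgroup.coe_inv, one_mul, inv_one, mul_one] at h3
  rw [h3] at h2
  rw [ha, h2.unique h.faith (h.zco i)]
  simp

theorem gaussD [Finite K] (p : ℕ) [Fact p.Prime] [CharP K p] {a b : Fin D.rank} (hO : ∀ i, O i = O a ∨ O i = O b)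
    (hs : (star D b).1 ∈ O b) {L : Type*} [Field L] (hL : p ∣ Nat.card L) (ψ : SL(2, L) →* S)
    (hup : ∀ s, (ψ (upS s) : G) ∈ XJ D x (O b)) (hsurj : ∀ g : S, (g : G) ∈ XJ D x (O b) → ∃ s, g = ψ (upS s))
    (hlo : ∀ s, (ψ (loS s) : G) ∈ YJ D x (O b)) (hlo1 : ∀ s, ψ (loS s) = 1 → s = 0)
    (hw : NRep D x (ψ (wS L)) (wJ D (O b))) (hd : ∀ t ≠ 0, (ψ (dS t) : G) ∈ HH D x)
    (hact : ∀ g : S, (g : G) ∈ HH D x → ∃ d : L, d ≠ 0 ∧ (∀ s, g * ψ (upS s) * g⁻¹ = ψ (upS (d * s))) ∧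
      ∀ s, g * ψ (loS s) * g⁻¹ = ψ (loS (d⁻¹ * s)))
    {na : S} (hna : NRep D x na (wJ D (O a)))
    (rk : ∀ g : S, (g : G) ∈ HH D x → ∃ A, (g * ψ A : G) ∈ HH D x ∧ ∃ u u' v : S, (u : G) ∈ XJ D x (O a) ∧
      (u' : G) ∈ XJ D x (O a) ∧ (v : G) ∈ YJ D x (O a) ∧ u * na = v * (g * ψ A) * u')
    (ra : ∀ r < D.nroots, D.IsPosRoot r → D.InRootSub (O a) r → ¬ D.InRootSub (O b) r ∧
      (D.IsPosRoot (wJ D (O b) r) ∧ ¬ D.InRootSub (O a) (wJ D (O b) r)) ∧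
      D.IsPosRoot (wJ D (O a) (wJ D (O b) r)) ∧ ¬ D.InRootSub (O b) (wJ D (O a) (wJ D (O b) r)))
    (rb : ∀ r < D.nroots, D.IsPosRoot r → D.InRootSub (O b) r →
      (D.IsPosRoot (wJ D (O a) r) ∧ ¬ D.InRootSub (O b) (wJ D (O a) r)) ∧
      D.IsPosRoot (wJ D (O a) (wJ D (O b) (wJ D (O a) r))) ∧
        ¬ D.InRootSub (O b) (wJ D (O a) (wJ D (O b) (wJ D (O a) r)))) :
    GaussD ψ ((HH D x).subgroupOf S) ((UJ D x (O b)).subgroupOf S) ((VJ D x (O b)).subgroupOf S)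
      ((BB D x).subgroupOf S) ((PJ D x (O a)).subgroupOf S) ((XJ D x (O a)).subgroupOf S)
      ((UJ D x (O a)).subgroupOf S) na (twLen h) p := by
  have hx := h.st
  have hfin := h.chev.finite_G h.top
  have hLJ : ∀ A, (ψ A : G) ∈ LJ D x (O b) := SL2_mem (S.subtype.comp ψ)
    (fun s => XS_le.2 (fun r hr t => x_mem_LJ hr.2 t) (hup s)) fun s => XS_le.2 (fun r hr t => x_mem_LJ hr.2 t) (hlo s)
  have hXU : XJ D x (O a) ≤ UJ D x (O b) := XS_mono x fun r hr => ⟨hr.1, (ra r hr.1.1 hr.1 hr.2).1⟩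
  have hYV : YJ D x (O a) ≤ VJ D x (O b) := XS_mono x fun r hr => ⟨hr.1, fun h' =>
    (ra _ (neg_lt hr.1.1) ((neg_pos_iff hr.1.1).2 hr.1) (H8.inRootSub_neg hr.2)).1 (H8.inRootSub_neg h')⟩
  have hnP : (na : G) ∈ PJ D x (O a) := (mem_PJ hx).2 ⟨_, wJ_mem _, hna.mem_cell⟩
  have c1 : ∀ u ∈ XJ D x (O b), na * u * (na : G)⁻¹ ∈ UJ D x (O b) := fun u hu =>
    hna.conj_XS hx (fun r hr => (rb r hr.1.1 hr.1 hr.2).1) hu
  have hwi := NRep_wJ_inv hx hw
  have redb : ∀ {g : S} {w}, (g : G) ∈ Cell D x w → ∃ y : S,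
      (∀ s, g * y * ψ (upS s) * (g * y)⁻¹ ∈ (BB D x).subgroupOf S) ∧
      ((y : G) ∈ BB D x ∧ D.IsPosRoot (w (D.simple b)) ∨
        (y * ψ (wS L) ∈ (BB D x).subgroupOf S ∧ twLen h (g * y) < twLen h g)) := fun {g w} hg => by
    obtain ⟨y, h1, h2⟩ := tw_red h hg b (m := (ψ (wS L))⁻¹) hwi
    exact ⟨y, fun s => h1 _ (hup s), h2.imp id fun h3 => ⟨by simpa [Subgroup.mem_subgroupOf] using h3.1, h3.2⟩⟩
  have reda : ∀ {g : S} {w}, (g : G) ∈ Cell D x w → ∃ y ∈ (PJ D x (O a)).subgroupOf S,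
      (∀ u ∈ (XJ D x (O a)).subgroupOf S, g * y * u * (g * y)⁻¹ ∈ (BB D x).subgroupOf S) ∧
      ((y : G) ∈ BB D x ∧ D.IsPosRoot (w (D.simple a)) ∨ twLen h (g * y) < twLen h g) := fun {g w} hg => by
    obtain ⟨y, h1, h2⟩ := tw_red h hg a hna
    refine ⟨y, ?_, fun u hu => h1 _ hu, h2.imp id fun h3 => h3.2⟩
    rcases h2 with h2 | h2
    · exact BB_le_PJ h2.1
    · simpa [Subgroup.mem_subgroupOf] using mul_mem (BB_le_PJ h2.1) hnP
  refine
    { Hcomm := fun g hg g' hg' => Subtype.ext (h.chev.HH_commute hg hg').eq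
      Hact := hact
      diag := hd
      RH := fun g hg r hr => hx.HH_conj_XS hg hr
      Rψ := fun A r hr => PJ_conj_UJ hx (LJ_le_PJ hx (hLJ A)) hr
      R'H := fun g hg r hr => hx.HH_conj_XS hg hr
      R'ψ := fun A r hr => LJ_conj_VJ hx (hLJ A) hr
      memB := fun g => ⟨fun hg => ?_, ?_⟩
      loB := fun s hs => hlo1 s (Subtype.ext (h.faith.eq_one_of_VV_BB (YJ_le _ (hlo s)) hs))
      UaR := fun g hg => hXU hg
      BPa := fun g hg => BB_le_PJ hg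
      naPa := hnP
      memPa := fun g hg => (h.cell_cases g.2 hg).imp id fun h1 => ?_
      uniq := fun g hg h1 => ?_
      pa := ?_
      pb := hL
      rk1 := fun g hg => ?_
      RaPa := fun g hg r hr => PJ_conj_UJ hx hg hr
      RaU := fun r hr => ?_
      nbUa := fun u hu => ?_
      c1 := fun s => c1 _ (hup s)
      c2 := fun u hu => (hna.mul hx hw).conj_XS hx (fun r hr => (ra r hr.1.1 hr.1 hr.2).2.2) hu
      c3 := fun s => ((hna.mul hx hw).mul hx hna).conj_XS hx (fun r hr => (rb r hr.1.1 hr.1 hr.2).2) (hup s)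
      reda := fun g => ?_
      redb := fun g => ?_
      red' := fun g hg => ?_
      core := fun g hg => ?_ }
  · obtain ⟨u, n, u', hu, hn, hu', rfl⟩ := h.bruhat g (Cell.of_mem_BB hg)
    have h1 := hn.mem_HH hx
    obtain ⟨c, r, hc, hr, e⟩ := tw_split h b (g := n⁻¹ * u * n * u')
      (mul_mem (by simpa [UU] using hx.HH_conj_XS (inv_mem h1) hu) (Um_le_UU x _ hu'))
    obtain ⟨s, rfl⟩ := hsurj c hc
    exact ⟨n, h1, s, r, hr, by rw [mul_assoc n, ← e]; group⟩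
  · rintro ⟨g, hg, s, r, hr, rfl⟩
    exact mul_mem (mul_mem (HH_le_BB x hg) (UU_le_BB x (XJ_le _ (hup s)))) (UU_le_BB x (UJ_le_UU hr))
  · obtain ⟨u, n, u', hu, hn, hu', e⟩ := h.bruhat g⁻¹ (wJ_inv (D := D) (O a) ▸ hx.cell_inv h1)
    refine ⟨u'⁻¹, inv_mem (Um_wJ (D := D) (x := x) (O a) ▸ hu'), na⁻¹ * n⁻¹ * u⁻¹,
      mul_mem (HH_le_BB x ((NRep_wJ_inv hx hna).mul_inv_mem hx hn)) (inv_mem (UU_le_BB x hu)), ?_⟩
    rw [← inv_inv g, e]; group
  · have := h.faith.eq_one_of_VV_BB (YJ_le _ (conj_XJ hx (NRep_wJ_inv hx hna) hg))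
      (by simpa [Subgroup.mem_subgroupOf] using h1)
    rw [mul_inv_eq_one, mul_eq_left] at this
    exact Subtype.ext this
  · refine ((((h.faith.isPGroup_UU p).to_le (XJ_le (O a))).comap_subtype (K := S)).card_eq_or_dvd).resolve_left
      fun h1 => h.z_ne a ?_
    have := Subgroup.card_eq_one.1 h1
    have h2 : z a ∈ (XJ D x (O a)).comap S.subtype := h.zmem a
    rw [this, Subgroup.mem_bot] at h2
    simp [h2]
  · obtain ⟨A, h1, u, u', v, hu, hu', hv, e⟩ := rk g hg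
    exact ⟨A, h1, u, hu, u', hu', v, hYV hv, YJ_le_PJ hx _ hv, e⟩
  · obtain ⟨c, r', hc, hr', e⟩ := tw_split h b (UJ_le_UU hr)
    obtain ⟨s, rfl⟩ := hsurj c hc
    exact ⟨s, r', hr', e⟩
  · have := hwi.conj_XS hx (T := {r | D.IsPosRoot r ∧ ¬ D.InRootSub (O a) r})
      (fun r hr => (ra r hr.1.1 hr.1 hr.2).2.1) hu
    simpa [Subgroup.mem_subgroupOf, UJ] using this
  · obtain ⟨w, -, -, hg⟩ := h.exists_cell g
    obtain ⟨y, h1, h2, h3⟩ := reda hg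
    exact ⟨y, h1, h2, h3.imp And.left id⟩
  · obtain ⟨w, -, -, hg⟩ := h.exists_cell g
    obtain ⟨y, h2, h3⟩ := redb hg
    exact ⟨y, h2, h3.imp And.left id⟩
  · obtain ⟨w, hW, hc, h1⟩ := h.exists_cell g
    obtain ⟨i, hi⟩ := exists_simple_neg hW fun e => hg ((h.faith.mem_BB_iff_of_cell h1).2 e)
    rcases hO i with e | e
    · obtain ⟨y, h2, h3, h4⟩ := reda h1
      exact Or.inl ⟨y, h2, h3, h4.resolve_left fun h5 =>
        not_neg_of_pos h5.2 (h.neg_orb hW hc hi (e ▸ h.sub.self a))⟩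
    · obtain ⟨y, h3, h4⟩ := redb h1
      exact Or.inr ⟨y, h3, h4.resolve_left fun h5 => not_neg_of_pos h5.2 (h.neg_orb hW hc hi (e ▸ h.sub.self b))⟩
  · have hP : ∀ τ : S, τ * g * (τ : G)⁻¹ ∈ PJ D x (O b) := fun τ => by
      obtain ⟨t, ht, A, r, hr, e⟩ := hg τ
      have := congrArg Subtype.val e
      simp only [Subgroup.coe_mul, Subgroup.coe_inv] at this
      rw [this]
      exact mul_mem (mul_mem (BB_le_PJ (HH_le_BB x ht)) (LJ_le_PJ hx (hLJ A))) (UJ_le_PJ hr)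
    obtain ⟨n, hn⟩ := h.exists_n0
    have hsub : ∀ r, D.InRootSub (O b) (w0 D r) → D.InRootSub (O b) r := fun r hr => by
      have := inRootSub_w0.2 (inRootSub_mono (J' := Jstar D (O b))
        (fun j hj => mem_Jstar.2 (h.orb _ _ hs ▸ h.star_mem hj)) hr)
      rwa [w0_w0] at this
    have hUV : ∀ u ∈ UJ D x (O b), n * u * (n : G)⁻¹ ∈ VJ D x (O b) := fun u hu =>
      hn.conj_XS hx (fun r hr => And.intro (w0_neg_of_pos hr.1) fun h' => hr.2 (hsub r h')) hu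
    have hc : ∀ τ u : S, (u : G) ∈ UJ D x (O b) → Commute (τ * g * τ⁻¹) u := fun τ u hu => by
      have h1 := hUV _ (mul_mem (PJ_conj_UJ hx (hP τ) hu) (inv_mem hu))
      have h2 := mul_mem (hP (n * τ)) (inv_mem (hP (n * u * τ)))
      have h3 := h.faith.eq_one_of_VJ_PJ h1 (by simpa [mul_assoc] using h2)
      have h4 : (τ * g * τ⁻¹ * u * (τ * g * τ⁻¹)⁻¹ * u⁻¹ : S) = 1 := Subtype.ext (by simpa using h3)
      rwa [mul_inv_eq_one, mul_inv_eq_iff_eq_mul] at h4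
    refine tw_eq_one h fun τ i => ?_
    rcases hO i with e | e
    · exact hc τ _ (hXU (e ▸ h.zmem i))
    · have := hc (na * τ) (na * z i * na⁻¹) (c1 _ (e ▸ h.zmem i))
      have h2 := this.map (MulAut.conj na⁻¹)
      simpa [mul_assoc] using h2

end tw

end Cfsg.Agent.H1
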