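import Cfsg.Agent.H1.GA5
import Cfsg.Agent.H1.QuadExt

/-!
# Elliptic elements of a Levi subgroup of type `GL₂`
-/

set_option autoImplicit false
set_option linter.unusedSectionVars false

namespace Cfsg.Agent.H1

open Matrix Cfsg.Lie Cfsg.Agent.H7 Cfsg.Agent.H8 Cfsg.Agent.H2
open scoped MatrixGroups

section SL2

variable {L E Γ : Type*} [Field L] [Field E] [Group Γ]

/-- companion element -/
def cmpS (τ d : L) : SL(2, L) := toSL !![τ / d, -1; 1, 0] (by simp [det_fin_two_of])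

theorem cmpS_trace {τ d : L} (hd : d ≠ 0) : (!![d, 0; 0, 1] * (cmpS τ d).1).trace = τ := by
  simp [cmpS, trace_fin_two, m2_mul_apply]; field_simp

theorem map_upS (κ : L →+* E) (s : L) : SpecialLinearGroup.map κ (upS s) = upS (κ s) := by
  apply SL_ext
  change (upS s).1.map κ = _
  rw [upS_val, upS_val]; apply m2_ext <;> simp

theorem map_loS (κ : L →+* E) (s : L) : SpecialLinearGroup.map κ (loS s) = loS (κ s) := by
  apply SL_ext
  change (loS s).1.map κ = _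
  rw [loS_val, loS_val]; apply m2_ext <;> simp

theorem map_wS (κ : L →+* E) : SpecialLinearGroup.map κ (wS L) = wS E := by
  simp [wS, H6.stW, map_upS, map_loS]

theorem map_dS (κ : L →+* E) (t : L) : SpecialLinearGroup.map κ (dS t) = dS (κ t) := by
  simp [dS, H6.stH, H6.stW, map_upS, map_loS]

theorem map_cmpS (κ : L →+* E) (τ d : L) : SpecialLinearGroup.map κ (cmpS τ d) = cmpS (κ τ) (κ d) := by
  apply SL_ext
  change (cmpS τ d).1.map κ = _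
  apply m2_ext <;> simp [cmpS]

theorem SL2_ext {ψ ψ' : SL(2, L) →* Γ} (h1 : ∀ s, ψ (upS s) = ψ' (upS s)) (h2 : ∀ s, ψ (loS s) = ψ' (loS s)) :
    ψ = ψ' := MonoidHom.ext fun A => SL2_mem (MonoidHom.id _) (M := ψ.eqLocus ψ') h1 h2 A

theorem cmpS_conj (ψ : SL(2, E) →* Γ) {h : Γ} {τ d μ : E} (hd : d ≠ 0)
    (hact : ∀ A, h * ψ A * h⁻¹ = ψ (cD d hd A)) (hμ : μ ^ 2 - τ * μ + d = 0) (h2 : μ ^ 2 ≠ d) :
    ∃ C, h * ψ (cmpS τ d) = ψ C * (h * ψ (dS μ⁻¹)) * (ψ C)⁻¹ := by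
  have h0 : μ ≠ 0 := fun e => hd (by simpa [e] using hμ)
  have h3 : d - μ ^ 2 ≠ 0 := sub_ne_zero.2 h2.symm
  obtain rfl : τ = (μ ^ 2 + d) / μ := by field_simp; linear_combination -hμ
  let C : SL(2, E) := toSL !![d / μ, μ ^ 2 / (d - μ ^ 2); 1, μ / (d - μ ^ 2)] (by
    rw [det_fin_two_of]; field_simp)
  refine ⟨C, ?_⟩
  have key : cD d hd (cmpS ((μ ^ 2 + d) / μ) d * C) = C * cD d hd (dS μ⁻¹) := by
    apply SL_ext
    apply m2_ext <;> simp [cD, cmpS, C, m2_mul_apply, dS_val (inv_ne_zero h0)] <;> field_simp <;> ring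
  rw [eq_mul_inv_iff_mul_eq, mul_assoc, ← map_mul, mul_inv_eq_iff_eq_mul.1 (hact _), key, map_mul, ← hact]
  group

theorem exists_no_root [Finite L] {d : L} (hd : d ≠ 0) : ∃ τ : L, ∀ t, t ^ 2 - τ * t + d ≠ 0 := by
  by_contra h
  push Not at h
  have := Fintype.ofFinite L
  classical
  have h1 : Function.Surjective fun t : Lˣ => (t : L) + d / t := fun τ => by
    obtain ⟨t, ht⟩ := h τ
    have h0 : t ≠ 0 := fun e => hd (by simpa [e] using ht)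
    exact ⟨Units.mk0 t h0, by simp only [Units.val_mk0]; field_simp; linear_combination ht⟩
  have := Fintype.card_le_of_surjective _ h1
  rw [Fintype.card_units] at this
  have := Fintype.card_pos (α := L)
  omega

end SL2

variable {D : ChevalleyDatum} {K : Type*} [Field K] {G : Type*} [Group G] {x : ℕ → K → G}
  [hD : RootFacts D] [hN : NFacts D]

theorem exists_psi [Finite K] (hx : IsSt D x) {r : ℕ} (hr : r < D.nroots) :
    ∃ ψ : SL(2, K) →* G, (∀ s, ψ (upS s) = x r s) ∧ (∀ s, ψ (loS s) = x (D.neg r) s) ∧ ψ (wS K) = nE D x r 1 ∧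
      ∀ t, ψ (dS t) = hE D x r t := by
  obtain ⟨ψ, hψ⟩ := (H6.IsR1.isSt_fin_two (x := x r) (y := x (D.neg r))
    ⟨hx.add r, hx.add _, fun t ht u => hx.nE_conj_self hr ht u⟩).exists_hom
  have h0 : ∀ t, ψ (upS t) = x r t := hψ 0 1 (by decide)
  have h1 : ∀ t, ψ (loS t) = x (D.neg r) t := hψ 1 0 (by decide)
  exact ⟨ψ, h0, h1, by simp [wS, H6.stW, h0, h1, nE], fun t => by simp [dS, H6.stH, H6.stW, h0, h1, hE, nE]⟩

theorem eq_one_of_acts (hx : IsFaith D x) {w : Equiv.Perm ℕ} (hw : w ∈ W D) {S : Set ℕ} (hS : IsClosed D S)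
    (hpos : ∀ k ∈ S, D.IsPosRoot (w k)) {t g : G} {c : ℕ → K} (ht : Acts x t 1 c) (hc : ∀ r ∈ S, c r ≠ 1)
    (hg : g ∈ XS x S) (h : t * g * t⁻¹ = g) : g = 1 := by
  classical
  set l := (List.range D.nroots).filter fun k => k ∈ S with hl
  have hL : ∀ k, k ∈ l ↔ k ∈ S := fun k => by
    simpa [hl] using fun hk => (W_lt_iff hw).1 (hpos k hk).1
  have hnd : l.Nodup := List.nodup_range.filter _
  obtain ⟨f, rfl⟩ := hx.toIsSt.exists_oprod hS hw hpos hL hnd hg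
  have h1 : t * oprod x l f * t⁻¹ = oprod x l fun k => c k * f k := by
    refine (map_oprod (MulAut.conj t).toMonoidHom x l f).trans ?_
    simp only [oprod]
    exact congrArg List.prod (List.map_congr_left fun k _ => ht k _)
  have h2 := hx.oprod_inj hw (fun k hk => hpos k ((hL k).1 hk)) hnd (h1.symm.trans h)
  rw [oprod_congr x (f' := fun _ => 0) fun k hk => by
    simpa [sub_eq_zero, hc k ((hL k).1 hk)] using (show (c k - 1) * f k = 0 by linear_combination h2 k hk)]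
  exact (hx.toIsSt.nilFam hS hw hpos).oprod_zero fun k hk => (hL k).1 hk

theorem eq_one_of_commute_LJ (hx : IsFaith D x) {J : Set ℕ} {C t g : G} (hC : C ∈ LJ D x J) {c : ℕ → K}
    (ht : Acts x t 1 c) (hc : ∀ r < D.nroots, ¬ D.InRootSub J r → c r ≠ 1) (hg : g ∈ UJ D x J ∨ g ∈ VJ D x J)
    (h : C * t * C⁻¹ * g = g * (C * t * C⁻¹)) : g = 1 := by
  have h1 : t * (C⁻¹ * g * C⁻¹⁻¹) * t⁻¹ = C⁻¹ * g * C⁻¹⁻¹ := by
    calc _ = C⁻¹ * (C * t * C⁻¹ * g) * C * t⁻¹ := by group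
      _ = _ := by rw [h]; group
  have h2 : C⁻¹ * g * C⁻¹⁻¹ = 1 := by
    rcases hg with hg | hg
    · exact eq_one_of_acts hx (one_mem _) isClosed_UJ (fun k hk => hk.1) ht (fun r hr => hc r hr.1.1 hr.2)
        (PJ_conj_UJ hx.toIsSt (LJ_le_PJ hx.toIsSt (inv_mem hC)) hg) h1
    · exact eq_one_of_acts hx w0_mem isClosed_VJ (fun k hk => w0_pos_of_neg hk.1) ht (fun r hr => hc r hr.1.1 hr.2)
        (LJ_conj_VJ hx.toIsSt (inv_mem hC) hg) h1
  rwa [mul_inv_eq_one, mul_eq_left] at h2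

section ext

variable {E G' : Type*} [Field E] [Group G'] {y : ℕ → E → G'} (ι : K →+* E)

theorem exists_ext (hx : IsChev D x) (hG : GG x = ⊤) (hy : IsChev D y) :
    ∃ θ : G →* G', Function.Injective θ ∧ ∀ r t, θ (x r t) = y r (ι t) := by
  obtain ⟨θ, hθ⟩ := hx.exists_hom hG (isSt_comap ι hy.toIsSt) fun g hg hc => (hy.comap ι).eq_one_of_commute hg hc
  refine ⟨θ, hx.inj_of hG (U := UU D y) (V := VV D y) (fun r hr t => hθ r t ▸ x_mem_UU y hr _)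
    (fun r hr t => hθ r t ▸ x_mem_VV y hr _) (fun g h1 h2 => hy.toIsFaith.eq_one_of_UU_VV h1 h2) fun r hr t h => ?_, hθ⟩
  simpa using hy.toIsFaith.eq_zero_of_x hr ((hθ r t).symm.trans h)

variable {ι} {θ : G →* G'} (hθ : ∀ r t, θ (x r t) = y r (ι t))
include hθ

theorem ext_XS {S : Set ℕ} {g : G} (hg : g ∈ XS x S) : θ g ∈ XS y S :=
  (XS_le (H := (XS y S).comap θ)).2 (fun r hr t => by rw [Subgroup.mem_comap, hθ]; exact x_mem_XS hr _) hg

theorem ext_HH {g : G} (hg : g ∈ HH D x) : θ g ∈ HH D y := by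
  have := Subgroup.mem_map_of_mem θ hg
  rw [map_HH, show (fun r t => θ (x r t)) = fun r t => y r (ι t) from funext₂ hθ] at this
  exact HH_comap_le ι this

theorem ext_acts (hy : IsFaith D y) {g : G} (hg : g ∈ HH D x) {c : ℕ → K} (hc : Acts x g 1 c) :
    Acts y (θ g) 1 fun r => ι (c r) := by
  obtain ⟨a, ha⟩ := hy.toIsSt.acts_of_mem_HH (ext_HH hθ hg)
  refine ha.congr hy.toIsSt (fun s hs => ?_) fun s hs => hs
  have := congrArg θ (hc s 1)
  rw [map_mul, map_mul, map_inv, hθ, hθ, ha] at this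
  simpa using hy.x_inj hs this

theorem GaussD.elliptic [Finite K] [Finite E] (p : ℕ) [Fact p.Prime] [CharP E p] {S : Subgroup G} [Finite S]
    {L : Type*} [Field L] [Finite L] {ψ : SL(2, L) →* S} {J : Set ℕ} {B Pa Ua Ra : Subgroup S} {na : S} {ℓ : S → ℕ}
    (hG : GaussD ψ ((HH D x).subgroupOf S) ((UJ D x J).subgroupOf S) ((VJ D x J).subgroupOf S) B Pa Ua Ra na ℓ p)
    (hy : IsChev D y) (hinj : Function.Injective θ) (κ : L →+* E) (ψ' : SL(2, E) →* G')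
    (h1 : ∀ s, θ (ψ (upS s)) = ψ' (upS (κ s))) (h2 : ∀ s, θ (ψ (loS s)) = ψ' (loS (κ s)))
    (hL : ∀ A, ψ' A ∈ LJ D y J) {h₀ : S} (hh : (h₀ : G) ∈ HH D x) {d τ : L} (hd : d ≠ 0)
    (a1 : ∀ s, θ h₀ * ψ' (upS s) * (θ h₀)⁻¹ = ψ' (upS (κ d * s)))
    (a2 : ∀ s, θ h₀ * ψ' (loS s) * (θ h₀)⁻¹ = ψ' (loS ((κ d)⁻¹ * s)))
    (b1 : ∀ s, h₀ * ψ (upS s) * h₀⁻¹ = ψ (upS (d * s))) (b2 : ∀ s, h₀ * ψ (loS s) * h₀⁻¹ = ψ (loS (d⁻¹ * s)))
    {μ : E} (hμ : μ ^ 2 - κ τ * μ + κ d = 0) (hμ2 : μ ^ 2 ≠ κ d) (hH : ψ' (dS μ⁻¹) ∈ HH D y) {c : ℕ → E}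
    (hc : Acts y (θ h₀ * ψ' (dS μ⁻¹)) 1 c) (hc1 : ∀ r < D.nroots, ¬ D.InRootSub J r → c r ≠ 1) :
    ∃ x₀ : S, ¬ p ∣ orderOf x₀ ∧ ∀ g, g ≠ 1 → Sq2 x₀ g := by
  have hd' : κ d ≠ 0 := by simpa using hd
  obtain ⟨C, hC⟩ := cmpS_conj ψ' hd' (conj_eq_cD ψ' hd' a1 a2) hμ hμ2
  have h3 : (θ.comp S.subtype).comp ψ = ψ'.comp (SpecialLinearGroup.map κ) :=
    SL2_ext (fun s => by simp [h1, map_upS]) fun s => by simp [h2, map_loS]
  have h4 : θ (h₀ * ψ (cmpS τ d) : S) = ψ' C * (θ h₀ * ψ' (dS μ⁻¹)) * (ψ' C)⁻¹ := by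
    rw [← hC, ← map_cmpS, Subgroup.coe_mul, map_mul]
    exact congrArg _ (DFunLike.congr_fun h3 _)
  have key : ∀ r : S, (r : G) ∈ UJ D x J ∨ (r : G) ∈ VJ D x J →
      h₀ * ψ (cmpS τ d) * r = r * (h₀ * ψ (cmpS τ d)) → r = 1 := fun r hr e => by
    refine Subtype.ext (hinj ((eq_one_of_commute_LJ hy.toIsFaith (hL C) hc hc1 (hr.imp (ext_XS hθ) (ext_XS hθ)) ?_).trans
      θ.map_one.symm))
    rw [← h4, ← map_mul, ← map_mul]
    exact congrArg (fun g : S => θ g) e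
  refine ⟨h₀ * ψ (cmpS τ d), fun hp => ?_, fun g hg => hG.main hh hd (conj_eq_cD ψ hd b1 b2) _ (fun e => hμ2 ?_)
    (fun r hr => key r (Or.inl hr)) (fun r hr => key r (Or.inr hr)) hg⟩
  · have h5 : (h₀ * ψ (cmpS τ d)) ^ (Nat.card E - 1) = 1 := Subtype.ext (hinj (by
      rw [Subgroup.coe_pow, map_pow, h4, conj_pow, hy.HH_pow_card (mul_mem (ext_HH hθ hh) hH)]; simp))
    have h6 := hp.trans (orderOf_dvd_of_pow_eq_one h5)
    have := Fintype.ofFinite E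
    obtain ⟨n, -, hn⟩ := FiniteField.card E p
    rw [Nat.card_eq_fintype_card, hn] at h6
    have h7 := (Nat.dvd_sub_iff_right (Nat.one_le_iff_ne_zero.2 (hn ▸ Fintype.card_ne_zero)) (dvd_pow_self p n.ne_zero)).1 h6
    exact (Fact.out : p.Prime).one_lt.ne' (Nat.dvd_one.1 h7)
  · rw [cmpS_trace hd] at e
    have e' := congrArg κ e
    simp only [map_pow, map_mul, map_ofNat] at e'
    exact sub_eq_zero.1 (pow_eq_zero_iff two_ne_zero |>.1 (by linear_combination (μ ^ 2 + κ d + κ τ * μ) * hμ + μ ^ 2 * e'))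

end ext

end Cfsg.Agent.H1
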