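import Cfsg.Agent.H1.GA6

/-!
# Squares of classes in rank two groups whose Levi subgroup belongs to a single root
-/

set_option autoImplicit false
set_option linter.unusedSectionVars false

namespace Cfsg.Agent.H1

open Matrix Cfsg.Lie Cfsg.Agent.H7 Cfsg.Agent.H8 Cfsg.Agent.H2
open scoped MatrixGroups

theorem fix_of_root {K : Type*} [Field K] {φ : K →+* K} (h3 : ∀ t, φ (φ (φ t)) = t) {τ d μ : K} (hτ : φ τ = τ)
    (hd : φ d = d) (h : μ ^ 2 - τ * μ + d = 0) : φ μ = μ := by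
  have key : ∀ {ν}, ν ^ 2 - τ * ν + d = 0 → φ ν ^ 2 - τ * φ ν + d = 0 := fun h => by
    simpa [hτ, hd] using congrArg φ h
  have h1 := key h
  have h2 := key h1
  by_contra hne
  have h4 : φ (φ μ) ≠ φ μ := fun e => hne (φ.injective e)
  have h5 : φ (φ μ) ≠ μ := fun e => hne ((congrArg φ e).symm.trans (h3 μ))
  have h6 : φ μ + μ = τ := mul_left_cancel₀ (sub_ne_zero.2 hne) (by linear_combination h1 - h)
  have h7 : φ (φ μ) + φ μ = τ := mul_left_cancel₀ (sub_ne_zero.2 h4) (by linear_combination h2 - h1)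
  exact h5 (by linear_combination h7 - h6)

variable {D : ChevalleyDatum} {K : Type*} [Field K] {G : Type*} [Group G] {x : ℕ → K → G}
  [hD : RootFacts D] [hN : NFacts D]

theorem star_of_word (l : List (Fin D.rank)) (h : ∀ r < D.nroots, D.IsPosRoot r → D.IsNegRoot (wordW D l r))
    {b : Fin D.rank} (h' : wordW D l (D.simple b) = D.neg (D.simple b)) : star D b = b := by
  rw [eq_w0 (wordW_mem l) fun r hr => h r hr.1 hr, w0_simple] at h'
  exact simple_inj (neg_inj (simple_lt _) (simple_lt _) h')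

theorem tw_single [Finite K] [MatFacts D] [ChainFacts D] (p : ℕ) [Fact p.Prime] [CharP K p]
    {σ : G →* G} {ρ : Equiv.Perm ℕ} {π : Fin D.rank → Fin D.rank} {f : ℕ → K → K} {S : Subgroup G}
    {O : Fin D.rank → Set ℕ} {e : Fin D.rank → ℕ} {z : Fin D.rank → S} (h : TwD D x σ ρ π f S O e z)
    {a b : Fin D.rank} (hO : ∀ i, O i = O a ∨ O i = O b) (hs : star D b = b) {φ : K →+* K}
    (hφ : ∀ t, φ t = t ^ e b) (hπ : π b = b) (h3 : ∀ t, φ (φ (φ t)) = t) {ξ η : K → S} {c : K → ℕ → K}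
    (a0 : AbO D x (O a) a (RingHom.id K) ξ η c)
    (hrk : ∀ χ ∈ TS K π e, ∃ t ≠ 0, ∃ u ≠ 0, φ u = u ∧
      ∀ j : Fin D.rank, χ j * u ^ A D (D.simple b) (D.simple j) = c t (D.simple j))
    (ra : ∀ r < D.nroots, D.IsPosRoot r → D.InRootSub (O a) r → ¬ D.InRootSub (O b) r ∧
      (D.IsPosRoot (wJ D (O b) r) ∧ ¬ D.InRootSub (O a) (wJ D (O b) r)) ∧
      D.IsPosRoot (wJ D (O a) (wJ D (O b) r)) ∧ ¬ D.InRootSub (O b) (wJ D (O a) (wJ D (O b) r)))
    (rb : ∀ r < D.nroots, D.IsPosRoot r → D.InRootSub (O b) r →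
      (D.IsPosRoot (wJ D (O a) r) ∧ ¬ D.InRootSub (O b) (wJ D (O a) r)) ∧
      D.IsPosRoot (wJ D (O a) (wJ D (O b) (wJ D (O a) r))) ∧
        ¬ D.InRootSub (O b) (wJ D (O a) (wJ D (O b) (wJ D (O a) r))))
    {t₀ : K} (ht₀ : t₀ ≠ 0) (hr : ∀ r < D.nroots, ¬ D.InRootSub (O b) r → A D (D.simple b) r = 1 ∨
      A D (D.simple b) r = -1 ∨ (A D (D.simple b) r = 0 ∧ c t₀ r ≠ 1)) :
    ∃ x₀ : S, ¬ p ∣ orderOf x₀ ∧ ∀ g, g ≠ 1 → Sq2 x₀ g := by
  have hx := h.st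
  have hfin := h.chev.finite_G h.top
  have hb := simple_lt (D := D) b
  set L := φ.eqLocusField (RingHom.id K) with hL
  have h1 : ∀ j : Fin D.rank, j.1 ∈ O b ↔ j = b := fun j => ⟨fun hj => by
    obtain ⟨k, rfl⟩ := h.sub.orb b j hj; exact Function.iterate_fixed hπ k, fun e => e ▸ h.sub.self _⟩
  have h2 : wJ D (O b) = sref D b := (eq_wJ (sref_mem_WJ (h.sub.self b)) fun j hj => by
    rw [(h1 j).1 hj, sref_simple]; exact neg_simple_neg b).symm
  have hsub : D.InRootSub (O b) (D.simple b) := simple_inRootSub.2 (h.sub.self b)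
  obtain ⟨ψK, k1, k2, k3, k4⟩ := exists_psi hx hb
  have hS : ∀ A, (ψK.comp (SpecialLinearGroup.map L.subtype)) A ∈ S := SL2_mem _
    (fun t => h.sub.mem_of_UU h.tw h.faith (by simpa [map_upS, k1] using x_mem_UU x (simple_pos b) _) (by
      simp [map_upS, k1, h.tw.map, h.tw.simple, hπ, (h.exp b _).1, ← hφ, show φ t = t from t.2]))
    (fun t => h.sub.mem_of_VV h.tw h.faith (by simpa [map_loS, k2] using x_mem_VV x (neg_simple_neg b) _) (by
      simp [map_loS, k2, h.tw.map, h.tw.neg _ hb, h.tw.simple, hπ, (h.exp b _).2, ← hφ, show φ t = t from t.2]))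
  set ψ := (ψK.comp (SpecialLinearGroup.map L.subtype)).codRestrict S hS with hψ
  have l1 : ∀ s, (ψ (upS s) : G) = x (D.simple b) s := fun s => by simp [hψ, map_upS, k1]
  have l2 : ∀ s, (ψ (loS s) : G) = x (D.neg (D.simple b)) s := fun s => by simp [hψ, map_loS, k2]
  have l3 : (ψ (wS L) : G) = nE D x (D.simple b) 1 := by simp [hψ, map_wS, k3]
  have l4 : ∀ t, (ψ (dS t) : G) = hE D x (D.simple b) t := fun s => by simp [hψ, map_dS, k4]
  have hch : ∀ g : S, (g : G) ∈ HH D x → ∃ χ ∈ TS K π e, ∃ c' : ℕ → K, GoodScal D c' ∧ Acts x g 1 c' ∧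
      ∀ j : Fin D.rank, c' (D.simple j) = χ j := fun g hg => by
    obtain ⟨a, ha⟩ := hx.acts_of_mem_HH hg
    exact ⟨_, h.chS_le (mem_chS_of_acts hx g.2 hg ha fun _ => rfl), _, goodScal_torChar a, ha, fun _ => rfl⟩
  have hact : ∀ g : S, (g : G) ∈ HH D x → ∀ c', Acts x g 1 c' → ∃ d : L, d ≠ 0 ∧ c' (D.simple b) = d ∧
      c' (D.neg (D.simple b)) = d⁻¹ ∧ (∀ s, g * ψ (upS s) * g⁻¹ = ψ (upS (d * s))) ∧
      ∀ s, g * ψ (loS s) * g⁻¹ = ψ (loS (d⁻¹ * s)) := fun g hg c₁ hc₁ => by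
    obtain ⟨χ, hχ, c', g1, g2, g3⟩ := hch g hg
    have g4 : ∀ r < D.nroots, c₁ r = c' r := fun r hr => by
      simpa using h.faith.x_inj hr ((hc₁ r 1).symm.trans (g2 r 1))
    have g5 : φ (χ b) = χ b := by rw [hφ, ← Units.val_pow_eq_pow_val, ← hχ b, hπ]
    refine ⟨⟨χ b, g5⟩, fun e => (χ b).ne_zero (congrArg Subtype.val e), by rw [g4 _ hb, g3],
      by rw [g4 _ (neg_lt hb), g1.neg hb, g3]; simp, fun s => Subtype.ext ?_, fun s => Subtype.ext ?_⟩
    · simp [l1, g2 _ _, g3]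
    · simp [l2, g2 _ _, g1.neg hb, g3]
  have hna := a0.nrep (-1) (by simp)
  have hHa : ∀ t ≠ 0, ((ξ t * η (-t⁻¹) * ξ t * (ξ (-1) * η (-(-1)⁻¹) * ξ (-1)) : S) : G) ∈ HH D x := fun t ht =>
    NRep.mem_HH hx (wJ_mul_self (D := D) (O a) ▸ (a0.nrep t ht).mul hx hna)
  have hp : p ∣ Nat.card L := by
    have := Fintype.ofFinite L
    obtain ⟨n, -, hn⟩ := FiniteField.card L p
    rw [Nat.card_eq_fintype_card, hn]
    exact dvd_pow_self p n.ne_zero
  have hG := gaussD h p hO (hs.symm ▸ h.sub.self b) hp ψ (fun s => l1 s ▸ x_mem_XJ ⟨simple_pos b, hsub⟩ _)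
    (fun g hg => by
      obtain ⟨t, ht⟩ := hx.mem_XS_singleton (r := D.simple b) (XS_mono x (fun r hr => by
        by_contra h3
        exact not_neg_of_pos (sref_pos hr.1 h3) (h2 ▸ wJ_neg hr.1 hr.2)) hg)
      have h4 := h.sub.fix g g.2
      rw [ht, h.tw.map, h.tw.simple, hπ, (h.exp b _).1, ← hφ] at h4
      exact ⟨⟨t, h.faith.x_inj hb h4⟩, Subtype.ext (ht.trans (l1 ⟨t, h.faith.x_inj hb h4⟩).symm)⟩)
    (fun s => l2 s ▸ x_mem_YJ ⟨neg_simple_neg b, H8.inRootSub_neg hsub⟩ _)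
    (fun s hs => Subtype.ext (h.faith.eq_zero_of_x (neg_lt hb) ((l2 s).symm.trans (congrArg Subtype.val hs))))
    (by rw [l3, h2]; exact NRep.simple x b)
    (fun t ht => l4 t ▸ hE_mem_HH x hb fun e => ht (Subtype.ext e))
    (fun g hg => by
      obtain ⟨χ, -, c', -, g2, -⟩ := hch g hg
      obtain ⟨d, g3, -, -, g4⟩ := hact g hg c' g2
      exact ⟨d, g3, g4⟩) hna
    (fun g hg => by
      obtain ⟨χ, hχ, c', -, g2, g3⟩ := hch g hg
      obtain ⟨t, ht, u, hu, g4, g5⟩ := hrk χ hχ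
      have g6 : (g * ψ (dS ⟨u, g4⟩) : G) ∈ HH D x := mul_mem hg (l4 _ ▸ hE_mem_HH x hb hu)
      have g7 : g * ψ (dS ⟨u, g4⟩) = ξ t * η (-t⁻¹) * ξ t * (ξ (-1) * η (-(-1)⁻¹) * ξ (-1)) :=
        Subtype.ext (h.chev.HH_ext_simple g6 (hHa t ht) fun i => by
          have := (g2.mul (hx.acts_hE hb hu)) (D.simple i) 1
          rw [a0.acts t ht, Subgroup.coe_mul, l4, this, ← g5, ← g3]; rfl)
      refine ⟨_, g6, ξ t, (g * ψ (dS ⟨u, g4⟩))⁻¹ * (ξ t)⁻¹ * (g * ψ (dS ⟨u, g4⟩)), (η (-t⁻¹))⁻¹ * (ξ t)⁻¹ * ξ t, a0.mem t,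
        by simpa [XJ] using hx.HH_conj_XS (inv_mem g6) (inv_mem (a0.mem t)), by simpa using a0.memY _, ?_⟩
      rw [g7]; group) ra rb
  obtain ⟨d, hd, d1, d2, d3, d4⟩ := hact _ (hHa t₀ ht₀) _ (a0.acts t₀ ht₀)
  obtain ⟨τ, hτ⟩ := exists_no_root hd
  have hτ' : ∀ t : K, t ^ 2 - τ * t + d ≠ 0 := fun t ht =>
    hτ ⟨t, fix_of_root h3 τ.2 d.2 ht⟩ (Subtype.ext ht)
  have := Fintype.ofFinite K
  obtain ⟨E, _, _, _, ⟨Q⟩⟩ := exists_quadEmb K
  obtain ⟨μ, -, m1, m2⟩ := Q.exists_of_no_root hτ'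
  have hμ := Q.cayley' μ
  rw [m1, m2] at hμ
  have hμK : ∀ t : K, algebraMap K E t ≠ μ := fun t ht =>
    hτ' t ((algebraMap K E).injective (by simpa [ht] using hμ))
  have hμ0 : μ ≠ 0 := fun e => hμK 0 (by simp [e])
  have : CharP E p := charP_of_injective_algebraMap (algebraMap K E).injective p
  have hy : IsChev D (xg D E) := H7.isChev_xg
  obtain ⟨θ, hinj, hθ⟩ := exists_ext (algebraMap K E) h.chev h.top hy
  obtain ⟨ψ', m1, m2, -, m4⟩ := exists_psi hy.toIsSt hb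
  have hA := ext_acts hθ hy.toIsFaith (hHa t₀ ht₀) (a0.acts t₀ ht₀)
  refine GaussD.elliptic hθ p hG hy hinj ((algebraMap K E).comp L.subtype) ψ' (fun s => by simp [l1, m1, hθ])
    (fun s => by simp [l2, m2, hθ]) (SL2_mem _ (fun s => m1 s ▸ x_mem_LJ hsub _)
      fun s => m2 s ▸ x_mem_LJ (H8.inRootSub_neg hsub) _) (hHa t₀ ht₀) hd (fun s => by rw [m1, m1, hA]; simp [d1])
    (fun s => by rw [m2, m2, hA]; simp [d2]) d3 d4 (τ := τ) (μ := μ) hμ (fun e => ?_)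
    (m4 _ ▸ hE_mem_HH _ hb (inv_ne_zero hμ0)) (m4 _ ▸ hA.mul (hy.toIsSt.acts_hE hb (inv_ne_zero hμ0))) fun r h4 h5 => ?_
  · have h4 : algebraMap K E τ = 2 * μ := mul_right_cancel₀ hμ0 (by
      simp only [RingHom.comp_apply, Subfield.coe_subtype] at e; linear_combination -hμ - e)
    by_cases h5 : (2 : K) = 0
    · have : CharP K 2 := CharTwo.of_one_ne_zero_of_two_eq_zero one_ne_zero h5
      have : CharP E 2 := charP_of_injective_algebraMap (algebraMap K E).injective 2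
      obtain ⟨s, hs⟩ := surjective_frobenius K 2 d
      refine hμK s (frobenius_inj E 2 ?_)
      simp only [frobenius_def] at hs ⊢
      rw [← map_pow, hs, e]; rfl
    · exact hμK (τ / 2) (by
        rw [map_div₀, h4, map_ofNat, mul_div_cancel_left₀ _ (by
          rw [← map_ofNat (algebraMap K E) 2]; exact (map_ne_zero _).2 h5)])
  · simp only [Equiv.Perm.coe_one, id]
    rcases hr r h4 h5 with h6 | h6 | ⟨h6, h7⟩ <;> rw [h6] <;> intro h8
    · exact hμK (c t₀ r) (by field_simp at h8; simpa using h8)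
    · exact hμK (c t₀ r)⁻¹ (by rw [map_inv₀]; exact inv_eq_of_mul_eq_one_right (by simpa using h8))
    · exact h7 ((algebraMap K E).injective (by simpa using h8))

end Cfsg.Agent.H1
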