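import Cfsg.Agent.H1.GA7
import Cfsg.Agent.H7.TwOutD4

/-!
# Squares of semisimple classes in `G₂(q)` and `³D₄(q)`
-/

set_option autoImplicit false
set_option linter.unusedSectionVars false

namespace Cfsg.Agent.H1

open Matrix Cfsg.Lie Cfsg.Agent.H7 Cfsg.Agent.H8 Cfsg.Agent.H2
open scoped MatrixGroups

theorem sq2_transfer {A B : Type*} [Group A] [Group B] (e : A ≃* B) {P : ℕ → Prop}
    (h : ∃ x : A, P (orderOf x) ∧ ∀ g, g ≠ 1 → Sq2 x g) :
    ∃ x : B, P (orderOf x) ∧ ∀ g : B, g ≠ 1 → ∃ u v : B, g = (u * x * u⁻¹) * (v * x * v⁻¹) := by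
  obtain ⟨x, h1, h2⟩ := h
  refine ⟨e x, by rwa [e.orderOf_eq], fun g hg => ?_⟩
  obtain ⟨u, v, h3⟩ := h2 (e.symm g) (by simpa using hg)
  exact ⟨e u, e v, by simpa using congrArg e h3⟩

section triv

variable {D : ChevalleyDatum} {K : Type*} [Field K] {G : Type*} [Group G] {x : ℕ → K → G}
  [hD : RootFacts D] [hN : NFacts D]

theorem twD_triv (hx : IsChev D x) (hG : GG x = ⊤) :
    TwD D x (MonoidHom.id G) 1 id (fun _ t => t) ⊤ (fun i => {j | j ∈ [i.1]}) (fun _ => 1)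
      fun i => ⟨x (D.simple i) 1, trivial⟩ where
  sub :=
    { le := hG.ge
      fix := fun _ _ => rfl
      self := by simp
      orb := fun i j hj => ⟨0, (Fin.ext (by simpa using hj)).symm⟩
      rep := fun i => let ⟨n, hn⟩ := NRep.exists_rep x (wJ_mem_W _); ⟨n, trivial, hn⟩
      base := fun _ _ _ _ => trivial }
  tw := ⟨fun _ _ => rfl, fun _ => Iff.rfl, fun _ => Iff.rfl, fun _ _ => rfl, fun _ => rfl, fun _ _ _ h => h,
    fun _ _ _ _ => rfl⟩
  chev := hx
  top := hG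
  pi_mem := by simp
  orb i j hj := by rw [show j.1 = i.1 by simpa using hj]
  exp := by simp
  gen M h1 h2 := hG ▸ hx.toIsSt.GG_le_of_pm_simple
    (fun i t => h1 i ⟨trivial, x_mem_XJ ⟨simple_pos i, simple_inRootSub.2 (by simp)⟩ t⟩)
    fun i t => h2 i ⟨trivial, x_mem_YJ ⟨neg_simple_neg i, H8.inRootSub_neg (simple_inRootSub.2 (by simp))⟩ t⟩
  zmem i := x_mem_XJ ⟨simple_pos i, simple_inRootSub.2 (by simp)⟩ 1
  zco i := Co.self i 1
  zpi _ := rfl

theorem wJ_eq_word {J : List ℕ} (l : List ℕ) (h : (∀ i ∈ fl D l, i.1 ∈ J) ∧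
    ∀ i : Fin D.rank, i.1 ∈ J → D.IsNegRoot (wordW D (fl D l) (D.simple i))) :
    wJ D {j | j ∈ J} = wordW D (fl D l) := (wordW_eq_wJ h.1 h.2).symm

end triv

set_option synthInstance.maxSize 2000 in
theorem sq2_G2 {F : Type*} [Field F] [Fintype F] (p : ℕ) [Fact p.Prime] [CharP F p] (h3 : 3 ≤ Fintype.card F) :
    ∃ x : chevG2.group F, ¬ p ∣ orderOf x ∧ ∀ g : chevG2.group F, g ≠ 1 →
      ∃ u v : chevG2.group F, g = (u * x * u⁻¹) * (v * x * v⁻¹) := by
  have h := twD_triv (H7.isChev_xg (D := chevG2) (F := F)) H7.GG_xg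
  have hx := h.st
  obtain ⟨ξ, η, a0⟩ := h.exists_abO (i := ⟨0, by decide⟩) (RingHom.id F) [(7, RingHom.id F)]
    (by simp) (by simp only [Set.mem_setOf_eq]; decide +kernel) (by simp only [List.map]; decide +kernel)
    (fun t => trivial) (fun t => trivial) (fun t => by simpa [show chevG2.simple 0 = 7 from rfl] using Co.self (D := chevG2) ⟨0, by decide⟩ t)
    (fun _ _ t _ => ⟨t, rfl⟩) (nrep_wJ _ (R := [7]) [0] (by decide +kernel))
  obtain ⟨t₀, h0, h1⟩ : ∃ t : F, t ≠ 0 ∧ t ≠ 1 := by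
    classical
    by_contra hc
    push Not at hc
    have := Finset.card_le_card (show (Finset.univ : Finset F) ⊆ {0, 1} from fun t _ => by
      by_cases h : t = 0 <;> simp [h, hc t])
    have h4 := Finset.card_le_two (a := (0 : F)) (b := 1)
    rw [Finset.card_univ] at this
    omega
  refine sq2_transfer Subgroup.topEquiv (P := fun n => ¬ p ∣ n) (tw_single p h (b := ⟨1, by decide⟩)
    (fun i => by fin_cases i <;> simp) (star_of_word (fl chevG2 [0, 1, 0, 1, 0, 1]) (by decide +kernel) (by decide +kernel))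
    (φ := RingHom.id F) (by simp) rfl (by simp) a0 (fun (χ : Fin 2 → Fˣ) _ => ⟨χ 1 * χ 0 ^ 2, by simp, χ 0 / (χ 1 * χ 0 ^ 2) ^ 2,
      by simp, rfl, fun j => ?_⟩) ?_ ?_ h0 fun r hr h4 => ?_)
  · obtain ⟨h4, h5, h6, h7⟩ := (by decide +kernel : A chevG2 (chevG2.simple 1) (chevG2.simple 0) = -1 ∧
      A chevG2 (chevG2.simple 1) (chevG2.simple 1) = 2 ∧ A chevG2 7 (chevG2.simple 0) = 2 ∧ A chevG2 7 (chevG2.simple 1) = -3)
    fin_cases j <;> simp [h4, h5, h6, h7, zpow_ofNat] <;> field_simp <;> rfl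
  · simp only [wJ_eq_word (D := chevG2) (J := [0]) [0] (by decide +kernel),
      wJ_eq_word (D := chevG2) (J := [1]) [1] (by decide +kernel)]
    decide +kernel
  · simp only [wJ_eq_word (D := chevG2) (J := [0]) [0] (by decide +kernel),
      wJ_eq_word (D := chevG2) (J := [1]) [1] (by decide +kernel)]
    decide +kernel
  · rcases (by decide +kernel : ∀ r < chevG2.nroots, ¬ chevG2.InRootSub {j | j ∈ [1]} r →
      A chevG2 (chevG2.simple 1) r = 1 ∨ A chevG2 (chevG2.simple 1) r = -1 ∨ (A chevG2 (chevG2.simple 1) r = 0 ∧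
        (A chevG2 7 r = 1 ∨ A chevG2 7 r = -1))) r hr h4 with h5 | h5 | ⟨h5, h6 | h6⟩
    · exact Or.inl h5
    · exact Or.inr (Or.inl h5)
    · exact Or.inr (Or.inr ⟨h5, by simpa [h6] using h1⟩)
    · exact Or.inr (Or.inr ⟨h5, by simpa [h6] using h1⟩)

theorem exists_d4_torus {F : Type*} [Field F] {q : ℕ} {φ : F →+* F} (hφ : ∀ t, φ t = t ^ q)
    (h2 : ∀ t, φ (φ (φ t)) = t) {a b : F} (ha : a ≠ 0) (hb : b ≠ 0) (hb' : φ b = b) :
    ∃ t ≠ 0, ∃ u ≠ 0, φ u = u ∧ a * u⁻¹ = t ^ 2 ∧ b * u ^ 2 = (t * φ t * φ (φ t))⁻¹ := by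
  obtain ⟨r, h3, h4⟩ : ∃ r, r ^ 2 = φ a * φ (φ a) ∧ r * φ r * φ (φ r) = a * φ a * φ (φ a) := by
    obtain ⟨k, hk⟩ := Nat.even_mul_succ_self q
    have h3 : (a ^ k) ^ 2 = φ a * φ (φ a) := by
      rw [hφ, hφ, ← pow_mul, ← pow_mul, ← pow_add, mul_two, ← hk]; congr 1; ring
    generalize a ^ k = r at h3
    have h4 := congrArg φ h3
    have h5 := congrArg φ h4
    simp only [map_pow, map_mul, h2] at h4 h5
    rcases sq_eq_sq_iff_eq_or_eq_neg.1 (show (r * φ r * φ (φ r)) ^ 2 = (a * φ a * φ (φ a)) ^ 2 by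
      rw [mul_pow, mul_pow, h3, h4, h5]; ring) with h | h
    · exact ⟨r, h3, h⟩
    · exact ⟨-r, by rw [neg_sq, h3], by simp [h]⟩
  have h5 : φ a ≠ 0 := by simpa
  have h6 : φ (φ a) ≠ 0 := by simpa
  have h7 : r ≠ 0 := fun e => by simp [e, ha] at h3
  refine ⟨r * a * b, by simp [*], (a * φ a * φ (φ a) * b ^ 2)⁻¹, by simp [*], by
    simp only [map_inv₀, map_mul, map_pow, h2, hb']; ring, ?_, ?_⟩
  · rw [inv_inv, mul_pow, mul_pow, h3]; ring
  · simp only [map_mul, hb']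
    rw [show r * a * b * (φ r * φ a * b) * (φ (φ r) * φ (φ a) * b) =
      r * φ r * φ (φ r) * (a * φ a * φ (φ a)) * b ^ 3 by ring, h4]
    field_simp

set_option synthInstance.maxSize 2000 in
theorem sq2_D4 {F : Type*} [Field F] [Fintype F] (p : ℕ) [Fact p.Prime] [CharP F p] {q : ℕ} (hq : 1 < q)
    (hF : Fintype.card F = q ^ 3) : ∃ x : twistedD4 F q, ¬ p ∣ orderOf x ∧ ∀ g : twistedD4 F q, g ≠ 1 →
      ∃ u v : twistedD4 F q, g = (u * x * u⁻¹) * (v * x * v⁻¹) := by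
  obtain ⟨φ, hφ⟩ := exists_frob hF three_ne_zero
  have h2 : ∀ t, φ (φ (φ t)) = t := fun t => by
    rw [hφ, hφ, hφ, ← pow_mul, ← pow_mul, ← pow_three, ← hF, FiniteField.pow_card]
  obtain ⟨σ, hσ⟩ := exists_twistD4 (H7.isChev_xg (F := F)) H7.GG_xg φ
  have h := twD_D4 H7.isChev_xg H7.GG_xg hφ h2 hσ
  have hx := h.st
  obtain ⟨ξ, η, a0⟩ := h.exists_abO (i := ⟨0, by decide⟩) (RingHom.id F) [(18, RingHom.id F), (13, φ), (12, φ.comp φ)]
    (by simp only [List.map]; decide +kernel) (by simp only [Set.mem_setOf_eq]; decide +kernel) (by simp only [List.map]; decide +kernel)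
    (fun t => by simpa [hφ] using mem_d4b (r := 18) (s := 13) (k := 12) (by simp) t)
    (fun t => by simpa [hφ, show chevD4.neg 18 = 5 from rfl, show chevD4.neg 13 = 10 from rfl,
      show chevD4.neg 12 = 11 from rfl] using mem_d4b (r := 5) (s := 10) (k := 11) (by simp) t)
    (fun t => by simpa using co_d4 hx t _ _ ⟨0, by decide⟩) (fun _ _ t _ => ⟨t, rfl⟩)
    (nrep_wJ _ (R := [18, 13, 12]) [0, 2, 3] (by decide +kernel))
  obtain ⟨t₀, h0, h1⟩ : ∃ t : F, t ≠ 0 ∧ t * φ t ≠ φ (φ t) := by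
    by_contra hc
    push Not at hc
    have h3 : ∀ t, t * φ t = φ (φ t) := fun t => by
      by_cases h : t = 0
      · simp [h]
      · exact hc t h
    have h4 : ∀ t, φ t = -t := fun t => by
      have := h3 (t + 1)
      simp only [map_add, map_one, ← h3 t] at this
      linear_combination this
    obtain ⟨t₀, ht₀⟩ := exists_pow_ne (K := F) hq (by rw [hF]; exact lt_self_pow₀ hq (by decide))
    refine ht₀ ?_
    rw [← hφ, h4]
    linear_combination t₀ * (h4 1).symm.trans φ.map_one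
  have h1' : φ t₀ * φ (φ t₀) ≠ t₀ := fun e => h1 (φ.injective (by rw [map_mul, e, h2]))
  have h1'' : φ (φ t₀) * t₀ ≠ φ t₀ := fun e => h1' (φ.injective (by rw [map_mul, h2, e]))
  have h0' : φ t₀ ≠ 0 := by simpa
  have h0'' : φ (φ t₀) ≠ 0 := by simpa
  have hw0 : wJ chevD4 {j | j ∈ oLD4 0} = _ := wJ_eq_word (D := chevD4) (J := [0, 2, 3]) [0, 2, 3] (by decide +kernel)
  have hw1 : wJ chevD4 {j | j ∈ oLD4 1} = _ := wJ_eq_word (D := chevD4) (J := [1]) [1] (by decide +kernel)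
  rw [twistedD4]
  refine sq2_transfer (twEquiv (d4Words F q)) (P := fun n => ¬ p ∣ n) (tw_single p h (b := ⟨1, by decide⟩)
    (fun i => by fin_cases i <;> simp [oLD4])
    (star_of_word (fl chevD4 [0, 2, 3, 1, 0, 2, 3, 1, 0, 2, 3, 1]) (by decide +kernel) (by decide +kernel))
    hφ rfl h2 a0 (fun (χ : Fin 4 → Fˣ) hχ => ?_) ?_ ?_ h0 fun r hr h4 => ?_)
  · have h7 : (χ 2 : F) = φ (χ 0) := by rw [hφ]; exact congrArg Units.val (hχ (0 : Fin 4))
    have h8 : (χ 3 : F) = φ (χ 2) := by rw [hφ]; exact congrArg Units.val (hχ (2 : Fin 4))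
    have h9 : φ (χ 1) = χ 1 := by rw [hφ]; exact (congrArg Units.val (hχ (1 : Fin 4))).symm
    obtain ⟨t, ht, u, hu, g1, g2, g3⟩ := exists_d4_torus hφ h2 (χ 0).ne_zero (χ 1).ne_zero h9
    refine ⟨t, ht, u, hu, g1, fun j => ?_⟩
    have g4 := congrArg φ g2
    have g5 := congrArg φ g4
    simp only [map_mul, map_inv₀, map_pow, g1] at g4 g5
    have hA := (by decide +kernel : ∀ j : Fin chevD4.rank, A chevD4 (chevD4.simple 1) (chevD4.simple j) = [-1, 2, -1, -1].getD j 0 ∧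
      A chevD4 18 (chevD4.simple j) = [2, -1, 0, 0].getD j 0 ∧ A chevD4 13 (chevD4.simple j) = [0, -1, 2, 0].getD j 0 ∧
      A chevD4 12 (chevD4.simple j) = [0, -1, 0, 2].getD j 0) j
    simp only [List.map, hA]
    fin_cases j
    · change (χ 0 : F) * _ = _
      simpa [zpow_ofNat] using g2
    · change (χ 1 : F) * _ = _
      simpa [zpow_ofNat, mul_comm, mul_assoc, mul_left_comm] using g3
    · change (χ 2 : F) * _ = _
      simpa [zpow_ofNat, h7] using g4
    · change (χ 3 : F) * _ = _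
      simpa [zpow_ofNat, h7, h8] using g5
  · simp only [hw0, hw1]
    decide +kernel
  · simp only [hw0, hw1]
    decide +kernel
  · rcases (by decide +kernel : ∀ r < chevD4.nroots, ¬ chevD4.InRootSub {j | j ∈ oLD4 1} r →
      A chevD4 (chevD4.simple 1) r = 1 ∨ A chevD4 (chevD4.simple 1) r = -1 ∨ (A chevD4 (chevD4.simple 1) r = 0 ∧
        (A chevD4 18 r, A chevD4 13 r, A chevD4 12 r) ∈
          [(1, 1, -1), (1, -1, 1), (-1, 1, 1), (-1, -1, 1), (-1, 1, -1), (1, -1, -1)])) r hr h4 with h5 | h5 | ⟨h5, h6⟩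
    · exact Or.inl h5
    · exact Or.inr (Or.inl h5)
    refine Or.inr (Or.inr ⟨h5, fun h7 => ?_⟩)
    simp only [List.mem_cons, Prod.mk.injEq, List.not_mem_nil, or_false] at h6
    rcases h6 with h6 | h6 | h6 | h6 | h6 | h6 <;> simp [h6] at h7 <;> field_simp at h7
    · exact h1 h7
    · exact h1'' (by linear_combination h7)
    · exact h1' h7
    · exact h1 h7.symm
    · exact h1'' (by linear_combination -h7)
    · exact h1' h7.symm

end Cfsg.Agent.H1
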