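import Cfsg.Agent.H1.GA8
import Cfsg.Agent.H7.TwOutF4

/-!
# Squares of semisimple classes in the large Ree groups
-/

set_option autoImplicit false
set_option linter.unusedSectionVars false

namespace Cfsg.Agent.H1

open Matrix Cfsg.Lie Cfsg.Agent.H7 Cfsg.Agent.H8 Cfsg.Agent.H2
open scoped MatrixGroups

local notation "𝐧 " k:max => (⟨k, by decide⟩ : Fin chevF4.rank)

theorem ree_ne_one {E : Type*} [Field E] [CharP E 2] {φ : E →+* E} {μ : E} (h1 : φ (φ μ) ^ 2 * μ = 1) (h3 : μ ^ 3 ≠ 1)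
    {i j : ℤ} (hij : (i, j) ∈ [(0, 1), (0, -1), (1, 0), (-1, 0), (2, 0), (-2, 0), (1, 1), (-1, -1), (1, -1), (-1, 1),
      (2, 1), (-2, -1), (2, -1), (-2, 1)]) : φ μ ^ i * μ ^ j ≠ 1 := by
  have h0 : μ ≠ 0 := fun e => by simp [e] at h1
  have h0' : φ μ ≠ 0 := by simpa
  have a0 : μ ≠ 1 := fun e => h3 (by simp [e])
  have a1 : φ μ ≠ 1 := fun e => a0 (φ.injective (e.trans φ.map_one.symm))
  have a2 : φ μ ^ 2 ≠ 1 := fun e => a1 (frobenius_inj E 2 (by simpa [frobenius_def] using e))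
  have a3 : φ μ * μ ≠ 1 := fun e => h3 (by
    have := congrArg φ e
    rw [map_mul, map_one] at this
    rw [show φ (φ μ) = μ by linear_combination μ * this - φ (φ μ) * e] at h1
    linear_combination h1)
  have a4 : φ μ ≠ μ := fun e => h3 (by rw [e, e] at h1; linear_combination h1)
  have a5 : φ μ ^ 2 * μ ≠ 1 := fun e => a4 (by
    have := congrArg φ e
    rw [map_mul, map_one, map_pow] at this
    linear_combination μ * this - φ μ * h1)
  have a6 : φ μ ^ 2 ≠ μ := fun e => a3 (by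
    have := congrArg φ e
    rw [map_pow] at this
    rwa [this] at h1)
  simp only [List.mem_cons, Prod.mk.injEq, List.not_mem_nil, or_false] at hij
  rcases hij with h | h | h | h | h | h | h | h | h | h | h | h | h | h <;> obtain ⟨rfl, rfl⟩ := h <;>
    intro h <;> simp only [_root_.zpow_neg, zpow_ofNat, pow_zero, pow_one, one_mul, mul_one] at h <;> (try field_simp at h) <;>
    first | exact a0 h | exact a0 h.symm | exact a1 h | exact a1 h.symm | exact a2 h | exact a2 h.symm | exact a3 h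
          | exact a3 h.symm | exact a4 h | exact a4 h.symm | exact a5 h | exact a5 h.symm | exact a6 h | exact a6 h.symm

theorem ree_aux {E : Type*} [Field E] [CharP E 2] {φ ρ : E →+* E} (hc : ∀ t, ρ (φ t) = φ (ρ t)) {ν a : E} (hν : ρ ν = ν⁻¹)
    (ha : ρ a = a) {i j : ℤ} (h : a * (φ ν ^ i * ν ^ j) = 1) : φ ν ^ i * ν ^ j = 1 := by
  have h1 := congrArg ρ h
  rw [map_mul, map_mul, map_zpow₀, map_zpow₀, hc, hν, ha, map_inv₀, _root_.inv_zpow, _root_.inv_zpow, ← mul_inv, map_one] at h1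
  generalize φ ν ^ i * ν ^ j = M at h h1
  have h0 : M ≠ 0 := right_ne_zero_of_mul_eq_one h
  refine frobenius_inj E 2 ?_
  field_simp at h1
  rw [frobenius_def, map_one, ← h, h1, sq]

variable {K : Type*} [Field K] {G : Type*} [Group G] {x : ℕ → K → G}

theorem exists_psiF4 [Finite K] (hx : IsSt chevF4 x) (φ : K →+* K) :
    ∃ ψ : SL(2, K) →* G, (∀ s, ψ (upS s) = x 33 (φ s) * x 24 s) ∧ (∀ s, ψ (loS s) = x 14 (φ s) * x 23 s) ∧
      ψ (wS K) = nE chevF4 x 33 1 * nE chevF4 x 24 1 ∧ ∀ t, ψ (dS t) = hE chevF4 x 33 (φ t) * hE chevF4 x 24 t := by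
  obtain ⟨ψ₁, a1, a2, a3, a4⟩ := exists_psi hx (r := 33) (by decide)
  obtain ⟨ψ₂, b1, b2, b3, b4⟩ := exists_psi hx (r := 24) (by decide)
  rw [show chevF4.neg 33 = 14 from rfl] at a2
  rw [show chevF4.neg 24 = 23 from rfl] at b2
  have hc : ∀ r ∈ [33, 14], ∀ s ∈ [24, 23], ∀ t u, Commute (x r t) (x s u) := fun r hr s hs =>
    let h := (by decide +kernel : ∀ r ∈ [33, 14], ∀ s ∈ [24, 23], s ≠ chevF4.neg r ∧ chevF4.commTerms r s = []) r hr s hs
    hx.commute h.1 h.2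
  have h1 : ∀ r ∈ [33, 14], ∀ t B, Commute (x r t) (ψ₂ B) := fun r hr t B =>
    SL2_mem ψ₂ (M := Subgroup.centralizer {x r t}) (fun s => by simpa [b1, Subgroup.mem_centralizer_iff] using (hc r hr 24 (by simp) t s).eq)
      (fun s => by simpa [b2, Subgroup.mem_centralizer_iff] using (hc r hr 23 (by simp) t s).eq) B _ rfl
  have h2 : ∀ A B, Commute (ψ₂ B) (ψ₁ A) := fun A B =>
    SL2_mem ψ₁ (M := Subgroup.centralizer {ψ₂ B}) (fun s => by simpa [a1, Subgroup.mem_centralizer_iff] using (h1 33 (by simp) s B).symm.eq)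
      (fun s => by simpa [a2, Subgroup.mem_centralizer_iff] using (h1 14 (by simp) s B).symm.eq) A _ rfl
  refine ⟨MonoidHom.mk' (fun A => ψ₁ (SpecialLinearGroup.map φ A) * ψ₂ A) fun A B => ?_, fun s => ?_, fun s => ?_, ?_,
    fun s => ?_⟩
  · rw [map_mul, map_mul, map_mul, (h2 _ _).symm.mul_mul_mul_comm]
  · simp [map_upS, a1, b1]
  · simp [map_loS, a2, b2]
  · simp [map_wS, a3, b3]
  · simp [map_dS, a4, b4]

theorem acts_psiF4 (hx : IsSt chevF4 x) (φ : K →+* K) {t : K} (ht : t ≠ 0) :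
    Acts x (hE chevF4 x 33 (φ t) * hE chevF4 x 24 t) 1 fun r => φ t ^ A chevF4 33 r * t ^ A chevF4 24 r := by
  simpa using (hx.acts_hE (r := 33) (by decide) (by simpa : φ t ≠ 0)).mul (hx.acts_hE (r := 24) (by decide) ht)

theorem acts_conjN {D : ChevalleyDatum} [RootFacts D] [NFacts D] (hx : IsSt D x) {w : Equiv.Perm ℕ} {m h : G}
    (hm : NRep D x m w) {c : ℕ → K} (hh : Acts x h 1 c) : Acts x (m⁻¹ * h * m) 1 fun s => c (w s) := fun s u => by
  obtain ⟨a, -, ha⟩ := hm.acts hx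
  have h1 := hh (w s) (a s * u)
  rw [← ha, Equiv.Perm.one_apply, mul_left_comm, ← ha] at h1
  rw [Equiv.Perm.one_apply, ← (MulAut.conj m).injective.eq_iff, MulAut.conj_apply, MulAut.conj_apply, ← h1]
  group

theorem exists_norm_one {E : Type*} [Field E] [Fintype E] {q : ℕ} (hq : 2 < q) (hE : Fintype.card E = q ^ 2) :
    ∃ μ : E, μ ^ q * μ = 1 ∧ μ ^ 3 ≠ 1 := by
  obtain ⟨ζ, hζ⟩ := IsCyclic.exists_ofOrder_eq_natCard (α := Eˣ)
  obtain ⟨n, rfl⟩ : ∃ n, q = n + 1 := ⟨q - 1, by omega⟩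
  rw [Nat.card_units, Nat.card_eq_fintype_card, hE, show (n + 1) ^ 2 - 1 = n * (n + 2) by
    rw [Nat.sub_eq_iff_eq_add (Nat.one_le_pow 2 (n + 1) n.succ_pos)]; ring] at hζ
  refine ⟨(ζ ^ n : Eˣ), ?_, fun h => ?_⟩
  · rw [← pow_succ, ← Units.val_pow_eq_pow_val, ← pow_mul, ← hζ, pow_orderOf_eq_one, Units.val_one]
  · rw [← Units.val_pow_eq_pow_val, Units.val_eq_one, ← pow_mul, ← orderOf_dvd_iff_pow_eq_one, hζ] at h
    have := Nat.le_of_dvd (by omega) (Nat.dvd_of_mul_dvd_mul_left (by omega) h)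
    omega

set_option synthInstance.maxSize 2000 in
theorem sq2_F4' [Fintype K] [CharP K 2] {m : ℕ} (hm : 1 ≤ m) (hF : Fintype.card K = 2 ^ (2 * m + 1))
    (hx' : IsChev chevF4 x) (hG' : GG x = ⊤) :
    ∃ x₀ : twS x (f4Words K (2 ^ m)), ¬ 2 ∣ orderOf x₀ ∧ ∀ g, g ≠ 1 → Sq2 x₀ g := by
  set φ := iterateFrobenius K 2 m with hφ'
  have hφ : ∀ t : K, φ t = t ^ 2 ^ m := fun _ => rfl
  have h2 : ∀ t, φ (φ t) ^ 2 = t := fun t => by
    rw [hφ, hφ, ← pow_mul, ← pow_mul, ← pow_succ, ← pow_add, ← add_assoc, ← two_mul, ← hF, FiniteField.pow_card]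
  obtain ⟨σ, hσ⟩ := exists_twistF4 hx' hG' φ
  have h := twD_F4 hx' hG' hφ h2 hσ
  have hx := h.st
  have hfin := h.chev.finite_G h.top
  set S := twS x (f4Words K (2 ^ m)) with hS
  obtain ⟨ψK, k1, k2, k3, k4⟩ := exists_psiF4 hx φ
  set ψ := ψK.codRestrict S (SL2_mem _ (fun t => k1 t ▸ mem_f4a (by simp) t) fun t => k2 t ▸ mem_f4a (by simp) t) with hψ
  have l1 : ∀ s, (ψ (upS s) : G) = x 33 (φ s) * x 24 s := k1
  have l2 : ∀ s, (ψ (loS s) : G) = x 14 (φ s) * x 23 s := k2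
  have l4 : ∀ t ≠ 0, (ψ (dS t) : G) ∈ HH chevF4 x ∧
      Acts x (ψ (dS t) : G) 1 fun r => φ t ^ A chevF4 33 r * t ^ A chevF4 24 r := fun t ht => by
    rw [show (ψ (dS t) : G) = _ from k4 t]
    exact ⟨mul_mem (hE_mem_HH x (by decide) (by simpa)) (hE_mem_HH x (by decide) ht), acts_psiF4 hx φ ht⟩
  have hch : ∀ g : S, (g : G) ∈ HH chevF4 x → ∀ c, Acts x g 1 c → c 33 = φ (c 24) ∧ c 27 = φ (c 25) ∧ c 24 ≠ 0 ∧
      c 25 ≠ 0 ∧ c 14 = (c 33)⁻¹ ∧ c 23 = (c 24)⁻¹ := fun g hg c hc => by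
    obtain ⟨a, ha⟩ := hx.acts_of_mem_HH hg
    have g1 := h.chS_le (mem_chS_of_acts hx g.2 hg ha fun _ => rfl)
    have g4 : ∀ r < chevF4.nroots, c r = torChar a (wt chevF4 r) := fun r hr => by
      simpa using h.faith.x_inj hr ((hc r 1).symm.trans (ha r 1))
    have g5 := (goodScal_torChar a).neg (s := 33) (by decide)
    have g6 := (goodScal_torChar a).neg (s := 24) (by decide)
    rw [g4 33 (by decide), g4 24 (by decide), g4 27 (by decide), g4 25 (by decide), g4 14 (by decide), g4 23 (by decide)]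
    exact ⟨congrArg Units.val (g1 (𝐧 3)), congrArg Units.val (g1 (𝐧 2)), Units.ne_zero _, Units.ne_zero _, g5, g6⟩
  have hact : ∀ g : S, (g : G) ∈ HH chevF4 x → ∀ c, Acts x g 1 c →
      (∀ s, g * ψ (upS s) * g⁻¹ = ψ (upS (c 24 * s))) ∧ ∀ s, g * ψ (loS s) * g⁻¹ = ψ (loS ((c 24)⁻¹ * s)) :=
    fun g hg c hc => by
      obtain ⟨g1, -, -, -, g2, g3⟩ := hch g hg c hc
      refine ⟨fun s => Subtype.ext ?_, fun s => Subtype.ext ?_⟩
      · change MulAut.conj (g : G) (ψ (upS s)) = _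
        simp only [l1, map_mul, MulAut.conj_apply, hc _ _]
        simp [g1]
      · change MulAut.conj (g : G) (ψ (loS s)) = _
        simp only [l2, map_mul, MulAut.conj_apply, hc _ _]
        simp [g1, g2, g3]
  have hext : ∀ g g' : S, (g : G) ∈ HH chevF4 x → (g' : G) ∈ HH chevF4 x → ∀ c c', Acts x g 1 c → Acts x g' 1 c' →
      c 24 = c' 24 → c 25 = c' 25 → g = g' := fun g g' hg hg' c c' hc hc' e1 e2 => by
    obtain ⟨g1, g2, -⟩ := hch g hg c hc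
    obtain ⟨g3, g4, -⟩ := hch g' hg' c' hc'
    refine Subtype.ext (h.chev.HH_ext_simple hg hg' fun i => ?_)
    rw [hc, hc']
    fin_cases i
    · exact congrArg (fun t => x 33 (t * 1)) (show c 33 = c' 33 by rw [g1, g3, e1])
    · exact congrArg (fun t => x 27 (t * 1)) (show c 27 = c' 27 by rw [g2, g4, e2])
    · exact congrArg (fun t => x 25 (t * 1)) e2
    · exact congrArg (fun t => x 24 (t * 1)) e1
  have hw0 : wJ chevF4 {j | j ∈ oLF4 2} = _ := wJ_eq_word (D := chevF4) (J := [1, 2]) [1, 2, 1, 2] (by decide +kernel)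
  have hw1 : wJ chevF4 {j | j ∈ oLF4 3} = _ := wJ_eq_word (D := chevF4) (J := [0, 3]) [0, 3] (by decide +kernel)
  obtain ⟨v, u, na, u', hv, hu, hna, hu', e⟩ : ∃ v u na u' : S, (v : G) ∈ YJ chevF4 x {j | j ∈ oLF4 2} ∧
      (u : G) ∈ XJ chevF4 x {j | j ∈ oLF4 2} ∧ NRep chevF4 x na (wJ chevF4 {j | j ∈ oLF4 2}) ∧
      (u' : G) ∈ XJ chevF4 x {j | j ∈ oLF4 2} ∧ v = u * na * u' := by
    obtain ⟨n, hn, g1⟩ := h.sub.rep (𝐧 2)
    have g2 := conj_XJ hx g1 (h.zmem (𝐧 2))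
    have g3 : n * zF4 x hφ (𝐧 2) * n⁻¹ ∈ S := mul_mem (mul_mem hn (Subtype.prop _)) (inv_mem hn)
    obtain ⟨u, na, u', g4, g5, g6, e⟩ := h.bruhat ⟨_, g3⟩ ((h.cell_cases g3 (YJ_le_PJ hx _ g2)).resolve_left fun g4 =>
      h.z_ne (𝐧 2) (by simpa [mul_inv_eq_one] using h.faith.eq_one_of_VV_BB (YJ_le _ g2) g4))
    rw [Um_wJ] at g6
    obtain ⟨a, b, g7, g8, rfl⟩ := tw_split h (𝐧 2) g4
    have hX : ∀ {g}, g ∈ XJ chevF4 x {j | j ∈ oLF4 2} → g ∈ LJ chevF4 x {j | j ∈ oLF4 2} := fun hg =>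
      XS_le.2 (fun r hr t => x_mem_LJ hr.2 t) hg
    obtain rfl : b = 1 := Subtype.ext (h.faith.eq_one_of_UJ_LJ g8 (by
      have := mul_mem (mul_mem (mul_mem (inv_mem (hX g7)) (XS_le.2 (fun r hr t => x_mem_LJ hr.2 t) g2))
        (inv_mem (hX g6))) (inv_mem (NRep_mem_LJ hx g5 (wJ_mem _)))
      rw [show n * _ * n⁻¹ = _ from congrArg Subtype.val e] at this
      simpa [mul_assoc] using this))
    exact ⟨_, a, na, u', g2, g7, g5, g6, by simpa using e⟩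
  have hcj : ∀ t ≠ 0, ((na⁻¹ * ψ (dS t) * na : S) : G) ∈ HH chevF4 x ∧ Acts x ((na⁻¹ * ψ (dS t) * na : S) : G) 1 fun r =>
      φ t ^ A chevF4 33 (wordW chevF4 (fl chevF4 [1, 2, 1, 2]) r) * t ^ A chevF4 24 (wordW chevF4 (fl chevF4 [1, 2, 1, 2]) r) :=
    fun t ht => ⟨by simpa using hx.NN_conj_HH (inv_mem hna.mem_NN) (l4 t ht).1, acts_conjN hx (hw0 ▸ hna) (l4 t ht).2⟩
  have hA : A chevF4 33 24 = 0 ∧ A chevF4 24 24 = 2 ∧ A chevF4 33 25 = 0 ∧ A chevF4 24 25 = -1 ∧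
      A chevF4 33 (wordW chevF4 (fl chevF4 [1, 2, 1, 2]) 24) = -2 ∧ A chevF4 24 (wordW chevF4 (fl chevF4 [1, 2, 1, 2]) 24) = 0 ∧
      A chevF4 33 (wordW chevF4 (fl chevF4 [1, 2, 1, 2]) 25) = 0 ∧ A chevF4 24 (wordW chevF4 (fl chevF4 [1, 2, 1, 2]) 25) = 1 := by
    decide +kernel
  have hG := gaussD h 2 (a := 𝐧 2) (b := 𝐧 3) (fun i => by fin_cases i <;> simp [oLF4])
    (by rw [star_F4]; exact h.sub.self _) (L := K) (by rw [Nat.card_eq_fintype_card, hF]; exact dvd_pow_self 2 (by omega)) ψ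
    (fun s => l1 s ▸ mul_mem (x_mem_XJ (by decide +kernel) _) (x_mem_XJ (by decide +kernel) _))
    (fun g hg => by
      obtain ⟨f, hf⟩ := hx.exists_oprod_wJ (J := [0, 3]) (R := [33, 24]) (by decide) (by decide +kernel) (by decide +kernel)
        (Um_wJ (D := chevF4) (x := x) _ ▸ hg)
      have g1 := h.sub.fix g g.2
      rw [hf] at g1
      have h10 := oprod_inj_pos h.faith (L := [33, 24]) (by decide +kernel) (by decide) (f := f)
        (f' := fun k => if k = 33 then φ (f 24) else φ (f 33) ^ 2)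
        (by rw [← g1]; simpa using twF4a hx h.tw (by simp) _ _) 33 (by simp)
      exact ⟨f 24, Subtype.ext (by simp [hf, l1, h10])⟩)
    (fun s => l2 s ▸ mul_mem (x_mem_YJ (by decide +kernel) _) (x_mem_YJ (by decide +kernel) _))
    (fun s hs => by
      simpa using h.faith.oprod_inj w0_mem (L := [14, 23]) (fun k hk => w0_pos_of_neg (by revert k; decide +kernel)) (by decide)
        (f := fun k => if k = 14 then φ s else s) (f' := fun _ => 0)
        (by simpa [hx.zero] using (l2 s).symm.trans (congrArg Subtype.val hs)) 23 (by simp))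
    (by rw [show (ψ (wS K) : G) = _ from k3]; simpa using nrep_wJ x (R := [33, 24]) [0, 3] (by decide +kernel))
    (fun t ht => (l4 t ht).1)
    (fun g hg => by
      obtain ⟨a, ha⟩ := hx.acts_of_mem_HH hg
      exact ⟨_, (hch g hg _ ha).2.2.1, hact g hg _ ha⟩) hna
    (fun g hg => by
      obtain ⟨c, ha⟩ : ∃ c, Acts x (g : G) 1 c := let ⟨_, ha⟩ := hx.acts_of_mem_HH hg; ⟨_, ha⟩
      obtain ⟨-, -, g1, g2, -⟩ := hch g hg _ ha
      obtain ⟨y, hy, g3⟩ : ∃ y ≠ 0, c 24 * c 25 ^ 2 * y ^ 2 = φ y ^ 2 := by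
        have g3 : c 24 * c 25 ^ 2 ≠ 0 := by simp [g1, g2]
        generalize c 24 * c 25 ^ 2 = γ at g3
        have g4 : φ γ ≠ 0 := by simpa
        refine ⟨(γ * φ γ)⁻¹, by simp [g3], ?_⟩
        rw [map_inv₀, map_mul, inv_pow, inv_pow, mul_pow (φ γ), h2]
        field_simp
      have g4 : c 25 * y ^ 2 ≠ 0 := by simp [g2, hy]
      have g5 : φ y ≠ 0 := by simpa
      have g6 := mul_mem hg (l4 _ g4).1
      have g7 := hext (g * ψ (dS (c 25 * y ^ 2)) * (na⁻¹ * ψ (dS y) * na)) (ψ (dS y)) (mul_mem g6 (hcj y hy).1) (l4 y hy).1 _ _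
        (by simpa using (ha.mul (l4 _ g4).2).mul (hcj y hy).2) (l4 y hy).2
        (by simp only [hA, zpow_ofNat, _root_.zpow_neg]; field_simp; linear_combination g3)
        (by simp only [hA, zpow_ofNat, _root_.zpow_neg]; field_simp)
      refine ⟨_, g6, ψ (dS y) * u * (ψ (dS y))⁻¹, (g * ψ (dS (c 25 * y ^ 2)))⁻¹ * (ψ (dS y) * u'⁻¹ * (ψ (dS y))⁻¹) *
        (g * ψ (dS (c 25 * y ^ 2)))⁻¹⁻¹, ψ (dS y) * v * (ψ (dS y))⁻¹, hx.HH_conj_XS (l4 y hy).1 hu,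
        hx.HH_conj_XS (inv_mem g6) (hx.HH_conj_XS (l4 y hy).1 (inv_mem hu')), hx.HH_conj_XS (l4 y hy).1 hv, ?_⟩
      rw [eq_mul_inv_of_mul_eq g7, e]; group)
    (by simp only [hw0, hw1]; decide +kernel) (by simp only [hw0, hw1]; decide +kernel)
  obtain ⟨t, ht⟩ := exists_pow_ne (K := K) one_lt_two (hF ▸ lt_self_pow₀ one_lt_two (by omega))
  have t0 : t ≠ 0 := fun e => ht (by simp [e])
  have t1 : t ≠ 1 := fun e => ht (by simp [e])
  have t2 : φ t ≠ 0 := by simpa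
  have t3 : φ t ^ 2 ≠ 1 := fun e => t1 (φ.injective (frobenius_inj K 2 (by simpa [frobenius_def] using e)))
  obtain ⟨h₀, hh, c, hc, d0, d6⟩ : ∃ h₀ : S, (h₀ : G) ∈ HH chevF4 x ∧ ∃ c, Acts x (h₀ : G) 1 c ∧ c 24 = 1 ∧
      ∀ r ∈ [2, 8, 39, 45], c r ≠ 1 := by
    refine ⟨na⁻¹ * ψ (dS t) * na * ψ (dS (φ t)), mul_mem (hcj t t0).1 (l4 _ t2).1, _,
      by simpa using (hcj t t0).2.mul (l4 _ t2).2, by simp [hA, zpow_ofNat, t2], fun r hr => ?_⟩
    obtain ⟨h7, h8, h9⟩ := (by decide +kernel : ∀ r ∈ [2, 8, 39, 45], A chevF4 33 r = 0 ∧ A chevF4 24 r = 0 ∧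
      (A chevF4 33 (wordW chevF4 (fl chevF4 [1, 2, 1, 2]) r), A chevF4 24 (wordW chevF4 (fl chevF4 [1, 2, 1, 2]) r)) ∈
        [(2, 0), (-2, 0), (0, 1), (0, -1)]) r hr
    simp only [List.mem_cons, Prod.mk.injEq, List.not_mem_nil, or_false] at h9
    rcases h9 with h9 | h9 | h9 | h9 <;> simp [h7, h8, h9, zpow_ofNat, t1, t3]
  obtain ⟨d1, -, -, -, d2, d3⟩ := hch _ hh _ hc
  obtain ⟨d4, d5⟩ := hact _ hh _ hc
  rw [d0] at d1 d3 d4 d5
  obtain ⟨E, _, _, _, ⟨Q⟩⟩ := exists_quadEmb K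
  obtain ⟨μ, m1, m3⟩ := exists_norm_one (hF ▸ lt_self_pow₀ one_lt_two (by omega)) Q.card_E
  have hμ0 : μ ≠ 0 := fun e => by simp [e] at m1
  have : CharP E 2 := charP_of_injective_algebraMap (algebraMap K E).injective 2
  set φ' := iterateFrobenius E 2 m with hφ''
  have hφE : ∀ t : E, φ' t = t ^ 2 ^ m := fun _ => rfl
  have hι : ∀ t, algebraMap K E (φ t) = φ' (algebraMap K E t) := fun t => by rw [hφ, hφE, map_pow]
  have hq : ∀ t, φ' (φ' t) ^ 2 = t ^ Fintype.card K := fun t => by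
    rw [hφE, hφE, ← pow_mul, ← pow_mul, ← pow_succ, ← pow_add, ← add_assoc, ← two_mul, ← hF]
  have hy : IsChev chevF4 (xg chevF4 E) := H7.isChev_xg
  obtain ⟨θ, hinj, hθ⟩ := exists_ext (algebraMap K E) h.chev h.top hy
  obtain ⟨ψ', n1, n2, -, n4⟩ := exists_psiF4 hy.toIsSt φ'
  have hA' := ext_acts hθ hy.toIsFaith hh hc
  have hsub : ∀ r ∈ [33, 24, 14, 23], chevF4.InRootSub {j | j ∈ oLF4 3} r := by decide +kernel
  refine GaussD.elliptic hθ 2 hG hy hinj (algebraMap K E) ψ' (fun s => by simp [l1, n1, hθ, hι])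
    (fun s => by simp [l2, n2, hθ, hι]) (SL2_mem _ (fun s => n1 s ▸ mul_mem (x_mem_LJ (hsub _ (by simp)) _)
      (x_mem_LJ (hsub _ (by simp)) _)) fun s => n2 s ▸ mul_mem (x_mem_LJ (hsub _ (by simp)) _) (x_mem_LJ (hsub _ (by simp)) _))
    hh one_ne_zero (fun s => ?_) (fun s => ?_) d4 d5 (τ := (Q.ι μ).trace) (μ := μ)
    (by rw [Q.trace_eq, map_one]; linear_combination -m1) (fun e => ?_)
    (n4 _ ▸ mul_mem (hE_mem_HH _ (by decide) (by simpa)) (hE_mem_HH _ (by decide) (inv_ne_zero hμ0)))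
    (n4 _ ▸ hA'.mul (acts_psiF4 hy.toIsSt φ' (inv_ne_zero hμ0))) fun r h4 h5 => ?_
  · change MulAut.conj _ (ψ' (upS s)) = _
    simp only [n1, map_mul, MulAut.conj_apply, hA' _ _]
    simp [d0, d1]
  · change MulAut.conj _ (ψ' (loS s)) = _
    simp only [n2, map_mul, MulAut.conj_apply, hA' _ _]
    simp [d1, d2, d3]
  · refine m3 ?_
    rw [map_one] at e
    rw [show μ = 1 from frobenius_inj E 2 (by simpa [frobenius_def] using e), one_pow]
  · simp only [Equiv.Perm.coe_one, id]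
    intro h6
    rcases (by decide +kernel : ∀ r < chevF4.nroots, ¬ chevF4.InRootSub {j | j ∈ oLF4 3} r →
      (A chevF4 33 r, A chevF4 24 r) ∈ [(0, 1), (0, -1), (1, 0), (-1, 0), (2, 0), (-2, 0), (1, 1), (-1, -1), (1, -1), (-1, 1),
        (2, 1), (-2, -1), (2, -1), (-2, 1)] ∨ (A chevF4 33 r = 0 ∧ A chevF4 24 r = 0 ∧ r ∈ [2, 8, 39, 45])) r h4 h5 with
      h7 | ⟨h7, h8, h9⟩
    · have g1 : ∀ t, iterateFrobenius E 2 (2 * m + 1) t = t ^ Fintype.card K := fun t => hF ▸ rfl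
      refine ree_ne_one (φ := φ') (μ := μ⁻¹) (by rw [hq, inv_pow, ← mul_inv, m1, inv_one]) (by simpa using m3) h7
        (ree_aux (ρ := iterateFrobenius E 2 (2 * m + 1)) (fun t => by rw [g1, g1, map_pow]) ?_
          (by rw [g1, ← map_pow, FiniteField.pow_card]) h6)
      rw [g1, inv_pow, eq_inv_of_mul_eq_one_left m1]
    · exact d6 r h9 ((algebraMap K E).injective (by simpa [h7, h8] using h6))

theorem sq2_F4 {F : Type*} [Field F] [Fintype F] {m : ℕ} (hm : 1 ≤ m) (hF : Fintype.card F = 2 ^ (2 * m + 1)) :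
    ∃ x : twistedF4 F (2 ^ m), Odd (orderOf x) ∧ ∀ g : twistedF4 F (2 ^ m), g ≠ 1 →
      ∃ u v : twistedF4 F (2 ^ m), g = (u * x * u⁻¹) * (v * x * v⁻¹) := by
  have : CharP F 2 := charP_of_card_eq_prime_pow hF
  rw [twistedF4]
  refine sq2_transfer (twEquiv (f4Words F _)) ?_
  simpa [Nat.odd_iff] using sq2_F4' hm hF H7.isChev_xg H7.GG_xg

end Cfsg.Agent.H1
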