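import Cfsg.Agent.H1.GL2Ps

/-!
# Cuspidal characters of `GL₂` and the list of irreducible characters
-/

set_option autoImplicit false
set_option linter.unusedSectionVars false

namespace Cfsg.Agent.H1

open Cfsg Module Cfsg.Agent.H2 Matrix
open scoped ComplexConjugate MatrixGroups

variable {F : Type*} [Field F] [Fintype F] [DecidableEq F]

theorem trace_upEl (a d : Fˣ) (c : F) : (upEl a d c).1.trace = a + d := by
  simp [trace_fin_two]

theorem det_upEl (a d : Fˣ) (c : F) : (upEl a d c).1.det = a * d := by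
  simp [det_fin_two]

theorem isScal_upEl (a d : Fˣ) (c : F) : IsScal (upEl a d c).1 ↔ c = 0 ∧ a = d := by
  simp [IsScal, Units.ext_iff]

theorem sum_split_zero (f : F → ℂ) (x y : ℂ) (h0 : f 0 = x) (h1 : ∀ c, c ≠ 0 → f c = y) :
    ∑ c, f c = x + ((Fintype.card F : ℂ) - 1) * y := by
  rw [← Finset.add_sum_erase _ _ (Finset.mem_univ 0), h0,
    Finset.sum_congr rfl (g := fun _ => y) (fun c hc => h1 c (by simpa using hc))]
  simp [cast_card_sub_one]

theorem sum_ps_upEl (α β : MulChar F ℂ) (a d : Fˣ) :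
    ∑ c, ps α β (upEl a d c) = Fintype.card F * (α a * β d + α d * β a) := by
  by_cases h : a = d
  · subst h
    rw [sum_split_zero _ (((Fintype.card F : ℂ) + 1) * (α a * β a)) (α a * β a)]
    · ring
    · rw [ps_scal _ _ (by simp [IsScal])]; simp
    · intro c hc
      exact ps_jordan _ _ (by simp [IsScal, hc]) (trace_upEl _ _ _) (det_upEl _ _ _)
  · have h' : (a : F) ≠ d := fun e => h (Units.ext e)
    simp [fun c => ps_split α β h' (trace_upEl a d c) (det_upEl a d c), mul_add]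

open Classical in
theorem sum_units_mul_conj {K : Type*} [Field K] [Fintype K] [DecidableEq K] (α β : MulChar K ℂ) :
    ∑ a : Kˣ, α a * conj (β a) = if α = β then (Fintype.card K : ℂ) - 1 else 0 := by
  rw [sum_units_eq (fun a => α a * conj (β a)) (by simp [MulChar.map_zero]), sum_mulChar_mul_conj]

open Classical in
theorem inner_ps_ps (α β α' β' : MulChar F ℂ) :
    classInner (ps α β) (ps α' β') =
      (if α = α' ∧ β = β' then 1 else 0) + (if α = β' ∧ β = α' then 1 else 0) := by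
  rw [inner_ps _ _ (isClassFunction_ps _ _)]
  have : ∑ a : Fˣ, ∑ d : Fˣ, α a * β d * conj (∑ c : F, ps α' β' (upEl a d c)) =
      Fintype.card F * ((∑ a : Fˣ, α a * conj (α' a)) * (∑ d : Fˣ, β d * conj (β' d)) +
        (∑ a : Fˣ, α a * conj (β' a)) * (∑ d : Fˣ, β d * conj (α' d))) := by
    rw [Finset.sum_mul_sum, Finset.sum_mul_sum]
    simp only [sum_ps_upEl, ← Finset.sum_add_distrib, Finset.mul_sum,
      map_mul, map_add, map_natCast]
    refine Finset.sum_congr rfl (fun a _ => Finset.sum_congr rfl (fun d _ => by ring))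
  rw [this]
  simp only [sum_units_mul_conj]
  have h1 := card_sub_one_ne_zero (K := F)
  have h2 := card_field_ne_zero (K := F)
  by_cases e1 : α = α' <;> by_cases e2 : β = β' <;> by_cases e3 : α = β' <;>
    by_cases e4 : β = α' <;> simp only [e1, e2, e3, e4, if_true, if_false, and_self, and_true,
      and_false, true_and, false_and, eq_self] <;> simp_all <;> field_simp

open Classical in
theorem inner_ps_lin (α β γ : MulChar F ℂ) :
    classInner (ps α β) (lin γ) = if α = γ ∧ β = γ then 1 else 0 := by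
  rw [inner_ps _ _ (IsCharacter.isClassFunction (IsIrrCharacter.isCharacter (isIrr_lin γ)))]
  have : ∑ a : Fˣ, ∑ d : Fˣ, α a * β d * conj (∑ c : F, lin γ (upEl a d c)) =
      Fintype.card F * ((∑ a : Fˣ, α a * conj (γ a)) * (∑ d : Fˣ, β d * conj (γ d))) := by
    rw [Finset.sum_mul_sum]
    simp only [lin, det_upEl, Finset.mul_sum,
      map_mul, map_natCast, Finset.sum_const, Finset.card_univ, nsmul_eq_mul]
    refine Finset.sum_congr rfl (fun a _ => Finset.sum_congr rfl (fun d _ => by ring))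
  rw [this]
  simp only [sum_units_mul_conj]
  have h1 := card_sub_one_ne_zero (K := F)
  have h2 := card_field_ne_zero (K := F)
  by_cases e1 : α = γ <;> by_cases e2 : β = γ <;> simp [e1, e2]
  field_simp

theorem isIrr_ps {α β : MulChar F ℂ} (h : α ≠ β) : IsIrrCharacter _ (ps α β) := by
  apply IsCharacter.isIrr (isCharacter_ps α β)
  rw [inner_ps_ps]
  simp [h]

/-- the twisted Steinberg characters -/
noncomputable def st (γ : MulChar F ℂ) : GL (Fin 2) F → ℂ := ps γ γ - lin γ

theorem isIrr_st (γ : MulChar F ℂ) : IsIrrCharacter _ (st γ) :=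
  (IsCharacter.isIrr_sub_of_norm_two (isCharacter_ps γ γ) (by rw [inner_ps_ps]; simp; norm_num)
    (isIrr_lin γ) (by rw [inner_ps_lin]; simp)).1

theorem st_one (γ : MulChar F ℂ) : st γ 1 = Fintype.card F := by
  simp [st, ps_one, lin_one]

theorem st_scal (γ : MulChar F ℂ) {g : GL (Fin 2) F} (h : IsScal g.1) :
    st γ g = Fintype.card F * γ g.1.det := by
  simp only [st, Pi.sub_apply, ps_scal _ _ h, lin, scal_det h, map_mul]; ring

theorem st_jordan (γ : MulChar F ℂ) {g : GL (Fin 2) F} (h : ¬ IsScal g.1) {a : F}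
    (ht : g.1.trace = a + a) (hd : g.1.det = a * a) : st γ g = 0 := by
  simp only [st, Pi.sub_apply, ps_jordan _ _ h ht hd, lin, hd, map_mul]; ring

theorem st_split (γ : MulChar F ℂ) {g : GL (Fin 2) F} {a b : F} (hab : a ≠ b)
    (ht : g.1.trace = a + b) (hd : g.1.det = a * b) : st γ g = γ g.1.det := by
  simp only [st, Pi.sub_apply, ps_split _ _ hab ht hd, lin, hd, map_mul]; ring

theorem st_ell (γ : MulChar F ℂ) {g : GL (Fin 2) F}
    (h : ∀ x : F, x ^ 2 - g.1.trace * x + g.1.det ≠ 0) : st γ g = - γ g.1.det := by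
  simp only [st, Pi.sub_apply, ps_ell _ _ h, lin]; ring

variable {E : Type*} [Field E] [Fintype E] [DecidableEq E] [Algebra F E] (Q : QuadEmb F E)

open Classical in
/-- the cuspidal (virtual) character attached to a character of the quadratic extension -/
noncomputable def cusp (θ : MulChar E ℂ) : GL (Fin 2) F → ℂ := fun g =>
  if IsScal g.1 then ((Fintype.card F : ℂ) - 1) * θ (algebraMap F E (g.1 0 0)) else
    - ∑ ξ : E, if (Q.ι ξ).trace = g.1.trace ∧ (Q.ι ξ).det = g.1.det then θ ξ else 0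

theorem cusp_scal (θ : MulChar E ℂ) {g : GL (Fin 2) F} (h : IsScal g.1) :
    cusp Q θ g = ((Fintype.card F : ℂ) - 1) * θ (algebraMap F E (g.1 0 0)) := by
  simp [cusp, h]

theorem cusp_one (θ : MulChar E ℂ) : cusp Q θ 1 = (Fintype.card F : ℂ) - 1 := by
  rw [cusp_scal Q θ (by simp [IsScal])]
  simp

theorem cusp_jordan (θ : MulChar E ℂ) {g : GL (Fin 2) F} (h : ¬ IsScal g.1) {a : F}
    (ht : g.1.trace = a + a) (hd : g.1.det = a * a) : cusp Q θ g = - θ (algebraMap F E a) := by
  have e1 : (Q.ι (algebraMap F E a)).trace = a + a := by rw [Q.ι_algebraMap]; simp [mul_two]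
  have e2 : (Q.ι (algebraMap F E a)).det = a * a := by rw [Q.ι_algebraMap]; simp [sq]
  simp only [cusp, h, if_false, ht, hd, ← e1, ← e2, Q.trace_det_eq_iff,
    QuadEmb.algebraMap_pow_card, or_self, Finset.sum_ite_eq', Finset.mem_univ, if_true]

theorem cusp_split (θ : MulChar E ℂ) {g : GL (Fin 2) F} {a b : F} (hab : a ≠ b)
    (ht : g.1.trace = a + b) (hd : g.1.det = a * b) : cusp Q θ g = 0 := by
  simp only [cusp, not_isScal_of_split hab ht hd, if_false, neg_eq_zero]
  refine Finset.sum_eq_zero (fun ξ _ => ?_)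
  rw [if_neg]
  rintro ⟨h1, h2⟩
  have hns := not_isScal_of_split hab (h1.trans ht) (h2.trans hd)
  apply Q.no_root hns a
  rw [h1, h2, ht, hd]; ring

theorem cusp_ell (θ : MulChar E ℂ) {g : GL (Fin 2) F} {ξ : E} (hξ : ¬ IsScal (Q.ι ξ))
    (ht : (Q.ι ξ).trace = g.1.trace) (hd : (Q.ι ξ).det = g.1.det) :
    cusp Q θ g = - (θ ξ + θ (ξ ^ Fintype.card F)) := by
  have hg : ¬ IsScal g.1 := not_isScal_of_no_root (by rw [← ht, ← hd]; exact Q.no_root hξ)
  have hne : ξ ≠ ξ ^ Fintype.card F := by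
    intro e
    exact hξ ((Q.isScal_iff' ξ).mpr ((QuadEmb.pow_card_eq_iff ξ).mp e.symm))
  simp only [cusp, hg, if_false, ← ht, ← hd, Q.trace_det_eq_iff]
  rw [← Finset.sum_filter, Finset.filter_or, Finset.filter_eq', Finset.filter_eq']
  simp [hne]

/-- the four kinds of elements, with the eigenvalue in the quadratic extension -/
theorem gl2_cases' (g : GL (Fin 2) F) :
    (IsScal g.1 ∧ g.1 0 0 ≠ 0) ∨
    (¬ IsScal g.1 ∧ ∃ a : F, a ≠ 0 ∧ g.1.trace = a + a ∧ g.1.det = a * a) ∨
    (∃ a b : F, a ≠ 0 ∧ b ≠ 0 ∧ a ≠ b ∧ g.1.trace = a + b ∧ g.1.det = a * b) ∨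
    ((∀ x : F, x ^ 2 - g.1.trace * x + g.1.det ≠ 0) ∧ ∃ ξ : E, ξ ≠ 0 ∧ ¬ IsScal (Q.ι ξ) ∧
      (Q.ι ξ).trace = g.1.trace ∧ (Q.ι ξ).det = g.1.det) := by
  rcases gl2_cases g with h | h | h | h
  · exact Or.inl h
  · exact Or.inr (Or.inl h)
  · exact Or.inr (Or.inr (Or.inl h))
  · obtain ⟨ξ, h1, h2, h3⟩ := Q.exists_of_no_root h
    refine Or.inr (Or.inr (Or.inr ⟨h, ξ, ?_, h1, h2, h3⟩))
    rintro rfl
    simp [IsScal] at h1

theorem card_GL2' : (Nat.card (GL (Fin 2) F) : ℂ) =
    ((Fintype.card F : ℂ) ^ 2 - 1) * ((Fintype.card F : ℂ) ^ 2 - Fintype.card F) := by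
  rw [card_GL2, Nat.card_eq_fintype_card]
  have hq := Fintype.one_lt_card (α := F)
  rw [Nat.cast_mul, Nat.cast_sub (Nat.one_le_pow _ _ (by omega)),
    Nat.cast_sub (by nlinarith)]
  simp

include Q in
theorem card_unitsE : (Nat.card Eˣ : ℂ) = (Fintype.card F : ℂ) ^ 2 - 1 := by
  rw [Nat.card_units, Nat.card_eq_fintype_card, cast_card_sub_one, Q.card_E]
  simp

theorem card_sq_sub_one_ne_zero : (Fintype.card F : ℂ) ^ 2 - 1 ≠ 0 := by
  rw [show (Fintype.card F : ℂ) ^ 2 - 1 = (Fintype.card F + 1) * (Fintype.card F - 1) by ring]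
  exact mul_ne_zero card_add_one_ne_zero card_sub_one_ne_zero

/-- the character induced from the non-split torus -/
noncomputable def indE (θ : MulChar E ℂ) : GL (Fin 2) F → ℂ := indHom Q.ιu (fun ξ => θ ξ)

theorem isCharacter_indE (θ : MulChar E ℂ) : IsCharacter _ (indE Q θ) :=
  IsCharacter.indHom _ (isCharacter_hom (θ.toMonoidHom.comp (Units.coeHom E)))

theorem indE_scal (θ : MulChar E ℂ) {g : GL (Fin 2) F} (h : IsScal g.1) :
    indE Q θ g = ((Fintype.card F : ℂ) ^ 2 - Fintype.card F) * θ (algebraMap F E (g.1 0 0)) := by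
  have h0 := (upper_diag_ne_zero h.2.1).1
  have e : g = Q.ιu (Units.mk0 (algebraMap F E (g.1 0 0)) (by simpa using h0)) := by
    apply Units.ext
    rw [QuadEmb.coe_ιu, Units.val_mk0, Q.ι_algebraMap]
    obtain ⟨h1, h2, h3⟩ := h
    apply m2_ext <;> simp [h1, h2, h3]
  have hc : g ∈ Subgroup.center (GL (Fin 2) F) := by
    rw [Subgroup.mem_center_iff]
    intro x
    exact Units.ext (h.comm x.1)
  unfold indE
  conv_lhs => rw [e]
  rw [indHom_apply_central _ Q.ιu_injective _ _ (e ▸ hc), card_GL2', card_unitsE Q]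
  have := card_sq_sub_one_ne_zero (F := F)
  field_simp
  rfl

theorem indE_of_root (θ : MulChar E ℂ) {g : GL (Fin 2) F} (h : ¬ IsScal g.1) {x : F}
    (hx : x ^ 2 - g.1.trace * x + g.1.det = 0) : indE Q θ g = 0 := by
  apply indHom_eq_zero
  intro ξ hξ
  exfalso
  obtain ⟨c, hc, h'⟩ := isConj_GL_iff.mp hξ
  have hns : ¬ IsScal (Q.ι ξ) := fun hs => h (isScal_of_intertwine' hc h' hs ▸ hs)
  apply Q.no_root hns x
  rw [trace_eq_of_intertwine hc h', det_eq_of_intertwine hc h'] at hx
  exact hx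

theorem indE_ell (θ : MulChar E ℂ) {g : GL (Fin 2) F}
    (h : ∀ x : F, x ^ 2 - g.1.trace * x + g.1.det ≠ 0) : indE Q θ g = - cusp Q θ g := by
  classical
  have hg := not_isScal_of_no_root h
  have h1 := card_mul_indHom Q.ιu (fun ξ => θ ξ) g
  have h2 := card_conj_mul_card_centralizer g
  rw [card_centralizer_GL g hg, nroots_of_none h] at h2
  have h3 : (Nat.card (GL (Fin 2) F) : ℂ) = Nat.card Eˣ * Nat.card {y // IsConj g y} := by
    rw [← h2, card_unitsE Q, Nat.card_eq_fintype_card (α := F)]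
    push_cast [cast_card_sub_one]
    ring
  rw [← h3] at h1
  have h4 := mul_left_cancel₀ card_ne_zero' h1
  unfold indE
  rw [h4]
  simp only [cusp, hg, if_false, neg_neg]
  rw [← sum_units_eq (F := E) (fun ξ => if (Q.ι ξ).trace = g.1.trace ∧ (Q.ι ξ).det = g.1.det
    then θ ξ else 0) (by simp [MulChar.map_zero])]
  refine Finset.sum_congr rfl (fun ξ _ => ?_)
  congr 1
  apply propext
  constructor
  · intro hξ
    obtain ⟨c, hc, h'⟩ := isConj_GL_iff.mp hξ
    exact ⟨(trace_eq_of_intertwine hc h').symm, (det_eq_of_intertwine hc h').symm⟩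
  · rintro ⟨e1, e2⟩
    refine isConj_GL_of hg (not_isScal_of_no_root ?_) e1.symm e2.symm
    rw [QuadEmb.coe_ιu, e1, e2]; exact h

theorem cusp_eq (θ : MulChar E ℂ) :
    cusp Q θ = ps (QuadEmb.res θ) 1 * (st 1 - lin 1) - indE Q θ := by
  ext g
  have hd0 := g.det_ne_zero
  simp only [Pi.sub_apply, Pi.mul_apply, lin, mulChar_one_apply hd0]
  rcases gl2_cases g with ⟨h, h0⟩ | ⟨h, a, ha, ht, hd⟩ | ⟨a, b, ha, hb, hab, ht, hd⟩ | h
  · rw [cusp_scal _ _ h, ps_scal _ _ h, st_scal _ h, indE_scal _ _ h, mulChar_one_apply hd0,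
      mulChar_one_apply h0, QuadEmb.res_apply]
    ring
  · rw [cusp_jordan _ _ h ht hd, ps_jordan _ _ h ht hd, st_jordan _ h ht hd,
      indE_of_root Q θ h (x := a) (by rw [ht, hd]; ring), mulChar_one_apply ha, QuadEmb.res_apply]
    ring
  · rw [cusp_split _ _ hab ht hd, st_split _ hab ht hd, mulChar_one_apply hd0,
      indE_of_root Q θ (not_isScal_of_split hab ht hd) (x := a) (by rw [ht, hd]; ring)]
    ring
  · rw [ps_ell _ _ h, indE_ell _ _ h]; ring

theorem isGen_cusp (θ : MulChar E ℂ) : IsGeneralizedCharacter _ (cusp Q θ) := by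
  rw [cusp_eq]
  exact IsGeneralizedCharacter.sub (IsGeneralizedCharacter.mul
    (IsCharacter.isGeneralized (isCharacter_ps _ _)) (IsGeneralizedCharacter.sub
      (IsCharacter.isGeneralized (IsIrrCharacter.isCharacter (isIrr_st 1)))
      (IsCharacter.isGeneralized (IsIrrCharacter.isCharacter (isIrr_lin 1)))))
    (IsCharacter.isGeneralized (isCharacter_indE Q θ))

theorem isClassFunction_cusp (θ : MulChar E ℂ) : IsClassFunction _ (cusp Q θ) :=
  IsGeneralizedCharacter.isClassFunction (isGen_cusp Q θ)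

theorem sum_cusp_upEl (θ : MulChar E ℂ) (a d : Fˣ) : ∑ c, cusp Q θ (upEl a d c) = 0 := by
  by_cases h : a = d
  · subst h
    rw [sum_split_zero _ (((Fintype.card F : ℂ) - 1) * θ (algebraMap F E a))
      (- θ (algebraMap F E a))]
    · ring
    · rw [cusp_scal _ _ (by simp [IsScal])]; simp
    · intro c hc
      exact cusp_jordan _ _ (by simp [IsScal, hc]) (trace_upEl _ _ _) (det_upEl _ _ _)
  · have h' : (a : F) ≠ d := fun e => h (Units.ext e)
    simp [fun c => cusp_split Q θ h' (trace_upEl a d c) (det_upEl a d c)]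

theorem inner_ps_cusp (α β : MulChar F ℂ) (θ : MulChar E ℂ) :
    classInner (ps α β) (cusp Q θ) = 0 := by
  rw [inner_ps _ _ (isClassFunction_cusp Q θ)]
  simp [sum_cusp_upEl]

open Classical in
theorem cusp_ιu (θ : MulChar E ℂ) (ξ : Eˣ) :
    cusp Q θ (Q.ιu ξ) = - (θ ξ + (θ ^ Fintype.card F) ξ) +
      if IsScal (Q.ι ξ) then ((Fintype.card F : ℂ) + 1) * θ ξ else 0 := by
  rw [MulChar.pow_apply' _ Fintype.card_ne_zero, ← map_pow]
  split_ifs with h
  · rw [cusp_scal _ _ h]
    obtain ⟨a, ha⟩ := (Q.isScal_iff' _).mp h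
    rw [QuadEmb.coe_ιu, ha, Q.ι_algebraMap, QuadEmb.algebraMap_pow_card]
    simp
    ring
  · rw [cusp_ell Q θ h rfl rfl, add_zero]

open Classical in
theorem sum_isScal (f : E → ℂ) :
    ∑ ξ : E, (if IsScal (Q.ι ξ) then f ξ else 0) = ∑ a : F, f (algebraMap F E a) := by
  rw [← Finset.sum_filter]
  symm
  refine Finset.sum_bij (fun a _ => algebraMap F E a) ?_ ?_ ?_ (by simp)
  · intro a _
    simp only [Finset.mem_filter, Finset.mem_univ, true_and]
    exact (Q.isScal_iff' _).mpr ⟨a, rfl⟩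
  · intro a _ b _ h; exact (algebraMap F E).injective h
  · intro ξ hξ
    obtain ⟨a, ha⟩ := (Q.isScal_iff' _).mp (Finset.mem_filter.mp hξ).2
    exact ⟨a, by simp, ha.symm⟩

open Classical in
theorem inner_cusp_cusp (θ θ' : MulChar E ℂ) :
    classInner (cusp Q θ) (cusp Q θ') =
      (if θ = θ' then 1 else 0) + (if θ = θ' ^ Fintype.card F then 1 else 0) := by
  have hcl := isClassFunction_cusp Q θ'
  have h1 := card_sub_one_ne_zero (K := F)
  have h2 := card_field_ne_zero (K := F)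
  have h3 := card_add_one_ne_zero (K := F)
  have h4 := card_sq_sub_one_ne_zero (F := F)
  set S := ∑ a : F, θ (algebraMap F E a) * conj (θ' (algebraMap F E a)) with hS
  have e1 : classInner (ps (QuadEmb.res θ) 1 * (st 1 - lin 1)) (cusp Q θ') =
      ((Fintype.card F : ℂ) - 1)⁻¹ * S := by
    rw [classInner_mul_left, inner_ps _ _ (IsClassFunction.mul (IsClassFunction.conj
      (IsClassFunction.sub (IsCharacter.isClassFunction (IsIrrCharacter.isCharacter (isIrr_st 1)))
      (IsCharacter.isClassFunction (IsIrrCharacter.isCharacter (isIrr_lin 1))))) hcl)]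
    have : ∀ a d : Fˣ, ∑ c : F, ((fun x => conj ((st 1 - lin 1 : GL (Fin 2) F → ℂ) x)) *
        cusp Q θ') (upEl a d c) =
        if a = d then Fintype.card F * (Fintype.card F - 1) * θ' (algebraMap F E a) else 0 := by
      intro a d
      split_ifs with h
      · subst h
        rw [sum_split_zero _ (((Fintype.card F : ℂ) - 1) * ((Fintype.card F - 1) *
          θ' (algebraMap F E a))) (θ' (algebraMap F E a))]
        · ring
        · have hs : IsScal (upEl a a 0).1 := by simp [IsScal]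
          simp only [Pi.mul_apply, Pi.sub_apply, cusp_scal _ _ hs, st_scal _ hs, lin,
            mulChar_one_apply (upEl a a 0).det_ne_zero]
          simp
        · intro c hc
          have hs : ¬ IsScal (upEl a a c).1 := by simp [IsScal, hc]
          simp only [Pi.mul_apply, Pi.sub_apply, lin,
            cusp_jordan _ _ hs (trace_upEl _ _ _) (det_upEl _ _ _),
            st_jordan _ hs (trace_upEl _ _ _) (det_upEl _ _ _),
            mulChar_one_apply (upEl a a c).det_ne_zero]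
          simp
      · have h' : (a : F) ≠ d := fun e => h (Units.ext e)
        simp [fun c => cusp_split Q θ' h' (trace_upEl a d c) (det_upEl a d c)]
    simp only [this, apply_ite, map_zero, mul_zero, Finset.sum_ite_eq, Finset.mem_univ, if_true,
      MulChar.one_apply_coe, QuadEmb.res_apply, map_mul, map_sub, map_natCast, map_one, mul_one]
    rw [hS, ← sum_units_eq (fun a => θ (algebraMap F E a) * conj (θ' (algebraMap F E a)))
      (by simp [MulChar.map_zero]), Finset.mul_sum, Finset.mul_sum]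
    refine Finset.sum_congr rfl (fun a _ => ?_)
    field_simp
  have e2 : classInner (indE Q θ) (cusp Q θ') = ((Fintype.card F : ℂ) - 1)⁻¹ * S -
      ((if θ = θ' then 1 else 0) + (if θ = θ' ^ Fintype.card F then 1 else 0)) := by
    unfold indE
    rw [classInner_indHom _ _ hcl, classInner, card_unitsE Q]
    simp only [cusp_ιu, map_add, map_neg, mul_add, mul_neg, Finset.sum_add_distrib,
      Finset.sum_neg_distrib, sum_units_mul_conj, Q.card_E, apply_ite conj, map_zero, mul_ite,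
      mul_zero]
    rw [sum_units_eq (F := E) (fun ξ => if IsScal (Q.ι ξ) then
      θ ξ * conj (((Fintype.card F : ℂ) + 1) * θ' ξ) else 0) (by simp [MulChar.map_zero]),
      sum_isScal]
    have : ∑ a : F, θ (algebraMap F E a) * conj (((Fintype.card F : ℂ) + 1) *
        θ' (algebraMap F E a)) = ((Fintype.card F : ℂ) + 1) * S := by
      rw [hS, Finset.mul_sum]
      refine Finset.sum_congr rfl (fun a _ => ?_)
      simp only [map_mul, map_add, map_natCast, map_one]; ring
    rw [this]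
    push_cast
    rw [inv_mul_cancel₀ h4]
    have : ((Fintype.card F : ℂ) ^ 2 - 1)⁻¹ * ((Fintype.card F + 1) * S) =
        ((Fintype.card F : ℂ) - 1)⁻¹ * S := by
      field_simp
      ring
    rw [this]
    ring
  conv_lhs => rw [cusp_eq Q θ]
  rw [classInner_sub_left, e1, e2]
  ring

theorem isIrr_cusp {θ : MulChar E ℂ} (h : θ ^ (Fintype.card F - 1) ≠ 1) :
    IsIrrCharacter _ (cusp Q θ) := by
  apply IsGeneralizedCharacter.isIrr (isGen_cusp Q θ)
  · rw [inner_cusp_cusp, if_pos rfl, if_neg, add_zero]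
    intro e
    exact h ((QuadEmb.pow_card_eq_iff_pow_sub_one θ).mp e.symm)
  · rw [cusp_one]
    have := Fintype.one_lt_card (α := F)
    simp only [Complex.sub_re, Complex.natCast_re, Complex.one_re, sub_pos]
    exact_mod_cast this

theorem cusp_mul_lin (θ : MulChar E ℂ) (γ : MulChar F ℂ) :
    cusp Q θ * lin γ = cusp Q (θ * Q.lift γ) := by
  ext g
  simp only [Pi.mul_apply, lin]
  rcases gl2_cases' Q g with ⟨h, -⟩ | ⟨h, a, -, ht, hd⟩ | ⟨a, b, -, -, hab, ht, hd⟩ |
    ⟨-, ξ, -, h, ht, hd⟩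
  · rw [cusp_scal _ _ h, cusp_scal _ _ h, scal_det h, MulChar.mul_apply, QuadEmb.lift_apply,
      ← Q.nm_apply, Q.nm_algebraMap]
    ring
  · rw [cusp_jordan _ _ h ht hd, cusp_jordan _ _ h ht hd, hd, MulChar.mul_apply,
      QuadEmb.lift_apply, ← Q.nm_apply, Q.nm_algebraMap]
    ring
  · rw [cusp_split _ _ hab ht hd, cusp_split _ _ hab ht hd, zero_mul]
  · rw [cusp_ell _ _ h ht hd, cusp_ell _ _ h ht hd, MulChar.mul_apply, MulChar.mul_apply,
      QuadEmb.lift_apply, QuadEmb.lift_apply, ← Q.nm_apply, ← Q.nm_apply, Q.nm_pow_card,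
      Q.nm_apply, hd]
    ring

theorem cusp_pow_card (θ : MulChar E ℂ) : cusp Q (θ ^ Fintype.card F) = cusp Q θ := by
  ext g
  have e : ∀ ξ, (θ ^ Fintype.card F) ξ = θ (ξ ^ Fintype.card F) := fun ξ => by
    rw [MulChar.pow_apply' _ Fintype.card_ne_zero, map_pow]
  rcases gl2_cases' Q g with ⟨h, -⟩ | ⟨h, a, -, ht, hd⟩ | ⟨a, b, -, -, hab, ht, hd⟩ |
    ⟨-, ξ, -, h, ht, hd⟩
  · rw [cusp_scal _ _ h, cusp_scal _ _ h, e, QuadEmb.algebraMap_pow_card]
  · rw [cusp_jordan _ _ h ht hd, cusp_jordan _ _ h ht hd, e, QuadEmb.algebraMap_pow_card]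
  · rw [cusp_split _ _ hab ht hd, cusp_split _ _ hab ht hd]
  · rw [cusp_ell _ _ h ht hd, cusp_ell _ _ h ht hd, e, e, Q.pow_card_pow_card, add_comm]

theorem cusp_lift (γ : MulChar F ℂ) : cusp Q (Q.lift γ) = st γ - lin γ := by
  ext g
  simp only [Pi.sub_apply, lin]
  rcases gl2_cases' Q g with ⟨h, -⟩ | ⟨h, a, -, ht, hd⟩ | ⟨a, b, -, -, hab, ht, hd⟩ |
    ⟨h0, ξ, -, h, ht, hd⟩
  · rw [cusp_scal _ _ h, st_scal _ h, scal_det h, QuadEmb.lift_apply,
      ← Q.nm_apply, Q.nm_algebraMap]
    ring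
  · rw [cusp_jordan _ _ h ht hd, st_jordan _ h ht hd, hd,
      QuadEmb.lift_apply, ← Q.nm_apply, Q.nm_algebraMap]
    ring
  · rw [cusp_split _ _ hab ht hd, st_split _ hab ht hd, sub_self]
  · rw [cusp_ell _ _ h ht hd, st_ell _ h0,
      QuadEmb.lift_apply, QuadEmb.lift_apply, ← Q.nm_apply, ← Q.nm_apply, Q.nm_pow_card,
      Q.nm_apply, hd]
    ring

theorem regChar_GL2_eq : (2 : ℂ) • regChar (GL (Fin 2) F) =
    ((Fintype.card F : ℂ) + 1) • ∑ α : MulChar F ℂ, ∑ β : MulChar F ℂ, ps α β +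
    ((Fintype.card F : ℂ) - 1) • ∑ θ : MulChar E ℂ, cusp Q θ := by
  classical
  ext g
  have hE : ∀ a : F, algebraMap F E a = 1 ↔ a = 1 := fun a =>
    ⟨fun h => (algebraMap F E).injective (by rw [h, map_one]), fun h => by rw [h, map_one]⟩
  simp only [Pi.add_apply, Pi.smul_apply, Finset.sum_apply, smul_eq_mul, regChar]
  rcases gl2_cases' Q g with ⟨h, -⟩ | ⟨h, a, -, ht, hd⟩ | ⟨a, b, -, -, hab, ht, hd⟩ |
    ⟨h0, ξ, -, h, ht, hd⟩
  · have e : g = 1 ↔ g.1 0 0 = 1 := by
      obtain ⟨h1, h2, h3⟩ := h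
      rw [Units.ext_iff, m2_ext_iff]
      simp [h1, h2, ← h3]
    simp only [ps_scal _ _ h, cusp_scal _ _ h, ← Finset.mul_sum, ← Finset.sum_mul,
      sum_mulChar_apply, hE, e, card_GL2', Q.card_E]
    split_ifs
    · push_cast; ring
    · simp
  · have e : g ≠ 1 := by rintro rfl; exact h (by simp [IsScal])
    simp only [ps_jordan _ _ h ht hd, cusp_jordan _ _ h ht hd, ← Finset.mul_sum, ← Finset.sum_mul,
      sum_mulChar_apply, hE, e, Q.card_E, Finset.sum_neg_distrib, if_false]
    split_ifs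
    · push_cast; ring
    · simp
  · have e : g ≠ 1 := by
      rintro rfl; exact not_isScal_of_split hab ht hd (by simp [IsScal])
    simp only [ps_split _ _ hab ht hd, cusp_split _ _ hab ht hd, ← Finset.mul_sum,
      ← Finset.sum_mul, Finset.sum_add_distrib, sum_mulChar_apply, e]
    by_cases ha : a = 1
    · have hb : b ≠ 1 := fun hb => hab (ha.trans hb.symm)
      simp [hb]
    · simp [ha]
  · have e : g ≠ 1 := by
      rintro rfl; exact not_isScal_of_no_root h0 (by simp [IsScal])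
    have h1 : ξ ≠ 1 := by rintro rfl; exact h (by simp [IsScal])
    have h2 : ξ ^ Fintype.card F ≠ 1 := by
      intro h2
      apply h1
      rw [← Q.pow_card_pow_card ξ, h2, one_pow]
    simp only [ps_ell _ _ h0, cusp_ell _ _ h ht hd, Finset.sum_add_distrib, sum_mulChar_apply, e,
      h1, h2, Finset.sum_neg_distrib, if_false]
    simp

/-- the irreducible characters of `GL₂` -/
theorem irr_GL2_cases {χ : GL (Fin 2) F → ℂ} (hχ : IsIrrCharacter _ χ) :
    (∃ γ, χ = lin γ) ∨ (∃ γ, χ = st γ) ∨ (∃ α β, α ≠ β ∧ χ = ps α β) ∨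
      (∃ θ, θ ^ (Fintype.card F - 1) ≠ 1 ∧ χ = cusp Q θ) := by
  by_contra hc
  push Not at hc
  obtain ⟨h1, h2, h3, h4⟩ := hc
  have e1 : ∀ γ, classInner χ (lin γ) = 0 := fun γ =>
    IsIrrCharacter.classInner_of_ne hχ (isIrr_lin γ) (h1 γ)
  have e2 : ∀ γ, classInner χ (st γ) = 0 := fun γ =>
    IsIrrCharacter.classInner_of_ne hχ (isIrr_st γ) (h2 γ)
  have e3 : ∀ α β, classInner χ (ps α β) = 0 := fun α β => by
    by_cases h : α = β
    · subst h
      rw [show ps α α = st α + lin α by simp [st], classInner_add_right, e1, e2, add_zero]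
    · exact IsIrrCharacter.classInner_of_ne hχ (isIrr_ps h) (h3 α β h)
  have e4 : ∀ θ, classInner χ (cusp Q θ) = 0 := fun θ => by
    by_cases h : θ ^ (Fintype.card F - 1) = 1
    · obtain ⟨γ, rfl⟩ := (Q.exists_lift_iff θ).mpr h
      rw [cusp_lift, classInner_sub_right, e1, e2, sub_zero]
    · exact IsIrrCharacter.classInner_of_ne hχ (isIrr_cusp Q h) (h4 θ h)
  have := congrArg (classInner χ) (regChar_GL2_eq Q)
  simp only [classInner_add_right, classInner_smul_right, classInner_sum_right, e3, e4,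
    classInner_regChar, Finset.sum_const_zero, mul_zero, add_zero] at this
  simp [IsIrrCharacter.one_ne_zero hχ] at this

end Cfsg.Agent.H1
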