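import Cfsg.Agent.H1.QuadExt
import Cfsg.Prelude.Def_ParabolicCharacters

/-!
# Principal series characters of `GL₂`
-/

set_option autoImplicit false
set_option linter.unusedSectionVars false

namespace Cfsg.Agent.H1

open Cfsg Module Cfsg.Agent.H2 Matrix
open scoped ComplexConjugate MatrixGroups

theorem indFun_eq_sum_transversal {G : Type*} [Group G] [Fintype G] (K : Subgroup G) (θ : K → ℂ)
    (hθ : IsClassFunction K θ) {ι : Type*} [Fintype ι] (t : ι → G)
    (hsurj : ∀ g, ∃ i, (t i)⁻¹ * g ∈ K) (hinj : ∀ i j, (t i)⁻¹ * t j ∈ K → i = j) (g : G) :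
    indFun K θ g = ∑ i, extendByZero K θ ((t i)⁻¹ * g * t i) := by
  classical
  have hbij : Function.Bijective (fun p : ι × K => t p.1 * (p.2 : G)) := by
    constructor
    · rintro ⟨i, k⟩ ⟨j, l⟩ h
      simp only at h
      have : i = j := by
        apply hinj
        have : (t i)⁻¹ * t j = k * (l : G)⁻¹ := by
          rw [eq_mul_inv_iff_mul_eq, mul_assoc, ← h]; simp
        rw [this]
        exact K.mul_mem k.2 (K.inv_mem l.2)
      subst this
      rw [Subtype.ext (mul_left_cancel h)]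
    · intro x
      obtain ⟨i, hi⟩ := hsurj x
      exact ⟨(i, ⟨_, hi⟩), by simp⟩
  have e2 : ∀ (y : G) (k : K), extendByZero K θ ((y * k)⁻¹ * g * (y * k)) =
      extendByZero K θ (y⁻¹ * g * y) := by
    intro y k
    by_cases hy : y⁻¹ * g * y ∈ K
    · have hy' : (y * k)⁻¹ * g * (y * k) ∈ K := by
        have := K.mul_mem (K.mul_mem (K.inv_mem k.2) hy) k.2
        simpa [mul_assoc] using this
      rw [extendByZero_of_mem _ _ hy, extendByZero_of_mem _ _ hy', ← hθ ⟨_, hy⟩ k⁻¹]
      congr 1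
      ext; simp [mul_assoc]
    · have hy' : (y * k)⁻¹ * g * (y * k) ∉ K := by
        intro hh
        apply hy
        have := K.mul_mem (K.mul_mem k.2 hh) (K.inv_mem k.2)
        simpa [mul_assoc] using this
      rw [extendByZero_of_not_mem _ _ hy, extendByZero_of_not_mem _ _ hy']
  simp only [indFun]
  rw [← hbij.sum_comp (fun x => extendByZero K θ (x⁻¹ * g * x)), Fintype.sum_prod_type]
  simp only [e2, Finset.sum_const, Finset.card_univ, nsmul_eq_mul, ← Finset.mul_sum,
    ← Nat.card_eq_fintype_card]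
  rw [inv_mul_cancel_left₀ card_ne_zero']

variable {F : Type*} [Field F]

theorem mem_upper_iff (g : GL (Fin 2) F) :
    g ∈ upperTriangularGL 2 F ↔ (g : Matrix (Fin 2) (Fin 2) F) 1 0 = 0 := by
  change (g : Matrix (Fin 2) (Fin 2) F).BlockTriangular id ↔ _
  constructor
  · intro h; exact h (by decide)
  · intro h i j hij
    fin_cases i <;> fin_cases j <;> simp_all

theorem upper_diag_ne_zero {g : GL (Fin 2) F} (h : (g : Matrix (Fin 2) (Fin 2) F) 1 0 = 0) :
    (g : Matrix (Fin 2) (Fin 2) F) 0 0 ≠ 0 ∧ (g : Matrix (Fin 2) (Fin 2) F) 1 1 ≠ 0 := by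
  have := g.det_ne_zero
  rw [det_fin_two, h, mul_zero, sub_zero] at this
  exact ⟨left_ne_zero_of_mul this, right_ne_zero_of_mul this⟩

/-- the linear character of the Borel subgroup -/
noncomputable def borelHom (α β : MulChar F ℂ) : upperTriangularGL 2 F →* ℂ where
  toFun b := α (((b : GL (Fin 2) F) : Matrix (Fin 2) (Fin 2) F) 0 0) *
    β (((b : GL (Fin 2) F) : Matrix (Fin 2) (Fin 2) F) 1 1)
  map_one' := by simp
  map_mul' a b := by
    have ha := (mem_upper_iff _).mp a.2
    have hb := (mem_upper_iff _).mp b.2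
    simp only [Subgroup.coe_mul, Units.val_mul, m2_mul_apply, ha, hb, mul_zero, zero_mul,
      add_zero, zero_add, map_mul]
    ring

variable [Fintype F] [DecidableEq F]

/-- the principal series character -/
noncomputable def ps (α β : MulChar F ℂ) : GL (Fin 2) F → ℂ :=
  indFun (upperTriangularGL 2 F) (fun b =>
    α (((b : GL (Fin 2) F) : Matrix (Fin 2) (Fin 2) F) 0 0) *
    β (((b : GL (Fin 2) F) : Matrix (Fin 2) (Fin 2) F) 1 1))

theorem isCharacter_ps (α β : MulChar F ℂ) : IsCharacter _ (ps α β) :=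
  IsCharacter.indFun _ (isCharacter_hom (borelHom α β))

theorem isClassFunction_ps (α β : MulChar F ℂ) : IsClassFunction _ (ps α β) :=
  IsCharacter.isClassFunction (isCharacter_ps α β)

/-- coset representatives of the Borel subgroup -/
def borelRep : Option F → GL (Fin 2) F
  | none => toGL !![0, 1; 1, 0] (by simp [det_fin_two_of])
  | some c => toGL !![1, 0; c, 1] (by simp [det_fin_two_of])

theorem borelRep_none_inv :
    (((borelRep none)⁻¹ : GL (Fin 2) F) : Matrix (Fin 2) (Fin 2) F) = !![0, 1; 1, 0] := by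
  rw [Matrix.coe_units_inv]
  apply Matrix.inv_eq_left_inv
  apply m2_ext <;> simp [borelRep]

theorem borelRep_some_inv (c : F) :
    (((borelRep (some c))⁻¹ : GL (Fin 2) F) : Matrix (Fin 2) (Fin 2) F) = !![1, 0; -c, 1] := by
  rw [Matrix.coe_units_inv]
  apply Matrix.inv_eq_left_inv
  apply m2_ext <;> simp [borelRep]

theorem ps_apply (α β : MulChar F ℂ) (g : GL (Fin 2) F) :
    ps α β g = (if g.1 0 1 = 0 then α (g.1 1 1) * β (g.1 0 0) else 0) +
      ∑ c : F, if g.1 1 0 + (g.1 1 1 - g.1 0 0) * c - g.1 0 1 * c ^ 2 = 0 then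
        α (g.1 0 0 + g.1 0 1 * c) * β (g.1 1 1 - g.1 0 1 * c) else 0 := by
  change indFun (upperTriangularGL 2 F) (borelHom α β) g = _
  rw [indFun_eq_sum_transversal _ _ (IsCharacter.isClassFunction (isCharacter_hom (borelHom α β)))
    borelRep, Fintype.sum_option]
  · congr 1
    · split_ifs with h
      · rw [extendByZero_of_mem _ _ (by
          rw [mem_upper_iff]
          simp only [Units.val_mul, borelRep_none_inv, m2_mul_apply]
          simp [borelRep, h])]
        simp only [borelHom, MonoidHom.coe_mk, OneHom.coe_mk, Units.val_mul, borelRep_none_inv,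
          m2_mul_apply]
        simp [borelRep]
      · rw [extendByZero_of_not_mem _ _ (by
          rw [mem_upper_iff]
          simp only [Units.val_mul, borelRep_none_inv, m2_mul_apply]
          simp [borelRep, h])]
    · refine Finset.sum_congr rfl (fun c _ => ?_)
      split_ifs with h
      · rw [extendByZero_of_mem _ _ (by
          rw [mem_upper_iff]
          simp only [Units.val_mul, borelRep_some_inv, m2_mul_apply]
          simp [borelRep]
          linear_combination h)]
        simp only [borelHom, MonoidHom.coe_mk, OneHom.coe_mk, Units.val_mul, borelRep_some_inv,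
          m2_mul_apply]
        simp [borelRep]
        left
        congr 1
        ring
      · rw [extendByZero_of_not_mem _ _ (by
          rw [mem_upper_iff]
          simp only [Units.val_mul, borelRep_some_inv, m2_mul_apply]
          simp [borelRep]
          intro h'
          apply h
          linear_combination h')]
  · intro x
    by_cases h : x.1 0 0 = 0
    · refine ⟨none, ?_⟩
      rw [mem_upper_iff]
      simp only [Units.val_mul, borelRep_none_inv, m2_mul_apply]
      simp [h]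
    · refine ⟨some (x.1 1 0 / x.1 0 0), ?_⟩
      rw [mem_upper_iff]
      simp only [Units.val_mul, borelRep_some_inv, m2_mul_apply]
      simp [h]
  · rintro (_ | i) (_ | j) h <;> rw [mem_upper_iff] at h <;>
      simp only [Units.val_mul, borelRep_some_inv, borelRep_none_inv, m2_mul_apply] at h <;>
      simp [borelRep] at h ⊢
    linear_combination -h

theorem ps_scal (α β : MulChar F ℂ) {g : GL (Fin 2) F} (h : IsScal g.1) :
    ps α β g = ((Fintype.card F : ℂ) + 1) * (α (g.1 0 0) * β (g.1 0 0)) := by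
  obtain ⟨h1, h2, h3⟩ := h
  rw [ps_apply]
  simp [h1, h2, ← h3]
  ring

theorem ps_one (α β : MulChar F ℂ) : ps α β 1 = (Fintype.card F : ℂ) + 1 := by
  rw [ps_scal α β (by simp [IsScal])]
  simp

theorem ps_not_scal (α β : MulChar F ℂ) {g : GL (Fin 2) F} (h : ¬ IsScal g.1) :
    ps α β g = ∑ a : F, if a ^ 2 - g.1.trace * a + g.1.det = 0 then
      α a * β (g.1.trace - a) else 0 := by
  rw [ps_apply, trace_fin_two, det_fin_two]
  by_cases h1 : g.1 0 1 = 0
  · simp only [h1, if_true, zero_mul, sub_zero, add_zero]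
    have e : ∀ a : F, a ^ 2 - (g.1 0 0 + g.1 1 1) * a + g.1 0 0 * g.1 1 1 = 0 ↔
        a = g.1 0 0 ∨ a = g.1 1 1 := by
      intro a
      rw [show a ^ 2 - (g.1 0 0 + g.1 1 1) * a + g.1 0 0 * g.1 1 1 =
        (a - g.1 0 0) * (a - g.1 1 1) by ring, mul_eq_zero, sub_eq_zero, sub_eq_zero]
    simp only [e]
    by_cases h2 : g.1 0 0 = g.1 1 1
    · have h3 : g.1 1 0 ≠ 0 := fun h3 => h ⟨h1, h3, h2⟩
      simp [h2, h3]
    · have h4 : g.1 1 1 - g.1 0 0 ≠ 0 := sub_ne_zero.mpr (Ne.symm h2)
      have e2 : ∀ c : F, g.1 1 0 + (g.1 1 1 - g.1 0 0) * c = 0 ↔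
          c = - g.1 1 0 / (g.1 1 1 - g.1 0 0) := by
        intro c
        rw [eq_div_iff h4]
        constructor <;> intro h <;> linear_combination h
      simp only [e2, Finset.sum_ite_eq', Finset.mem_univ, if_true]
      rw [← Finset.sum_filter, Finset.filter_or, Finset.filter_eq', Finset.filter_eq']
      simp [h2, add_comm]
  · simp only [h1, if_false, zero_add]
    refine Fintype.sum_bijective (fun c => g.1 0 0 + g.1 0 1 * c) ?_ _ _ (fun c => ?_)
    · exact (Finite.injective_iff_bijective).mp (fun a b hab => by simpa [h1] using hab)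
    · have : (g.1 0 0 + g.1 0 1 * c) ^ 2 - (g.1 0 0 + g.1 1 1) * (g.1 0 0 + g.1 0 1 * c) +
          (g.1 0 0 * g.1 1 1 - g.1 0 1 * g.1 1 0) =
          - g.1 0 1 * (g.1 1 0 + (g.1 1 1 - g.1 0 0) * c - g.1 0 1 * c ^ 2) := by ring
      simp only [this, mul_eq_zero, neg_eq_zero, h1, false_or]
      congr 3
      ring

theorem ps_jordan (α β : MulChar F ℂ) {g : GL (Fin 2) F} (h : ¬ IsScal g.1) {a : F}
    (ht : g.1.trace = a + a) (hd : g.1.det = a * a) : ps α β g = α a * β a := by
  rw [ps_not_scal α β h, ht, hd, Finset.sum_eq_single a]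
  · rw [if_pos (by ring)]; simp
  · intro b _ hb
    rw [if_neg]
    intro e
    apply hb
    have : (b - a) ^ 2 = 0 := by linear_combination e
    exact sub_eq_zero.mp (pow_eq_zero_iff two_ne_zero |>.mp this)
  · simp

theorem not_isScal_of_split {m : Matrix (Fin 2) (Fin 2) F} {a b : F} (hab : a ≠ b)
    (ht : m.trace = a + b) (hd : m.det = a * b) : ¬ IsScal m := by
  rintro ⟨h1, h2, h3⟩
  rw [trace_fin_two, ← h3] at ht
  rw [det_fin_two, ← h3, h1] at hd
  apply hab
  have : (a - b) ^ 2 = 0 := by linear_combination (-(m 0 0 + m 0 0) - (a + b)) * ht + 4 * hd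
  exact sub_eq_zero.mp (pow_eq_zero_iff two_ne_zero |>.mp this)

theorem not_isScal_of_no_root {m : Matrix (Fin 2) (Fin 2) F}
    (h : ∀ x : F, x ^ 2 - m.trace * x + m.det ≠ 0) : ¬ IsScal m := by
  rintro ⟨h1, h2, h3⟩
  apply h (m 0 0)
  rw [trace_fin_two, det_fin_two, ← h3, h1]
  ring

theorem ps_split (α β : MulChar F ℂ) {g : GL (Fin 2) F} {a b : F} (hab : a ≠ b)
    (ht : g.1.trace = a + b) (hd : g.1.det = a * b) : ps α β g = α a * β b + α b * β a := by
  rw [ps_not_scal α β (not_isScal_of_split hab ht hd), ht, hd]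
  have e : ∀ x : F, x ^ 2 - (a + b) * x + a * b = 0 ↔ x = a ∨ x = b := by
    intro x
    rw [show x ^ 2 - (a + b) * x + a * b = (x - a) * (x - b) by ring, mul_eq_zero, sub_eq_zero,
      sub_eq_zero]
  simp only [e]
  rw [← Finset.sum_filter, Finset.filter_or, Finset.filter_eq', Finset.filter_eq']
  simp [hab]

theorem ps_ell (α β : MulChar F ℂ) {g : GL (Fin 2) F}
    (h : ∀ x : F, x ^ 2 - g.1.trace * x + g.1.det ≠ 0) : ps α β g = 0 := by
  rw [ps_not_scal α β (not_isScal_of_no_root h)]
  simp [h]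

/-- the four kinds of elements -/
theorem gl2_cases (g : GL (Fin 2) F) :
    (IsScal g.1 ∧ g.1 0 0 ≠ 0) ∨
    (¬ IsScal g.1 ∧ ∃ a : F, a ≠ 0 ∧ g.1.trace = a + a ∧ g.1.det = a * a) ∨
    (∃ a b : F, a ≠ 0 ∧ b ≠ 0 ∧ a ≠ b ∧ g.1.trace = a + b ∧ g.1.det = a * b) ∨
    (∀ x : F, x ^ 2 - g.1.trace * x + g.1.det ≠ 0) := by
  by_cases h : IsScal g.1
  · exact Or.inl ⟨h, (upper_diag_ne_zero h.2.1).1⟩
  · have hd := g.det_ne_zero
    rcases root_cases g.1.trace g.1.det with h1 | ⟨a, h1, h2⟩ | ⟨a, b, h0, h1, h2⟩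
    · exact Or.inr (Or.inr (Or.inr h1))
    · exact Or.inr (Or.inl ⟨h, a, by rintro rfl; exact hd (by simpa using h2), h1, h2⟩)
    · rw [h2] at hd
      exact Or.inr (Or.inr (Or.inl ⟨a, b, left_ne_zero_of_mul hd, right_ne_zero_of_mul hd,
        h0, h1, h2⟩))

theorem scal_det {m : Matrix (Fin 2) (Fin 2) F} (h : IsScal m) : m.det = m 0 0 * m 0 0 := by
  rw [det_fin_two, h.1, ← h.2.2]; ring

theorem scal_trace {m : Matrix (Fin 2) (Fin 2) F} (h : IsScal m) : m.trace = m 0 0 + m 0 0 := by
  rw [trace_fin_two, ← h.2.2]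

/-- an element has no eigenvector exactly when its characteristic polynomial has no root -/
theorem no_root_of_no_eigenvector {m : Matrix (Fin 2) (Fin 2) F}
    (h : ∀ (c : F) (v : Fin 2 → F), v ≠ 0 → m.mulVec v ≠ c • v) (x : F) :
    x ^ 2 - m.trace * x + m.det ≠ 0 := by
  intro hx
  rw [trace_fin_two, det_fin_two] at hx
  by_cases h1 : m 0 1 = 0
  · apply h (m 1 1) ![0, 1]
    · intro e; simpa using congrFun e 1
    · ext i; fin_cases i <;> simp [mulVec, dotProduct, h1]
  · apply h x ![m 0 1, x - m 0 0]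
    · intro e; exact h1 (by simpa using congrFun e 0)
    · ext i; fin_cases i <;> simp [mulVec, dotProduct]
      · ring
      · linear_combination -hx

/-- the linear character `γ ∘ det` -/
noncomputable def linHom' (γ : MulChar F ℂ) : GL (Fin 2) F →* ℂ where
  toFun g := γ g.1.det
  map_one' := by simp
  map_mul' a b := by simp

/-- the linear character `γ ∘ det` as a function -/
noncomputable def lin (γ : MulChar F ℂ) : GL (Fin 2) F → ℂ := fun g => γ g.1.det

theorem isIrr_lin (γ : MulChar F ℂ) : IsIrrCharacter _ (lin γ) := isIrrCharacter_hom (linHom' γ)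

theorem lin_one (γ : MulChar F ℂ) : lin γ 1 = 1 := by simp [lin]

theorem ps_mul_lin (α β γ : MulChar F ℂ) : ps α β * lin γ = ps (α * γ) (β * γ) := by
  ext g
  simp only [Pi.mul_apply, lin]
  rcases gl2_cases g with ⟨h, -⟩ | ⟨h, a, -, ht, hd⟩ | ⟨a, b, -, -, hab, ht, hd⟩ | h
  · rw [ps_scal _ _ h, ps_scal _ _ h, scal_det h]
    simp only [map_mul, MulChar.mul_apply]; ring
  · rw [ps_jordan _ _ h ht hd, ps_jordan _ _ h ht hd, hd]
    simp only [map_mul, MulChar.mul_apply]; ring
  · rw [ps_split _ _ hab ht hd, ps_split _ _ hab ht hd, hd]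
    simp only [map_mul, MulChar.mul_apply]; ring
  · rw [ps_ell _ _ h, ps_ell _ _ h, zero_mul]

theorem ps_comm (α β : MulChar F ℂ) : ps α β = ps β α := by
  ext g
  rcases gl2_cases g with ⟨h, -⟩ | ⟨h, a, -, ht, hd⟩ | ⟨a, b, -, -, hab, ht, hd⟩ | h
  · rw [ps_scal _ _ h, ps_scal _ _ h]; ring
  · rw [ps_jordan _ _ h ht hd, ps_jordan _ _ h ht hd]; ring
  · rw [ps_split _ _ hab ht hd, ps_split _ _ hab ht hd]; ring
  · rw [ps_ell _ _ h, ps_ell _ _ h]

/-- an upper triangular element -/
def upEl (a d : Fˣ) (c : F) : GL (Fin 2) F := toGL !![a, c; 0, d] (by simp [det_fin_two_of])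

@[simp] theorem coe_upEl (a d : Fˣ) (c : F) :
    (upEl a d c : Matrix (Fin 2) (Fin 2) F) = !![(a : F), c; 0, d] := rfl

/-- parametrisation of the Borel subgroup -/
noncomputable def borelEquiv : Fˣ × Fˣ × F ≃ upperTriangularGL 2 F where
  toFun p := ⟨upEl p.1 p.2.1 p.2.2, by simp [mem_upper_iff]⟩
  invFun b := (Units.mk0 _ (upper_diag_ne_zero ((mem_upper_iff _).mp b.2)).1,
    Units.mk0 _ (upper_diag_ne_zero ((mem_upper_iff _).mp b.2)).2, b.1.1 0 1)
  left_inv p := by ext <;> simp
  right_inv b := by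
    have := (mem_upper_iff _).mp b.2
    apply Subtype.ext
    apply Units.ext
    apply m2_ext <;> simp [this]

theorem card_borel : (Nat.card (upperTriangularGL 2 F) : ℂ) =
    ((Fintype.card F : ℂ) - 1) ^ 2 * Fintype.card F := by
  rw [← Nat.card_congr borelEquiv]
  simp only [Nat.card_eq_fintype_card, Fintype.card_prod, Fintype.card_units]
  push_cast [cast_card_sub_one]
  ring

theorem sum_units_eq (f : F → ℂ) (h0 : f 0 = 0) : ∑ a : Fˣ, f a = ∑ a : F, f a := by
  rw [← Finset.sum_erase (s := Finset.univ) (f := f) h0]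
  refine Finset.sum_bij (fun a _ => (a : F)) (by simp) (fun a _ b _ h => Units.ext h) ?_ (by simp)
  intro b hb
  exact ⟨Units.mk0 b (by simpa using hb), by simp, rfl⟩

/-- Frobenius reciprocity for the principal series -/
theorem inner_ps (α β : MulChar F ℂ) {f : GL (Fin 2) F → ℂ} (hf : IsClassFunction _ f) :
    classInner (ps α β) f = (((Fintype.card F : ℂ) - 1) ^ 2 * Fintype.card F)⁻¹ *
      ∑ a : Fˣ, ∑ d : Fˣ, α a * β d * conj (∑ c : F, f (upEl a d c)) := by
  have := Fintype.ofFinite (upperTriangularGL 2 F)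
  unfold ps
  rw [classInner_indFun _ _ hf, classInner, card_borel, ← borelEquiv.sum_comp]
  simp only [Fintype.sum_prod_type, map_sum, Finset.mul_sum]
  rfl

end Cfsg.Agent.H1
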