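import Cfsg.Agent.H1.MIU8
import Cfsg.Agent.H1.SpW

/-!
# Minimal index of symplectic groups: the Heisenberg datum
-/

set_option autoImplicit false
set_option linter.unusedSectionVars false

namespace Cfsg.Agent.H1

open Module H5 Finset

variable {F : Type*} [Field F] {E : Type*} [AddCommGroup E] [Module F E] [FiniteDimensional F E]
  {B : Bil F E} (hB : IsSp B)

/-- elements of the unipotent radical of a point stabiliser -/
noncomputable def es (a e : E) (μ : F) : Isom B :=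
  hB.transv (a + e) 1 * hB.transv a (-1) * hB.transv e (μ - 1)

theorem es_apply {a e : E} (h : B a e = 0) (μ : F) (z : E) :
    isoAct B (es hB a e μ) z = z + B z e • a + (B z a + μ * B z e) • e := by
  simp only [es, act_mul_apply, tr_apply, map_add, map_smul, LinearMap.add_apply,
    LinearMap.smul_apply, h, hB.isEps.refl h, hB.alt, smul_eq_mul]
  module

theorem es_mul {a b e : E} (ha : B a e = 0) (hb : B b e = 0) (μ ν : F) :
    es hB a e μ * es hB b e ν = es hB (a + b) e (μ + ν + B b a) := iso_ext fun z => by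
  rw [act_mul_apply, es_apply hB ha, es_apply hB hb, es_apply hB (by simp [ha, hb])]
  simp only [map_add, map_smul, LinearMap.add_apply, LinearMap.smul_apply, hb, hB.isEps.refl ha,
    hB.alt, smul_eq_mul]
  module

theorem es_zero (e : E) (μ : F) : es hB 0 e μ = hB.transv e μ := iso_ext fun z => by
  rw [es_apply hB (by simp), tr_apply]; simp

theorem es_self (e : E) (s μ : F) : es hB (s • e) e μ = hB.transv e (μ + 2 * s) :=
  iso_ext fun z => by
    rw [es_apply hB (by simp [hB.alt]), tr_apply]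
    simp only [map_smul, smul_eq_mul]
    module

theorem es_conj (g : Isom B) (a e : E) (μ : F) :
    g * es hB a e μ = es hB (isoAct B g a) (isoAct B g e) μ * g := by
  rw [es, ← mul_assoc, ← mul_assoc, tr_conj hB g, mul_assoc _ g, tr_conj hB g, mul_assoc, mul_assoc,
    tr_conj hB g, es, map_add, mul_assoc, mul_assoc]

theorem es_smul {a e : E} (h : B a e = 0) (s μ : F) :
    es hB a (s • e) μ = es hB (s • a) e (s ^ 2 * μ) := iso_ext fun z => by
  rw [es_apply hB (by simp [h]), es_apply hB (by simp [h])]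
  simp only [map_smul, smul_eq_mul]
  module

theorem es_line {e y : E} (h : B y e = 0) (l ν μ : F) : es hB (l • e) (y + ν • e) μ =
    hB.transv y μ * es hB ((l + μ * ν) • y) e (2 * l * ν + μ * ν ^ 2) := iso_ext fun z => by
  rw [act_mul_apply, es_apply hB (by simp [hB.isEps.refl h, hB.alt]), es_apply hB (by simp [h]),
    tr_apply]
  simp only [map_smul, smul_eq_mul, map_add, LinearMap.add_apply, LinearMap.smul_apply, hB.alt,
    hB.isEps.refl h]
  module

theorem es_fix {a e : E} (h : B a e = 0) (μ : F) : isoAct B (es hB a e μ) e = e := by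
  rw [es_apply hB h]; simp [hB.alt, hB.isEps.refl h]

theorem tr_fix {u v : E} (h : B v u = 0) (c : F) : isoAct B (hB.transv u c) v = v := by
  rw [tr_apply, h]; simp

/-- the Heisenberg datum -/
noncomputable def sD (e : E) : HD (Isom B) E F where
  adm a _ := B a e = 0
  x a μ := es hB a e μ
  β a b := B b a
  adm_add h h' := by simp [h, h']
  x_mul h h' := es_mul hB h h' _ _
  β_zero_left b := by simp
  β_zero_right b := by simp
  adm_zero := by simp
  x_zero := by rw [es_zero, tr_zero]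
  adm_neg h := by simp [h]

variable [Fintype F]

include hB in
theorem sp_witt {ι : Type*} {v v' : ι → E} (hv : LinearIndependent F v)
    (hv' : LinearIndependent F v') (h : ∀ i j, B (v' i) (v' j) = B (v i) (v j)) :
    ∃ g : Isom B, ∀ i, isoAct B g (v i) = v' i := by
  obtain ⟨e, h1, h2⟩ := witt hB.good hB.good rfl hv hv' h
  exact ⟨⟨e, h1⟩, h2⟩

include hB in
theorem sp_move2 {e e' w w' : E} (he : e ≠ 0) (he' : e' ≠ 0) (hw : w ∉ F ∙ e) (hw' : w' ∉ F ∙ e')
    (h : B w' e' = B w e) : ∃ g : Isom B, isoAct B g e = e' ∧ isoAct B g w = w' := by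
  obtain ⟨g, hg⟩ := sp_witt hB (li_pair he hw) (li_pair he' hw') fun i j => by
    fin_cases i <;> fin_cases j <;> simp [hB.alt, h, hB.skew w e, hB.skew w' e']
  exact ⟨g, hg 0, hg 1⟩

include hB in
theorem sp_pair2 {e w : E} (he : e ≠ 0) (hw : w ∉ F ∙ e) (c d : F) : ∃ u, B u e = c ∧ B u w = d := by
  obtain ⟨u, hu⟩ := hB.isEps.exists_pairing (li_pair he hw) ![c, d]
  exact ⟨u, hu 0, hu 1⟩

include hB in
theorem sp_pair3 {e w v : E} (he : e ≠ 0) (hw : w ∉ F ∙ e) (hv : v ∉ (F ∙ e) ⊔ F ∙ w) (c d k : F) :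
    ∃ u, B u e = c ∧ B u w = d ∧ B u v = k := by
  obtain ⟨u, hu1, hu2⟩ := sp_pair2 hB he hw c d
  obtain ⟨z, hz, hz'⟩ : ∃ z ∈ perp B ((F ∙ e) ⊔ F ∙ w), B z v ≠ 0 := by
    by_contra hc
    push Not at hc
    exact hv ((hB.isEps.perp_perp _).le fun z hz => hB.isEps.refl (hc z hz))
  obtain ⟨h1, h2⟩ := mem_perp_two.mp hz
  exact ⟨u + ((k - B u v) / B z v) • z, by simp [hu1, h1], by simp [hu2, h2], by simp [hz']⟩

include hB in
theorem sp_exists_pair (h6 : 5 ≤ finrank F E) (e w : E) :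
    ∃ a b, B a e = 0 ∧ B a w = 0 ∧ B b e = 0 ∧ B b w = 0 ∧ B a b = 1 := by
  obtain ⟨a, ha, b, hb, h⟩ : ∃ a ∈ perp B ((F ∙ e) ⊔ F ∙ w), ∃ b ∈ perp B ((F ∙ e) ⊔ F ∙ w),
      B a b ≠ 0 := by
    by_contra hc
    push Not at hc
    have h1 := Submodule.finrank_mono (show perp B _ ≤ perp B (perp B ((F ∙ e) ⊔ F ∙ w)) from hc)
    rw [hB.isEps.perp_perp] at h1
    have := hB.isEps.finrank_perp ((F ∙ e) ⊔ F ∙ w)
    have := finrank_two_le (F := F) e w
    omega
  obtain ⟨h1, h2⟩ := mem_perp_two.mp ha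
  exact ⟨(B a b)⁻¹ • a, b, by simp [h1], by simp [h2], (mem_perp_two.mp hb).1,
    (mem_perp_two.mp hb).2, by simp [h]⟩

include hB in
theorem sp_exists_line (h3 : 3 ≤ finrank F E) {e : E} : ∃ u, B u e = 0 ∧ u ∉ F ∙ e := by
  by_contra hc
  push Not at hc
  have h1 := Submodule.finrank_mono (show perp B (F ∙ e) ≤ F ∙ e from fun u hu =>
    hc u (mem_perp_one.mp hu))
  have := hB.isEps.finrank_perp (F ∙ e)
  have := finrank_span_le (F := F) e
  omega

include hB in
theorem sp_mem_span {e a : E} (h : ∀ w, B w e = 0 → B a w = 0) : a ∈ F ∙ e :=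
  hB.isEps.perp_perp (F ∙ e) ▸ fun w hw => h w (mem_perp_one.mp hw)

include hB in
theorem sp_tor {e : E} (he0 : e ≠ 0) {s : F} (hs : s ≠ 0) : ∃ g : Isom B, isoAct B g e = s • e ∧
    ∀ z, B z e = 0 → ∃ b : F, isoAct B g z = z + b • e := by
  obtain ⟨f, hfe⟩ := hB.exists_pair he0
  have hef : B e f = -1 := by rw [hB.skew, hfe]
  let T : Module.End F E := LinearMap.transvection ((1 - s) • B.flip f) e *
    LinearMap.transvection ((s⁻¹ - 1) • B.flip e) f
  have hT : ∀ z, T z = z + ((1 - s) * B z f) • e + ((s⁻¹ - 1) * B z e) • f := fun z => by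
    simp only [T, LinearMap.transvection.apply, LinearMap.smul_apply, LinearMap.flip_apply,
      smul_eq_mul, Module.End.mul_apply, map_add, map_smul, hB.alt]
    module
  refine ⟨hB.isEps.toIsom T fun z y => ?_, (hT e).trans ?_, fun z hz =>
    ⟨(1 - s) * B z f, (hT z).trans ?_⟩⟩
  · simp only [hT, map_add, map_smul, LinearMap.add_apply, LinearMap.smul_apply, smul_eq_mul,
      hB.alt, hfe, hef, hB.skew y e, hB.skew y f]
    field_simp
    ring
  · rw [hef, hB.alt]; module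
  · rw [hz, mul_zero, zero_smul, add_zero]

variable {q : ℕ} (hq : Fintype.card F = q)

include hB hq in
theorem card_sp_perp {e : E} (he0 : e ≠ 0) :
    Nat.card {w // B w e = 0} * q = Nat.card E := by
  have := hB.isEps.finrank_perp (F ∙ e)
  rw [finrank_span_singleton he0] at this
  rw [Module.natCard_eq_pow_finrank (K := F) (V := E), ← this, pow_succ,
    ← Module.natCard_eq_pow_finrank, Nat.card_eq_fintype_card (α := F), hq]
  congr 1
  exact Nat.card_congr (Equiv.subtypeEquivRight fun _ => mem_perp_one.symm)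

include hq in
theorem card_span_one {e : E} (he0 : e ≠ 0) : Nat.card (F ∙ e) = q := by
  rw [Module.natCard_eq_pow_finrank (K := F), finrank_span_singleton he0, pow_one,
    Nat.card_eq_fintype_card, hq]

include hq in
theorem card_span_two {e w : E} (he0 : e ≠ 0) (hw : w ∉ F ∙ e) :
    Nat.card ↥((F ∙ e) ⊔ F ∙ w) = q ^ 2 := by
  rw [Module.natCard_eq_pow_finrank (K := F), Submodule.finrank_sup_span_singleton hw,
    finrank_span_singleton he0, Nat.card_eq_fintype_card, hq]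

variable {e : E} (he0 : e ≠ 0)

theorem sZ_eq (e : E) : (sD hB e).Z = ⊤ := (AddSubgroup.eq_top_iff' _).mpr fun _ => by
  change B 0 e = 0
  simp

/-- the pairing datum -/
noncomputable def sP : HP F (sD hB e) F where
  ψ := (exists_psi_complex F).choose
  φ := AddMonoidHom.mk' (fun a => (B a).toAddMonoidHom) fun a b => by ext; simp
  γ := AddMonoidHom.mul
  κ := Fintype.card F
  ndE a ha := by
    by_contra hc
    push Not at hc
    refine ha (hB.nondeg a fun v => eq_zero_of_psi (exists_psi_complex F).choose_spec fun c => ?_)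
    simpa using hc (c • v)
  ndM μ _ h0 := by
    by_contra hc
    push Not at hc
    exact h0 (eq_zero_of_psi (exists_psi_complex F).choose_spec fun c => by
      simpa [mul_comm] using hc c)
  hκ := by
    rw [sZ_eq, AddSubgroup.card_top, ← card_sp_perp hB rfl he0, Nat.card_eq_fintype_card (α := F),
      Nat.card_congr (show (sD hB e).V ≃ {w // B w e = 0} from
        Equiv.subtypeEquivRight fun _ => ⟨fun h => h.choose_spec, fun h => ⟨0, h⟩⟩)]
    ring

theorem sP_psi : (sP hB he0).ψ ≠ 1 := (exists_psi_complex F).choose_spec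

variable {X : Type*} [MulAction (Isom B) X]

/-- the full transvection group with centre `u` fixes `ω` -/
def TI (ω : X) (u : E) : Prop := ∀ c, hB.transv u c • ω = ω

theorem mem_sJ {ω : X} {c : F} : c ∈ (sD hB e).J ω ↔ hB.transv e c • ω = ω := by
  rw [← es_zero]
  exact ⟨fun h => h.2, fun h => ⟨by change B 0 e = 0; simp, h⟩⟩

theorem mem_sA {ω : X} {a : E} :
    a ∈ (sD hB e).A ω ↔ B a e = 0 ∧ ∃ μ, es hB a e μ • ω = ω :=
  ⟨fun ⟨μ, h1, h2⟩ => ⟨h1, μ, h2⟩, fun ⟨h1, μ, h2⟩ => ⟨μ, h1, h2⟩⟩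

theorem TI_iff {ω : X} : TI hB ω e ↔ (sD hB e).J ω = (sD hB e).Z := by
  rw [sZ_eq, AddSubgroup.eq_top_iff']
  exact forall_congr' fun _ => (mem_sJ hB).symm

theorem TI.fix {ω : X} (h : TI hB ω e) {a : E} (ha : a ∈ (sD hB e).A ω) (μ : F) :
    es hB a e μ • ω = ω :=
  (sD hB e).fix_of_full ((TI_iff hB).mp h) ha ((mem_sA hB).mp ha).1

theorem es_sub {ω : X} {a : E} (ha : B a e = 0) {μ ν : F} (h : es hB a e μ • ω = ω)
    (h' : es hB a e ν • ω = ω) : hB.transv e (μ - ν) • ω = ω :=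
  (mem_sJ hB).mp ((sD hB e).sub_mem_J (a := a) ha ha (h.trans h'.symm))

theorem tr_fix_conj {ω : X} {u : E} {c : F} (g : Isom B) :
    hB.transv (isoAct B g u) c • g • ω = g • ω ↔ hB.transv u c • ω = ω := by
  rw [← mul_smul, ← tr_conj, mul_smul, smul_left_cancel_iff]

theorem es_fix_conj {ω : X} {a u : E} {c : F} (g : Isom B) :
    es hB (isoAct B g a) (isoAct B g u) c • g • ω = g • ω ↔ es hB a u c • ω = ω := by
  rw [← mul_smul, ← es_conj, mul_smul, smul_left_cancel_iff]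

theorem TI_conj {ω : X} {u : E} (g : Isom B) : TI hB (g • ω) (isoAct B g u) ↔ TI hB ω u :=
  forall_congr' fun _ => tr_fix_conj hB g

theorem TI.smul {ω : X} {u : E} (h : TI hB ω u) (a : F) : TI hB ω (a • u) := fun c => by
  rw [tr_smul]; exact h _

theorem TI_smul {ω : X} {u : E} {a : F} (ha : a ≠ 0) : TI hB ω (a • u) ↔ TI hB ω u :=
  ⟨fun h => by simpa [ha] using h.smul hB a⁻¹, fun h => h.smul hB a⟩

theorem TI_zero (ω : X) : TI hB ω 0 := fun c => by rw [tr_zero_left, one_smul]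

theorem TI.map {ω : X} {u : E} (h : TI hB ω u) {g : Isom B} (hg : g • ω = ω) :
    TI hB ω (isoAct B g u) := by
  rw [← hg, TI_conj]; exact h

theorem TI_conj_e {ω : X} {g : Isom B} {a : F} (hg : isoAct B g e = a • e) (ha : a ≠ 0) :
    TI hB (g • ω) e ↔ TI hB ω e := by
  rw [← TI_conj hB (ω := ω) g, hg, TI_smul hB ha]

theorem TI_eqv {ω ω' : X} (h : (sD hB e).Eqv ω ω') : TI hB ω' e ↔ TI hB ω e := by
  rw [TI_iff, TI_iff, h.J_eq]

theorem exists_notTI {ω : X} (hX : ∃ g : Isom B, g • ω ≠ ω) : ∃ e, ¬TI hB ω e := by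
  by_contra hc
  push Not at hc
  obtain ⟨g, hg⟩ := hX
  exact hg (show g ∈ MulAction.stabilizer (Isom B) ω by
    rw [sp_eq_top hB (MulAction.stabilizer (Isom B) ω) fun v c => hc v c]; trivial)

theorem smul_mem_sA (ω : X) (a : F) : a • e ∈ (sD hB e).A ω :=
  (mem_sA hB).mpr ⟨by simp [hB.alt], -(2 * a), by
    rw [es_self, neg_add_cancel, tr_zero, one_smul]⟩

theorem inv_e' {g : Isom B} {a : F} (hg : isoAct B g e = a • e) (ha : a ≠ 0) :
    isoAct B g⁻¹ e = a⁻¹ • e := by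
  rw [eq_comm, inv_smul_eq_iff₀ ha, ← map_smul, ← hg, act_inv_apply]

theorem perp_conj_e {g : Isom B} {a : F} (hg : isoAct B g e = a • e) (ha : a ≠ 0) {x : E}
    (h : B x e = 0) : B (isoAct B g x) e = 0 := by
  have := isoAct_pres g x e
  simpa [hg, ha, h] using this

theorem es_conj_e {g : Isom B} {a : F} (hg : isoAct B g e = a • e) (ha : a ≠ 0) {x : E}
    (h : B x e = 0) (μ : F) :
    g * es hB x e μ = es hB (a • isoAct B g x) e (a ^ 2 * μ) * g := by
  rw [es_conj, hg, es_smul hB (perp_conj_e hg ha h)]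

theorem sA_conj {ω : X} {g : Isom B} {a : F} (hg : isoAct B g e = a • e) (ha : a ≠ 0) {x : E}
    (h : x ∈ (sD hB e).A ω) : a • isoAct B g x ∈ (sD hB e).A (g • ω) := by
  obtain ⟨h1, μ, h2⟩ := (mem_sA hB).mp h
  refine (mem_sA hB).mpr ⟨by simp [perp_conj_e hg ha h1], a ^ 2 * μ, ?_⟩
  rw [← mul_smul, ← es_conj_e hB hg ha h1, mul_smul, h2]

theorem sJ_conj {ω : X} {g : Isom B} {a : F} (hg : isoAct B g e = a • e) {μ : F} :
    a ^ 2 * μ ∈ (sD hB e).J (g • ω) ↔ μ ∈ (sD hB e).J ω := by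
  rw [mem_sJ, mem_sJ, ← tr_smul, ← hg, tr_fix_conj]

theorem seqv_conj {g : Isom B} {a : F} (hg : isoAct B g e = a • e) (ha : a ≠ 0) {ω ω' : X}
    (h : (sD hB e).Eqv ω ω') : (sD hB e).Eqv (g • ω) (g • ω') := by
  obtain ⟨x, μ, h1, rfl⟩ := (sD hB e).eqv_iff.mp h
  refine (sD hB e).eqv_iff.mpr ⟨a • isoAct B g x, a ^ 2 * μ, ?_, ?_⟩
  · change B _ e = 0
    simp [perp_conj_e hg ha h1]
  change es hB _ _ _ • g • ω = g • es hB _ _ _ • ω
  rw [← mul_smul, ← es_conj_e hB hg ha h1, mul_smul]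

theorem seqv_conj' {g : Isom B} {a : F} (hg : isoAct B g e = a • e) (ha : a ≠ 0) {ω ω' : X}
    (h : (sD hB e).Eqv (g • ω) (g • ω')) : (sD hB e).Eqv ω ω' := by
  simpa using seqv_conj hB (inv_e' hg ha) (inv_ne_zero ha) h

theorem mem_sT {ω : X} {w : E} : w ∈ (sP hB he0).T ω ↔
    ∀ a ∈ (sD hB e).A ω, (sP hB he0).ψ (B a w) = 1 := Iff.rfl

theorem sT_perp {ω : X} {w : E} (h : w ∈ (sP hB he0).T ω) : B w e = 0 :=
  hB.isEps.refl (eq_zero_of_psi (sP_psi hB he0) fun c => by
    simpa using (mem_sT hB he0).mp h _ (smul_mem_sA hB ω c))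

theorem smul_mem_sT (ω : X) (a : F) : a • e ∈ (sP hB he0).T ω :=
  (mem_sT hB he0).mpr fun x hx => by simp [((mem_sA hB).mp hx).1]

theorem sT_conj {ω : X} {g : Isom B} {a : F} (hg : isoAct B g e = a • e) (ha : a ≠ 0) {w : E}
    (h : w ∈ (sP hB he0).T ω) : a⁻¹ • isoAct B g w ∈ (sP hB he0).T (g • ω) := by
  refine (mem_sT hB he0).mpr fun x hx => ?_
  have h1 := sA_conj hB (inv_e' hg ha) (inv_ne_zero ha) hx
  rw [inv_smul_smul] at h1
  have h2 := (mem_sT hB he0).mp h _ h1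
  have h3 := isoAct_pres g (isoAct B g⁻¹ x) w
  rw [act_apply_inv] at h3
  rw [← h2]
  simp [h3]

theorem sT_conj' {ω : X} {g : Isom B} {a : F} (hg : isoAct B g e = a • e) (ha : a ≠ 0) {w : E} :
    a⁻¹ • isoAct B g w ∈ (sP hB he0).T (g • ω) ↔ w ∈ (sP hB he0).T ω :=
  ⟨fun h => by simpa [act_inv_apply, ha] using sT_conj hB he0 (inv_e' hg ha) (inv_ne_zero ha) h,
   sT_conj hB he0 hg ha⟩

theorem card_sT_conj {ω : X} {g : Isom B} {a : F} (hg : isoAct B g e = a • e) (ha : a ≠ 0) :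
    Nat.card ((sP hB he0).T (g • ω)) = Nat.card ((sP hB he0).T ω) :=
  (Nat.card_congr (Equiv.ofBijective (fun w : (sP hB he0).T ω =>
    (⟨_, sT_conj hB he0 hg ha w.2⟩ : (sP hB he0).T (g • ω)))
    ⟨fun _ _ h => Subtype.ext (rep_injective _ g (smul_right_injective E (inv_ne_zero ha)
      (congrArg Subtype.val h))), fun w => ⟨⟨a • isoAct B g⁻¹ w, (sT_conj' hB he0 hg ha).mp (by
        simp [act_apply_inv, ha])⟩, Subtype.ext (by simp [act_apply_inv, ha])⟩⟩)).symm

theorem mem_sLv {ω : X} {γ : F} : γ ∈ (sP hB he0).Lv ω ↔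
    ∀ μ ∈ (sD hB e).J ω, (sP hB he0).ψ (μ * γ) = 1 := Iff.rfl

theorem sLv_conj {ω : X} {g : Isom B} {a : F} (hg : isoAct B g e = a • e) (ha : a ≠ 0) {γ : F}
    (h : a ^ 2 * γ ∈ (sP hB he0).Lv ω) : γ ∈ (sP hB he0).Lv (g • ω) := fun μ hμ => by
  have := h ((a ^ 2)⁻¹ * μ) ((sJ_conj hB hg).mp (by simpa [ha] using hμ))
  rw [← this]
  change (sP hB he0).ψ (μ * γ) = (sP hB he0).ψ (_ * _)
  congr 1
  field_simp

variable [Finite X]

theorem mem_sA_of {ω : X} {a : E} (h : ∀ w ∈ (sP hB he0).T ω, B a w = 0) : a ∈ (sD hB e).A ω := by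
  have := finite_of_finiteDimensional F E
  refine (sP hB he0).mem_A fun w hw => ?_
  change (sP hB he0).ψ (B a w) = 1
  simp [h w hw]

theorem exists_sLv {ω : X} (h : ¬TI hB ω e) : ∃ γ ∈ (sP hB he0).Lv ω, γ ≠ 0 := by
  have := finite_of_finiteDimensional F E
  by_contra hc
  push Not at hc
  exact h fun c => (mem_sJ hB).mp ((sP hB he0).mem_J (by rw [sZ_eq]; trivial) fun g hg => by
    simp [hc g hg])

theorem sp_transport {w0 w : E} (h0 : B w0 e = 0) (h0' : w0 ∉ F ∙ e) (hw : B w e = 0) {s : F}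
    (hs : s ≠ 0) : ∃ g : Isom B, isoAct B g e = s • e ∧
      ∀ ω : X, w0 ∈ (sP hB he0).T ω → w ∈ (sP hB he0).T (g • ω) := by
  by_cases hw' : w ∈ F ∙ e
  · obtain ⟨g, hg⟩ := sp_move hB he0 (smul_ne_zero hs he0)
    obtain ⟨t, rfl⟩ := Submodule.mem_span_singleton.mp hw'
    exact ⟨g, hg, fun ω _ => smul_mem_sT hB he0 _ t⟩
  obtain ⟨g, h1, h2⟩ := sp_move2 hB he0 (smul_ne_zero hs he0) h0' (w' := s • w) (by
    rwa [Submodule.span_singleton_smul_eq hs.isUnit, Submodule.smul_mem_iff _ hs]) (by simp [hw, h0])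
  exact ⟨g, h1, fun ω h => by simpa [h2, hs] using sT_conj hB he0 h1 hs h⟩

end Cfsg.Agent.H1
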