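import Cfsg.Agent.H1.MIS1
import Cfsg.Agent.H1.MIU6

/-!
# Minimal index of symplectic groups: budgets, and the field with two elements
-/

set_option autoImplicit false
set_option linter.unusedSectionVars false

namespace Cfsg.Agent.H1

open Module H5 Finset

variable {F : Type*} [Field F] {E : Type*} [AddCommGroup E] [Module F E] [FiniteDimensional F E]
  {B : Bil F E} (hB : IsSp B) [Fintype F] {X : Type*} [MulAction (Isom B) X] [Finite X]

section Budget

variable {e : E} (he0 : e ≠ 0) {p : X → Prop} (hp : ∀ ω ω', (sD hB e).Eqv ω ω' → p ω → p ω')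
  (hp' : ∀ (g : Isom B) (s : F) ω, isoAct B g e = s • e → s ≠ 0 → p ω → p (g • ω))

include hp hp' in
theorem sp_budget {w0 : E} (h0 : B w0 e = 0) (h0' : w0 ∉ F ∙ e) (t : Finset X)
    (h1 : ∀ ω ∈ t, ∀ ω' ∈ t, (sD hB e).Eqv ω ω' → ω = ω')
    (h2 : ∀ ω ∈ t, p ω ∧ w0 ∈ (sP hB he0).T ω) (L : Set F)
    (hL : ∀ γ ∈ L, ∃ s ≠ 0, ∀ ω ∈ t, s ^ 2 * γ ∈ (sP hB he0).Lv ω) :
    Nat.card L * (Nat.card {w // B w e = 0} * t.card) ≤ Fintype.card F * Nat.card {ω // p ω} := by
  classical
  have := finite_of_finiteDimensional F E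
  refine (sP hB he0).budget0 hp L {w | B w e = 0} t.card fun γ hγ w hw => ?_
  obtain ⟨s, hs, h3⟩ := hL γ hγ
  obtain ⟨g, h4, h5⟩ := sp_transport hB he0 (X := X) h0 h0' hw hs
  refine ⟨t.image (g • ·), (card_image_of_injective _ (MulAction.injective g)).ge, ?_, ?_⟩
  · simp only [mem_image, forall_exists_index, and_imp, forall_apply_eq_imp_iff₂]
    exact fun ω h ω' h' k => by rw [h1 ω h ω' h' (seqv_conj' hB h4 hs k)]
  · simp only [mem_image, forall_exists_index, and_imp, forall_apply_eq_imp_iff₂]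
    exact fun ω h => ⟨hp' g s ω h4 hs (h2 ω h).1, sLv_conj hB he0 h4 hs (h3 ω h), h5 ω (h2 ω h).2⟩

include hp hp' in
theorem sp_cover {ω : X} (hω : p ω) {w0 : E} (h0 : w0 ∈ (sP hB he0).T ω) (h0' : w0 ∉ F ∙ e)
    (hL : ∀ γ, ∃ s ≠ 0, s ^ 2 * γ ∈ (sP hB he0).Lv ω) :
    (Nat.card {w // B w e = 0} - Fintype.card F) * Nat.card ((sP hB he0).T ω) ≤
      (Nat.card ((sP hB he0).T ω) - Fintype.card F) * Nat.card {ω // p ω} := by
  classical
  have := finite_of_finiteDimensional F E
  have := Fintype.ofFinite E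
  have k0 := card_span_one (F := F) rfl he0
  rw [Nat.card_eq_fintype_card, Fintype.card_subtype] at k0
  have key : ∀ γ, ∃ t : Finset X, (∀ ω ∈ t, ∀ ω' ∈ t, (sD hB e).Eqv ω ω' → ω = ω') ∧
      (∀ ω ∈ t, p ω ∧ γ ∈ (sP hB he0).Lv ω) ∧
      (Nat.card {w // B w e = 0} - Fintype.card F) * Nat.card ((sP hB he0).T ω) ≤
        (Nat.card ((sP hB he0).T ω) - Fintype.card F) * ∑ ω ∈ t, Nat.card ((sP hB he0).T ω) := by
    intro γ
    obtain ⟨s, hs, h3⟩ := hL γ
    choose! g h4 h5 using fun w (hw : B w e = 0) =>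
      sp_transport hB he0 (X := X) (sT_perp hB he0 h0) h0' hw hs
    obtain ⟨t, k1, k2, k3⟩ := exists_cover (univ.filter fun w => B w e = 0 ∧ w ∉ F ∙ e)
      (fun y => g y • ω) (sP hB he0).T (Nat.card ((sP hB he0).T ω) - Fintype.card F) fun y hy => by
        have hy' : B y e = 0 := (mem_filter.mp hy).2.1
        rw [← card_sT_conj hB he0 (h4 y hy') hs, Nat.card_eq_fintype_card, Fintype.card_subtype,
          ← k0, ← Finset.card_sdiff_of_subset fun x hx => by
            obtain ⟨s, rfl⟩ := Submodule.mem_span_singleton.mp (by simpa using hx)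
            simpa using smul_mem_sT hB he0 _ s]
        refine Finset.card_le_card fun x hx => ?_
        simp only [mem_filter, mem_univ, true_and, mem_sdiff] at hx ⊢
        exact ⟨hx.2 ▸ h5 x hx.1.1 ω h0, hx.1.2⟩
    refine ⟨t, fun ω1 h1 ω2 h2 h => k2 ω1 h1 ω2 h2 ((sP hB he0).T_eq h).symm, fun ω1 h => ?_, ?_⟩
    · obtain ⟨y, hy, rfl⟩ := k1 ω1 h
      have hy' : B y e = 0 := (mem_filter.mp hy).2.1
      exact ⟨hp' _ s ω (h4 y hy') hs hω, sLv_conj hB he0 (h4 y hy') hs h3⟩
    · rw [Finset.sum_congr rfl (g := fun _ => Nat.card ((sP hB he0).T ω)) fun ω1 h => by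
        obtain ⟨y, hy, rfl⟩ := k1 ω1 h
        exact card_sT_conj hB he0 (h4 y (mem_filter.mp hy).2.1) hs, sum_const, smul_eq_mul,
        ← mul_assoc]
      refine Nat.mul_le_mul_right _ (le_trans (le_of_eq ?_) k3)
      rw [Nat.card_eq_fintype_card, Fintype.card_subtype, ← k0,
        ← Finset.card_sdiff_of_subset fun x hx => by
          obtain ⟨s, rfl⟩ := Submodule.mem_span_singleton.mp (by simpa using hx)
          simp [hB.alt]]
      congr 1
      ext; simp
  choose t h1 h2 h3 using key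
  have h4 := (sP hB he0).budgetT hp t h1 h2
  have h5 := Finset.sum_le_sum (s := univ) fun γ _ => h3 γ
  rw [sum_const, card_univ, smul_eq_mul, ← mul_sum] at h5
  refine Nat.le_of_mul_le_mul_left (h5.trans ((Nat.mul_le_mul_left _ h4).trans_eq ?_))
    Fintype.card_pos
  exact mul_left_comm _ _ _

end Budget

section Two

variable (h2 : Fintype.card F = 2)

include h2 in
theorem f2_cases (x : F) : x = 0 ∨ x = 1 := by
  classical
  by_contra h
  push Not at h
  have := Finset.card_le_univ ({0, 1, x} : Finset F)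
  rw [card_insert_of_notMem (by simp [h.1.symm]), card_pair h.2.symm, h2] at this
  omega

include h2 in
theorem f2_add (x : F) : x + x = 0 := by
  rcases f2_cases h2 (1 + 1) with h | h
  · linear_combination x * h
  · simp at h

/-- Gauss sum of a function to the field with two elements -/
noncomputable def gs (Θ : E → F) : ℤ := by
  classical
  exact ∑ᶠ v, if Θ v = 0 then 1 else -1

include h2 in
open Classical in
theorem f2_chi (x y : F) : (if x + y = 0 then 1 else -1 : ℤ) =
    (if x = 0 then 1 else -1) * if y = 0 then 1 else -1 := by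
  rcases f2_cases h2 x with rfl | rfl <;> rcases f2_cases h2 y with rfl | rfl <;>
    simp [f2_add h2]

theorem gs_card (Θ : E → F) : gs Θ + Nat.card E = 2 * Nat.card {v // Θ v = 0} := by
  classical
  have := finite_of_finiteDimensional F E
  have := Fintype.ofFinite E
  rw [gs, finsum_eq_sum_of_fintype, Nat.card_eq_fintype_card, Nat.card_eq_fintype_card,
    Fintype.card_subtype, ← card_univ, card_eq_sum_ones, card_filter, Nat.cast_sum, Nat.cast_sum,
    ← sum_add_distrib, mul_sum]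
  refine sum_congr rfl fun v _ => ?_
  split_ifs <;> simp

theorem gs_comp (Θ : E → F) (φ : E ≃ E) : gs (fun v => Θ (φ v)) = gs Θ := by
  classical
  exact finsum_comp_equiv φ (f := fun v => if Θ v = 0 then (1 : ℤ) else -1)

include h2 in
open Classical in
theorem gs_add (Θ : E → F) (c : F) : gs (fun v => c + Θ v) = (if c = 0 then 1 else -1) * gs Θ := by
  have := finite_of_finiteDimensional F E
  have := Fintype.ofFinite E
  simp only [gs, finsum_eq_sum_of_fintype, mul_sum, f2_chi h2]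

variable {Θ : E → F} (hΘ : ∀ a b, Θ (a + b) = Θ a + Θ b + B b a)

include h2 hΘ in
open Classical in
theorem gs_shift (v : E) : gs (fun z => Θ z + B v z) = (if Θ v = 0 then 1 else -1) * gs Θ := by
  rw [← gs_comp Θ (Equiv.addRight v), ← gs_add h2]
  congr 1
  ext z
  rw [Equiv.coe_addRight, hΘ]
  linear_combination -f2_add h2 (Θ v)

include hB h2 hΘ in
theorem gs_sq : gs Θ * gs Θ = Nat.card E := by
  classical
  have := finite_of_finiteDimensional F E
  have := Fintype.ofFinite E
  have h0 : Θ 0 = 0 := by simpa using hΘ 0 0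
  have h1 : ∀ z, z ≠ 0 → gs (fun v => B v z) = 0 := fun z hz => by
    obtain ⟨f, hf⟩ := hB.exists_pair hz
    have k1 := gs_comp (fun v => B v z) (Equiv.addLeft f)
    have k2 := gs_add h2 (fun v => B v z) 1
    simp only [Equiv.coe_addLeft, map_add, LinearMap.add_apply, hf, one_ne_zero, if_false] at k1 k2
    omega
  calc _ = ∑ v, gs fun z => Θ z + B v z := by
        simp only [gs_shift h2 hΘ, ← sum_mul]
        rw [gs, finsum_eq_sum_of_fintype]
    _ = ∑ z, (if Θ z = 0 then 1 else -1) * gs fun v => B v z := by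
        simp only [gs, finsum_eq_sum_of_fintype, f2_chi h2, mul_sum]
        exact sum_comm
    _ = _ := by
        rw [sum_eq_single 0 (fun z _ hz => by rw [h1 z hz, mul_zero]) (by simp)]
        simp [gs, h0, finsum_eq_sum_of_fintype]

include hB h2 hΘ in
theorem quad_tr (u z : E) (hu : Θ u = 0) : Θ (isoAct B (hB.transv u 1) z) = Θ z + B z u := by
  rw [tr_apply, one_mul]
  rcases f2_cases h2 (B z u) with h | h
  · simp [h]
  · rw [h, one_smul, hΘ, hB.skew, h, hu]
    linear_combination -f2_add h2 1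

variable (h6 : 6 ≤ finrank F E) (hd : Nat.card X * 2 < Nat.card E)

include h2 hd in
theorem sp2_A {ω : X} {e : E} (h : hB.transv e 1 • ω ≠ ω) {a : E} (ha : B a e = 0) :
    ∃ μ, es hB a e μ • ω = ω := by
  have he0 : e ≠ 0 := by rintro rfl; exact h (by rw [tr_zero_left, one_smul])
  refine ((mem_sA hB).mp (mem_sA_of hB he0 fun w hw => ?_)).2
  suffices w ∈ F ∙ e by
    obtain ⟨s, rfl⟩ := Submodule.mem_span_singleton.mp this
    simp [ha]
  by_contra hw'
  obtain ⟨γ, h3, h4⟩ := exists_sLv hB he0 (ω := ω) fun hh => h (hh 1)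
  have h5 := sp_budget hB he0 (p := fun _ : X => True) (by simp) (by simp) (sT_perp hB he0 hw) hw'
    {ω} (by simp) (by simpa using hw) Set.univ fun γ' _ => ⟨1, one_ne_zero, by
      rcases f2_cases h2 γ' with rfl | rfl
      · simp
      · simpa [(f2_cases h2 γ).resolve_left h4] using h3⟩
  have h7 := card_sp_perp hB h2 he0
  rw [Nat.card_univ, Nat.card_eq_fintype_card (α := F), h2, card_singleton,
    Nat.card_congr (Equiv.subtypeUnivEquiv fun _ => trivial)] at h5
  omega

open Classical in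
include h2 h6 hd in
theorem sp2_quad {ω : X} (hX : ∃ g : Isom B, g • ω ≠ ω) (a b : E) :
    let Θ : E → F := fun v => if v ≠ 0 ∧ hB.transv v 1 • ω = ω then 1 else 0
    Θ (a + b) = Θ a + Θ b + B b a := by
  intro Θ
  have n1 : (-1 : F) = 1 := by linear_combination -f2_add h2 1
  have tt : ∀ (v : E) (ω : X), hB.transv v 1 • hB.transv v 1 • ω = ω := fun v ω => by
    rw [← mul_smul, ← tr_add, f2_add h2, tr_zero, one_smul]
  choose! θ hθ using fun e (h : hB.transv e 1 • ω ≠ ω) a (ha : B a e = 0) => sp2_A hB h2 hd h ha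
  have ne0 : ∀ e, hB.transv e 1 • ω ≠ ω → e ≠ 0 := by
    rintro _ h rfl; exact h (by rw [tr_zero_left, one_smul])
  have uq : ∀ e, hB.transv e 1 • ω ≠ ω → ∀ a μ, B a e = 0 → es hB a e μ • ω = ω → θ e a = μ :=
    fun e h a μ ha k => by
      have := es_sub hB ha (hθ e h a ha) k
      rcases f2_cases h2 (θ e a - μ) with k1 | k1
      · exact sub_eq_zero.mp k1
      · exact absurd (k1 ▸ this) h
  have add : ∀ e, hB.transv e 1 • ω ≠ ω → ∀ a b, B a e = 0 → B b e = 0 →
      θ e (a + b) = θ e a + θ e b + B b a := fun e h a b ha hb =>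
    uq e h _ _ (by simp [ha, hb]) (by rw [← es_mul hB ha hb, mul_smul, hθ e h b hb, hθ e h a ha])
  have self : ∀ e, hB.transv e 1 • ω ≠ ω → ∀ s : F, θ e (s • e) = 0 := fun e h s =>
    uq e h _ _ (by simp [hB.alt]) (by rw [es_self, two_mul, f2_add h2, add_zero, tr_zero, one_smul])
  have i1 : ∀ e, hB.transv e 1 • ω ≠ ω → ∀ a, B a e = 0 → θ e a = 1 →
      hB.transv (a + e) 1 • ω = hB.transv a 1 • ω := fun e h a ha k => by
    have := hθ e h a ha
    rw [k, es, sub_self, tr_zero, mul_one, n1, mul_smul] at this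
    rw [← tt (a + e) (hB.transv a 1 • ω), this]
  have i0 : ∀ e, hB.transv e 1 • ω ≠ ω → ∀ a, B a e = 0 → θ e a = 0 → hB.transv a 1 • ω = ω →
      hB.transv (a + e) 1 • ω = hB.transv e 1 • ω := fun e h a ha k k' => by
    have := hθ e h a ha
    rw [k, es, zero_sub, n1, mul_assoc, tr_comm hB ha, mul_smul, mul_smul, k'] at this
    rw [← tt (a + e) (hB.transv e 1 • ω), this]
  have f1 : ∀ e, hB.transv e 1 • ω ≠ ω → ∀ a, B a e = 0 → a ∉ F ∙ e →
      hB.transv a 1 • ω = hB.transv e 1 • ω → θ e a = 1 := fun e h a ha ha' k => by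
    obtain ⟨z, hz, hz'⟩ := sp_pair2 hB (ne0 e h) ha' 0 1
    have k1 : (hB.transv a 1 * hB.transv e 1) • ω = ω := by rw [mul_smul, ← k, tt]
    have k2 := (es_fix_conj hB (hB.transv a 1 * hB.transv e 1)).mpr (hθ e h z hz)
    rw [k1, act_mul_apply, act_mul_apply, tr_fix hB hz, tr_fix hB (hB.alt e),
      tr_fix hB (hB.isEps.refl ha), tr_apply, hz', one_mul, one_smul] at k2
    have k3 := uq e h _ _ (by simp [ha, hz]) k2
    rw [add e h z a hz ha, hB.skew, hz'] at k3
    linear_combination k3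
  have sw : ∀ a e : E, a ∉ F ∙ e → e ≠ 0 → a + e ∉ F ∙ a ∧ a + e ∉ F ∙ e := fun a e h h0 =>
    ⟨fun k => by
      simpa using not_mem_span_add h0 h 0 one_ne_zero (by
        simpa using Submodule.sub_mem _ k (Submodule.mem_span_singleton_self a)),
     fun k => h (by simpa using Submodule.sub_mem _ k (Submodule.mem_span_singleton_self e))⟩
  have s1 : ∀ e, hB.transv e 1 • ω ≠ ω → ∀ a, B a e = 0 → a ∉ F ∙ e →
      hB.transv a 1 • ω ≠ hB.transv e 1 • ω := fun e h a ha ha' k => by
    have k1 := f1 e h a ha ha' k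
    have hae := hB.isEps.refl ha
    obtain ⟨c, c', hce, hca, hc'e, hc'a, hcc, hc⟩ : ∃ c c', B c e = 0 ∧ B c a = 0 ∧ B c' e = 0 ∧
        B c' a = 0 ∧ B c c' = 1 ∧ θ e c = 1 := by
      obtain ⟨c, c', k2, k3, k4, k5, k6⟩ := sp_exists_pair hB (by omega) e a
      rcases f2_cases h2 (θ e c) with k7 | k7
      · rcases f2_cases h2 (θ e c') with k8 | k8
        · exact ⟨c' + c, c', by simp [k2, k4], by simp [k3, k5], k4, k5, by simp [k6, hB.alt], by
            rw [add e h _ _ k4 k2, k7, k8, k6]; simp⟩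
        · exact ⟨c', c, k4, k5, k2, k3, by rw [hB.skew, k6, n1], k8⟩
      · exact ⟨c, c', k2, k3, k4, k5, k6, k7⟩
    have nm : ∀ v u : E, B v c' = 1 → B u c' = 0 → v ∉ F ∙ u := fun v u k2 k3 k4 => by
      obtain ⟨s, rfl⟩ := Submodule.mem_span_singleton.mp k4
      simp [k3] at k2
    have hec := hB.isEps.refl hc'e
    have hac := hB.isEps.refl hc'a
    have ha1 : hB.transv a 1 • ω ≠ ω := k ▸ h
    have k2 : θ e (c + a) = 0 := by rw [add e h c a hce ha, hc, k1, hB.isEps.refl hca, f2_add h2,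
      add_zero]
    have k3 : hB.transv (c + a) 1 • ω ≠ hB.transv e 1 • ω := fun k3 => by
      simpa [k2] using f1 e h _ (by simp [ha, hce]) (nm _ _ (by simp [hcc, hac]) hec) k3
    by_cases k4 : hB.transv c 1 • ω = ω
    · rcases f2_cases h2 (θ a c) with k5 | k5
      · exact k3 ((i0 a ha1 c hca k5 k4).trans k)
      · have k6 := i0 e h _ (by simp [ha, hce]) k2 ((i1 a ha1 c hca k5).trans k4)
        have k7 := f1 e h _ (by simp [ha, hce, hB.alt]) (nm _ _ (by simp [hcc, hac, hec]) hec) k6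
        have k8 := self e h 1
        rw [one_smul] at k8
        rw [add e h _ _ (by simp [ha, hce]) (hB.alt e), k2, k8] at k7
        simp [hae, hB.isEps.refl hce] at k7
    · have k5 := i1 e h c hce hc
      have k6 := i1 c k4 _ (by simp [hB.alt, hB.isEps.refl hce]) (f1 c k4 _
        (by simp [hB.alt, hB.isEps.refl hce]) (sw c e (nm _ _ hcc hec) (ne0 e h)).1 k5)
      rw [add_right_comm, ← two_smul F, show (2 : F) = 0 by linear_combination f2_add h2 1,
        zero_smul, zero_add, k5] at k6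
      exact k3 ((i1 a ha1 c hca (f1 a ha1 c hca (nm _ _ hcc hac) (k6.symm.trans k.symm))).trans
        k6.symm)
  have s2 : ∀ e, hB.transv e 1 • ω ≠ ω → ∀ a, B a e = 0 → θ e a = Θ a := fun e h a ha => by
    by_cases ha' : a ∈ F ∙ e
    · obtain ⟨s, rfl⟩ := Submodule.mem_span_singleton.mp ha'
      rw [self e h]
      rcases f2_cases h2 s with rfl | rfl <;> simp [Θ, h]
    have ha0 : a ≠ 0 := by rintro rfl; exact ha' (Submodule.zero_mem _)
    obtain ⟨k1, k2⟩ := sw a e ha' (ne0 e h)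
    by_cases k : hB.transv a 1 • ω = ω
    · rw [show Θ a = 1 from if_pos ⟨ha0, k⟩]
      exact (f2_cases h2 _).resolve_left fun k3 =>
        s1 e h _ (by simp [ha, hB.alt]) k2 (i0 e h a ha k3 k)
    · rw [show Θ a = 0 from if_neg fun h => k h.2]
      exact (f2_cases h2 _).resolve_right fun k3 =>
        s1 a k _ (by simp [hB.isEps.refl ha, hB.alt]) k1 (i1 e h a ha k3)
  have s3 : ∀ e, hB.transv e 1 • ω ≠ ω → ∀ a b, B a e = 0 → B b e = 0 →
      Θ (a + b) = Θ a + Θ b + B b a := fun e h a b ha hb => by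
    rw [← s2 e h a ha, ← s2 e h b hb, ← s2 e h _ (by simp [ha, hb]), add e h a b ha hb]
  obtain ⟨y, hy⟩ := exists_notTI hB hX
  replace hy : hB.transv y 1 • ω ≠ ω := fun h => hy fun c => by
    rcases f2_cases h2 c with rfl | rfl
    · rw [tr_zero, one_smul]
    · exact h
  by_contra hc
  have key : ∀ c ∈ perp B (((F ∙ a) ⊔ F ∙ b) ⊔ F ∙ y), c ≠ 0 → Θ c = 1 := fun c h h0 => by
    rw [perp_sup, Submodule.mem_inf, mem_perp_two] at h
    exact if_pos ⟨h0, by_contra fun k => hc (s3 c k a b (hB.isEps.refl h.1.1) (hB.isEps.refl h.1.2))⟩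
  have d1 := hB.isEps.finrank_perp (((F ∙ a) ⊔ F ∙ b) ⊔ F ∙ y)
  have d2 := finrank_sup_span_le ((F ∙ a) ⊔ F ∙ b) y
  have d3 := finrank_two_le (F := F) a b
  obtain ⟨c, k1, k2⟩ := Submodule.exists_mem_ne_zero_of_ne_bot
    (p := perp B (((F ∙ a) ⊔ F ∙ b) ⊔ F ∙ y)) (by rintro h; rw [h, finrank_bot] at d1; omega)
  have d4 := hB.isEps.finrank_perp ((((F ∙ a) ⊔ F ∙ b) ⊔ F ∙ y) ⊔ F ∙ c)
  have d5 := finrank_sup_span_le (((F ∙ a) ⊔ F ∙ b) ⊔ F ∙ y) c
  obtain ⟨c', k3, k4⟩ : ∃ c' ∈ perp B ((((F ∙ a) ⊔ F ∙ b) ⊔ F ∙ y) ⊔ F ∙ c), c' ∉ F ∙ c := by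
    by_contra hc
    push Not at hc
    have := (Submodule.finrank_mono hc).trans (finrank_span_le (F := F) c)
    omega
  rw [perp_sup, Submodule.mem_inf, mem_perp_one] at k3
  have py : ∀ c ∈ perp B (((F ∙ a) ⊔ F ∙ b) ⊔ F ∙ y), B c y = 0 := fun c h =>
    h y (Submodule.mem_sup_right (Submodule.mem_span_singleton_self y))
  have k5 := s3 y hy c c' (py c k1) (py c' k3.1)
  rw [key c k1 k2, key c' k3.1 (by rintro rfl; exact k4 (Submodule.zero_mem _)),
    key _ (Submodule.add_mem _ k1 k3.1) (by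
      simpa [add_comm] using add_ne_zero_of_not_mem k4 1), k3.2, f2_add h2] at k5
  simp at k5

include hB h2 in
theorem sp2_index_ge {m : ℕ} (hm : finrank F E = 2 * m) (h3 : 3 ≤ m) (H : Subgroup (Isom B))
    (hH : H ≠ ⊤) : 2 ^ (m - 1) * (2 ^ m - 1) ≤ H.index := by
  classical
  have := finite_of_finiteDimensional F E
  have := finite_Isom B
  obtain ⟨k, rfl⟩ : ∃ k, m = k + 1 := ⟨m - 1, by omega⟩
  have hE : Nat.card E = 2 ^ (k + 1) * 2 ^ (k + 1) := by
    rw [Module.natCard_eq_pow_finrank (K := F), Nat.card_eq_fintype_card, h2, hm]; ring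
  rw [Nat.add_sub_cancel, Nat.mul_sub_one, tsub_le_iff_right]
  change _ ≤ Nat.card (Isom B ⧸ H) + _
  by_cases hd : Nat.card (Isom B ⧸ H) * 2 < Nat.card E
  swap
  · rw [hE, pow_succ, not_lt] at hd
    rw [pow_succ]
    nlinarith [Nat.zero_le (2 ^ k)]
  obtain ⟨ω, -⟩ : ∃ ω : Isom B ⧸ H, True := ⟨((1 : Isom B) : Isom B ⧸ H), trivial⟩
  let Θ : (Isom B ⧸ H) → E → F := fun ω v => if v ≠ 0 ∧ hB.transv v 1 • ω = ω then 1 else 0
  have hΘ : ∀ a b, Θ ω (a + b) = Θ ω a + Θ ω b + B b a := fun a b => by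
    have := sp2_quad hB h2 (by omega) hd (exists_move_quot hH ω) a b
    dsimp only [Θ] at this ⊢
    convert this
  have h1 : ∀ (g : Isom B) v, Θ (g • ω) (isoAct B g v) = Θ ω v := fun g v => by
    simp only [Θ, tr_fix_conj, ne_eq, map_eq_zero_iff _ (rep_injective (isoAct B) g)]
  have h4 : Nat.card {v // Θ ω v = 0} ≤ Nat.card (Isom B ⧸ H) := by
    refine Nat.card_le_card_of_injective (fun v => hB.transv v 1 • ω) fun u v h => ?_
    refine Subtype.ext (hB.isEps.ext_right fun z => ?_)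
    have key : ∀ u : {v // Θ ω v = 0}, Θ (hB.transv u 1 • ω) z = Θ ω z + B z u := fun u => by
      rw [← quad_tr hB h2 hΘ u z u.2, ← h1 (hB.transv u 1), ← act_mul_apply, ← tr_add, f2_add h2,
        tr_zero, map_one, Module.End.one_apply]
    exact add_left_cancel ((key u).symm.trans ((congrArg (Θ · z) h).trans (key v)))
  have h5 := gs_card (Θ ω)
  have h6 := gs_sq hB h2 hΘ
  rw [hE] at h5 h6
  push_cast at h5 h6
  have h7 : -2 ^ (k + 1) ≤ gs (Θ ω) := by
    rcases mul_self_eq_mul_self_iff.mp h6 with h | h <;> rw [h]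
    exact neg_le_self (by positivity)
  zify at h4 ⊢
  rw [pow_succ] at h5 h7 ⊢
  nlinarith

include hB h2 in
theorem exists_quad : ∃ Θ : E → F, ∀ a b, Θ (a + b) = Θ a + Θ b + B b a := by
  let b := Module.finBasis F E
  let β : E →ₗ[F] E →ₗ[F] F :=
    b.constr F fun i => b.constr F fun j => if i < j then B (b i) (b j) else 0
  have h1 : β + β.flip = B := LinearMap.ext_basis b b fun i j => by
    simp only [β, LinearMap.add_apply, LinearMap.flip_apply, Basis.constr_basis]
    rcases lt_trichotomy i j with h | rfl | h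
    · simp [h, h.asymm]
    · simp [hB.alt]
    · simp only [h, h.asymm, if_true, if_false, zero_add]
      rw [hB.skew]
      linear_combination -f2_add h2 (B (b i) (b j))
  refine ⟨fun v => β v v, fun x y => ?_⟩
  simp only [← h1, map_add, LinearMap.add_apply, LinearMap.flip_apply]
  ring

include hB h2 in
theorem sp2_index_eq {m : ℕ} (hm : finrank F E = 2 * m) (h3 : 3 ≤ m) : ∃ K : Subgroup (Isom B),
    Subgroup.center (Isom B) ≤ K ∧ K.index = 2 ^ (m - 1) * (2 ^ m - 1) := by
  classical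
  have := finite_of_finiteDimensional F E
  have := finite_Isom B
  have hE : Nat.card E = 2 ^ m * 2 ^ m := by
    rw [Module.natCard_eq_pow_finrank (K := F), Nat.card_eq_fintype_card, h2, hm]; ring
  have : Nontrivial E := Module.finrank_pos_iff.1 (by omega : 0 < finrank F E)
  obtain ⟨e, he⟩ := exists_ne (0 : E)
  obtain ⟨f, hf⟩ := hB.exists_pair he
  obtain ⟨Θ, hΘ, h1⟩ : ∃ Θ : E → F, (∀ a b, Θ (a + b) = Θ a + Θ b + B b a) ∧ gs Θ = -2 ^ m := by
    obtain ⟨Θ, hΘ⟩ := exists_quad hB h2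
    have h6 := gs_sq hB h2 hΘ
    rw [hE] at h6
    push_cast at h6
    rcases mul_self_eq_mul_self_iff.mp h6 with h | h
    swap
    · exact ⟨Θ, hΘ, h⟩
    obtain ⟨v, hv⟩ : ∃ v, Θ v ≠ 0 := by
      by_contra hc
      push Not at hc
      simpa [hc, hf] using hΘ e f
    exact ⟨fun z => Θ z + B v z, fun a b => by simp only [hΘ, map_add]; ring, by
      rw [gs_shift h2 hΘ, if_neg hv, h, neg_one_mul]⟩
  let K : Subgroup (Isom B) :=
    { carrier := {g | ∀ v, Θ (isoAct B g v) = Θ v}
      one_mem' := by simp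
      mul_mem' := fun h h' v => by rw [act_mul_apply, h, h']
      inv_mem' := fun h v => by rw [← h, act_apply_inv] }
  refine ⟨K, fun g hg v => ?_, le_antisymm ?_ (sp2_index_ge hB h2 hm h3 K fun h => ?_)⟩
  · obtain ⟨c, hc⟩ := hB.scalar_of_mem_center hg
    rcases f2_cases h2 c with rfl | rfl
    · exact absurd (by simpa using hc e) he
    · rw [isoAct_apply, hc, one_smul]
  · have key : ∀ g : Isom B, ∃ v : {v // Θ v = 0}, ∀ z, Θ (isoAct B g z) = Θ z + B v z := by
      intro g
      have h0 : Θ 0 = 0 := by simpa using hΘ 0 0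
      let φ : E →ₗ[F] F :=
        { toFun := fun z => Θ (isoAct B g z) - Θ z
          map_add' := fun x y => by simp only [map_add, hΘ, isoAct_pres]; ring
          map_smul' := fun c x => by rcases f2_cases h2 c with rfl | rfl <;> simp [h0] }
      let b := Module.finBasis F E
      obtain ⟨v, hv⟩ := hB.isEps.exists_pairing b.linearIndependent fun i => φ (b i)
      have h4 : ∀ z, Θ (isoAct B g z) = Θ z + B v z := fun z => by
        rw [show B v = φ from b.ext hv]
        exact (add_sub_cancel _ _).symm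
      refine ⟨⟨v, by_contra fun h => ?_⟩, h4⟩
      have h5 := gs_shift h2 hΘ v
      simp only [← h4] at h5
      rw [if_neg h, h1] at h5
      have h6 := (gs_comp Θ g.1.toEquiv).trans h1
      have : (0 : ℤ) < 2 ^ m := by positivity
      change gs (fun z => Θ (isoAct B g z)) = _ at h6
      omega
    choose v hv using key
    have h4 : K.index ≤ _ := Nat.card_le_card_of_injective (fun x : Isom B ⧸ K => v x.out⁻¹)
      fun x y h => by
        rw [← x.out_eq, ← y.out_eq]
        refine QuotientGroup.eq.mpr fun z => ?_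
        rw [act_mul_apply, hv, show v x.out⁻¹ = _ from h, ← hv, act_inv_apply]
    have h5 := gs_card Θ
    obtain ⟨k, rfl⟩ : ∃ k, m = k + 1 := ⟨m - 1, by omega⟩
    rw [Nat.add_sub_cancel, Nat.mul_sub_one, Nat.le_sub_iff_add_le
      (Nat.le_mul_of_pos_right _ (by positivity))]
    rw [hE, h1] at h5
    zify at h4 h5 ⊢
    rw [pow_succ] at h5 ⊢
    nlinarith
  · have key : ∀ v, v ≠ 0 → Θ v = Θ e := fun v hv => by
      obtain ⟨g, rfl⟩ := sp_move hB he hv
      exact (h ▸ Subgroup.mem_top g : g ∈ K) e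
    obtain ⟨u, hu, hu'⟩ := sp_exists_line hB (e := e) (by omega)
    have h4 := hΘ e f
    have h5 := hΘ e u
    rw [key _ (by rintro h; simpa [hf, hB.alt] using congrArg (B · e) h),
      key f (by rintro rfl; simp at hf), f2_add h2, hf] at h4
    rw [key _ (by simpa [add_comm] using add_ne_zero_of_not_mem hu' 1),
      key u (by rintro rfl; exact hu' (Submodule.zero_mem _)), f2_add h2, hu, h4] at h5
    simp at h5

end Two

end Cfsg.Agent.H1
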