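import Cfsg.Agent.H1.MIS2

/-!
# Minimal index of symplectic groups: the local types
-/

set_option autoImplicit false
set_option linter.unusedSectionVars false

namespace Cfsg.Agent.H1

open Module H5 Finset

variable {F : Type*} [Field F] {E : Type*} [AddCommGroup E] [Module F E] [FiniteDimensional F E]
  {B : Bil F E} (hB : IsSp B) [Fintype F] {X : Type*} [MulAction (Isom B) X] [Finite X]
  {q : ℕ} (hq : Fintype.card F = q) (h3 : 3 ≤ q) (hd : Nat.card X * (q - 1) < Nat.card E)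
  {e : E} (he0 : e ≠ 0)

include hq h3 in
theorem exists_ne_zero_one : ∃ l : F, l ≠ 0 ∧ l ≠ 1 := by
  classical
  obtain ⟨l, hl⟩ := Finset.exists_mem_notMem_of_card_lt_card (s := ({0, 1} : Finset F)) (t := univ)
    (by rw [card_univ]; have := card_le_two (a := (0 : F)) (b := 1); omega)
  exact ⟨l, by simpa using hl.2⟩

theorem card_true (X : Type*) : Nat.card {_ω : X // True} = Nat.card X :=
  Nat.card_congr (Equiv.subtypeUnivEquiv fun _ => trivial)

include hq h3 hd in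
theorem two_eqv {ω ω' : X} {w : E} (hw : w ∉ F ∙ e) (h1 : w ∈ (sP hB he0).T ω)
    (h2 : w ∈ (sP hB he0).T ω')
    (h : ∀ γ, ∃ s ≠ 0, s ^ 2 * γ ∈ (sP hB he0).Lv ω ∧ s ^ 2 * γ ∈ (sP hB he0).Lv ω') :
    (sD hB e).Eqv ω ω' := by
  classical
  by_contra hc
  have hne : ω ≠ ω' := by rintro rfl; exact hc (HD.Eqv.refl _ _)
  have h5 := sp_budget hB he0 (p := fun _ : X => True) (by simp) (by simp) (sT_perp hB he0 h1) hw
    {ω, ω'} (by
      simp only [mem_insert, mem_singleton]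
      rintro _ (rfl | rfl) _ (rfl | rfl) h
      exacts [rfl, absurd h hc, absurd h.symm hc, rfl]) (by simp [h1, h2]) Set.univ
    fun γ _ => by simpa using h γ
  have h7 := card_sp_perp hB hq he0
  rw [Nat.card_univ, Nat.card_eq_fintype_card (α := F), hq, card_pair hne, card_true] at h5
  have h8 := Nat.le_of_mul_le_mul_left h5 (by omega)
  obtain ⟨r, rfl⟩ : ∃ r, q = r + 3 := ⟨q - 3, by omega⟩
  rw [← h7, show r + 3 - 1 = r + 2 by omega] at hd
  nlinarith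

include hq h3 hd in
theorem three_eqv {ω₁ ω₂ ω₃ : X} {w : E} (hw : w ∉ F ∙ e) {γ : F} (h0 : γ ≠ 0)
    (h : ∀ ω ∈ ({ω₁, ω₂, ω₃} : Set X), w ∈ (sP hB he0).T ω ∧ γ ∈ (sP hB he0).Lv ω) :
    (sD hB e).Eqv ω₁ ω₂ ∨ (sD hB e).Eqv ω₁ ω₃ ∨ (sD hB e).Eqv ω₂ ω₃ := by
  classical
  by_contra hc
  push Not at hc
  obtain ⟨k1, k2, k3⟩ := hc
  have ne : ∀ ω ω' : X, ¬(sD hB e).Eqv ω ω' → ω ≠ ω' := by
    rintro ω _ h rfl; exact h (HD.Eqv.refl _ _)
  have h5 := sp_budget hB he0 (p := fun _ : X => True) (by simp) (by simp)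
    (sT_perp hB he0 (h ω₁ (by simp)).1) hw {ω₁, ω₂, ω₃} (by
      simp only [mem_insert, mem_singleton]
      rintro _ (rfl | rfl | rfl) _ (rfl | rfl | rfl) h
      exacts [rfl, absurd h k1, absurd h k2, absurd h.symm k1, rfl, absurd h k3, absurd h.symm k2,
        absurd h.symm k3, rfl]) (fun ω hω => ⟨trivial, (h ω (by simpa using hω)).1⟩)
    (Set.range fun s => γ / s ^ 2) (by
      rintro _ ⟨s, rfl⟩
      by_cases hs : s = 0
      · exact ⟨1, one_ne_zero, by simp [hs]⟩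
      · exact ⟨s, hs, fun ω hω => by simpa [hs, mul_div_cancel₀] using (h ω (by simpa using hω)).2⟩)
  have h6 := card_le_mul_of_fiber (Set.rangeFactorization fun s : F => γ / s ^ 2) (k := 2) (by
    rintro ⟨_, s, rfl⟩
    refine le_trans (Nat.card_le_card_of_injective (β := ({s, -s} : Finset F)) (fun t => ⟨t, ?_⟩)
      fun _ _ h => Subtype.ext (congrArg (·.1) h)) (by
        rw [Nat.card_eq_fintype_card, Fintype.card_coe]; exact card_le_two)
    have := congrArg Subtype.val t.2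
    simpa [sq_eq_sq_iff_eq_or_eq_neg, div_eq_mul_inv, h0] using this)
  have h7 := card_sp_perp hB hq he0
  rw [hq, card_eq_three.mpr ⟨_, _, _, ne _ _ k1, ne _ _ k2, ne _ _ k3, rfl⟩, card_true] at h5
  rw [Nat.card_eq_fintype_card (α := F), hq] at h6
  have h8 : q * (Nat.card {w // B w e = 0} * 3) ≤ q * (2 * Nat.card X) := by nlinarith
  have h9 := Nat.le_of_mul_le_mul_left h8 (by omega)
  obtain ⟨r, rfl⟩ : ∃ r, q = r + 3 := ⟨q - 3, by omega⟩
  rw [← h7, show r + 3 - 1 = r + 2 by omega] at hd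
  nlinarith

theorem level_even (h2 : (2 : F) = 0) {γ : F} (h0 : γ ≠ 0) (δ : F) :
    ∃ s : F, s ≠ 0 ∧ (s ^ 2 * δ = γ ∨ s ^ 2 * δ = 0) := by
  by_cases h : δ = 0
  · exact ⟨1, one_ne_zero, Or.inr (by simp [h])⟩
  obtain ⟨s, hs⟩ := exists_sq_char_two h2 (γ / δ)
  exact ⟨s, by rintro rfl; exact div_ne_zero h0 h (by simpa using hs.symm),
    Or.inl (by rw [hs, div_mul_cancel₀ _ h])⟩

include hq h3 hd in
theorem eqv_even (h2 : (2 : F) = 0) {ω : X} (h : ¬TI hB ω e) {w : E} (hw : w ∈ (sP hB he0).T ω)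
    (hw' : w ∉ F ∙ e) {g : Isom B} (h4 : isoAct B g e = e) (h5 : isoAct B g w = w) :
    (sD hB e).Eqv ω (g • ω) := by
  obtain ⟨γ, k1, k2⟩ := exists_sLv hB he0 h
  have k3 : isoAct B g e = (1 : F) • e := by simpa using h4
  refine two_eqv hB hq h3 hd he0 hw' hw (by simpa [h5] using sT_conj hB he0 k3 one_ne_zero hw)
    fun δ => ?_
  obtain ⟨s, hs, k | k⟩ := level_even h2 k2 δ
  · exact ⟨s, hs, k ▸ k1, k ▸ sLv_conj hB he0 k3 one_ne_zero (by simpa using k1)⟩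
  · exact ⟨s, hs, k ▸ zero_mem _, k ▸ zero_mem _⟩

include hq h3 hd in
theorem T_inv {ω : X} (h : ¬TI hB ω e) {w : E} (hw : w ∈ (sP hB he0).T ω) (hw' : w ∉ F ∙ e)
    {u : E} (hue : B u e = 0) (huw : B u w = 0) (c : F) {v : E} (hv : v ∈ (sP hB he0).T ω) :
    isoAct B (hB.transv u c) v ∈ (sP hB he0).T ω := by
  have := finite_of_finiteDimensional F E
  have k3 : ∀ c, isoAct B (hB.transv u c) e = (1 : F) • e := fun c => by
    rw [tr_fix hB (hB.isEps.refl hue), one_smul]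
  have k4 : ∀ c, (sD hB e).Eqv ω (hB.transv u c • ω) → ∀ v ∈ (sP hB he0).T ω,
      isoAct B (hB.transv u c) v ∈ (sP hB he0).T ω := fun c k v hv => by
    simpa [(sP hB he0).T_eq k] using sT_conj hB he0 (k3 c) one_ne_zero hv
  by_cases h2 : (2 : F) = 0
  · exact k4 c (eqv_even hB hq h3 hd he0 h2 h hw hw' (by simpa using k3 c)
      (tr_fix hB (hB.isEps.refl huw) c)) v hv
  obtain ⟨γ, k1, k2⟩ := exists_sLv hB he0 h
  have k5 : hB.transv u c = hB.transv u (c / 2) * hB.transv u (c / 2) := by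
    rw [← tr_add, ← mul_two, div_mul_cancel₀ _ h2]
  have k6 : (sD hB e).Eqv ω (hB.transv u (c / 2) • ω) →
      isoAct B (hB.transv u c) v ∈ (sP hB he0).T ω := fun k => by
    rw [k5, act_mul_apply]; exact k4 _ k _ (k4 _ k v hv)
  have k7 : ∀ c, w ∈ (sP hB he0).T (hB.transv u c • ω) ∧ γ ∈ (sP hB he0).Lv (hB.transv u c • ω) :=
    fun c => ⟨by simpa [tr_fix hB (hB.isEps.refl huw)] using sT_conj hB he0 (k3 c) one_ne_zero hw,
      sLv_conj hB he0 (k3 c) one_ne_zero (by simpa using k1)⟩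
  rcases three_eqv hB hq h3 hd he0 (ω₁ := ω) (ω₂ := hB.transv u (c / 2) • ω)
    (ω₃ := hB.transv u c • ω) hw' k2 (by
      rintro _ (rfl | rfl | rfl)
      exacts [⟨hw, k1⟩, k7 _, k7 _]) with k | k | k
  · exact k6 k
  · exact k4 c k v hv
  · rw [k5, mul_smul] at k
    exact k6 (seqv_conj' hB (k3 _) one_ne_zero k)

include hq h3 hd in
theorem T_struct {ω : X} (h : ¬TI hB ω e) {w : E} (hw : w ∈ (sP hB he0).T ω) (hw' : w ∉ F ∙ e) :
    (∀ z, B z e = 0 → z ∈ (sP hB he0).T ω) ∨ ∀ v ∈ (sP hB he0).T ω, v ∈ (F ∙ e) ⊔ F ∙ w := by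
  have key : ∀ w ∈ (sP hB he0).T ω, w ∉ F ∙ e → ∀ v ∈ (sP hB he0).T ω, v ∉ (F ∙ e) ⊔ F ∙ w →
      ∀ u, B u e = 0 → B u w = 0 → u ∈ (sP hB he0).T ω := by
    intro w hw hw' v hv hv'
    have k1 : ∀ u, B u e = 0 → B u w = 0 → B u v ≠ 0 → u ∈ (sP hB he0).T ω := fun u k1 k2 k3 => by
      have := T_inv hB hq h3 hd he0 h hw hw' k1 k2 (B v u)⁻¹ hv
      rw [tr_apply, inv_mul_cancel₀ (mt hB.isEps.refl k3), one_smul] at this
      simpa using sub_mem this hv
    intro u k2 k3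
    by_cases k4 : B u v = 0
    · obtain ⟨z, k5, k6, k7⟩ := sp_pair3 hB he0 hw' hv' 0 0 1
      simpa using sub_mem (k1 (u + z) (by simp [k2, k5]) (by simp [k3, k6]) (by simp [k4, k7]))
        (k1 z k5 k6 (by simp [k7]))
    · exact k1 u k2 k3 k4
  refine or_iff_not_imp_right.mpr fun hc z hz => ?_
  push Not at hc
  obtain ⟨v, hv, hv'⟩ := hc
  obtain ⟨u, k5, k6, k7⟩ := sp_pair3 hB he0 hw' hv' 0 0 1
  have k8 : ∀ a : E, B u a = 0 → v ∉ F ∙ a := fun a k hh => by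
    obtain ⟨s, rfl⟩ := Submodule.mem_span_singleton.mp hh
    simp [k] at k7
  simpa using add_mem (key v hv (k8 e k5) w hw (fun hh => by
    obtain ⟨s, t, hst⟩ := mem_span_pair'.mp hh
    obtain rfl : t = 0 := by simpa [hst, k5, k7] using k6
    exact hw' (Submodule.mem_span_singleton.mpr ⟨s, by simp [hst]⟩)) (z - B z v • u)
    (by simp [hz, k5]) (by simp [k7])) (key w hw hw' v hv hv' (B z v • u) (by simp [k5])
    (by simp [k6]))

theorem sp_star (h2 : (2 : F) = 0) {ω : X} {u : E} (hu : B u e = 0) {c : F}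
    (h : (sD hB e).Eqv ω (hB.transv u c • ω)) {a : E} (ha : a ∈ (sD hB e).A ω) :
    es hB ((c * B a u) • u) e (-(c * B a u ^ 2)) • ω = ω := by
  obtain ⟨h1, μ, h4⟩ := (mem_sA hB).mp ha
  obtain ⟨b, ν, h5, h6⟩ := (sD hB e).eqv_iff.mp h
  change B b e = 0 at h5
  change es hB b e ν • ω = _ at h6
  have h7 := (es_fix_conj hB (hB.transv u c)).mpr h4
  have h8 : B (a + (c * B a u) • u) e = 0 := by simp [h1, hu]
  rw [← h6, tr_fix hB (hB.isEps.refl hu), tr_apply, ← mul_smul, es_mul hB h8 h5, add_comm _ b,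
    show μ + ν + B b (a + (c * B a u) • u) = ν + μ + B (a + (c * B a u) • u) b by
      rw [hB.skew b]; linear_combination B b (a + (c * B a u) • u) * h2,
    ← es_mul hB h5 h8, mul_smul, smul_left_cancel_iff] at h7
  conv_lhs => rw [← h4, ← mul_smul, es_mul hB (by simp [hu]) h1]
  convert h7 using 3
  · rw [add_comm]
  · simp only [map_smul, smul_eq_mul]; ring

theorem comm_TI (h2 : (2 : F) ≠ 0) {ω : X} {a b : E} (ha : ∀ t : F, t • a ∈ (sD hB e).A ω)
    (hb : b ∈ (sD hB e).A ω) (h : B b a ≠ 0) : TI hB ω e := fun c => by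
  have := (sD hB e).comm_mem_J (ha (c / (2 * B b a))) hb
  change B b _ - B _ b ∈ _ at this
  refine (mem_sJ hB).mp ?_
  convert this using 1
  simp only [map_smul, LinearMap.smul_apply, smul_eq_mul, hB.skew b a]
  field_simp
  ring

include hB he0 in
theorem sp_perp_line (h4 : finrank F E = 4) {y : E} (hy : B y e = 0) (hy' : y ∉ F ∙ e) {v : E}
    (h1 : B v e = 0) (h2 : B v y = 0) : v ∈ (F ∙ e) ⊔ F ∙ y := by
  have d1 := hB.isEps.finrank_perp ((F ∙ e) ⊔ F ∙ y)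
  have d2 : finrank F ↥((F ∙ e) ⊔ F ∙ y) = 2 := by
    rw [Submodule.finrank_sup_span_singleton hy', finrank_span_singleton he0]
  have : (F ∙ e) ⊔ F ∙ y = perp B ((F ∙ e) ⊔ F ∙ y) := Submodule.eq_of_le_of_finrank_eq
    (fun v hv => by
      obtain ⟨s, t, rfl⟩ := mem_span_pair'.mp hv
      exact mem_perp_two.mpr ⟨by simp [hB.alt, hy], by simp [hB.isEps.refl hy, hB.alt]⟩) (by omega)
  exact this ▸ mem_perp_two.mpr ⟨h1, h2⟩

/-- regular type -/
def RT (ω : X) (e : E) : Prop := ∀ a ∈ (sD hB e).A ω, a ∈ F ∙ e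

/-- line type -/
def LnT (ω : X) (e : E) : Prop := finrank F E = 4 ∧ ∃ w, B w e = 0 ∧ w ∉ F ∙ e ∧
  ∀ a, a ∈ (sD hB e).A ω ↔ a ∈ (F ∙ e) ⊔ F ∙ w

/-- orthogonal type -/
def OT (ω : X) (e : E) : Prop := ∀ a, B a e = 0 → a ∈ (sD hB e).A ω

theorem exists_T {ω : X} (h : ¬OT hB ω e) : ∃ w ∈ (sP hB he0).T ω, w ∉ F ∙ e := by
  by_contra hc
  push Not at hc
  exact h fun a ha => mem_sA_of hB he0 fun w hw => by
    obtain ⟨s, rfl⟩ := Submodule.mem_span_singleton.mp (hc w hw)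
    simp [ha]

theorem perp_of_T {ω : X} {a w : E} (ha : a ∈ (sD hB e).A ω)
    (hw : ∀ t : F, t • w ∈ (sP hB he0).T ω) : B a w = 0 :=
  eq_zero_of_psi (sP_psi hB he0) fun c => by simpa using (mem_sT hB he0).mp (hw c) a ha

theorem sp_arith {q T d : ℕ} (h3 : 3 ≤ q) (h1 : q ≤ T) (h2 : 2 * T ≤ q ^ 2)
    (h4 : (q ^ 3 - q) * T ≤ (T - q) * d) (h5 : d * (q - 1) < q ^ 4) : False := by
  obtain ⟨t, rfl⟩ := Nat.exists_eq_add_of_le h1
  obtain ⟨s, rfl⟩ : ∃ s, q = s + 2 := ⟨q - 2, by omega⟩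
  rw [Nat.add_sub_cancel_left, show (s + 2) ^ 3 - (s + 2) = (s + 2) * ((s + 1) * (s + 3)) by
    rw [Nat.sub_eq_of_eq_add]; ring] at h4
  rw [show s + 2 - 1 = s + 1 by omega] at h5
  have m1 : (s + 2) * ((s + 1) * (s + 1) * (s + 3) * (s + 2 + t)) ≤ (s + 2) * (t * (s + 2) ^ 3) := by
    calc _ = (s + 2) * ((s + 1) * (s + 3)) * (s + 2 + t) * (s + 1) := by ring
      _ ≤ t * (d * (s + 1)) := by rw [← mul_assoc t]; exact Nat.mul_le_mul_right _ h4
      _ ≤ t * (s + 2) ^ 4 := Nat.mul_le_mul_left t h5.le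
      _ = _ := by ring
  have m2 := Nat.le_of_mul_le_mul_left m1 (by omega)
  have m3 : (s + 1) * (s + 1) * (s + 3) * (s + 2) ≤ t * (s ^ 2 + 5 * s + 5) := by nlinarith
  have m4 := Nat.mul_le_mul_right (s ^ 2 + 5 * s + 5) (show 2 * t ≤ (s + 2) * s by nlinarith)
  nlinarith [Nat.zero_le (s ^ 4), Nat.zero_le (s ^ 3), Nat.zero_le (s ^ 2)]

variable (h4 : 4 ≤ finrank F E)

include h4 in
theorem OT.two {ω : X} (h : ¬TI hB ω e) (hO : OT hB ω e) (he0 : e ≠ 0) : (2 : F) = 0 := by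
  by_contra h2
  obtain ⟨u, hu, hu'⟩ := sp_exists_line hB (e := e) (by omega)
  obtain ⟨b, hb, hb'⟩ := sp_pair2 hB he0 hu' 0 1
  exact h (comm_TI hB h2 (a := u) (fun t => hO _ (by simp [hu])) (hO b hb) (by simp [hb']))

include hq h3 hd he0 h4 in
theorem sp_types {ω : X} (h : ¬TI hB ω e) (hO : ¬OT hB ω e) : RT hB ω e ∨ LnT hB ω e := by
  have := finite_of_finiteDimensional F E
  obtain ⟨w, hw, hw'⟩ := exists_T hB he0 hO
  have hwe := sT_perp hB he0 hw
  rcases T_struct hB hq h3 hd he0 h hw hw' with k | k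
  · exact Or.inl fun a ha => sp_mem_span hB fun z hz =>
      perp_of_T hB he0 ha fun t => k _ (by simp [hz])
  have hA : ∀ a, B a e = 0 → B a w = 0 → a ∈ (sD hB e).A ω := fun a k1 k2 =>
    mem_sA_of hB he0 fun v hv => by
      obtain ⟨s, t, rfl⟩ := mem_span_pair'.mp (k v hv)
      simp [k1, k2]
  by_cases h5 : 5 ≤ finrank F E
  · obtain ⟨a, b, k1, k2, k3, k4, k5⟩ := sp_exists_pair hB h5 e w
    refine absurd ?_ h
    by_cases h2 : (2 : F) = 0
    swap
    · exact comm_TI hB h2 (a := b) (fun t => hA _ (by simp [k3]) (by simp [k4])) (hA a k1 k2)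
        (by simp [k5])
    obtain ⟨l, hl0, hl1⟩ := exists_ne_zero_one hq h3
    have k6 : ∀ c s : F, es hB ((c * s) • b) e (-(c * s ^ 2)) • ω = ω := fun c s => by
      simpa [k5] using sp_star hB h2 k3 (eqv_even hB hq h3 hd he0 h2 h hw hw'
        (tr_fix hB (hB.isEps.refl k3) c) (tr_fix hB (hB.isEps.refl k4) c))
        (hA (s • a) (by simp [k1]) (by simp [k2]))
    intro c
    have k7 := k6 (c / (l - 1) / l) l
    rw [div_mul_cancel₀ _ hl0] at k7
    have k8 := es_sub hB (by simp [k3]) (by simpa using k6 (c / (l - 1)) 1) k7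
    have := sub_ne_zero.mpr hl1
    convert k8 using 3
    field_simp
    ring
  have h6 : finrank F E = 4 := by omega
  refine Or.inr ⟨h6, w, hwe, hw', fun a => ⟨fun ha => sp_perp_line hB he0 h6 hwe hw'
    ((mem_sA hB).mp ha).1 ?_, fun ha => ?_⟩⟩
  swap
  · obtain ⟨s, t, rfl⟩ := mem_span_pair'.mp ha
    exact hA _ (by simp [hB.alt, hwe]) (by simp [hB.alt, hB.isEps.refl hwe])
  by_cases h2 : (2 : F) = 0
  swap
  · by_contra k1
    exact h (comm_TI hB h2 (fun t => hA _ (by simp [hwe]) (by simp [hB.alt])) ha k1)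
  refine perp_of_T hB he0 ha fun t => ?_
  by_contra k1
  have k2 := two_mul_card_le (J := (sP hB he0).T ω) (Z := ((F ∙ e) ⊔ F ∙ w).toAddSubgroup) k
    fun k2 => k1 (k2 ▸ mem_span_pair'.mpr ⟨0, t, by simp⟩)
  obtain ⟨γ, k3, k4⟩ := exists_sLv hB he0 h
  have k5 := sp_cover hB he0 (p := fun _ : X => True) (by simp) (by simp) trivial hw hw' fun δ => by
    obtain ⟨s, hs, k | k⟩ := level_even h2 k4 δ
    · exact ⟨s, hs, k ▸ k3⟩
    · exact ⟨s, hs, k ▸ zero_mem _⟩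
  have k6 := card_sp_perp hB hq he0
  have k7 : Nat.card E = q ^ 4 := by
    rw [Module.natCard_eq_pow_finrank (K := F), Nat.card_eq_fintype_card, hq, h6]
  have k8 : Nat.card {w // B w e = 0} = q ^ 3 :=
    Nat.eq_of_mul_eq_mul_right (show 0 < q by omega) (by rw [k6, k7]; ring)
  have k9 := AddSubgroup.card_le_of_le (show (F ∙ e).toAddSubgroup ≤ (sP hB he0).T ω from
    fun a ha => by
      obtain ⟨s, rfl⟩ := Submodule.mem_span_singleton.mp ha
      exact smul_mem_sT hB he0 ω s)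
  change Nat.card (F ∙ e) ≤ _ at k9
  change _ ≤ Nat.card ↥((F ∙ e) ⊔ F ∙ w) at k2
  rw [card_span_two hq he0 hw'] at k2
  rw [card_span_one hq he0] at k9
  rw [k8, hq, card_true] at k5
  rw [k7] at hd
  exact (sp_arith h3 k9 k2 k5 hd).elim

section O

variable {ω : X} (h : ¬TI hB ω e) (hO : OT hB ω e) (h2 : (2 : F) = 0)

include hO he0 h2 in
theorem OT.star {y : E} (hy : B y e = 0) (hy' : y ∉ F ∙ e) {β : F} (h0 : β ≠ 0)
    (k : (sD hB e).Eqv ω (hB.transv y β • ω)) (t : F) : es hB (t • y) e (-(t ^ 2 / β)) • ω = ω := by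
  obtain ⟨a, ha, ha'⟩ := sp_pair2 hB he0 hy' 0 (t / β)
  have := sp_star hB h2 hy k (hO a ha)
  rw [ha', mul_div_cancel₀ _ h0] at this
  convert this using 3
  field_simp

include h hO he0 h2 in
theorem OT.uniq {y : E} (hy : B y e = 0) (hy' : y ∉ F ∙ e) {β β' : F} (h0 : β ≠ 0) (h0' : β' ≠ 0)
    (k : (sD hB e).Eqv ω (hB.transv y β • ω)) (k' : (sD hB e).Eqv ω (hB.transv y β' • ω)) :
    β = β' := by
  by_contra hc
  refine h fun c => ?_
  have := sub_ne_zero.mpr hc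
  obtain ⟨t, ht⟩ := exists_sq_char_two h2 (c * β * β' / (β - β'))
  convert es_sub hB (by simp [hy]) (hO.star hB he0 h2 hy hy' h0 k t)
    (hO.star hB he0 h2 hy hy' h0' k' t) using 3
  rw [ht]
  field_simp
  ring

include hO he0 in
theorem OT.line {y : E} (hy : B y e = 0) (hy' : y ∉ F ∙ e) (ν c : F) :
    hB.transv (y + ν • e) c • ω = ω ↔ hB.transv y c • ω = ω := by
  obtain ⟨a, ha, ha'⟩ := sp_pair2 hB he0 hy' 0 (-ν)
  obtain ⟨-, μ, k⟩ := (mem_sA hB).mp (hO a ha)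
  rw [← tr_fix_conj hB (u := y) (es hB a e μ), k, es_apply hB ha, hy, hB.skew, ha']
  simp

include hq h3 h hO he0 h2 in
theorem OT.notTI {y : E} (hy : B y e = 0) (hy0 : y ≠ 0) : ¬TI hB ω y := fun k => by
  by_cases hy' : y ∈ F ∙ e
  · obtain ⟨s, rfl⟩ := Submodule.mem_span_singleton.mp hy'
    exact h ((TI_smul hB (by rintro rfl; simp at hy0)).mp k)
  obtain ⟨l, hl0, hl1⟩ := exists_ne_zero_one hq h3
  exact hl1 (hO.uniq hB he0 h h2 hy hy' hl0 one_ne_zero (by rw [k]; exact HD.Eqv.refl _ _)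
    (by rw [k]; exact HD.Eqv.refl _ _))

include hq h3 h hO he0 h2 in
theorem OT.both {y : E} (hy : B y e = 0) (hy' : y ∉ F ∙ e) (hO' : OT hB ω y) :
    (∀ c, hB.transv e c • ω = ω → c = 0) ∧ es hB y e 0 • ω = ω := by
  obtain ⟨l, hl0, hl1⟩ := exists_ne_zero_one hq h3
  have hy0 : y ≠ 0 := by rintro rfl; exact hy' (Submodule.zero_mem _)
  have he' : e ∉ F ∙ y := by simpa using not_mem_span_add he0 hy' 0 one_ne_zero
  have hJ : ∀ c, hB.transv e c • ω = ω → c = 0 := fun c k => by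
    by_contra h0
    have k1 : ∀ ν : F, ν ≠ 0 → (sD hB e).Eqv ω (hB.transv y (ν ^ 2 * c) • ω) := fun ν hν => by
      have := (hO'.line hB hy0 (hB.isEps.refl hy) he' ν c).mpr k
      rw [show e + ν • y = ν • (y + ν⁻¹ • e) by simp [hν, add_comm], tr_smul,
        hO.line hB he0 hy hy'] at this
      rw [this]; exact HD.Eqv.refl _ _
    have := mul_right_cancel₀ h0 (hO.uniq hB he0 h h2 hy hy' (by simp [hl0, h0]) (by simp [h0])
      (k1 l hl0) (k1 1 one_ne_zero))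
    exact hl1 (sub_eq_zero.mp (pow_eq_zero_iff two_ne_zero |>.mp
      (by linear_combination this + (1 - l) * h2)))
  refine ⟨hJ, ?_⟩
  have k1 : ∀ t : F, ∃ μ, hB.transv y μ • ω = es hB (t • y) e 0 • ω := fun t => by
    obtain ⟨-, μ, k⟩ := (mem_sA hB).mp (hO' (t • e) (by simp [hB.isEps.refl hy]))
    have := es_line hB hy t 0 μ
    simp only [zero_smul, add_zero, mul_zero, ne_eq, OfNat.ofNat_ne_zero, not_false_eq_true,
      zero_pow] at this
    rw [this, mul_smul, ← eq_inv_smul_iff, tr_inv] at k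
    exact ⟨_, k.symm⟩
  have k2 : ∀ (t μ : F), hB.transv y μ • ω = es hB (t • y) e 0 • ω →
      (sD hB e).Eqv ω (hB.transv y μ • ω) := fun t μ k =>
    (sD hB e).eqv_iff.mpr ⟨t • y, 0, by change B _ e = 0; simp [hy], k.symm⟩
  obtain ⟨β, k3⟩ := k1 1
  by_cases h0 : β = 0
  · rw [h0, tr_zero, one_smul, one_smul] at k3
    exact k3.symm
  have k4 : ∀ t : F, es hB (t • y) e 0 • ω = ω → t = 0 := fun t k => by
    simpa [h0] using hJ _ (es_sub hB (by simp [hy]) k (hO.star hB he0 h2 hy hy' h0 (k2 _ _ k3) t))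
  obtain ⟨μ, k5⟩ := k1 l
  by_cases h0' : μ = 0
  · rw [h0', tr_zero, one_smul] at k5
    exact absurd (k4 l k5.symm) hl0
  obtain rfl := hO.uniq hB he0 h h2 hy hy' h0 h0' (k2 _ _ k3) (k2 _ _ k5)
  refine absurd (sub_eq_zero.mp (k4 (l - 1) ?_)) hl1
  have k6 := es_mul hB (a := (1 : F) • y) (b := (l - 1) • y) (e := e) (by simp [hy]) (by simp [hy]) 0 0
  rw [← add_smul, add_sub_cancel] at k6
  simp only [map_smul, hB.alt, LinearMap.smul_apply, smul_zero, add_zero] at k6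
  rw [k3, ← k6, mul_smul, smul_left_cancel_iff] at k5
  exact k5.symm

include hq h3 h hO he0 h2 h4 in
theorem OT.exists_not : ∃ y, B y e = 0 ∧ y ∉ F ∙ e ∧ ¬OT hB ω y := by
  by_contra hc
  push Not at hc
  obtain ⟨u, hu, hu'⟩ := sp_exists_line hB (e := e) (by omega)
  obtain ⟨b, hb, hb'⟩ := sp_pair2 hB he0 hu' 0 1
  have k1 : ∀ v, B v u = 1 → v ∉ F ∙ e := fun v k hh => by
    obtain ⟨s, rfl⟩ := Submodule.mem_span_singleton.mp hh
    simp [hB.isEps.refl hu] at k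
  have k2 := fun y hy hy' => hO.both hB hq h3 he0 h h2 (y := y) hy hy' (hc y hy hy')
  have k3 := es_sub hB (a := u + b) (μ := 0 + 0 + B b u) (by simp [hu, hb]) (by
    rw [← es_mul hB hu hb, mul_smul, (k2 b hb (k1 b hb')).2, (k2 u hu hu').2])
    (k2 _ (by simp [hu, hb]) (k1 _ (by simp [hb', hB.alt]))).2
  simpa [hb'] using (k2 u hu hu').1 _ k3

end O

include hq h3 hd he0 in
theorem Jb_even (h2 : (2 : F) = 0) {ω : X} (h : ¬TI hB ω e) (hO : ¬OT hB ω e) {β : F}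
    (hβ : hB.transv e β • ω = ω) : β = 0 := by
  classical
  have := finite_of_finiteDimensional F E
  have := Fintype.ofFinite E
  by_contra h0
  obtain ⟨w0, hw, hw'⟩ := exists_T hB he0 hO
  obtain ⟨γ, k3, k4⟩ := exists_sLv hB he0 h
  have tr := fun w (hw0 : B w e = 0) s (hs : s ≠ (0 : F)) =>
    sp_transport hB he0 (X := X) (sT_perp hB he0 hw) hw' hw0 hs
  have sq : ∀ c, c ∉ (sD hB e).J ω → ∃ s : F, s ≠ 0 ∧ s ^ 2 * β = c := fun c hc => by
    obtain ⟨s, hs, k | k⟩ := level_even h2 (γ := c) (by rintro rfl; exact hc (zero_mem _)) β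
    · exact ⟨s, hs, k⟩
    · simp [hs, h0] at k
  obtain ⟨c, hc⟩ : ∃ c, c ∉ (sD hB e).J ω := by simpa [TI, mem_sJ] using h
  obtain ⟨s, hs, rfl⟩ := sq c hc
  have hβ' := (mem_sJ hB).mpr hβ
  obtain ⟨c', hc1, hc2⟩ : ∃ c', c' ∉ (sD hB e).J ω ∧ (s ^ 2)⁻¹ * c' ∉ (sD hB e).J ω := by
    by_cases k : ∀ j ∈ (sD hB e).J ω, (s ^ 2)⁻¹ * j ∈ (sD hB e).J ω
    · have : (s ^ 2)⁻¹ * (s ^ 2 * (s ^ 2 * β)) ∉ (sD hB e).J ω := by simpa [hs] using hc
      exact ⟨_, mt (k _) this, this⟩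
    push Not at k
    obtain ⟨j, k1, k2⟩ := k
    exact ⟨j + s ^ 2 * β, fun k => hc (by simpa using sub_mem k k1),
      fun k => k2 (by simpa [hs, mul_add] using sub_mem k hβ')⟩
  obtain ⟨s', hs', rfl⟩ := sq c' hc1
  have h5 := (sP hB he0).budget (p := fun _ : X => True) (by simp)
    (fun g w => if B w e = 0 then if g = 0 then 3 else 1 else 0) fun g w => by
      split_ifs with k1 k2
      · obtain ⟨g1, m1, n1⟩ := tr w k1 1 one_ne_zero
        obtain ⟨g2, m2, n2⟩ := tr w k1 s hs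
        obtain ⟨g3, m3, n3⟩ := tr w k1 s' hs'
        have j12 : (sD hB e).J (g1 • ω) ≠ (sD hB e).J (g2 • ω) := fun k =>
          hc ((sJ_conj hB m1).mp (by simpa [k] using (sJ_conj hB m2).mpr hβ'))
        have j13 : (sD hB e).J (g1 • ω) ≠ (sD hB e).J (g3 • ω) := fun k =>
          hc1 ((sJ_conj hB m1).mp (by simpa [k] using (sJ_conj hB m3).mpr hβ'))
        have j23 : (sD hB e).J (g2 • ω) ≠ (sD hB e).J (g3 • ω) := fun k =>
          hc2 ((sJ_conj hB m2).mp (by simpa [k, hs] using (sJ_conj hB m3).mpr hβ'))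
        refine ⟨{g1 • ω, g2 • ω, g3 • ω}, (card_eq_three.mpr ⟨_, _, _, mt (congrArg _) j12,
          mt (congrArg _) j13, mt (congrArg _) j23, rfl⟩).ge, ?_, ?_⟩
        · simp only [mem_insert, mem_singleton]
          rintro _ (rfl | rfl | rfl) _ (rfl | rfl | rfl) h
          exacts [rfl, absurd h.J_eq.symm j12, absurd h.J_eq.symm j13, absurd h.J_eq j12, rfl,
            absurd h.J_eq.symm j23, absurd h.J_eq j13, absurd h.J_eq j23, rfl]
        · simp [k2, n1 ω hw, n2 ω hw, n3 ω hw]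
      · obtain ⟨t, ht, k | k⟩ := level_even h2 k4 g
        · obtain ⟨g1, m1, n1⟩ := tr w k1 t ht
          exact ⟨{g1 • ω}, by simp, by simp, by
            simpa using ⟨sLv_conj hB he0 m1 ht (k ▸ k3), n1 ω hw⟩⟩
        · simp [ht, k2] at k
      · exact ⟨∅, by simp⟩
  have h7 := card_sp_perp hB hq he0
  rw [Nat.card_eq_fintype_card, Fintype.card_subtype] at h7
  simp only [← Finset.sum_filter, sum_const, smul_eq_mul, ← mul_sum] at h5
  rw [card_true, ← Finset.add_sum_erase _ _ (mem_univ 0), if_pos rfl,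
    Finset.sum_congr rfl (g := fun _ => 1) fun x hx => if_neg (ne_of_mem_erase hx), sum_const,
    card_erase_of_mem (mem_univ _), card_univ, hq, smul_eq_mul, mul_one] at h5
  change _ ≤ Fintype.card F * _ at h5
  obtain ⟨r, rfl⟩ : ∃ r, q = r + 3 := ⟨q - 3, by omega⟩
  rw [← h7, show r + 3 - 1 = r + 2 by omega] at hd
  rw [hq, show r + 3 - 1 = r + 2 by omega] at h5
  nlinarith [Nat.mul_le_mul_right (r + 2) h5]

theorem Jb_pigeon {ω : X} {u : E} (hu : B u e = 0) (hu' : ∀ t : F, t • u ∈ (sD hB e).A ω → t = 0) :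
    ∃ ν : F, ∀ c, hB.transv (u + ν • e) c • ω = ω → c = 0 := by
  by_contra hc
  push Not at hc
  choose c h1 h2 using hc
  have : ¬Function.Injective fun ν => (⟨c ν, h2 ν⟩ : {c : F // ¬c = 0}) := fun h => by
    have k1 := Nat.card_le_card_of_injective _ h
    have k2 := card_add_card_not fun c : F => c = 0
    rw [Nat.card_unique] at k2
    omega
  obtain ⟨ν, ν', h6, h7⟩ := Function.not_injective_iff.mp this
  have h8 : c ν = c ν' := congrArg Subtype.val h6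
  have k0 : B (u + ν' • e) e = 0 := by simp [hu, hB.alt]
  have k2 := es_line hB k0 0 (ν - ν') (c ν')
  have k3 := h1 ν
  rw [zero_smul, es_zero] at k2
  rw [h8, show u + ν • e = u + ν' • e + (ν - ν') • e by module, k2, mul_smul, ← h1 ν',
    smul_left_cancel_iff, h1 ν'] at k3
  have k4 := sub_mem ((mem_sA hB).mpr ⟨by simp [hu, hB.alt], _, k3⟩)
    (smul_mem_sA hB ω ((0 + c ν' * (ν - ν')) * ν'))
  rw [smul_add, smul_smul, add_sub_cancel_right] at k4
  simpa [h2, sub_ne_zero.mpr h7] using hu' _ k4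

end Cfsg.Agent.H1
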