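import Cfsg.Agent.H1.MIS3

/-!
# Minimal index of symplectic groups over fields with at least three elements
-/

set_option autoImplicit false
set_option linter.unusedSectionVars false

namespace Cfsg.Agent.H1

open Module H5 Finset

variable {F : Type*} [Field F] {E : Type*} [AddCommGroup E] [Module F E] [FiniteDimensional F E]
  {B : Bil F E} (hB : IsSp B) [Fintype F] {X : Type*} [MulAction (Isom B) X] [Finite X]
  {q : ℕ} (hq : Fintype.card F = q) (h3 : 3 ≤ q) (hd : Nat.card X * (q - 1) < Nat.card E)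
  {e : E} (he0 : e ≠ 0) (h4 : 4 ≤ finrank F E)

/-- no transvection with centre `e` fixes `ω` -/
def Jb (ω : X) (e : E) : Prop := ∀ c, hB.transv e c • ω = ω → c = 0

theorem Jb.notTI {ω : X} (h : Jb hB ω e) : ¬TI hB ω e := fun k => one_ne_zero (h 1 (k 1))

theorem Jb.mem_Lv {ω : X} (h : Jb hB ω e) (γ : F) : γ ∈ (sP hB he0).Lv ω :=
  (mem_sLv hB he0).mpr fun μ hμ => by simp [h μ ((mem_sJ hB).mp hμ)]

theorem Jb_conj {ω : X} (g : Isom B) : Jb hB (g • ω) (isoAct B g e) ↔ Jb hB ω e := by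
  simp only [Jb, tr_fix_conj]

theorem Jb.conj_e {ω : X} (h : Jb hB ω e) {g : Isom B} {s : F} (hg : isoAct B g e = s • e)
    (hs : s ≠ 0) : Jb hB (g • ω) e := fun c k => by
  exact (mul_eq_zero.mp (h ((s ^ 2)⁻¹ * c) ((mem_sJ hB).mp ((sJ_conj hB hg).mp (by
    simpa [hs] using (mem_sJ hB).mpr k))))).resolve_left (inv_ne_zero (pow_ne_zero 2 hs))

theorem sA_map {ω : X} (g : Isom B) {a : E} :
    isoAct B g a ∈ (sD hB (isoAct B g e)).A (g • ω) ↔ a ∈ (sD hB e).A ω := by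
  simp only [mem_sA, es_fix_conj, isoAct_pres]

theorem OT.map {ω : X} (g : Isom B) (h : OT hB (g • ω) (isoAct B g e)) : OT hB ω e :=
  fun a ha => (sA_map hB g).mp (h _ (by rwa [isoAct_pres]))

theorem RT.map {ω : X} (h : RT hB ω e) (g : Isom B) : RT hB (g • ω) (isoAct B g e) := fun a ha => by
  rw [← act_apply_inv (isoAct B) g a] at ha ⊢
  obtain ⟨s, hs⟩ := Submodule.mem_span_singleton.mp (h _ ((sA_map hB g).mp ha))
  exact Submodule.mem_span_singleton.mpr ⟨s, by rw [← hs, map_smul]⟩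

theorem RT.conj_e {ω : X} (h : RT hB ω e) {g : Isom B} {s : F} (hg : isoAct B g e = s • e)
    (hs : s ≠ 0) : RT hB (g • ω) e := fun a ha => by
  have := sA_conj hB (inv_e' hg hs) (inv_ne_zero hs) ha
  rw [inv_smul_smul] at this
  obtain ⟨t, ht⟩ := Submodule.mem_span_singleton.mp (h _ this)
  have := congrArg (fun z => s • isoAct B g z) ht
  simp only [map_smul, hg, act_apply_inv, smul_inv_smul₀ hs] at this
  rw [← this, smul_smul, smul_smul]
  exact Submodule.smul_mem _ _ (Submodule.mem_span_singleton_self e)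

theorem RT.mem_T {ω : X} (h : RT hB ω e) {z : E} (hz : B z e = 0) : z ∈ (sP hB he0).T ω :=
  (mem_sT hB he0).mpr fun a ha => by
    obtain ⟨s, rfl⟩ := Submodule.mem_span_singleton.mp (h a ha)
    simp [hB.isEps.refl hz]

include h4 in
theorem RT.notOT {ω : X} (h : RT hB ω e) : ¬OT hB ω e := fun k => by
  obtain ⟨u, hu, hu'⟩ := sp_exists_line hB (e := e) (by omega)
  exact hu' (h u (k u hu))

include hq h3 hd h4 he0 in
theorem exists_Jb {ω : X} (hX : ∃ g : Isom B, g • ω ≠ ω) : ∃ ω : X, Jb hB ω e ∧ ¬OT hB ω e := by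
  suffices ∃ z, z ≠ 0 ∧ Jb hB ω z ∧ ¬OT hB ω z by
    obtain ⟨z, hz, h1, h2⟩ := this
    obtain ⟨g, rfl⟩ := sp_move hB hz he0
    exact ⟨g • ω, (Jb_conj hB g).mpr h1, mt (OT.map hB g) h2⟩
  obtain ⟨x, hx⟩ := exists_notTI hB hX
  have hx0 : x ≠ 0 := by rintro rfl; exact hx (TI_zero hB ω)
  by_cases h2 : (2 : F) = 0
  · by_cases hO : OT hB ω x
    · obtain ⟨y, k1, k2, k3⟩ := hO.exists_not hB hq h3 hx0 h4 hx h2
      have k4 : y ≠ 0 := by rintro rfl; exact k2 (Submodule.zero_mem _)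
      exact ⟨y, k4, fun _ => Jb_even hB hq h3 hd k4 h2 (hO.notTI hB hq h3 hx0 hx h2 k1 k4) k3, k3⟩
    · exact ⟨x, hx0, fun _ => Jb_even hB hq h3 hd hx0 h2 hx hO, hO⟩
  obtain ⟨u, k1, k2⟩ : ∃ u, B u x = 0 ∧ ∀ t : F, t • u ∈ (sD hB x).A ω → t = 0 := by
    rcases sp_types hB hq h3 hd hx0 h4 hx fun k => h2 (k.two hB h4 hx hx0) with k | ⟨-, w, k1, k2, k⟩
    · obtain ⟨u, hu, hu'⟩ := sp_exists_line hB (e := x) (by omega)
      exact ⟨u, hu, fun t ht => by_contra fun h0 => hu' ((Submodule.smul_mem_iff _ h0).mp (k _ ht))⟩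
    · obtain ⟨u, hu, hu'⟩ := sp_pair2 hB hx0 k2 0 1
      refine ⟨u, hu, fun t ht => ?_⟩
      obtain ⟨a, b, hab⟩ := mem_span_pair'.mp ((k _).mp ht)
      simpa [hu', hB.alt, hB.isEps.refl k1] using congrArg (B · w) hab
  obtain ⟨ν, hν⟩ := Jb_pigeon hB k1 k2
  have k3 : u + ν • x ≠ 0 := add_ne_zero_of_not_mem (fun h => by
    obtain ⟨s, rfl⟩ := Submodule.mem_span_singleton.mp h
    simpa using k2 1 (by simpa using smul_mem_sA hB ω s)) ν
  exact ⟨_, k3, hν, fun k => h2 (k.two hB h4 (Jb.notTI hB hν) k3)⟩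

include hq he0 in
theorem Jb.budget {ω : X} (h : Jb hB ω e) (hO : ¬OT hB ω e) {p : X → Prop}
    (hp : ∀ ω ω', (sD hB e).Eqv ω ω' → p ω → p ω')
    (hp' : ∀ (g : Isom B) (s : F) ω, isoAct B g e = s • e → s ≠ 0 → p ω → p (g • ω)) (hω : p ω) :
    Nat.card {w // B w e = 0} ≤ Nat.card {ω // p ω} := by
  obtain ⟨w, hw, hw'⟩ := exists_T hB he0 hO
  have h5 := sp_budget hB he0 hp hp' (sT_perp hB he0 hw) hw' {ω} (by simp) (by simp [hω, hw])
    Set.univ fun γ _ => ⟨1, one_ne_zero, by simpa using h.mem_Lv hB he0 γ⟩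
  rw [Nat.card_univ, Nat.card_eq_fintype_card (α := F), card_singleton, mul_one] at h5
  exact Nat.le_of_mul_le_mul_left h5 Fintype.card_pos

include hq h3 hd he0 in
theorem Jb.uniq {ω ω' : X} (h : Jb hB ω e) (hO : ¬OT hB ω e) (h' : ¬TI hB ω' e)
    (hO' : ¬OT hB ω' e) : ∃ (g : Isom B) (s : F), isoAct B g e = s • e ∧ s ≠ 0 ∧
      (sD hB e).Eqv (g • ω) ω' := by
  by_contra hc
  let p : X → Prop := fun ω' => ∃ (g : Isom B) (s : F), isoAct B g e = s • e ∧ s ≠ 0 ∧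
    (sD hB e).Eqv (g • ω) ω'
  have hp : ∀ ω ω', (sD hB e).Eqv ω ω' → p ω → p ω' :=
    fun _ _ k ⟨g, s, k1, k2, k3⟩ => ⟨g, s, k1, k2, k3.trans k⟩
  have hp' : ∀ (g : Isom B) (s : F) ω, isoAct B g e = s • e → s ≠ 0 → p ω → p (g • ω) :=
    fun r t _ m1 m2 ⟨g, s, k1, k2, k3⟩ => ⟨r * g, s * t, by
      rw [act_mul_apply, k1, map_smul, m1, smul_smul], mul_ne_zero k2 m2, by
      rw [mul_smul]; exact seqv_conj hB m1 m2 k3⟩
  have k1 := h.budget hB hq he0 hO hp hp' ⟨1, 1, by simp, one_ne_zero, by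
    rw [one_smul]; exact HD.Eqv.refl _ _⟩
  obtain ⟨w, hw, hw'⟩ := exists_T hB he0 hO'
  obtain ⟨γ, k3, k4⟩ := exists_sLv hB he0 h'
  have k2 := sp_budget hB he0 (p := fun ω => ¬p ω) (fun _ _ k => mt (hp _ _ k.symm))
    (fun g s ω m1 m2 => mt fun k => by simpa using hp' _ _ _ (inv_e' m1 m2) (inv_ne_zero m2) k)
    (sT_perp hB he0 hw) hw' {ω'} (by simp) (by simpa using ⟨hc, hw⟩) {0, γ} (by
      rintro _ (rfl | rfl) <;> exact ⟨1, one_ne_zero, by simp [k3]⟩)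
  have k5 := card_add_card_not p
  have h7 := card_sp_perp hB hq he0
  rw [Nat.card_coe_set_eq, Set.ncard_pair k4.symm, card_singleton, hq] at k2
  obtain ⟨r, rfl⟩ : ∃ r, q = r + 3 := ⟨q - 3, by omega⟩
  rw [← h7, ← k5, show r + 3 - 1 = r + 2 by omega] at hd
  nlinarith [Nat.mul_le_mul_right (r + 2) k2, Nat.mul_le_mul_right ((r + 2) * (r + 3)) k1,
    Nat.mul_lt_mul_of_pos_right (k := r + 3) hd (by omega)]

include hq h3 hd he0 in
theorem Jb.tor {ω : X} (h : Jb hB ω e) {y : E} (hy : ∀ t : F, t • y ∈ (sP hB he0).T ω)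
    (hy' : y ∉ F ∙ e) {s : F} (hs : s ≠ 0) : ∃ g : Isom B, g • ω = ω ∧ isoAct B g e = s • e ∧
      ∀ z, B z e = 0 → ∃ b : F, isoAct B g z = z + b • e := by
  obtain ⟨g, k1, k2⟩ := sp_tor hB he0 hs
  have k3 : y ∈ (sP hB he0).T ω := by simpa using hy 1
  obtain ⟨b, hb⟩ := k2 y (sT_perp hB he0 k3)
  have k4 := two_eqv hB hq h3 hd he0 (w := s⁻¹ • isoAct B g y) (ω' := ω) (by
    rw [Submodule.smul_mem_iff _ (inv_ne_zero hs), hb]
    exact fun k => hy' (by simpa using Submodule.sub_mem _ k (Submodule.smul_mem _ b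
      (Submodule.mem_span_singleton_self e)))) (sT_conj hB he0 k1 hs k3) (by
    rw [hb, smul_add, smul_smul]
    exact add_mem (hy _) (smul_mem_sT hB he0 _ _))
    fun γ => ⟨1, one_ne_zero, (h.conj_e hB k1 hs).mem_Lv hB he0 _, h.mem_Lv hB he0 _⟩
  obtain ⟨a, μ, k5, k6⟩ := (sD hB e).eqv_iff.mp k4
  change B a e = 0 at k5
  refine ⟨es hB a e μ * g, by rw [mul_smul]; exact k6, by
    rw [act_mul_apply, k1, map_smul, es_fix hB k5], fun z hz => ?_⟩
  obtain ⟨b, hb⟩ := k2 z hz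
  exact ⟨B z a + b, by
    rw [act_mul_apply, hb, map_add, map_smul, es_fix hB k5, es_apply hB k5, hz]; module⟩

theorem exists_fixed {g : Isom B} {s : F} (hs : s ≠ 1) (h1 : isoAct B g e = s • e)
    (h2 : ∀ z, B z e = 0 → ∃ b : F, isoAct B g z = z + b • e) {z : E} (hz : B z e = 0) :
    ∃ ν : F, isoAct B g (z + ν • e) = z + ν • e := by
  obtain ⟨b, hb⟩ := h2 z hz
  have := sub_ne_zero.mpr hs.symm
  refine ⟨b / (1 - s), ?_⟩
  rw [map_add, map_smul, hb, h1]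
  match_scalars
  · ring
  · field_simp; ring

include hq h3 hd he0 in
theorem Jb.graph {ω : X} (h : Jb hB ω e) (hA : ∀ a ∈ (sD hB e).A ω, ∀ t : F, t • a ∈ (sD hB e).A ω)
    {g : Isom B} {s : F} (hs0 : s ≠ 0) (hs : s ≠ 1) (h0 : g • ω = ω) (h1 : isoAct B g e = s • e)
    (h2 : ∀ z, B z e = 0 → ∃ b : F, isoAct B g z = z + b • e) {u : E} (hu : u ∈ (sP hB he0).T ω)
    (hu' : u ∉ F ∙ e) (hg : isoAct B g u = u) (c : F) :
    ∃ α, (s ^ 2 - 1) * α = 0 ∧ hB.transv e α • hB.transv u c • ω = ω := by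
  have k1 : isoAct B (hB.transv u c) e = (1 : F) • e := by
    rw [tr_fix hB (hB.isEps.refl (sT_perp hB he0 hu)), one_smul]
  have k2 := h.conj_e hB k1 one_ne_zero
  have k3 := two_eqv hB hq h3 hd he0 hu' (by
    simpa [tr_fix hB (hB.alt u)] using sT_conj hB he0 k1 one_ne_zero hu) hu
    fun γ => ⟨1, one_ne_zero, k2.mem_Lv hB he0 _, h.mem_Lv hB he0 _⟩
  have k4 : g • hB.transv u c • ω = hB.transv u c • ω := by
    rw [← mul_smul, tr_conj, hg, mul_smul, h0]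
  obtain ⟨a, μ, k5, k6⟩ := (sD hB e).eqv_iff.mp k3
  change B a e = 0 at k5
  change es hB a e μ • _ = _ at k6
  have k7 := congrArg (g • ·) k6
  simp only [h0] at k7
  rw [← mul_smul, es_conj_e hB h1 hs0 k5, mul_smul, k4] at k7
  have k8 := (sD hB e).sub_mem_A (a := a) (b := s • isoAct B g a) k5 (by
    change B _ e = 0
    simp [perp_conj_e h1 hs0 k5]) (k6.trans k7.symm)
  obtain ⟨b, hb⟩ := h2 a k5
  rw [← k3.A_eq, hb] at k8
  have k9 := hA _ (add_mem k8 (smul_mem_sA hB ω (s * b))) (1 - s)⁻¹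
  have := sub_ne_zero.mpr hs.symm
  rw [show (1 - s)⁻¹ • (a - s • (a + b • e) + (s * b) • e) = a by
    match_scalars
    · field_simp
    · ring] at k9
  obtain ⟨-, ν, m1⟩ := (mem_sA hB).mp k9
  have m2 : hB.transv e (μ - ν) • hB.transv u c • ω = ω := by
    have := es_mul hB k5 (b := 0) (by simp) ν (μ - ν)
    rw [add_zero, add_sub_cancel, map_zero, LinearMap.zero_apply, add_zero, es_zero] at this
    rw [← this, mul_smul] at k6
    exact (smul_left_cancel_iff _).mp (k6.trans m1.symm)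
  refine ⟨μ - ν, k2 _ ?_, m2⟩
  have m3 := congrArg (g • ·) m2
  simp only [h0] at m3
  rw [← mul_smul, tr_conj, h1, tr_smul, mul_smul, k4] at m3
  rw [sub_mul, one_mul, sub_eq_neg_add, tr_add, mul_smul, m3, ← tr_inv, inv_smul_eq_iff, m2]

include hq h3 hd he0 in
theorem Jb.meet {ω : X} (h : Jb hB ω e) (hA : ∀ a ∈ (sD hB e).A ω, ∀ t : F, t • a ∈ (sD hB e).A ω)
    {s : F} (hs0 : s ≠ 0) (hs : s ^ 2 ≠ 1) {y : E} (hy : ∀ t : F, t • y ∈ (sP hB he0).T ω)
    (hy' : y ∉ F ∙ e) : ∃ ν : F, TI hB ω (y + ν • e) := by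
  have hs1 : s ≠ 1 := by rintro rfl; simp at hs
  obtain ⟨g, k1, k2, k3⟩ := h.tor hB hq h3 hd he0 hy hy' hs0
  have k4 : y ∈ (sP hB he0).T ω := by simpa using hy 1
  obtain ⟨ν, hν⟩ := exists_fixed hs1 k2 k3 (sT_perp hB he0 k4)
  refine ⟨ν, fun c => ?_⟩
  obtain ⟨α, k5, k6⟩ := h.graph hB hq h3 hd he0 hA hs0 hs1 k1 k2 k3
    (add_mem k4 (smul_mem_sT hB he0 ω ν)) (fun k => hy' (by
      simpa using Submodule.sub_mem _ k (Submodule.smul_mem _ ν
        (Submodule.mem_span_singleton_self e)))) hν c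
  obtain rfl : α = 0 := by simpa [sub_ne_zero.mpr hs] using k5
  rwa [tr_zero, one_smul] at k6

theorem RT.smul {ω : X} (h : RT hB ω e) (a : E) (ha : a ∈ (sD hB e).A ω) (t : F) :
    t • a ∈ (sD hB e).A ω := by
  obtain ⟨s, rfl⟩ := Submodule.mem_span_singleton.mp (h a ha)
  rw [smul_smul]
  exact smul_mem_sA hB ω _

include hq h3 hd he0 in
theorem Jb.meet_odd {ω : X} (h : Jb hB ω e) (hR : RT hB ω e) (h2 : (2 : F) ≠ 0)
    (h5 : 5 ≤ finrank F E) {y : E} (hy : B y e = 0) (hy' : y ∉ F ∙ e) :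
    ∃ ν : F, TI hB ω (y + ν • e) := by
  have hs1 : (-1 : F) ≠ 1 := fun k => h2 (by linear_combination -k)
  obtain ⟨g, k1, k2, k3⟩ := h.tor hB hq h3 hd he0 (fun t => hR.mem_T hB he0 (by simp [hy])) hy'
    (s := -1) (by simp)
  have ex : ∀ u, B u e = 0 → isoAct B g u = u → ∀ c, ∃ α,
      hB.transv e α • hB.transv u c • ω = ω := fun u m1 m2 c => by
    by_cases hu : u ∈ F ∙ e
    · obtain ⟨t, rfl⟩ := Submodule.mem_span_singleton.mp hu
      exact ⟨-(t ^ 2 * c), by rw [tr_smul, ← tr_inv, inv_smul_smul]⟩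
    obtain ⟨α, -, k⟩ := h.graph hB hq h3 hd he0 (hR.smul hB) (by simp) hs1 k1 k2 k3
      (hR.mem_T hB he0 m1) hu m2 c
    exact ⟨α, k⟩
  have cst : ∀ v v', B v e = 0 → B v' e = 0 → isoAct B g v = v → isoAct B g v' = v' → B v v' ≠ 0 →
      ∀ α c, hB.transv e α • hB.transv v c • ω = ω → hB.transv e α • hB.transv v' c • ω = ω := by
    intro v v' m1 m2 m3 m4 m5 α c k
    have m6 : B (v' - v) e = 0 := by simp [m1, m2]
    obtain ⟨β, m7⟩ := ex (v' - v) m6 (by rw [map_sub, m3, m4]) (B v v')⁻¹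
    rw [← mul_smul] at m7
    have m8 := congrArg ((hB.transv e β * hB.transv (v' - v) (B v v')⁻¹) • ·) k
    simp only [m7] at m8
    rwa [← mul_smul, tr_conj, mul_smul, ← mul_smul _ (hB.transv v c), tr_conj hB _ v, mul_smul, m7,
      act_mul_apply, act_mul_apply, tr_fix hB (hB.isEps.refl m6), tr_fix hB (hB.alt e), tr_apply,
      tr_apply, map_sub, hB.alt v, sub_zero, inv_mul_cancel₀ m5, one_smul, add_sub_cancel, m2,
      mul_zero, zero_smul, add_zero] at m8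
  obtain ⟨ν, hν⟩ := exists_fixed hs1 k2 k3 hy
  refine ⟨ν, fun c => ?_⟩
  have hu : B (y + ν • e) e = 0 := by simp [hy, hB.alt]
  have hu' : y + ν • e ∉ F ∙ e := fun k => hy' (by
    simpa using Submodule.sub_mem _ k (Submodule.smul_mem _ ν (Submodule.mem_span_singleton_self e)))
  generalize y + ν • e = u at *
  have adj : ∀ z, B z e = 0 → ∃ z', B z' e = 0 ∧ isoAct B g z' = z' ∧
      ∀ v, B v e = 0 → B v z' = B v z := fun z hz => by
    obtain ⟨ν, hν⟩ := exists_fixed hs1 k2 k3 hz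
    exact ⟨_, by simp [hz, hB.alt], hν, fun v hv => by simp [hv]⟩
  obtain ⟨a, b, m1, m2, m3, m4, m5⟩ := sp_exists_pair hB h5 e u
  obtain ⟨v, n1, n2, n3⟩ := adj a m1
  have n4 : B u v = 0 := by rw [n3 u hu, hB.isEps.refl m2]
  have n5 : B b v = -1 := by rw [n3 b m3, hB.skew, m5]
  obtain ⟨z, p1, p2, p3⟩ := adj b m3
  have p4 : B u z = 0 := by rw [p3 u hu, hB.isEps.refl m4]
  have p5 : B v z = 1 := by rw [p3 v n1, hB.skew, n5, neg_neg]
  obtain ⟨x, r1, r2, r3⟩ := sp_pair3 hB he0 hu' (v := v) (fun k => by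
    obtain ⟨s, t, rfl⟩ := mem_span_pair'.mp k
    simp [m3, m4] at n5) 0 1 0
  obtain ⟨w, t1, t2, t3⟩ := adj x r1
  have t4 : B w u = 1 := by rw [hB.skew, t3 u hu, hB.skew, r2, neg_neg]
  have t5 : B w v = 0 := by rw [hB.skew, t3 v n1, hB.skew, r3, neg_neg]
  obtain ⟨α, e1⟩ := ex u hu hν c
  have e2 := cst u w hu t1 hν t2 (by simp [hB.skew w, t4]) α c e1
  have e3 := cst w (u + v) t1 (by simp [hu, n1]) t2 (by rw [map_add, hν, n2]) (by simp [t4, t5])
    α c e2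
  have e4 := cst w (u - v) t1 (by simp [hu, n1]) t2 (by rw [map_sub, hν, n2]) (by simp [t4, t5])
    α c e2
  have e5 := cst z v p1 n1 p2 n2 (by simp [hB.skew v, p5]) α c (cst (u + v) z (by simp [hu, n1]) p1
    (by rw [map_add, hν, n2]) p2 (by simp [p4, p5]) α c e3)
  have st : ∀ v, B v e = 0 → hB.transv e α • hB.transv v c • ω = ω → ∀ β,
      hB.transv v c • hB.transv e β • ω = hB.transv e (β - α) • ω := fun v k k' β => by
    rw [← mul_smul, tr_comm hB k, mul_smul, eq_inv_smul_iff.mpr k', tr_inv, ← mul_smul, ← tr_add,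
      sub_eq_add_neg]
  have rel : hB.transv (u + v) c * hB.transv (u - v) c =
      hB.transv u c * (hB.transv u c * (hB.transv v c * hB.transv v c)) := iso_ext fun z => by
    simp only [act_mul_apply, tr_apply, map_add, map_sub, map_smul, LinearMap.add_apply,
      LinearMap.sub_apply, LinearMap.smul_apply, hB.alt, n4, hB.isEps.refl n4, smul_eq_mul]
    module
  have e6 := congrArg (· • hB.transv e 0 • ω) rel
  simp only [mul_smul, st u hu e1, st v n1 e5, st _ (by simp [hu, n1]) e3,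
    st _ (by simp [hu, n1]) e4] at e6
  rw [← inv_smul_eq_iff, tr_inv, ← mul_smul, ← tr_add] at e6
  obtain rfl : α = 0 := (mul_eq_zero.mp (by linear_combination h _ e6)).resolve_left h2
  rwa [tr_zero, one_smul] at e1

section Global

variable (hs : (∃ s : F, s ≠ 0 ∧ s ^ 2 ≠ 1) ∨ ((2 : F) ≠ 0 ∧ 5 ≤ finrank F E))
  {ω₀ : X} (hX : ∃ g : Isom B, g • ω₀ ≠ ω₀)

include hq h3 hd h4 hX he0 in
theorem Jb_of {ω : X} (h : ¬TI hB ω e) (hO : ¬OT hB ω e) : Jb hB ω e := by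
  obtain ⟨ω', k1, k2⟩ := exists_Jb hB hq h3 hd he0 h4 hX
  obtain ⟨g, s, k3, k4, k5⟩ := k1.uniq hB hq h3 hd he0 k2 h hO
  exact fun c k => k1.conj_e hB k3 k4 c ((mem_sJ hB).mp (k5.J_eq ▸ (mem_sJ hB).mpr k))

include hq h3 hd h4 hX hs he0 in
theorem RT.meet {ω : X} (h : ¬TI hB ω e) (hR : RT hB ω e) {y : E} (hy : B y e = 0) :
    ∃ ν : F, TI hB ω (y + ν • e) := by
  by_cases hy' : y ∈ F ∙ e
  · obtain ⟨s, rfl⟩ := Submodule.mem_span_singleton.mp hy'
    exact ⟨-s, by simpa using TI_zero hB ω⟩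
  have k := Jb_of hB hq h3 hd he0 h4 hX h (hR.notOT hB h4)
  rcases hs with ⟨s, k1, k2⟩ | ⟨k1, k2⟩
  · exact k.meet hB hq h3 hd he0 (hR.smul hB) k1 k2 (fun t => hR.mem_T hB he0 (by simp [hy])) hy'
  · exact k.meet_odd hB hq h3 hd he0 hR k1 k2 hy hy'

theorem LnT.iso {ω : X} (hL : LnT hB ω e) {a b : E} (ha : a ∈ (sD hB e).A ω)
    (hb : b ∈ (sD hB e).A ω) : B a b = 0 := by
  obtain ⟨-, w, k1, k2, k⟩ := hL
  obtain ⟨s, t, rfl⟩ := mem_span_pair'.mp ((k a).mp ha)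
  obtain ⟨s', t', rfl⟩ := mem_span_pair'.mp ((k b).mp hb)
  simp [hB.alt, k1, hB.isEps.refl k1]

include he0 in
theorem LnT.notOT {ω : X} (hL : LnT hB ω e) : ¬OT hB ω e := fun hO => by
  obtain ⟨w, k1, k2, k⟩ := hL.2
  obtain ⟨u, hu, hu'⟩ := sp_pair2 hB he0 k2 0 1
  simpa [hu'] using hL.iso hB (hO u hu) (hO w k1)

include hq h3 hd h4 hX hs he0 in
theorem LnT.meet {ω : X} (h : ¬TI hB ω e) (hL : LnT hB ω e) :
    ∃ z ∈ (sD hB e).A ω, z ≠ 0 ∧ TI hB ω z := by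
  have k0 := Jb_of hB hq h3 hd he0 h4 hX h (hL.notOT hB he0)
  obtain ⟨s, hs0, hs⟩ := hs.resolve_right fun k => by have := hL.1; omega
  obtain ⟨w, k1, k2, k⟩ := hL.2
  obtain ⟨ν, hν⟩ := k0.meet hB hq h3 hd he0 (fun a ha t => (k _).mpr (Submodule.smul_mem _ t
    ((k a).mp ha))) hs0 hs (fun t => (mem_sT hB he0).mpr fun a ha => by
      simp [hL.iso hB ha ((k w).mpr (mem_span_pair'.mpr ⟨0, 1, by simp⟩))]) k2
  exact ⟨_, (k _).mpr (mem_span_pair'.mpr ⟨ν, 1, by simp [add_comm]⟩),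
    add_ne_zero_of_not_mem k2 ν, hν⟩

include hq h3 hd h4 hX hs he0 in
theorem not_OT {ω : X} (h : ¬TI hB ω e) : ¬OT hB ω e := fun hO => by
  have h2 := hO.two hB h4 h he0
  obtain ⟨y, k1, k2, k3⟩ := hO.exists_not hB hq h3 he0 h4 h h2
  have k4 : y ≠ 0 := by rintro rfl; exact k2 (Submodule.zero_mem _)
  have k5 := fun z => hO.notTI hB hq h3 he0 h h2 (y := z)
  rcases sp_types hB hq h3 hd k4 h4 (k5 y k1 k4) k3 with k | k
  · obtain ⟨ν, hν⟩ := k.meet hB hq h3 hd k4 h4 hs hX (k5 y k1 k4) (hB.isEps.refl k1)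
    exact k5 _ (by simp [k1, hB.alt]) (add_ne_zero_of_not_mem (by
      simpa using not_mem_span_add he0 k2 0 one_ne_zero) ν) hν
  obtain ⟨z, m1, m2, m3⟩ := k.meet hB hq h3 hd k4 h4 hs hX (k5 y k1 k4)
  have m4 : B z e ≠ 0 := fun m => k5 z m m2 m3
  obtain ⟨-, μ, m5⟩ := (mem_sA hB).mp (hO y k1)
  have m6 := (sA_map hB (es hB y e μ)).mpr m1
  rw [m5, show isoAct B (es hB y e μ) y = y by rw [es_apply hB k1]; simp [k1, hB.alt]] at m6
  have m7 := k.iso hB m1 m6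
  rw [es_apply hB k1] at m7
  obtain rfl : μ = 0 := by simpa [((mem_sA hB).mp m1).1, hB.alt, m4] using m7
  have m8 := es_line hB k1 1 0 0
  simp only [zero_smul, add_zero, mul_zero, one_smul, tr_zero, one_mul, zero_mul] at m8
  exact m4 (k.iso hB m1 ((mem_sA hB).mpr ⟨hB.isEps.refl k1, 0, by rw [m8, m5]⟩))

include hq h3 hd h4 hX hs in
theorem RT.all {ω ω' : X} {e' : E} (h : ¬TI hB ω e) (hR : RT hB ω e) (h' : ¬TI hB ω' e') :
    RT hB ω' e' := by
  have he0 : e ≠ 0 := by rintro rfl; exact h (TI_zero hB ω)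
  have he0' : e' ≠ 0 := by rintro rfl; exact h' (TI_zero hB ω')
  obtain ⟨r, rfl⟩ := sp_move hB he0 he0'
  have k1 := (TI_conj hB r).not.mpr h
  have k2 := not_OT hB hq h3 hd he0' h4 hs hX k1
  obtain ⟨g, s, k3, k4, k5⟩ := (Jb_of hB hq h3 hd he0' h4 hX k1 k2).uniq hB hq h3 hd he0' k2 h'
    (not_OT hB hq h3 hd he0' h4 hs hX h')
  exact fun a ha => (hR.map hB r).conj_e hB k3 k4 a (k5.A_eq ▸ ha)

theorem TI.add_of_ne {ω : X} {u v : E} (hu : TI hB ω u) (hv : TI hB ω v) (h : B v u ≠ 0) (s : F) :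
    TI hB ω (v + s • u) := by
  simpa [tr_apply, h] using hv.map hB (hu (s / B v u))

include hq h4 in
theorem card_TI_R {ω : X} (hR : ∀ e, ¬TI hB ω e → RT hB ω e)
    (hM : ∀ e y, ¬TI hB ω e → B y e = 0 → ∃ ν : F, TI hB ω (y + ν • e)) {x : E}
    (hx : ¬TI hB ω x) : Nat.card E ≤ q * Nat.card {u // TI hB ω u} := by
  have := finite_of_finiteDimensional F E
  have add : ∀ u v, TI hB ω u → TI hB ω v → TI hB ω (v + u) := fun u v hu hv => by
    by_cases h : B v u = 0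
    swap
    · simpa using hu.add_of_ne hB hv h 1
    by_contra hc
    have k1 := es_line hB h (-1) 1 1
    rw [one_smul, show (-1 + 1 * 1 : F) = 0 by ring, zero_smul, es_zero] at k1
    obtain ⟨s, hs⟩ := Submodule.mem_span_singleton.mp (hR _ hc ((-1 : F) • u) ((mem_sA hB).mpr
      ⟨by simp [hB.alt, hB.isEps.refl h], 1, by rw [k1, mul_smul, hu, hv]⟩))
    by_cases h0 : s = 0
    · obtain rfl : u = 0 := by simpa [h0] using hs
      exact hc (by simpa using hv)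
    · exact hc ((TI_smul hB h0).mp (hs ▸ hu.smul hB _))
  have hx0 : x ≠ 0 := by rintro rfl; exact hx (TI_zero hB ω)
  obtain ⟨u, hu, hux⟩ : ∃ u, TI hB ω u ∧ B u x ≠ 0 := by
    by_contra hc
    push Not at hc
    have key : ∀ f y, B f x ≠ 0 → B y f = 0 → B y x = 0 → TI hB ω y := fun f y k1 k2 k3 => by
      obtain ⟨ν, hν⟩ := hM f y (mt (hc f) k1) k2
      obtain rfl : ν = 0 := by simpa [k1, k3] using hc _ hν
      simpa using hν
    obtain ⟨y, hy, hy'⟩ := sp_exists_line hB (e := x) (by omega)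
    obtain ⟨f, k1, k2⟩ := sp_pair2 hB hx0 hy' 1 0
    obtain ⟨f', k3, k4⟩ := sp_pair2 hB hx0 hy' 1 (-1)
    have k5 := add _ _ ((key f y (by simp [k1]) (hB.isEps.refl k2) hy).smul hB (-1))
      (key f' (y + x) (by simp [k3]) (hB.isEps.refl (by simp [k3, k4])) (by simp [hy, hB.alt]))
    exact hx (by simpa using k5)
  have key : ∀ v, ∃ c : F, TI hB ω (v + c • x) := fun v => by
    obtain ⟨ν, hν⟩ := hM x (v - (B v x / B u x) • u) hx (by simp [hux])
    refine ⟨ν, ?_⟩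
    convert add _ _ (hu.smul hB (B v x / B u x)) hν using 1
    module
  choose c hc using key
  rw [← hq, ← Nat.card_eq_fintype_card, ← Nat.card_prod]
  refine Nat.card_le_card_of_injective (fun v => (c v, ⟨_, hc v⟩)) fun v v' h => ?_
  simp only [Prod.mk.injEq, Subtype.mk.injEq] at h
  rw [h.1] at h
  exact add_right_cancel h.2

include hq in
theorem card_TI_L (h4 : finrank F E = 4) {ω : X}
    (hM : ∀ e, ¬TI hB ω e → ∃ z, B z e = 0 ∧ z ≠ 0 ∧ TI hB ω z) {x : E} (hx : ¬TI hB ω x) :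
    q ^ 2 ≤ Nat.card {u // TI hB ω u} := by
  have := finite_of_finiteDimensional F E
  suffices ∃ z y, z ≠ 0 ∧ y ∉ F ∙ z ∧ TI hB ω z ∧ ∀ ν : F, TI hB ω (y + ν • z) by
    obtain ⟨z, y, k1, k2, k3, k4⟩ := this
    rw [← card_span_two hq k1 k2]
    refine Nat.card_le_card_of_injective (fun v => ⟨v.1, ?_⟩) fun _ _ h =>
      Subtype.ext (congrArg (·.1) h)
    obtain ⟨s, t, h⟩ := mem_span_pair'.mp v.2
    by_cases ht : t = 0
    · simpa [h, ht] using k3.smul hB s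
    · rw [h, show s • z + t • y = t • (y + (s / t) • z) by match_scalars <;> field_simp]
      exact (k4 _).smul hB t
  by_cases hc : ∃ u v, TI hB ω u ∧ TI hB ω v ∧ B v u ≠ 0
  · obtain ⟨u, v, hu, hv, h⟩ := hc
    refine ⟨u, v, by rintro rfl; simp at h, fun k => ?_, hu, hu.add_of_ne hB hv h⟩
    obtain ⟨s, rfl⟩ := Submodule.mem_span_singleton.mp k
    simp [hB.alt] at h
  push Not at hc
  obtain ⟨z, -, hz0, hz⟩ := hM x hx
  obtain ⟨f, hf⟩ := hB.exists_pair hz0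
  obtain ⟨y, k1, hy0, hy⟩ := hM f fun k => by simpa [hf] using hc z f hz k
  have hy' : y ∉ F ∙ z := fun k => by
    obtain ⟨s, rfl⟩ := Submodule.mem_span_singleton.mp k
    obtain rfl : s = 0 := by simpa [hB.skew f z, hf] using k1
    simp at hy0
  refine ⟨z, y, hz0, hy', hz, fun ν => ?_⟩
  obtain ⟨v, m1, m2⟩ := sp_pair2 hB hz0 hy' 1 (-ν)
  obtain ⟨w, m3, m4, m5⟩ := hM v fun k => by simpa [m1] using hc z v hz k
  obtain ⟨s, t, rfl⟩ := mem_span_pair'.mp (sp_perp_line hB hz0 h4 (hc z y hz hy) hy' (hc z w hz m5)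
    (hc y w hy m5))
  obtain rfl : s = t * ν := by
    have := hB.isEps.refl m3
    simp only [map_add, map_smul, m1, m2, smul_eq_mul] at this
    linear_combination this
  rw [show (t * ν) • z + t • y = t • (y + ν • z) by module] at m4 m5
  exact (TI_smul hB (by rintro rfl; simp at m4)).mp m5

end Global

include hB hq h3 h4 in
theorem sp_index_ge (hs : (∃ s : F, s ≠ 0 ∧ s ^ 2 ≠ 1) ∨ ((2 : F) ≠ 0 ∧ 5 ≤ finrank F E))
    (H : Subgroup (Isom B)) (hH : H ≠ ⊤) : Nat.card E - 1 ≤ H.index * (q - 1) := by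
  have := finite_of_finiteDimensional F E
  have := finite_Isom B
  change _ ≤ Nat.card (Isom B ⧸ H) * _
  by_cases hd : Nat.card (Isom B ⧸ H) * (q - 1) < Nat.card E
  swap
  · omega
  obtain ⟨ω, -⟩ : ∃ ω : Isom B ⧸ H, True := ⟨((1 : Isom B) : Isom B ⧸ H), trivial⟩
  have hX := exists_move_quot hH ω
  obtain ⟨e, he⟩ := exists_notTI hB hX
  have ne0 : ∀ (ω : Isom B ⧸ H) e, ¬TI hB ω e → e ≠ 0 := by
    rintro ω _ h rfl; exact h (TI_zero hB ω)
  have he0 := ne0 ω e he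
  have k1 := double_count (isoAct B) {u | u ≠ 0}
    (fun g u hu h => hu (rep_injective _ g (by rw [h, map_zero]))) (fun u hu u' hu' => sp_move hB hu hu')
    (fun ω u => ¬TI hB ω u) (fun g ω u => (TI_conj hB g).not.mpr) ω he0
  have k2 := card_add_card_not fun u : E => u = 0
  have k3 := card_add_card_not fun u : E => TI hB ω u
  rw [Nat.card_unique] at k2
  rw [Nat.card_congr (Equiv.subtypeEquivRight (q := fun u => ¬TI hB ω u) fun u =>
    ⟨fun h => h.2, fun h => ⟨ne0 ω u h, h⟩⟩),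
    show Nat.card {u : E | u ≠ 0} = Nat.card E - 1 from Nat.eq_sub_of_add_eq' k2] at k1
  have hO := not_OT hB hq h3 hd he0 h4 hs hX he
  have hJ := Jb_of hB hq h3 hd he0 h4 hX he hO
  have hp : ∀ ω ω' : Isom B ⧸ H, (sD hB e).Eqv ω ω' → ¬TI hB ω e → ¬TI hB ω' e :=
    fun _ _ h => (TI_eqv hB h).not.mpr
  have hp' : ∀ (g : Isom B) (s : F) (ω : Isom B ⧸ H), isoAct B g e = s • e → s ≠ 0 →
    ¬TI hB ω e → ¬TI hB (g • ω) e := fun g s ω h1 h2 => (TI_conj_e hB h1 h2).not.mpr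
  have k6 := card_sp_perp hB hq he0
  obtain ⟨r, rfl⟩ : ∃ r, q = r + 1 := ⟨q - 1, by omega⟩
  rw [Nat.add_sub_cancel] at hd ⊢
  by_cases hR : RT hB ω e
  · have k4 := card_TI_R hB hq h4 (fun e' h => hR.all hB hq h3 hd h4 hs hX he h)
      (fun e' y h hy => (hR.all hB hq h3 hd h4 hs hX he h).meet hB hq h3 hd (ne0 _ _ h) h4 hs hX h hy)
      he
    have k5 := hJ.budget hB hq he0 hO hp hp' he
    have k7 : 0 < Nat.card {w // B w e = 0} := Nat.card_pos_iff.mpr ⟨⟨⟨0, by simp⟩⟩, inferInstance⟩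
    rw [← k6, mul_comm] at k4
    have k8 := Nat.le_of_mul_le_mul_left k4 (by omega)
    refine Nat.le_of_mul_le_mul_right ((Nat.mul_le_mul_left _ k5).trans (k1.symm.trans_le ?_)) k7
    rw [mul_assoc]
    exact Nat.mul_le_mul_left _ (by nlinarith)
  have hL : ∀ e', ¬TI hB ω e' → LnT hB ω e' := fun e' h =>
    (sp_types hB hq h3 hd (ne0 _ _ h) h4 h (not_OT hB hq h3 hd (ne0 _ _ h) h4 hs hX h)).resolve_left
      fun k => hR (k.all hB hq h3 hd h4 hs hX h he)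
  obtain ⟨h6, w, m1, m2, m3⟩ := hL e he
  have k4 := card_TI_L hB hq h6 (fun e' h => by
    obtain ⟨z, n1, n2, n3⟩ := (hL e' h).meet hB hq h3 hd (ne0 _ _ h) h4 hs hX h
    exact ⟨z, ((mem_sA hB).mp n1).1, n2, n3⟩) he
  obtain ⟨w0, hw, hw'⟩ := exists_T hB he0 hO
  have k5 := sp_cover hB he0 hp hp' he hw hw' fun γ => ⟨1, one_ne_zero, hJ.mem_Lv hB he0 _⟩
  have k7 : Nat.card E = (r + 1) ^ 4 := by
    rw [Module.natCard_eq_pow_finrank (K := F), Nat.card_eq_fintype_card, hq, h6]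
  have k8 : Nat.card {w // B w e = 0} = (r + 1) ^ 3 :=
    Nat.eq_of_mul_eq_mul_right (show 0 < r + 1 by omega) (by rw [k6, k7]; ring)
  have k9 := (sP hB he0).card_T ω
  rw [Nat.card_congr (Equiv.subtypeEquivRight m3), card_span_two hq he0 m2, k7] at k9
  rw [k8, hq, show Nat.card ((sP hB he0).T ω) = (r + 1) ^ 2 from
    Nat.eq_of_mul_eq_mul_right (by positivity) (k9.trans (by ring)),
    show (r + 1) ^ 3 - (r + 1) = (r + 1) * r * (r + 2) by rw [Nat.sub_eq_of_eq_add]; ring,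
    show (r + 1) ^ 2 - (r + 1) = (r + 1) * r by rw [Nat.sub_eq_of_eq_add]; ring, mul_assoc] at k5
  have k10 := Nat.le_of_mul_le_mul_left k5 (Nat.mul_pos (by omega) (by omega))
  refine Nat.le_of_mul_le_mul_right ((Nat.mul_le_mul_left _ k10).trans (k1.symm.trans_le ?_))
    (by positivity)
  rw [mul_assoc]
  rw [k7] at k3
  exact Nat.mul_le_mul_left _ (by nlinarith)

include hB hq in
theorem sp_index_eq {v : E} (hv : v ≠ 0) : ∃ K : Subgroup (Isom B), Subgroup.center (Isom B) ≤ K ∧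
    K.index * (q - 1) = Nat.card E - 1 := by
  have := finite_of_finiteDimensional F E
  have := finite_Isom B
  refine ⟨PS (isoAct B) v, fun g hg => mem_PS _ hv ?_, ?_⟩
  · obtain ⟨c, hc⟩ := hB.scalar_of_mem_center hg
    exact Submodule.mem_span_singleton.mpr ⟨c, (hc v).symm⟩
  have k2 := card_add_card_not fun u : E => u = 0
  rw [Nat.card_unique] at k2
  rw [← hq, index_PS (isoAct B) hv {u | u ≠ 0} fun u => ⟨fun h => ?_, ?_⟩]
  · exact Nat.eq_sub_of_add_eq' k2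
  · obtain ⟨g, hg⟩ := sp_move hB hv h
    exact ⟨g, 1, one_ne_zero, by simp [hg]⟩
  · rintro ⟨g, c, hc, rfl⟩
    exact smul_ne_zero hc fun h => hv (rep_injective _ g (by rw [h, map_zero]))

end Cfsg.Agent.H1
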