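import Cfsg.Agent.H1.MIU9

/-!
# Minimal index of `SU₄(q)`: conclusion
-/

set_option autoImplicit false
set_option linter.unusedSectionVars false

namespace Cfsg.Agent.H1

open Module H5 Finset

variable {F : Type*} [Field F] {σ : F →+* F} {E : Type*} [AddCommGroup E] [Module F E]
  [FiniteDimensional F E] {B : Sesq σ E} (hB : IsEps B 1) [Fintype F] {q : ℕ} (hU : UF σ q)
  (h4 : finrank F E = 4)

include hB hU h4 in
theorem card_iso_four : Nat.card {w | B w w = 0 ∧ w ≠ 0} = (q ^ 4 - 1) * (q ^ 3 + 1) := by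
  classical
  exact (card_norm_cls hB hU (k := 3) h4 (map_zero σ)).trans (by simp [uq]; rfl)

include hB hU h4 in
theorem su4_double {X : Type*} [MulAction (SUb B) X] [Finite X]
    [MulAction.IsPretransitive (SUb B) X] (r : X → E → Prop)
    (hr : ∀ g ω u, B u u = 0 → r ω u → r (g • ω) (suAct B g u)) (ω : X) {e : E} (he : B e e = 0)
    (he0 : e ≠ 0) : Nat.card X * Nat.card {u // (B u u = 0 ∧ u ≠ 0) ∧ r ω u} =
      (q ^ 4 - 1) * (q ^ 3 + 1) * Nat.card {ω' // r ω' e} := by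
  have := finite_of_finiteDimensional F E
  have := double_count (suAct B) {w | B w w = 0 ∧ w ≠ 0} (fun g u hu => ⟨by rw [suAct_pres, hu.1],
    fun h => hu.2 (rep_injective _ g (by rw [h, map_zero]))⟩)
    (fun u hu u' hu' => su_move_iso hB hU (by omega) hu.1 hu.2 hu'.1 hu'.2)
    (fun ω u => B u u = 0 ∧ r ω u) (fun g ω u h => ⟨by rw [suAct_pres, h.1], hr g ω u h.1 h.2⟩) ω
    (e := e) ⟨he, he0⟩
  rw [card_iso_four hB hU h4] at this
  simpa [he, and_assoc, and_left_comm] using this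

include hB hU in
theorem card_line_le {e y : E} (he : B e e = 0) (he0 : e ≠ 0) (hy : y ∈ cls B e 0) {p : E → Prop}
    (hp : ∀ u ∈ (F ∙ e) ⊔ F ∙ y, u ≠ 0 → p u) :
    q ^ 4 - 1 ≤ Nat.card {u // (B u u = 0 ∧ u ≠ 0) ∧ p u} := by
  have := finite_of_finiteDimensional F E
  have h1 := card_add_card_not fun u : ↥((F ∙ e) ⊔ F ∙ y) => u = 0
  rw [card_line hU he0 hy.2.1, Nat.card_unique] at h1
  refine le_trans (by omega) (Nat.card_le_card_of_injective (α := {u : ↥((F ∙ e) ⊔ F ∙ y) // ¬u = 0})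
    (fun u => ⟨u.1.1, ⟨?_, by simpa using u.2⟩, hp _ u.1.2 (by simpa using u.2)⟩)
    fun u v h => Subtype.ext (Subtype.ext (congrArg (·.1) h)))
  obtain ⟨s, t, h⟩ := mem_span_pair'.mp u.1.2
  rw [h]
  simp [he, hy.1, hB.refl hy.1, hy.2.2]

include hB hU h4 in
theorem su4_index_ge (H : Subgroup (SUb B)) (hH : H ≠ ⊤) : (q + 1) * (q ^ 3 + 1) ≤ H.index := by
  have := finite_SUb B
  have := finite_of_finiteDimensional F E
  by_contra hd
  replace hd : Nat.card (SUb B ⧸ H) < _ := not_le.mp hd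
  obtain ⟨ω, -⟩ : ∃ ω : SUb B ⧸ H, True := ⟨((1 : SUb B) : SUb B ⧸ H), trivial⟩
  obtain ⟨x, hx, hx0, h1⟩ := exists_notXX hB hU h4.ge (exists_move_quot hH ω)
  have h2 : ∀ z, B z z = 0 → z ≠ 0 → ∃ ω' : SUb B ⧸ H, ¬XX hB ω' z := fun z hz hz0 => by
    obtain ⟨g, rfl⟩ := su_move_iso hB hU (by omega) hx hx0 hz hz0
    exact ⟨_, (XX_conj hB hx g).not.mpr h1⟩
  have h3 : ∀ z, XX hB ω z → z ≠ 0 → ∀ a μ, Adm B a z μ → ei hB a z μ • ω = ω :=
    fun z hz hz0 a μ h => by
      obtain ⟨ω', h'⟩ := h2 z h.iso hz0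
      exact hz.fix hB h.iso (su4_typeI hB hU h.iso hz0 h4 hd hz h' h.perp) h
  obtain ⟨e, he, he0, hXe⟩ := su4_exists_XX hB hU h4 hd ω
  obtain ⟨ω', h'⟩ := h2 e he he0
  have k1 := su4_II hB hU he he0 h4 hd h'
  have k2 := card_add_card_not fun ω' : SUb B ⧸ H => XX hB ω' e
  have k3 := su4_double hB hU h4 (XX hB) (fun g ω u hu h => (XX_conj hB hu g).mpr h) ω he he0
  have k4 : 0 < Nat.card {ω' : SUb B ⧸ H // XX hB ω' e} :=
    Nat.card_pos_iff.mpr ⟨⟨⟨ω, hXe⟩⟩, inferInstance⟩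
  have hq := hU.two_le
  have L : ∀ z y, B z z = 0 → z ≠ 0 → y ∈ cls B z 0 → XX hB ω z → XX hB ω y → False := by
    intro z y hz hz0 hy hXz hXy
    have k5 := card_line_le hB hU hz hz0 hy (p := XX hB ω) fun u hu _ => by
      obtain ⟨s, t, rfl⟩ := mem_span_pair'.mp hu
      by_cases ht : t = 0
      · simpa [ht] using hXz.smul hB hz s
      rw [show s • z + t • y = t • (y + (s / t) • z) by match_scalars <;> field_simp]
      refine XX.smul hB (by simp [hz, hy.1, hB.refl hy.1, hy.2.2]) (fun β hβ => ?_) t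
      obtain ⟨k5, k6⟩ := ut_line hB hz hy.2.2 hy.1 hβ (s / t)
      rw [k6, mul_smul, h3 z hXz hz0 _ _ k5, hXy β hβ]
    have k6 : 0 < q ^ 4 - 1 := Nat.sub_pos_of_lt (Nat.one_lt_pow (by omega) hq)
    have k7 := (Nat.mul_le_mul_left _ k5).trans_eq k3
    rw [mul_assoc, mul_comm] at k7
    have k8 := Nat.le_of_mul_le_mul_left k7 k6
    have k9 := Nat.mul_le_mul_left (q ^ 3 + 1) k1
    have : q ^ 3 * ((q + 1) * (q ^ 3 + 1)) ≤ q ^ 3 * Nat.card (SUb B ⧸ H) := by nlinarith
    exact absurd (Nat.le_of_mul_le_mul_left this (by positivity)) (not_le.mpr hd)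
  by_cases hc : ∀ y, B y y = 0 → XX hB ω y → y ∈ F ∙ e
  · have k5 : Nat.card {u // (B u u = 0 ∧ u ≠ 0) ∧ XX hB ω u} ≤ q ^ 2 - 1 := by
      have k5 := card_add_card_not fun u : F ∙ e => u = 0
      rw [card_sub_u hU, finrank_span_singleton he0, Nat.card_unique, mul_one] at k5
      refine le_trans (Nat.card_le_card_of_injective (β := {u : F ∙ e // ¬u = 0})
        (fun u => ⟨⟨u.1, hc _ u.2.1.1 u.2.2⟩, by simpa using u.2.1.2⟩)
        fun u v h => by simpa [Subtype.ext_iff] using h) (by omega)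
    have k6 := (Nat.le_mul_of_pos_right _ k4).trans (k3.symm.trans_le (Nat.mul_le_mul hd.le k5))
    obtain ⟨r, hr⟩ : ∃ r, q ^ 2 = r + 1 := ⟨q ^ 2 - 1, by have := pow_pos hU.pos 2; omega⟩
    rw [show q ^ 4 - 1 = (r + 2) * r by
      rw [show q ^ 4 = q ^ 2 * q ^ 2 by ring, hr, Nat.sub_eq_of_eq_add]; ring, hr,
      Nat.add_sub_cancel] at k6
    have : q < r := by nlinarith
    have : 0 < r * (q ^ 3 + 1) := Nat.mul_pos (by omega) (by positivity)
    nlinarith
  push Not at hc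
  obtain ⟨y, hy, hXy, hy'⟩ := hc
  by_cases hye : B y e = 0
  · exact L e y he he0 ⟨hye, hy', hy⟩ hXe hXy
  have P : ∀ u, B u u = 0 → B u e ≠ 0 → XX hB ω u := fun u hu hue => by
    obtain ⟨μ, k5, k6⟩ := ei_move hB he (f := y) (f' := (B y e / B u e) • u) (by simp [hu, hy])
      (by simp [hue]) hye
    rw [← XX_smul hB hu (div_ne_zero hye hue), ← k6]
    exact hXy.map hB hy (h3 e hXe he0 _ _ k5)
  obtain ⟨u, hu, hue, hu'⟩ := exists_iso_line hB hU h4.ge he he0
  obtain ⟨f, hff, hfe, hf'⟩ := exists_partner hB hU he0 he (S := F ∙ u)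
    (by simpa using not_mem_span_add he0 hu' 0 one_ne_zero) fun s hs => by
    obtain ⟨s, rfl⟩ := Submodule.mem_span_singleton.mp hs
    simp [hB.refl hue]
  have hfu := hf' u (Submodule.mem_span_singleton_self u)
  have k5 : B (u + f) (u + f) = 0 := by simp [hu, hff, hfu, hB.refl hfu]
  refine L f (u + f) hff (by rintro rfl; simp at hfe) ⟨by simp [hff, hB.refl hfu], fun h => ?_, k5⟩
    (P f hff (by simp [hfe])) (P _ k5 (by simp [hfe, hue]))
  obtain ⟨s, hs⟩ := Submodule.mem_span_singleton.mp h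
  obtain rfl : s = 1 := by simpa [hfe, hue] using congrArg (B · e) hs
  obtain rfl : u = 0 := by simpa using hs
  exact hu' (Submodule.zero_mem _)

attribute [local instance] suSub

include hB hU h4 in
theorem su4_index_eq : ∃ K : Subgroup (SUb B), Subgroup.center (SUb B) ≤ K ∧
    K.index = (q + 1) * (q ^ 3 + 1) := by
  have := finite_SUb B
  have := finite_of_finiteDimensional F E
  obtain ⟨e, -, he0, he⟩ := exists_iso_vec hB hU ⊤ (by rw [finrank_top]; omega)
  obtain ⟨y, hy, hye, hy'⟩ := exists_iso_line hB hU h4.ge he he0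
  obtain ⟨f, hf, hfe, -⟩ := exists_partner hB hU he0 he (S := ⊥) (by simpa using he0) (by simp)
  have hef : B e f = 1 := by rw [hB.herm, hfe, map_one]
  let L := ((F ∙ e) ⊔ F ∙ y).toAddSubgroup
  have hL : ∀ a ∈ L, ∀ b ∈ L, B a b = 0 := fun a ha b hb => by
    obtain ⟨s, t, rfl⟩ := mem_span_pair'.mp ha
    obtain ⟨s', t', rfl⟩ := mem_span_pair'.mp hb
    simp [he, hy, hye, hB.refl hye]
  have heL : e ∈ L := mem_span_pair'.mpr ⟨1, 0, by simp⟩
  refine ⟨MulAction.stabilizer (SUb B) L, fun g hg => ?_, le_antisymm ?_ (su4_index_ge hB hU h4 _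
    fun h => ?_)⟩
  · have key : ∀ g ∈ Subgroup.center (SUb B), ∀ a ∈ L, suAct B g a ∈ L := fun g hg a ha => by
      by_cases h0 : a = 0
      · simp [h0]
      obtain ⟨s, hs⟩ := Submodule.mem_span_singleton.mp (center_mem_span hB hU h4.ge hg h0)
      exact hs ▸ Submodule.smul_mem ((F ∙ e) ⊔ F ∙ y) s ha
    exact AddSubgroup.ext fun a => ⟨fun h => by
      simpa [act_apply_inv] using key g hg _ (mem_suSub'.mp h), fun h => key _ (inv_mem hg) a h⟩
  · rw [MulAction.index_stabilizer, ← Nat.card_coe_set_eq]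
    have k1 := su4_double hB hU h4 (X := MulAction.orbit (SUb B) L) (fun A u => u ∈ A.1)
      (fun g A u _ h => mem_suSub.mpr h) ⟨L, MulAction.mem_orbit_self L⟩ he he0
    have k2 := card_line_le hB hU he he0 ⟨hye, hy', hy⟩ (p := (· ∈ L)) fun u hu _ => hu
    have k3 : Nat.card {A : MulAction.orbit (SUb B) L // e ∈ A.1} * (q ^ 2 - 1) ≤
        (q ^ 2 - 1) * (q + 1) := by
      obtain ⟨d1, d2⟩ := disjoint_sup_hyp hB (W := ⊥) (e := e) (f := f) (by simp)
        (fun _ h => by simp [(Submodule.mem_bot F).mp h])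
        (fun _ h => by simp [(Submodule.mem_bot F).mp h]) he hf (by simp [hfe])
      rw [bot_sup_eq] at d1 d2
      have d3 := hB.finrank_perp ((F ∙ e) ⊔ F ∙ f)
      rw [finrank_bot] at d2
      have d4 := card_norm_cls (hB.restrict_perp d1) hU (k := 1) (by omega) (map_zero σ)
      have d5 := card_add_card_not fun c : F => c = 0
      rw [Nat.card_eq_fintype_card (α := F), hU.card, Nat.card_unique] at d5
      have key : ∀ A : {A : MulAction.orbit (SUb B) L // e ∈ A.1}, ∃ w, B w f = 0 ∧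
          w ∈ cls B e 0 ∧ ∀ a, a ∈ A.1.1 ↔ a ∈ (F ∙ e) ⊔ F ∙ w := by
        rintro ⟨⟨_, g, rfl⟩, hA⟩
        have h1 : ∀ a ∈ g • L, ∀ b ∈ g • L, B a b = 0 := fun a ha b hb => by
          rw [← suAct_pres g⁻¹]; exact hL _ ha _ hb
        have h2 : ∀ a ∈ g • L, ∀ t : F, t • a ∈ g • L := fun a ha t => by
          rw [mem_suSub', map_smul]; exact Submodule.smul_mem ((F ∙ e) ⊔ F ∙ y) t ha
        obtain ⟨v, hv, hv'⟩ : ∃ v ∈ g • L, v ∉ F ∙ e := by
          by_contra hc
          push Not at hc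
          have := AddSubgroup.card_le_of_le (show g • L ≤ (F ∙ e).toAddSubgroup from hc)
          rw [card_suSub] at this
          change Nat.card ↥((F ∙ e) ⊔ F ∙ y) ≤ Nat.card (F ∙ e) at this
          rw [card_line hU he0 hy', card_sub_u hU, finrank_span_singleton he0] at this
          exact absurd this (not_le.mpr (Nat.pow_lt_pow_right hU.two_le (by omega)))
        have h3 : v - B v f • e ∈ g • L := AddSubgroup.sub_mem _ hv (h2 _ hA _)
        have h5 : v - B v f • e ∈ cls B e 0 := ⟨h1 _ h3 _ hA, fun h => hv' (by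
          simpa using Submodule.add_mem _ h (Submodule.smul_mem _ (B v f)
            (Submodule.mem_span_singleton_self e))), h1 _ h3 _ h3⟩
        refine ⟨_, by simp [hef], h5, fun a => ⟨fun ha =>
          perp_line hB hU he he0 h4 h5 (h1 _ ha _ hA) (h1 _ ha _ h3), fun ha => ?_⟩⟩
        obtain ⟨s, t, rfl⟩ := mem_span_pair'.mp ha
        exact AddSubgroup.add_mem _ (h2 _ hA s) (h2 _ h3 t)
      choose w h1 h2 h3 using key
      have d6 := Nat.card_le_card_of_injective (α := {A : MulAction.orbit (SUb B) L // e ∈ A.1} ×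
        {c : F // ¬c = 0}) (β := {w : perp B ((F ∙ e) ⊔ F ∙ f) // res B _ w w = 0 ∧ w ≠ 0})
        (fun p => ⟨⟨p.2.1 • w p.1, mem_perp_two.mpr ⟨by simp [(h2 _).1], by simp [h1]⟩⟩, by
          simp [res_apply, (h2 _).2.2], fun h => (h2 p.1).2.1 (by
            rw [(smul_eq_zero_iff_right p.2.2).mp (congrArg Subtype.val h)]
            exact Submodule.zero_mem _)⟩) (by
        rintro ⟨A, c, hc⟩ ⟨A', c', hc'⟩ h
        replace h : c • w A = c' • w A' := congrArg (·.1.1) h
        obtain rfl : A = A' := Subtype.ext (Subtype.ext (AddSubgroup.ext fun a => by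
          rw [h3, h3, ← Submodule.span_singleton_smul_eq (Ne.isUnit hc) (w A), h,
            Submodule.span_singleton_smul_eq (Ne.isUnit hc')]))
        obtain rfl : c = c' := smul_left_injective F (fun h0 => (h2 A).2.1 (by
          rw [h0]; exact Submodule.zero_mem _)) h
        rfl)
      rw [Nat.card_prod, d4, show Nat.card {c : F // ¬c = 0} = q ^ 2 - 1 by omega] at d6
      simpa [uq] using d6
    have k4 : 0 < q ^ 2 - 1 := Nat.sub_pos_of_lt (Nat.one_lt_pow (by omega) hU.two_le)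
    have k5 : 0 < q ^ 4 - 1 := Nat.sub_pos_of_lt (Nat.one_lt_pow (by omega) hU.two_le)
    rw [mul_comm] at k3
    have k6 := (Nat.mul_le_mul_left _ k2).trans_eq k1 |>.trans
      (Nat.mul_le_mul_left _ (Nat.le_of_mul_le_mul_left k3 k4))
    rw [mul_comm, mul_assoc] at k6
    rw [mul_comm]
    exact Nat.le_of_mul_le_mul_left k6 k5
  · obtain ⟨g, hg⟩ := su_move_iso hB hU (by omega) he he0 hf (by rintro rfl; simp at hfe)
    have h1 : g • L = L := (h ▸ Subgroup.mem_top g : g ∈ MulAction.stabilizer (SUb B) L)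
    have h2 := (mem_suSub (g := g)).mpr heL
    rw [h1, hg] at h2
    simpa [hfe] using hL _ h2 _ heL

include hB hU h4 in
theorem claimC_four : ClaimC B q := claimC_of_index hB hU (k := 3) h4 (by omega) fun H hH =>
  le_trans (by nlinarith) (su4_index_ge hB hU h4 H hH)

end Cfsg.Agent.H1
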