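import Cfsg.Agent.H1.MIU8

/-!
# Minimal index of `SU₄(q)`
-/

set_option autoImplicit false
set_option linter.unusedSectionVars false

namespace Cfsg.Agent.H1

open Module H5 Finset

variable {F : Type*} [Field F] {σ : F →+* F} {E : Type*} [AddCommGroup E] [Module F E]
  [FiniteDimensional F E] {B : Sesq σ E} (hB : IsEps B 1) [Fintype F] {q : ℕ} (hU : UF σ q)
  {X : Type*} [MulAction (SUb B) X] [Finite X] {e : E} (he : B e e = 0) (he0 : e ≠ 0)
  (h4 : finrank F E = 4) (hd : Nat.card X < (q + 1) * (q ^ 3 + 1))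

include hU he0 h4 hd in
theorem su4_typeI {ω ω' : X} (h : XX hB ω e) (h' : ¬XX hB ω' e) {a : E} (ha : B a e = 0) :
    a ∈ (uD hB he).A ω := by
  classical
  have := finite_of_finiteDimensional F E
  refine (uP hB hU he he0).mem_A fun w hw => ?_
  change (uP hB hU he he0).ψ (B a w) = 1
  suffices w ∈ F ∙ e by
    obtain ⟨s, rfl⟩ := Submodule.mem_span_singleton.mp this
    simp [ha]
  by_contra hw'
  obtain ⟨u, hu, hue, hwu⟩ := exists_iso_perp hB hU h4.ge he0 hw'
  have hwe := uT_perp hB hU he he0 hw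
  let φ : Option {c : F // σ c = -c} × F → E := fun p =>
    p.1.elim 0 (fun c => suAct B (ut hB u c) w) + p.2 • e
  have hte : ∀ c, σ c = -c → suAct B (ut hB u c) e = e := fun c hc => by
    rw [ut_apply hB hu hc, hB.refl hue]; simp
  have h1 := (uP hB hU he he0).budget0 (p := fun ω' : X => XX hB ω' e)
    (fun _ _ h => (XX_eqv hB he h).mpr) {0} (Set.range φ) 1 (by
      rintro _ rfl _ ⟨⟨_ | c, s⟩, rfl⟩
      · refine ⟨{ω}, by simp, by simp, ?_⟩
        simp only [mem_singleton, forall_eq]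
        exact ⟨h, AddSubgroup.zero_mem _, by simpa [φ] using smul_mem_uT hB hU he he0 ω s⟩
      · refine ⟨{ut hB u c • ω}, by simp, by simp, ?_⟩
        simp only [mem_singleton, forall_eq]
        exact ⟨(XX_conj_e hB he (a := 1) (by simpa using hte c c.2) one_ne_zero).mpr h,
          AddSubgroup.zero_mem _, AddSubgroup.add_mem _
            ((uT_conj1 hB hU he he0 (hte c c.2)).mpr hw) (smul_mem_uT hB hU he he0 _ s)⟩)
  have hne : ∀ (c : {c : F // σ c = -c}) (s s' : F), s • e ≠ suAct B (ut hB u c) w + s' • e :=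
    fun c s s' h => hw' (Submodule.mem_span_singleton.mpr ⟨s - s', rep_injective _ (ut hB u c) (by
      rw [map_smul, hte c c.2, sub_smul, h, add_sub_cancel_right])⟩)
  rw [Nat.card_range_of_injective (by
    rintro ⟨_ | c, s⟩ ⟨_ | c', s'⟩ h
    · simpa [φ] using smul_left_injective F he0 (by simpa [φ] using h)
    · exact absurd (by simpa [φ] using h) (hne c' s s')
    · exact absurd (by simpa [φ] using h.symm) (hne c s' s)
    · simp only [φ, Option.elim_some, ut_apply hB hu c.2, ut_apply hB hu c'.2, add_assoc,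
        add_right_inj] at h
      obtain rfl : c = c' := Subtype.ext (by
        have := congrArg (B w) h
        simp only [map_add, LinearMap.map_smulₛₗ, hwe, smul_eq_mul, mul_zero, add_zero,
          mul_eq_mul_right_iff, hwu, or_false] at this
        exact mul_right_cancel₀ hwu (hB.sigma_bij.1 this))
      rw [smul_left_injective F he0 (add_left_cancel h)]), Nat.card_prod, Finite.card_option,
    card_trace_zero hU, Nat.card_eq_fintype_card (α := F), hU.card] at h1
  have h2 := su4_II hB hU he he0 h4 hd h'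
  have h3 := card_add_card_not fun ω' : X => XX hB ω' e
  have h5 : Nat.card {ω' : X // XX hB ω' e} ≤ q := by nlinarith
  have h6 := Nat.mul_le_mul_left (q ^ 2) h5
  have := pow_pos hU.pos 2
  change _ ≤ q ^ 2 * _ at h1
  simp only [Nat.card_unique] at h1
  nlinarith

include hU in
theorem card_sol1 {l α : F} (hl : l ≠ 0) (hα : σ α = -α) :
    Nat.card {ν : F // σ (l * ν) - l * ν = α} = q := by
  obtain ⟨c, hc0, hc⟩ := hU.exists_trace_zero
  obtain ⟨y, hy⟩ := hU.trace_surj (c := -α / c) (by rw [map_div₀, map_neg, hα, hc]; ring)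
  rw [← hU.card_fixed]
  refine Nat.card_congr (Equiv.subtypeEquiv ((Equiv.mulLeft₀ l hl).trans (Equiv.subRight (c * y)))
    fun ν => ?_)
  simp only [Equiv.trans_apply, Equiv.mulLeft₀_apply, Equiv.subRight_apply, map_sub, map_mul, hc]
  field_simp at hy
  exact ⟨fun h => by linear_combination h - hy, fun h => by linear_combination h + hy⟩

include hU in
theorem card_sol2 {l α β : F} (hα : σ α = -α) (hβ : σ β = -β) (h0 : β ≠ 0)
    (h1 : β * ((-σ l / β) * σ (-σ l / β)) + σ (l * (-σ l / β)) - l * (-σ l / β) ≠ α) :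
    Nat.card {ν : F // β * (ν * σ ν) + σ (l * ν) - l * ν = α} = q + 1 := by
  rw [← hU.card_norm_eq (c := (α + β * (σ l / β * σ (σ l / β))) / β) (by
    simp only [map_div₀, map_add, map_mul, hα, hβ, hU.invol, map_neg]
    field_simp; ring) fun h => h1 (by
      simp only [map_div₀, map_mul, hβ, hU.invol, map_neg] at h ⊢
      field_simp at h ⊢
      linear_combination -h)]
  refine Nat.card_congr (Equiv.subtypeEquiv (Equiv.addRight (σ l / β)) fun ν => ?_)
  simp only [Equiv.coe_addRight, map_add, map_div₀, map_mul, hβ, hU.invol]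
  rw [eq_div_iff h0]
  field_simp
  exact ⟨fun h => by linear_combination β * h, fun h => mul_left_cancel₀ h0 (by linear_combination h)⟩

theorem LT_map' {ω : X} {z : E} (hz : B z z = 0) {g : SUb B} (hg : suAct B g z = e) :
    LT hB he (g • ω) ↔ LT hB hz ω := by
  subst hg
  exact LT_map hB hz g he

include hU h4 hd in
theorem su4_exists_XX (ω : X) : ∃ z, B z z = 0 ∧ z ≠ 0 ∧ XX hB ω z := by
  classical
  have := finite_of_finiteDimensional F E
  by_contra hc
  push Not at hc
  obtain ⟨e, -, he0, he⟩ := exists_iso_vec hB hU ⊤ (by rw [finrank_top]; omega)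
  obtain ⟨y, hyA, hy'⟩ := exists_mem_uA hB hU he he0 h4 hd (hc e he he0)
  have hy := (su4_A hB hU he he0 h4 hd (hc e he he0)).1 y hyA
  have hye := uA_perp hB he hyA
  have hz : ∀ ν : F, B (y + ν • e) (y + ν • e) = 0 := fun ν => by simp [he, hy, hye, hB.refl hye]
  have hz0 := add_ne_zero_of_not_mem hy'
  have hJ : ∀ z (hz : B z z = 0), z ≠ 0 → ∀ a μ ν, Adm B a z μ → Adm B a z ν →
      ei hB a z μ • ω = ω → ei hB a z ν • ω = ω → μ = ν := fun z hz hz0 a μ ν h1 h2 h3 h5 => by
    simpa [su4_J hB hU hz hz0 h4 hd (hc z hz hz0), sub_eq_zero] using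
      (uD hB hz).sub_mem_J (ω := ω) h1 h2 (h3.trans h5.symm)
  have adm : ∀ l α : F, Adm B (l • y) e α ↔ σ α = -α := fun l α =>
    ⟨fun h => by have := h.tr; simp [hy] at this; linear_combination this,
      fun h => ⟨he, by simp [hye], by simp [h, hy]⟩⟩
  have hmul : ∀ α l β α' l' β' : F, σ α = -α → σ β = -β → σ α' = -α' → σ β' = -β' →
      ut hB y β * ei hB (l • y) e α * (ut hB y β' * ei hB (l' • y) e α') =
        ut hB y (β + β') * ei hB ((l + l') • y) e (α + α') := by
    intro α l β α' l' β' h1 h2 h3 h5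
    have := ei_conj hB (ut hB y β') ((adm l α).mpr h1)
    rw [ut_apply hB hy h5, ut_apply hB hy h5] at this
    simp only [map_smul, LinearMap.smul_apply, hy, hB.refl hye, smul_zero, mul_zero, zero_smul,
      add_zero] at this
    rw [mul_assoc, ← mul_assoc (ei hB _ _ _), ← this, mul_assoc, ← mul_assoc, ut_mul hB hy h2 h5,
      ei_mul hB ((adm l α).mpr h1) ((adm l' α').mpr h3), add_smul]
    simp [hy]
  have hone : ut hB y 0 * ei hB ((0 : F) • y) e 0 = 1 := by
    rw [ut_zero hB hy, zero_smul, one_mul]; exact (uD hB he).x_zero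
  let R : AddSubgroup (F × F × F) :=
    { carrier := {p | σ p.1 = -p.1 ∧ σ p.2.2 = -p.2.2}
      zero_mem' := by simp
      add_mem' := fun h h' => by simp [h.1, h.2, h'.1, h'.2, add_comm]
      neg_mem' := fun h => by simp [h.1, h.2] }
  let S : AddSubgroup (F × F × F) :=
    { carrier := {p | p ∈ R ∧ (ut hB y p.2.2 * ei hB (p.2.1 • y) e p.1) • ω = ω}
      zero_mem' := ⟨R.zero_mem, by
        change (ut hB y 0 * ei hB ((0 : F) • y) e 0) • ω = ω; rw [hone, one_smul]⟩
      add_mem' := fun {p p'} h h' => ⟨R.add_mem h.1 h'.1, by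
        change (ut hB y (p.2.2 + p'.2.2) * ei hB ((p.2.1 + p'.2.1) • y) e (p.1 + p'.1)) • ω = ω
        rw [← hmul _ _ _ _ _ _ h.1.1 h.1.2 h'.1.1 h'.1.2, mul_smul, h'.2, h.2]⟩
      neg_mem' := fun {p} h => ⟨R.neg_mem h.1, by
        have := hmul _ (-p.2.1) _ _ p.2.1 _ (R.neg_mem h.1).1 (R.neg_mem h.1).2 h.1.1 h.1.2
        simp only [Prod.fst_neg, Prod.snd_neg, neg_add_cancel, hone] at this
        change (ut hB y (-p.2.2) * ei hB ((-p.2.1) • y) e (-p.1)) • ω = ω
        conv_lhs => rw [← h.2]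
        rw [← mul_smul, this, one_smul]⟩ }
  have hR : Nat.card R = q ^ 4 := by
    rw [Nat.card_congr (show R ≃ {c : F // σ c = -c} × F × {c : F // σ c = -c} from
      ⟨fun p => (⟨_, p.2.1⟩, p.1.2.1, ⟨_, p.2.2⟩), fun p => ⟨(p.1, p.2.1, p.2.2), p.1.2, p.2.2.2⟩,
        fun _ => rfl, fun _ => rfl⟩), Nat.card_prod, Nat.card_prod, card_trace_zero hU,
      Nat.card_eq_fintype_card, hU.card]
    ring
  have hS : Nat.card S ∣ q ^ 4 := hR ▸ AddSubgroup.card_dvd_of_le (fun _ h => h.1 : S ≤ R)
  obtain ⟨u, hu⟩ : ∃ u, u = Nat.card {t : F // t • y ∈ (uD hB he).A ω} := ⟨_, rfl⟩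
  have hF : Nat.card F = q ^ 2 := by rw [Nat.card_eq_fintype_card, hU.card]
  have hLT : ∀ ν : F, LT hB (hz ν) ω ↔ LT hB he ω := fun ν => by
    obtain ⟨g, hg⟩ := su_move_iso hB hU (by omega) (hz ν) (hz0 ν) he he0
    have h1 : ¬XX hB (g • ω) e := by rw [← hg, XX_conj hB (hz ν)]; exact hc _ (hz ν) (hz0 ν)
    rw [← LT_map' hB he (hz ν) hg]
    exact ⟨su4_LT hB hU he he0 h4 hd h1 (hc e he he0), su4_LT hB hU he he0 h4 hd (hc e he he0) h1⟩
  have hu1 : (u = q ^ 2 ∨ (u = q ∧ (2 : F) = 0)) ∧
      ∀ ν : F, Nat.card {t : F // t • e ∈ (uD hB (hz ν)).A ω} = u := by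
    by_cases hL : LT hB he ω
    · have h1 : u = q ^ 2 := by
        rw [hu, ← hF]; exact Nat.card_congr (Equiv.subtypeUnivEquiv (hL y hyA))
      refine ⟨Or.inl h1, fun ν => ?_⟩
      choose α h2 h3 using hL y hyA
      have h5 : ∀ l, σ (α l - (σ (l * ν) - l * ν)) = -(α l - (σ (l * ν) - l * ν)) := fun l => by
        simp only [map_sub, (adm _ _).mp (h2 l), hB.invol]; ring
      have : ¬Function.Injective fun l => (⟨_, h5 l⟩ : {c : F // σ c = -c}) := fun h => by
        have := Nat.card_le_card_of_injective _ h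
        rw [card_trace_zero hU, hF] at this
        nlinarith [hU.two_le]
      obtain ⟨l, l', h6, h7⟩ := Function.not_injective_iff.mp this
      replace h6 := congrArg Subtype.val h6
      obtain ⟨μ, k1, k2⟩ := hL y hyA (l - l')
      obtain ⟨k3, k4, k5⟩ := line_eq hB he hy hye (β := 0) (l := l - l') (ν := ν) (by simp) rfl
      have k6 := hJ e he he0 _ _ _ (h2 l) (by
        have := Adm.add hB k1 (h2 l'); rwa [← add_smul, sub_add_cancel] at this) (h3 l) (by
        have := ei_mul hB k1 (h2 l')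
        rw [← add_smul, sub_add_cancel] at this
        rw [← this, mul_smul]
        erw [h3 l', k2])
      have k7 : μ = 0 * (ν * σ ν) + σ ((l - l') * ν) - (l - l') * ν := by
        simp only [map_smul, LinearMap.smul_apply, LinearMap.map_smulₛₗ, hy, smul_zero] at k6
        simp only [sub_mul, map_sub]
        linear_combination h6 - k6
      have k8 : (-0 * ν - σ (l - l')) • e ∈ (uD hB (hz ν)).A ω := ⟨_, k4, by
        change ei hB _ _ _ • ω = ω
        rw [← k5, ut_zero hB hy, one_mul, ← k7]; exact k2⟩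
      have k9 : -0 * ν - σ (l - l') ≠ 0 := by
        rw [neg_zero, zero_mul, zero_sub, neg_ne_zero]; exact (map_ne_zero σ).mpr (sub_ne_zero.mpr h7)
      rw [h1, ← hF]
      exact Nat.card_congr (Equiv.subtypeUnivEquiv fun t => by
        have := (hLT ν).mpr hL _ k8 (t / (-0 * ν - σ (l - l')))
        rwa [smul_smul, div_mul_cancel₀ _ k9] at this)
    · have h1 : u = q := hu.trans (U_card hB hU he he0 h4 hd (hc e he he0) hL ⟨hye, hy', hy⟩)
      refine ⟨Or.inr ⟨h1, (U_type hB hU he he0 h4 hd (hc e he he0) hL).1⟩, fun ν => ?_⟩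
      exact (U_card hB hU (hz ν) (hz0 ν) h4 hd (hc _ (hz ν) (hz0 ν)) ((hLT ν).not.mpr hL)
        ⟨by simp [he, hB.refl hye], by simpa using not_mem_span_add he0 hy' ν one_ne_zero, he⟩).trans
          h1.symm
  let r : S → Option F → Prop := fun p z => z.elim (p.1.2.2 = 0) fun ν =>
    p.1.2.2 * (ν * σ ν) + σ (p.1.2.1 * ν) - p.1.2.1 * ν = p.1.1
  have := Fintype.ofFinite S
  have hcount := Finset.card_mul_eq_card_mul (s := univ.erase (0 : S)) (t := univ) r
    (m := q + 1) (n := u - 1) (fun p hp => by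
      obtain ⟨⟨α, l, β⟩, ⟨h1, h2⟩, h3⟩ := p
      dsimp only at h1 h2 h3
      rw [bipartiteAbove, card_filter, Fintype.sum_option, ← card_filter, ← Fintype.card_subtype,
        ← Nat.card_eq_fintype_card]
      simp only [r, Option.elim_none, Option.elim_some]
      by_cases h0 : β = 0
      · subst h0
        have hl : l ≠ 0 := by
          rintro rfl
          obtain rfl : α = 0 := hJ e he he0 _ _ _ ((adm 0 α).mpr h1) ((adm 0 0).mpr (by simp))
            (by simpa [ut_zero hB hy] using h3) (by simpa [ut_zero hB hy] using congrArg (· • ω) hone)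
          exact ne_of_mem_erase hp rfl
        simp only [zero_mul, zero_add, if_true]
        rw [card_sol1 hU hl h1, add_comm]
      · simp only [h0, if_false, zero_add]
        refine card_sol2 hU h1 h2 h0 fun h => ?_
        obtain ⟨-, k1, k2⟩ := line_eq hB he hy hye h2 h
        rw [show -β * (-σ l / β) - σ l = 0 by field_simp; ring] at k1 k2
        rw [k2] at h3
        exact h0 (neg_eq_zero.mp (hJ _ k1.iso (hz0 _) _ _ _ k1 ⟨k1.iso, by simp, by simp⟩ h3 (by
          rw [zero_smul]; exact congrArg (· • ω) (uD hB k1.iso).x_zero |>.trans (one_smul _ _)))))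
    fun z _ => by
      have h0 : r 0 z := by rcases z with _ | ν <;> simp [r]
      rw [bipartiteBelow, filter_erase, card_erase_of_mem (by simpa using h0),
        ← Fintype.card_subtype, ← Nat.card_eq_fintype_card]
      congr 1
      rcases z with _ | ν
      · rw [hu]
        refine Nat.card_congr (Equiv.ofBijective (fun p => ⟨p.1.1.2.1, p.1.1.1,
          (adm _ _).mpr p.1.2.1.1, by
            change ei hB _ _ _ • ω = ω
            simpa [show p.1.1.2.2 = 0 from p.2, ut_zero hB hy] using p.1.2.2⟩) ⟨?_, ?_⟩)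
        · rintro ⟨⟨⟨α, l, β⟩, ⟨h1, h2⟩, h3⟩, h5⟩ ⟨⟨⟨α', l', β'⟩, ⟨h1', h2'⟩, h3'⟩, h5'⟩ h
          obtain rfl : β = 0 := h5
          obtain rfl : β' = 0 := h5'
          obtain rfl : l = l' := congrArg Subtype.val h
          obtain rfl : α = α' := hJ e he he0 _ _ _ ((adm l α).mpr h1) ((adm l α').mpr h1')
            (by simpa [ut_zero hB hy] using h3) (by simpa [ut_zero hB hy] using h3')
          rfl
        · rintro ⟨l, α, h1, h2⟩
          change ei hB _ _ _ • ω = ω at h2
          exact ⟨⟨⟨(α, l, 0), ⟨(adm _ _).mp h1, by simp⟩, by simpa [ut_zero hB hy] using h2⟩, rfl⟩,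
            rfl⟩
      · rw [← hu1.2 ν]
        refine Nat.card_congr (Equiv.ofBijective (fun p => ⟨-p.1.1.2.2 * ν - σ p.1.1.2.1, _,
          (line_eq hB he hy hye p.1.2.1.2 p.2).2.1, by
            have := p.1.2.2
            rw [(line_eq hB he hy hye p.1.2.1.2 p.2).2.2] at this
            exact this⟩) ⟨?_, ?_⟩)
        · rintro ⟨⟨⟨α, l, β⟩, ⟨h1, h2⟩, h3⟩, h5⟩ ⟨⟨⟨α', l', β'⟩, ⟨h1', h2'⟩, h3'⟩, h5'⟩ h
          replace h : -β * ν - σ l = -β' * ν - σ l' := congrArg Subtype.val h
          obtain ⟨-, k1, k2⟩ := line_eq hB he hy hye h2 h5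
          obtain ⟨-, k1', k2'⟩ := line_eq hB he hy hye h2' h5'
          dsimp only at h3 h3' k1 k2 k1' k2'
          rw [k2] at h3
          rw [k2', ← h] at h3'
          rw [← h] at k1'
          obtain rfl : β = β' := neg_injective (hJ _ (hz ν) (hz0 ν) _ _ _ k1 k1' h3 h3')
          obtain rfl : l = l' := hB.sigma_bij.1 (by linear_combination -h)
          obtain rfl : α = α' := (show _ = α from h5).symm.trans h5'
          rfl
        · rintro ⟨ρ, μ, h1, h2⟩
          have h3 : σ (-μ) = - -μ := by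
            have := Adm.tr h1
            simp [he] at this
            rw [map_neg]; linear_combination -this
          obtain ⟨k1, -, k2⟩ := line_eq hB he hy hye (l := σ (μ * ν - ρ)) (ν := ν) h3 rfl
          rw [hB.invol, show - -μ * ν - (μ * ν - ρ) = ρ by ring, neg_neg] at k2
          exact ⟨⟨⟨(_, σ (μ * ν - ρ), -μ), ⟨(adm _ _).mp k1, h3⟩, by
            rw [k2]; exact h2⟩, rfl⟩, Subtype.ext (by simp [hB.invol])⟩
  rw [card_erase_of_mem (mem_univ _), card_univ, card_univ, Fintype.card_option, hU.card,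
    ← Nat.card_eq_fintype_card] at hcount
  have hq := hU.two_le
  have hS0 : 0 < Nat.card S := Nat.card_pos
  rcases hu1.1 with rfl | ⟨rfl, h2⟩
  · obtain ⟨r, rfl⟩ : ∃ r, q = r + 1 := ⟨q - 1, by omega⟩
    have h1 : Nat.card S = (r + 1) * ((r + 1) * r + 1) := by
      rw [show (r + 1) ^ 2 - 1 = r * (r + 1 + 1) by rw [Nat.sub_eq_of_eq_add]; ring,
        ← mul_assoc] at hcount
      have := Nat.eq_of_mul_eq_mul_right (by omega) hcount
      rw [Nat.sub_eq_iff_eq_add hS0] at this
      rw [this]; ring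
    have h2 := (Nat.Coprime.pow_right 4 (show Nat.Coprime ((r + 1) * r + 1) (r + 1) by
      simp)).eq_one_of_dvd (Dvd.dvd.trans (Dvd.intro_left _ h1.symm) hS)
    nlinarith
  · obtain ⟨r, rfl⟩ : ∃ r, u = r + 1 := ⟨u - 1, by omega⟩
    have h1 : r + 2 ∣ 4 := by
      have : r + 2 ∣ ((r + 1) ^ 2 + 1) * r := ⟨Nat.card S - 1, by
        rw [Nat.add_sub_cancel] at hcount; rw [← hcount]; ring⟩
      exact (Nat.dvd_add_right this).mp ⟨r ^ 2 + 2, by ring⟩
    have h3 := Nat.le_of_dvd four_pos h1
    obtain rfl : r = 2 := by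
      have : r = 1 ∨ r = 2 := by omega
      rcases this with rfl | rfl
      · norm_num at h1
      · rfl
    have := hU.cast_q
    norm_num at this
    exact one_ne_zero (α := F) (by linear_combination this - h2)

end Cfsg.Agent.H1
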