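import Cfsg.Agent.H1.OmW

/-!
# Representations of `Ω` with only singular weights
-/

set_option autoImplicit false
set_option linter.unusedSectionVars false

namespace Cfsg.Agent.H1

open Module H6 Finset

variable {F : Type*} [Field F] [Fintype F] {E : Type*} [AddCommGroup E] [Module F E]
  [FiniteDimensional F E] [Fintype E] {Q : QuadraticForm F E} {h : OH Q}
variable {V : Type*} [AddCommGroup V] [Module ℂ V] [FiniteDimensional ℂ V]
  {ρ : Om Q →* Module.End ℂ V} {ψ : AddChar F ℂ}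

variable (h ρ ψ) in
/-- only singular weights occur -/
def SingW : Prop := ∀ e w, Q e = 0 → e ≠ 0 → pb Q e w = 0 → Q w ≠ 0 → Wo h ρ ψ e w = ⊥

theorem fourier_form (hψ : ψ ≠ 1) (h7 : 7 ≤ finrank F E) (hns : SingW h ρ ψ) {e f : E}
    (hh : Hyp Q e f) (B : V →ₗ⋆[ℂ] V →ₗ[ℂ] ℂ) (hB : ∀ g x y, B (ρ g x) (ρ g y) = B x y) {z : V}
    (hz : ∀ g, oA Q g e = e → oA Q g f = f → ρ g z = z) : ∃ α β : ℂ, ∀ y ∈ hc Q ⊤ e f,
      B z (ρ (h.ez e y) z) = α + β * sig Q ψ (hc Q ⊤ e f) y := by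
  classical
  have hd := hh.finrank_hc (Y := ⊤) trivial trivial
  rw [finrank_top] at hd
  obtain ⟨a, ha, ha0, hQa⟩ := exists_sing_not_mem Q (Y := hc Q ⊤ e f) (R := ⊥) bot_le
    (by rw [finrank_bot]; omega)
  rw [Submodule.mem_bot] at ha0
  obtain ⟨c, hc'⟩ : ∃ c : E → ℂ, ∀ w, c w = B z (fc h ρ ψ e f w z) := ⟨_, fun _ => rfl⟩
  have h1 : ∀ w ∈ hc Q ⊤ e f, c w =
      (if w = 0 then c 0 - c a else 0) + if Q w = 0 then c a else 0 := by
    intro w hw
    by_cases h0 : w = 0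
    · simp [h0]
    by_cases hQ : Q w = 0
    · obtain ⟨l, l1, l2, l3⟩ := h.exists_L h7 hh ha hw ha0 h0 (by rw [hQ, hQa])
      rw [if_neg h0, if_pos hQ, zero_add, hc', hc', ← hB l z (fc _ _ _ _ _ a _), fc_map l1 l2, l3,
        hz l l1 l2]
    · have := fc_mem (h := h) (ρ := ρ) (ψ := ψ) hh (mem_hc.mp hw).2.1 z
      rw [hns e w hh.l hh.ne (mem_hc.mp hw).2.1 hQ, Submodule.mem_bot] at this
      simp [h0, hQ, hc', this]
  have hn := card_elts_ne (hc Q ⊤ e f)
  refine ⟨(c 0 - c a) / (elts (hc Q ⊤ e f)).card, c a / (elts (hc Q ⊤ e f)).card, fun y hy => ?_⟩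
  have := congrArg (fun v => B z (ρ (h.ez e y) v)) (sum_fc (h := h) (ρ := ρ) hψ hh z)
  simp only [map_sum, map_smul, smul_eq_mul] at this
  rw [Finset.sum_congr rfl fun w hw => by
    rw [mem_Wo.mp (fc_mem hh (mem_hc.mp (mem_elts.mp hw)).2.1 z) y (mem_hc.mp hy).2.1, map_smul,
      ← hc', h1 w (mem_elts.mp hw)]] at this
  simp only [smul_eq_mul, mul_add, mul_ite, mul_zero, Finset.sum_add_distrib, Finset.sum_ite_eq',
    mem_elts, Submodule.zero_mem, if_true, map_zero, LinearMap.zero_apply,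
    AddChar.map_zero_eq_one, one_mul, ← Finset.sum_filter, ← Finset.sum_mul] at this
  field_simp
  rw [sig, lev]
  linear_combination -this

theorem avg_fixed {e f : E} (hh : Hyp Q e f) {z : V}
    (hz : ∀ g, oA Q g e = e → oA Q g f = f → ρ g z = z) {g : Om Q} (hg : oA Q g e = e) :
    ρ g (fc h ρ ψ e f 0 z) = fc h ρ ψ e f 0 z := by
  have hf : Hyp Q e (oA Q g f) := hg ▸ hh.map g
  have hp : pb Q e (oA Q g f - f) = 0 := by simp [hf.lr, hh.lr]
  have k1 : oA Q (h.ez e (oA Q g f - f) * g) e = e := by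
    rw [act_mul_apply, hg, h.ez_fix hh.l hp hh.ll hp]
  have k2 : oA Q (h.ez e (oA Q g f - f) * g) f = f := by rw [act_mul_apply, h.ez_move hh hf]
  have k3 := fc_map (h := h) (ρ := ρ) (ψ := ψ) k1 k2 0 z
  rw [map_zero, hz _ k1 k2, act_mul_apply] at k3
  apply rep_injective ρ (h.ez e (oA Q g f - f))
  rw [k3, mem_Wo.mp (fc_mem hh (by simp) z) _ hp]
  simp

theorem exists_S_fixed (hψ : ψ ≠ 1) (h7 : 7 ≤ finrank F E) (hns : SingW h ρ ψ) {e f w : E}
    (hh : Hyp Q e f) (hw : w ∈ hc Q ⊤ e f) (hw0 : w ≠ 0) {v : V} (hv : v ∈ Wo h ρ ψ e w)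
    (hv0 : v ≠ 0) (hθ : ∀ g, oA Q g e = e → oA Q g w = w → ρ g v = v)
    (hnum : Fintype.card F ^ 2 * ((lev Q (hc Q ⊤ e f) 0).card - 1) <
      2 * (Fintype.card F - 1 : ℝ) * (elts (hc Q ⊤ e f)).card) :
    ∃ x, Q x = 0 ∧ x ≠ 0 ∧ ∃ v : V, v ≠ 0 ∧ ∀ g, oA Q g x = x → ρ g v = v := by
  classical
  have := finite_Om (Q := Q)
  have := Fintype.ofFinite (Om Q)
  by_contra hcon
  push Not at hcon
  have hcon' : ∀ x, Q x = 0 → x ≠ 0 → ∀ v : V, (∀ g, oA Q g x = x → ρ g v = v) → v = 0 := by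
    intro x h1 h2 v h3
    by_contra h4
    obtain ⟨g, k1, k2⟩ := hcon x h1 h2 v h4
    exact k2 (h3 g k1)
  let L : Subgroup (Om Q) := actStab (oA Q) e ⊓ actStab (oA Q) f
  obtain ⟨y0, hy0d⟩ : ∃ y0 : V, y0 = ∑ l : L, ρ l v := ⟨_, rfl⟩
  have hy0L : ∀ l, oA Q l e = e → oA Q l f = f → ρ l y0 = y0 := by
    intro l h1 h2
    simp only [hy0d, map_sum]
    exact Fintype.sum_equiv (Equiv.mulLeft (⟨l, h1, h2⟩ : L)) _ _ fun l' => by simp
  have hy0 : y0 ≠ 0 := by
    intro h0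
    rw [hy0d, ← Finset.sum_filter_add_sum_filter_not _ (fun l : L => oA Q l.1 w = w)] at h0
    have e1 : ∀ l ∈ Finset.univ.filter (fun l : L => oA Q l.1 w = w), ρ l v = v :=
      fun l hl => hθ _ l.2.1 (Finset.mem_filter.mp hl).2
    rw [Finset.sum_congr rfl e1, Finset.sum_const, ← Nat.cast_smul_eq_nsmul ℂ] at h0
    have := eq_zero_of_sum_Wt (fun y : oc Q (F ∙ e) => ρ (h.ez e y))
      (fun (l : L) y => ψ (pb Q (oA Q l.1 w) y)) _ (fun l => ρ l v) (fun l _ => by
        have := Wo_map hv l.1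
        rwa [mem_actStab.mp l.2.1] at this) (fun y => ψ (pb Q w y)) _
      (Submodule.smul_mem _ _ hv) (fun l hl k => by
        have := wt_injOn (h := h) hψ hh (map_mem_hc l.2.1 l.2.2 hw) hw k
        exact (Finset.mem_filter.mp hl).2 this) h0
    rcases smul_eq_zero.mp this with h | h
    · rw [Nat.cast_eq_zero, Finset.card_eq_zero] at h
      have : (1 : L) ∈ Finset.univ.filter (fun l : L => oA Q l.1 w = w) := by simp
      simp [h] at this
    · exact hv0 h
  obtain ⟨B, hB, hBs, hBp⟩ := exists_inv_form ρ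
  have hW := (nd_top h.nd).hc hh trivial trivial
  have hsymm : hc Q ⊤ f e = hc Q ⊤ e f := by ext x; simp only [mem_hc]; tauto
  have hd := hh.finrank_hc (Y := ⊤) trivial trivial
  rw [finrank_top] at hd
  obtain ⟨a, ha, ha0, hQa⟩ := exists_sing_not_mem Q (Y := hc Q ⊤ e f) (R := ⊥) bot_le
    (by rw [finrank_bot]; omega)
  rw [Submodule.mem_bot] at ha0
  obtain ⟨-, hea, hfa⟩ := mem_hc.mp ha
  have hq : (Fintype.card F : ℂ) ≠ 0 := by simp
  obtain ⟨N, hN⟩ : ∃ N : ℕ, N = (lev Q (hc Q ⊤ e f) 0).card := ⟨_, rfl⟩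
  obtain ⟨M, hM⟩ : ∃ M : ℕ, M = (elts (hc Q ⊤ e f)).card := ⟨_, rfl⟩
  have hN1 : 2 ≤ N := by
    rw [hN]
    exact Finset.one_lt_card.mpr ⟨0, by simp [mem_lev], a, mem_lev.mpr ⟨ha, hQa⟩, Ne.symm ha0⟩
  have key : ∀ e' f', Hyp Q e' f' → hc Q ⊤ e' f' = hc Q ⊤ e f →
      (∀ l, oA Q l e' = e' → oA Q l f' = f' → ρ l y0 = y0) →
      Fintype.card F * (N - 1) * ∑ t : F, B y0 (ρ (h.ez a (t • e')) y0) =
        B y0 y0 * (Fintype.card F ^ 2 * (N - 1) - (Fintype.card F - 1) * M) := by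
    intro e' f' hh' hW' hL
    obtain ⟨α, β, hF⟩ := fourier_form hψ h7 hns hh' B hB hL
    have h0 := hcon' e' hh'.l hh'.ne _ fun g hg => avg_fixed (h := h) (ψ := ψ) hh' hL hg
    have h1 := congrArg (B y0) h0
    simp only [fc, map_zero, LinearMap.zero_apply, neg_zero, AddChar.map_zero_eq_one, one_smul,
      map_sum] at h1
    rw [Finset.sum_congr rfl fun y hy => hF y (mem_elts.mp hy), Finset.sum_add_distrib,
      ← Finset.mul_sum, hW', hW.sum_sig hψ, sum_const, nsmul_eq_mul, ← hM] at h1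
    have hM0 : (M : ℂ) ≠ 0 := hM ▸ card_elts_ne _
    have h2 : α = -β := by
      apply mul_left_cancel₀ hM0; linear_combination h1
    have h3 := hF 0 (Submodule.zero_mem _)
    rw [h.ez_zero, map_one, Module.End.one_apply, sig_zero, hW', ← hN, h2] at h3
    have ha' := hW' ▸ ha
    have h4 : ∀ t ∈ univ.erase (0 : F), Fintype.card F * B y0 (ρ (h.ez a (t • e')) y0) =
        β * (Fintype.card F * (N - 1) - M) := fun t ht => by
      have ht := (mem_erase.mp ht).1
      have k := (mem_hc.mp ha').2.1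
      rw [h.ez_swap hQa (by simp [pb_comm Q a, k]) (by simp [Q_smul, hh'.l]),
        h.ez_smul hh'.l (by simp [k]), hF _ (Submodule.smul_mem _ _ (Submodule.neg_mem _ ha')), hW']
      have := hW.sig_sing hψ (Submodule.smul_mem _ t (Submodule.neg_mem _ ha))
        (smul_ne_zero ht (neg_ne_zero.mpr ha0)) (by simp [Q_smul, hQa])
      rw [← hN, ← hM] at this
      linear_combination β * this + Fintype.card F * h2
    rw [mul_right_comm, Finset.mul_sum, ← Finset.add_sum_erase _ _ (mem_univ 0),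
      Finset.sum_congr rfl h4, zero_smul, h.ez_zero, map_one, Module.End.one_apply, h3]
    simp only [sum_const, card_erase_of_mem (mem_univ _), card_univ, nsmul_eq_mul]
    push_cast [Nat.cast_sub Fintype.card_pos]
    ring
  have ke := key e f hh rfl hy0L
  have kf := key f e hh.symm hsymm fun l h1 h2 => hy0L l h2 h1
  obtain ⟨a', -, hha⟩ := (nd_top h.nd).exists_hyp (e := a) trivial ha0 hQa
  have hae : pb Q a e = 0 := by rwa [pb_comm]
  have haf : pb Q a f = 0 := by rwa [pb_comm]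
  have R : ∀ t t' : F, ρ (h.ez a (t • e + t' • f)) y0 =
      ρ (h.ez a (t • e)) y0 + ρ (h.ez a (t' • f)) y0 - y0 := by
    intro t t'
    have := le_of_Wo (h := h) (ρ := ρ) hψ hha
      (Wt (fun y : oc Q (F ∙ e ⊔ F ∙ f ⊔ F ∙ a) => ρ (h.ez a y)) fun _ => 1)
      (LinearMap.ker ((ρ (h.ez a (t • e)) - 1) * (ρ (h.ez a (t' • f)) - 1))) ?_ ?_
      (show y0 ∈ _ from fun y => by
        have hy := y.2
        rw [mem_oc_sup, mem_oc_sup, mem_oc_span, mem_oc_span, mem_oc_span] at hy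
        rw [one_smul]
        exact hy0L _ (h.ez_fix hQa hy.2 hea hy.1.1) (h.ez_fix hQa hy.2 hfa hy.1.2))
    · simp only [LinearMap.mem_ker, Module.End.mul_apply, LinearMap.sub_apply, map_sub,
        Module.End.one_apply] at this
      rw [h.ez_add hQa (by simp [hae]) (by simp [haf]), act_mul_apply, ← sub_eq_zero, ← this]
      abel
    · intro y hy z hz y'
      have hy' := (mem_oc_span.mp (mem_oc_sup.mp y'.2).2)
      have := hz y'
      simp only [one_smul] at this ⊢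
      rw [← act_mul_apply, ← h.ez_add hQa hy' hy, add_comm, h.ez_add hQa hy hy', act_mul_apply, this]
    · intro u hu z hz hz'
      by_cases hz0 : z = 0
      · simp [hz0]
      have hQu : Q u = 0 := by
        by_contra k
        rw [hns a u hQa ha0 (mem_hc.mp hu).2.1 k] at hz'
        exact hz0 hz'
      have hu' : u ∈ F ∙ e ⊔ F ∙ f ⊔ F ∙ a := mem_of_oc_oc h.nd fun y hy =>
        eq_zero_of_psi hψ fun c => by
          have e1 := hz ⟨c • y, Submodule.smul_mem _ _ hy⟩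
          have e2 := mem_Wo.mp hz' (c • y) (by simp [mem_oc_span.mp (mem_oc_sup.mp hy).2])
          simp only [one_smul] at e1
          rw [e1] at e2
          nth_rewrite 1 [← one_smul ℂ z] at e2
          simpa using (smul_left_injective ℂ hz0 e2).symm
      obtain ⟨x, hx, y, hy, rfl⟩ := Submodule.mem_sup.mp hu'
      obtain ⟨x1, hx1, x2, hx2, rfl⟩ := Submodule.mem_sup.mp hx
      obtain ⟨α, rfl⟩ := Submodule.mem_span_singleton.mp hx1
      obtain ⟨β, rfl⟩ := Submodule.mem_span_singleton.mp hx2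
      obtain ⟨γ, rfl⟩ := Submodule.mem_span_singleton.mp hy
      rw [hh.Q_comb (Submodule.smul_mem _ _ ha), Q_smul, hQa, mul_zero, add_zero] at hQu
      have k1 := mem_Wo.mp hz' (t • e) (by simp [hae])
      have k2 := mem_Wo.mp hz' (t' • f) (by simp [haf])
      rw [LinearMap.mem_ker, Module.End.mul_apply]
      rcases mul_eq_zero.mp hQu with k | k
      · simp [k2, k, hh.rr, haf]
      · simp [k2, k1, k, hh.ll, hae]
  obtain ⟨z, hz⟩ : ∃ z, z = ∑ s : F × F, ρ (h.ez a (s.1 • e + s.2 • f)) y0 := ⟨_, rfl⟩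
  have hp : ∀ s : F × F, pb Q a (s.1 • e + s.2 • f) = 0 := fun s => by simp [hae, haf]
  have hz1 : ∀ s : F × F, ρ (h.ez a (s.1 • e + s.2 • f)) z = z := fun s => by
    simp only [hz, map_sum]
    refine Fintype.sum_equiv (Equiv.addLeft s) _ _ fun s' => ?_
    rw [← act_mul_apply, ← h.ez_add hQa (hp _) (hp _)]
    congr 3
    simp only [Equiv.coe_addLeft, Prod.fst_add, Prod.snd_add]
    module
  have hz2 : B z z = Fintype.card F ^ 2 * B y0 z := by
    conv_lhs => rw [show B z = ∑ s : F × F, B (ρ (h.ez a (s.1 • e + s.2 • f)) y0) by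
      rw [hz, map_sum]]
    rw [LinearMap.sum_apply, Finset.sum_congr rfl fun s _ => by rw [← hz1 s, hB]]
    simp [sq]
  have hz3 : B y0 z = Fintype.card F * ∑ t : F, B y0 (ρ (h.ez a (t • e)) y0) +
      Fintype.card F * ∑ t : F, B y0 (ρ (h.ez a (t • f)) y0) - Fintype.card F ^ 2 * B y0 y0 := by
    rw [hz, map_sum]
    simp only [R, map_sub, map_add]
    simp only [Finset.sum_sub_distrib, Finset.sum_add_distrib,
      Fintype.sum_prod_type, sum_const, card_univ, nsmul_eq_mul, ← Finset.mul_sum,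
      Fintype.card_prod, Nat.cast_mul]
    ring
  have e1 : (N - 1) * B z z = Fintype.card F ^ 2 * B y0 y0 *
      (Fintype.card F ^ 2 * (N - 1) - 2 * (Fintype.card F - 1) * M) := by
    rw [hz2, hz3]
    linear_combination (Fintype.card F : ℂ) ^ 2 * (ke + kf)
  have e2 := congrArg Complex.re e1
  have r1 : (B y0 y0).im = 0 := Complex.conj_eq_iff_im.mp (hBs _ _)
  have r2 : 0 ≤ (B z z).re := by
    by_cases k : z = 0
    · simp [k]
    · exact (hBp z k).le
  have r3 := hBp y0 hy0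
  simp only [sq, Complex.mul_re, Complex.mul_im, Complex.sub_re, Complex.sub_im, Complex.natCast_re,
    Complex.natCast_im, Complex.one_re, Complex.one_im, Complex.re_ofNat, Complex.im_ofNat, r1,
    mul_zero, zero_mul, sub_zero, add_zero, sub_self] at e2
  rw [← hN, ← hM] at hnum
  have hN2 : (2 : ℝ) ≤ N := by exact_mod_cast hN1
  have hq0 : (0 : ℝ) < Fintype.card F := by exact_mod_cast Fintype.card_pos
  have := mul_neg_of_pos_of_neg (mul_pos (mul_pos hq0 hq0) r3) (sub_neg.mpr hnum)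
  nlinarith

end Cfsg.Agent.H1
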