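import Cfsg.Agent.H1.OmSph
import Cfsg.Agent.H6.OrthRank
import Cfsg.Agent.H6.OrthChar2

/-!
# The smallest degree of a nontrivial complex representation of `Ω`
-/

set_option autoImplicit false
set_option linter.unusedSectionVars false

namespace Cfsg.Agent.H1

open Module H6 Finset

theorem exists_irr_nontriv {G : Type*} [Group G] [Finite G] {V : Type*} [AddCommGroup V]
    [Module ℂ V] [FiniteDimensional ℂ V] (ρ : Representation ℂ G V) {g : G} (hg : ρ g ≠ 1) :
    ∃ (k : ℕ) (σ : Representation ℂ G (Fin k → ℂ)), σ.IsIrreducible ∧ σ g ≠ 1 ∧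
      k ≤ finrank ℂ V := by
  classical
  obtain ⟨s, hs, e⟩ := IsCharacter.exists_multiset (isCharacter_of_rep ρ)
  have : ∃ χ ∈ s, χ g ≠ χ 1 := by
    by_contra hc
    push Not at hc
    refine hg (rep_eq_one_of_character_eq ρ ?_)
    rw [e, Pi.multiset_sum_apply, Pi.multiset_sum_apply, Multiset.map_congr rfl hc]
  obtain ⟨χ, h1, h2⟩ := this
  obtain ⟨k, σ, hσ, rfl⟩ := hs χ h1
  refine ⟨k, σ, hσ, fun k => h2 (by simp [Representation.character, k]), ?_⟩
  obtain ⟨m, τ, hτ⟩ := isCharacter_multiset_sum (s.erase σ.character) fun χ hχ =>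
    IsIrrCharacter.isCharacter (hs χ (Multiset.mem_of_mem_erase hχ))
  have := congrFun e 1
  rw [← Multiset.cons_erase h1, Multiset.sum_cons, ← hτ] at this
  simp only [Pi.add_apply, Representation.char_one, Module.finrank_fin_fun] at this
  have : finrank ℂ V = k + m := by exact_mod_cast this
  omega

theorem exists_sq_ne_one {F : Type*} [Field F] [Fintype F] (h : 3 < Fintype.card F) :
    ∃ l : F, l ≠ 0 ∧ l ^ 2 ≠ 1 := by
  classical
  by_contra hc
  push Not at hc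
  have : (univ : Finset F) ⊆ {0, 1, -1} := fun l _ => by
    by_cases h0 : l = 0
    · simp [h0]
    · rcases mul_self_eq_one_iff.mp ((sq l).symm.trans (hc l h0)) with h | h <;> simp [h]
  have := (Finset.card_le_card this).trans Finset.card_le_three
  rw [card_univ] at this
  omega

section Ext

variable {F : Type*} [Field F] {E : Type*} [AddCommGroup E] [Module F E] [FiniteDimensional F E]
  {Q : QuadraticForm F E}

theorem pb_comp (W : Submodule F E) (x y : W) : pb (Q.comp W.subtype) x y = pb Q x y := by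
  simp [pb_def]

end Ext

variable {F : Type*} [Field F] [Fintype F] {E : Type*} [AddCommGroup E] [Module F E]
  [FiniteDimensional F E] [Fintype E] {Q : QuadraticForm F E} {h : OH Q}

theorem OH.res (h : OH Q) (h7 : 7 ≤ finrank F E) {e f : E} (hh : Hyp Q e f) :
    OH (Q.comp (hc Q ⊤ e f).subtype) := by
  refine ⟨nondeg_of_left _ _ fun u hu => ?_, ?_⟩
  · by_contra k
    obtain ⟨y, hy, hy'⟩ := (nd_top h.nd).hc hh trivial trivial u u.2 fun e => k (Subtype.ext e)
    exact hy' (by simpa [pb_comp] using hu ⟨y, hy⟩)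
  · have hd := hh.finrank_hc (Y := ⊤) trivial trivial
    rw [finrank_top] at hd
    omega

theorem exists_ext (h7 : 7 ≤ finrank F E) {e f : E} (hh : Hyp Q e f) :
    ∃ φ : Om (Q.comp (hc Q ⊤ e f).subtype) →* Om Q, (∀ g, oA Q (φ g) e = e) ∧
      ∀ a b : hc Q ⊤ e f, Q a = 0 → pb Q a b = 0 → φ ((h.res h7 hh).ez a b) = h.ez a b := by
  obtain ⟨π, hπ⟩ : ∃ π : E →ₗ[F] hc Q ⊤ e f, ∀ x, (π x : E) = x - pb Q f x • e - pb Q e x • f :=
    ⟨(LinearMap.id - (pb Q f).smulRight e - (pb Q e).smulRight f).codRestrict _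
      fun x => hh.proj_mem (Y := ⊤) trivial trivial trivial, fun _ => rfl⟩
  have hπ' : ∀ (μ c : F) (w : hc Q ⊤ e f), π (μ • e + c • f + w) = w := fun μ c w => by
    obtain ⟨-, k1, k2⟩ := mem_hc.mp w.2
    apply Subtype.ext
    rw [hπ]
    simp only [map_add, map_smul, hh.ll, hh.lr, hh.rl, hh.rr, k1, k2, smul_eq_mul]
    module
  have hx : ∀ x, x = pb Q f x • e + pb Q e x • f + π x := fun x => by rw [hπ]; abel
  let φ0 : OG (Q.comp (hc Q ⊤ e f).subtype) → OG Q := fun g => mkOG h.nd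
    ((pb Q f).smulRight e + (pb Q e).smulRight f + (hc Q ⊤ e f).subtype ∘ₗ g.1.toLinearMap ∘ₗ π)
    fun x => by
      conv_rhs => rw [hx x, hh.Q_comb (π x).2]
      exact (hh.Q_comb (g.1 (π x)).2 _ _).trans (congrArg _ (OG_Q g (π x)))
  have hφ0 : ∀ g x, (φ0 g).1 x = pb Q f x • e + pb Q e x • f + g.1 (π x) := fun _ _ => rfl
  let φ1 : OG (Q.comp (hc Q ⊤ e f).subtype) →* OG Q := MonoidHom.mk' φ0 fun g g' =>
    OG_ext fun x => by
      obtain ⟨-, k1, k2⟩ := mem_hc.mp (g'.1 (π x)).2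
      rw [OG_mul_apply, hφ0, hφ0, hφ0, hπ']
      simp [hh.ll, hh.lr, hh.rl, hh.rr, k1, k2]
  refine ⟨(φ1.comp (commutator _).subtype).codRestrict _ fun g => map_mem_commutator φ1 _ g.2,
    fun g => ?_, fun a b h1 h2 => om_ext fun x => ?_⟩
  · have := hπ' 1 0 0
    simp only [one_smul, zero_smul, add_zero, Submodule.coe_zero] at this
    change (φ0 g.1).1 e = e
    simp [hφ0, this, hh.ll, hh.rl]
  · obtain ⟨-, k1, k2⟩ := mem_hc.mp a.2
    obtain ⟨-, k3, k4⟩ := mem_hc.mp b.2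
    change (φ0 (eo _ a b)).1 x = _
    rw [hφ0, eo_apply (p := a) (y := b) _ h1 (by rwa [pb_comp]), h.ez_apply h1 h2]
    simp only [pb_comp, Submodule.coe_add, Submodule.coe_sub, Submodule.coe_smul, hπ, map_sub,
      map_smul, LinearMap.sub_apply, LinearMap.smul_apply, k1, k2, k3, k4, smul_eq_mul,
      QuadraticMap.comp_apply, Submodule.subtype_apply]
    module

variable {V : Type*} [AddCommGroup V] [Module ℂ V] [FiniteDimensional ℂ V] {ψ : AddChar F ℂ}

theorem om_trichotomy {ρ : Om Q →* Module.End ℂ V} (hψ : ψ ≠ 1) (h7 : 7 ≤ finrank F E)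
    (hnt : ∃ g, ρ g ≠ 1) {e f : E} (hh : Hyp Q e f) {M : ℝ}
    (hM0 : M + 1 ≤ (lev Q (hc Q ⊤ e f) 0).card)
    (hM1 : ∀ c, c ≠ 0 → M ≤ (lev Q (hc Q ⊤ e f) c).card) :
    2 * M ≤ finrank ℂ V ∨ ∃ c, (∀ l : F, l ≠ 0 → l ^ 2 * c = c) ∧ ∀ e w, Q e = 0 → e ≠ 0 →
      pb Q e w = 0 → w ∉ F ∙ e →
        finrank ℂ (Wo h ρ ψ e w) ≤ 1 ∧ (Wo h ρ ψ e w ≠ ⊥ ↔ Q w = c) := by
  classical
  have hd := hh.finrank_hc (Y := ⊤) trivial trivial
  rw [finrank_top] at hd
  have hex : ∀ c, ∃ w ∈ hc Q ⊤ e f, w ≠ 0 ∧ Q w = c := fun c => by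
    obtain ⟨a, ha, a', ha', k⟩ := ((nd_top h.nd).hc hh trivial trivial).exists_hyp' (by omega)
    refine ⟨a + c • a', Submodule.add_mem _ ha (Submodule.smul_mem _ _ ha'), fun k' => ?_,
      by simp [Q_add, Q_smul, k.l, k.r, k.lr]⟩
    simpa [k.rl, k.rr] using congrArg (pb Q a') k'
  choose wc hw1 hw2 hw3 using hex
  obtain ⟨d, hdef⟩ : ∃ d : F → ℕ, ∀ c, d c = finrank ℂ (Wo h ρ ψ e (wc c)) := ⟨_, fun _ => rfl⟩
  have n1 := fun c => (mem_hc.mp (hw1 c)).2.1
  have n2 := fun c => hh.not_mem (mem_hc.mp (hw1 c)).2.2 (hw2 c)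
  have hdw : ∀ e w, Q e = 0 → e ≠ 0 → pb Q e w = 0 → w ∉ F ∙ e →
      finrank ℂ (Wo h ρ ψ e w) = d (Q w) := fun e' w k1 k2 k3 k4 => by
    rw [hdef]
    exact le_antisymm (finrank_Wo_le h7 k1 k2 k3 k4 hh.l hh.ne (n1 _) (n2 _) one_ne_zero
      (by simp [hw3])) (finrank_Wo_le h7 hh.l hh.ne (n1 _) (n2 _) k1 k2 k3 k4 one_ne_zero
      (by simp [hw3]))
  have hsq : ∀ l c, l ≠ 0 → d c ≤ d (l ^ 2 * c) := fun l c hl => by
    rw [hdef, hdef]
    exact finrank_Wo_le h7 hh.l hh.ne (n1 _) (n2 _) hh.l hh.ne (n1 _) (n2 _) hl (by simp [hw3])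
  have hpos : ∑ c, d c ≠ 0 := by
    intro k
    rw [Finset.sum_eq_zero_iff] at k
    obtain ⟨g, hg⟩ := hnt
    have := h.eq_top (MonoidHom.ker ρ) fun a b k1 k2 => by
      by_cases ha : a = 0
      · rw [ha, h.ez_zero_left]; exact one_mem _
      obtain ⟨a', -, ha'⟩ := (nd_top h.nd).exists_hyp (e := a) trivial ha k1
      have := le_of_Wo (h := h) (ρ := ρ) hψ ha' ⊤ (Wo h ρ ψ a 0) (fun _ _ _ _ => trivial)
        fun w hw v _ hv => by
          by_cases hw0 : w = 0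
          · rwa [hw0] at hv
          have := hdw a w k1 ha (mem_hc.mp hw).2.1 (ha'.not_mem (mem_hc.mp hw).2.2 hw0)
          rw [k _ (mem_univ _), Submodule.finrank_eq_zero] at this
          rw [this, Submodule.mem_bot] at hv
          simp [hv]
      exact LinearMap.ext fun z => by simpa using mem_Wo.mp (this (show z ∈ ⊤ from trivial)) b k2
    exact hg (show g ∈ MonoidHom.ker ρ from this ▸ trivial)
  by_cases h2 : 2 ≤ ∑ c, d c
  · left
    by_cases hM : M ≤ 0
    · have : (0 : ℝ) ≤ finrank ℂ V := by positivity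
      linarith
    have k1 := sum_finrank_Wo_le (h := h) (ρ := ρ) hψ hh
    have k2 : ∑ w ∈ (elts (hc Q ⊤ e f)).erase 0, d (Q w) ≤ finrank ℂ V := by
      refine le_trans (le_of_eq (Finset.sum_congr rfl fun w hw => ?_))
        ((Finset.sum_le_sum_of_subset (erase_subset _ _)).trans k1)
      obtain ⟨a1, a2⟩ := mem_erase.mp hw
      obtain ⟨-, a3, a4⟩ := mem_hc.mp (mem_elts.mp a2)
      exact (hdw e w hh.l hh.ne a3 (hh.not_mem a4 a1)).symm
    rw [← Finset.sum_fiberwise (g := fun w => Q w)] at k2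
    have k3 : ∀ c, M * d c ≤
        ((∑ w ∈ ((elts (hc Q ⊤ e f)).erase 0).filter (Q · = c), d (Q w) : ℕ) : ℝ) := fun c => by
      rw [Finset.sum_congr rfl fun w hw => by rw [(mem_filter.mp hw).2], sum_const, smul_eq_mul,
        Nat.cast_mul, filter_erase]
      refine mul_le_mul_of_nonneg_right ?_ (by positivity)
      change M ≤ ((lev Q (hc Q ⊤ e f) c).erase 0).card
      by_cases hc0 : c = 0
      · have h0 : (0 : E) ∈ lev Q (hc Q ⊤ e f) 0 := by simp [mem_lev]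
        rw [hc0, card_erase_of_mem h0, Nat.cast_sub (Finset.card_pos.mpr ⟨0, h0⟩)]
        push_cast
        linarith
      · rw [erase_eq_of_notMem (by simp [mem_lev, Ne.symm hc0])]
        exact hM1 c hc0
    have k4 := Finset.sum_le_sum fun c (_ : c ∈ univ) => k3 c
    rw [← Finset.mul_sum, ← Nat.cast_sum, ← Nat.cast_sum] at k4
    have k5 : (2 : ℝ) ≤ (∑ c, d c : ℕ) := by exact_mod_cast h2
    have k6 : ((∑ c, ∑ w ∈ ((elts (hc Q ⊤ e f)).erase 0).filter (Q · = c), d (Q w) : ℕ) : ℝ) ≤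
      finrank ℂ V := by exact_mod_cast k2
    nlinarith
  · right
    obtain ⟨c, -, hc0⟩ := Finset.exists_ne_zero_of_sum_ne_zero hpos
    have huniq : ∀ c', d c' ≠ 0 → c' = c := fun c' k => by
      by_contra k'
      have := Finset.add_le_sum (f := d) (fun _ _ => Nat.zero_le _) (mem_univ c') (mem_univ c) k'
      omega
    refine ⟨c, fun l hl => huniq _ (by have := hsq l c hl; omega), fun e' w k1 k2 k3 k4 => ?_⟩
    have := hdw e' w k1 k2 k3 k4
    have k5 := Finset.single_le_sum (f := d) (fun _ _ => Nat.zero_le _) (mem_univ (Q w))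
    refine ⟨by omega, fun k => huniq _ ?_, fun k k' => hc0 ?_⟩
    · rwa [← this, Ne, Submodule.finrank_eq_zero]
    · rw [← k, ← this, k', finrank_bot]

theorem bound_nonsing {ρ : Om Q →* Module.End ℂ V} (hψ : ψ ≠ 1) {e f : E} (hh : Hyp Q e f) {c : F}
    (hc0 : c ≠ 0) (k : ∀ w ∈ hc Q ⊤ e f, Q w = c → Wo h ρ ψ e w ≠ ⊥) :
    finrank ℂ (Wo h ρ ψ e 0) + (lev Q (hc Q ⊤ e f) c).card ≤ finrank ℂ V := by
  classical
  refine le_trans ?_ ((Finset.sum_le_sum_of_subset (s := insert 0 (lev Q (hc Q ⊤ e f) c))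
    (insert_subset (by simp [mem_elts]) (filter_subset _ _))).trans
    (sum_finrank_Wo_le (h := h) (ρ := ρ) hψ hh))
  rw [Finset.sum_insert (by simp [mem_lev, Ne.symm hc0]), Nat.add_le_add_iff_left,
    Finset.card_eq_sum_ones]
  refine Finset.sum_le_sum fun w hw => Nat.one_le_iff_ne_zero.mpr ?_
  rw [Ne, Submodule.finrank_eq_zero]
  exact k w (mem_lev.mp hw).1 (mem_lev.mp hw).2

theorem exists_nontriv_V0 {ρ : Om Q →* Module.End ℂ V} (hψ : ψ 1 ≠ 1) (h9 : 9 ≤ finrank F E) {c : F}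
    (hC : ∀ e w, Q e = 0 → e ≠ 0 → pb Q e w = 0 → w ∉ F ∙ e →
      finrank ℂ (Wo h ρ ψ e w) ≤ 1 ∧ (Wo h ρ ψ e w ≠ ⊥ ↔ Q w = c)) :
    ∃ e f, Hyp Q e f ∧ ∃ a ∈ hc Q ⊤ e f, ∃ b ∈ hc Q ⊤ e f, Q a = 0 ∧ pb Q a b = 0 ∧
      ∃ z ∈ Wo h ρ ψ e 0, ρ (h.ez a b) z ≠ z := by
  have hψ' : ψ ≠ 1 := by rintro rfl; simp at hψ
  have hT := nd_top h.nd
  obtain ⟨e, -, f, -, hh⟩ := hT.exists_hyp' (by rw [finrank_top]; omega)
  have d1 := hh.finrank_hc (Y := ⊤) trivial trivial
  rw [finrank_top] at d1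
  obtain ⟨a, ha, a', ha', h2⟩ := (hT.hc hh trivial trivial).exists_hyp' (by omega)
  have d2 := h2.finrank_hc ha ha'
  obtain ⟨b, hb, b', hb', h3⟩ := ((hT.hc hh trivial trivial).hc h2 ha ha').exists_hyp' (by omega)
  simp only [mem_hc, Submodule.mem_top, true_and] at ha ha' hb hb'
  have ae : pb Q a e = 0 := by rw [pb_comm, ha.1]
  have be : pb Q b e = 0 := by rw [pb_comm, hb.1.1]
  have ba : pb Q b a = 0 := by rw [pb_comm, hb.2.1]
  have b'e : pb Q b' e = 0 := by rw [pb_comm, hb'.1.1]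
  have hne := (hC a (b' + c • b) h2.l h2.ne (by simp [hb.2.1, hb'.2.1]) (fun k => by
    obtain ⟨t, ht⟩ := Submodule.mem_span_singleton.mp k
    simpa [h3.ll, h3.lr, ba] using congrArg (pb Q b) ht)).2.mpr
    (by simp [Q_add, Q_smul, h3.l, h3.r, h3.rl])
  have : ∃ γ : F, ∃ z : V, z ≠ 0 ∧ (∀ t t' : F, ρ (h.ez a (t • e + t' • b)) z = ψ t' • z) ∧
      ∀ t : F, ρ (h.ez e (t • b)) z = ψ (γ * t) • z := by
    by_contra hcon
    push Not at hcon
    have := le_of_Wt (fun t : F => ρ (h.ez e (t • b))) (by simp [h.ez_zero]) (fun t t' => by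
      rw [add_smul, h.ez_add hh.l (by simp [hb.1.1]) (by simp [hb.1.1]), map_mul])
      (fun γ t : F => ψ (γ * t)) (by simp) (fun γ t t' => by rw [mul_add, AddChar.map_add_eq_mul])
      (fun t ht => sum_psi_linear hψ' (LinearMap.mulRight F t) fun k => ht (by
        simpa using DFunLike.congr_fun k 1)) (by simp)
      (Wt (fun s : F × F => ρ (h.ez a (s.1 • e + s.2 • b))) fun s => ψ s.2) ⊥
      (fun t z hz s => by
        have k := h.ez_conj (h.ez e (t • b)) a (s.1 • e + s.2 • b)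
        rw [h.ez_fix hh.l (by simp [hb.1.1]) ae (by simp [hb.2.1]),
          h.ez_fix hh.l (by simp [hb.1.1]) (by simp [hh.ll, be]) (by simp [hb.1.1, h3.ll])] at k
        rw [← act_mul_apply, ← k, act_mul_apply, hz s, map_smul])
      (fun γ z hz hz' => by
        by_contra k
        obtain ⟨t, ht⟩ := hcon γ z k fun t t' => hz (t, t')
        exact ht (hz' t))
    obtain ⟨z, hz, hz0⟩ := (Submodule.ne_bot_iff _).mp hne
    refine hz0 (this fun s => ?_)
    rw [mem_Wo.mp hz _ (by simp [ae, hb.2.1])]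
    simp [b'e, be, h3.ll, h3.rl]
  obtain ⟨γ, z, hz0, z1, z2⟩ := this
  have hh' : Hyp Q (e - γ • a) f :=
    ⟨by simp [Q_sub, Q_smul, hh.l, h2.l, ha.1], hh.r, by simp [hh.lr, pb_comm Q a f, ha.2]⟩
  have ea : pb Q (e - γ • a) a = 0 := by simp [ha.1, h2.ll]
  have eb : pb Q (e - γ • a) b = 0 := by simp [hb.1.1, hb.2.1]
  refine ⟨_, _, hh', a, mem_hc.mpr ⟨trivial, ea, ha.2⟩, b, mem_hc.mpr ⟨trivial, eb, hb.1.2⟩, h2.l,
    hb.2.1, ?_⟩
  by_contra hcon
  push Not at hcon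
  have := le_of_Wo (h := h) (ρ := ρ) hψ' hh'
    (Wt (fun s : F × F => ρ (h.ez (e - γ • a) (s.1 • a + s.2 • b))) fun _ => 1)
    (LinearMap.ker (ρ (h.ez a b) - 1)) (fun y hy v hv s => by
      have := hv s
      have k : pb Q (e - γ • a) (s.1 • a + s.2 • b) = 0 := by rw [map_add, map_smul, map_smul, ea, eb]; simp
      simp only [one_smul] at this ⊢
      rw [← act_mul_apply, ← h.ez_add hh'.l k hy, add_comm, h.ez_add hh'.l hy k, act_mul_apply, this])
    (fun u hu v hv hv' => by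
      rw [LinearMap.mem_ker, LinearMap.sub_apply, sub_eq_zero, Module.End.one_apply]
      by_cases hu0 : u = 0
      · exact hcon v (hu0 ▸ hv')
      by_cases hv0 : v = 0
      · simp [hv0]
      have k : ∀ s : F × F, ψ (pb Q u (s.1 • a + s.2 • b)) = 1 := fun s => by
        have e1 := hv s
        have e2 := mem_Wo.mp hv' (s.1 • a + s.2 • b) (by rw [map_add, map_smul, map_smul, ea, eb]; simp)
        simp only [one_smul] at e1
        rw [e1] at e2
        nth_rewrite 1 [← one_smul ℂ v] at e2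
        exact (smul_left_injective ℂ hv0 e2).symm
      have ua : pb Q u a = 0 := eq_zero_of_psi hψ' fun t => by simpa using k (t, 0)
      have ub : pb Q u b = 0 := eq_zero_of_psi hψ' fun t => by simpa using k (0, t)
      obtain ⟨y, hy, y', hy', hyy⟩ := exists_pair_oc h.nd
        (X := F ∙ (e - γ • a) ⊔ F ∙ u ⊔ F ∙ a ⊔ F ∙ b) (by
          have := finrank_inf_oc_le (Q := Q) (F ∙ (e - γ • a) ⊔ F ∙ u ⊔ F ∙ a ⊔ F ∙ b)
          have := finrank_sup_span_le (F ∙ (e - γ • a) ⊔ F ∙ u ⊔ F ∙ a) b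
          have := finrank_sup_span_le (F ∙ (e - γ • a) ⊔ F ∙ u) a
          have := finrank_sup_span_le (F ∙ (e - γ • a)) u
          have := finrank_span_le (F := F) (e - γ • a)
          omega)
      simp only [mem_oc_sup, mem_oc_span] at hy hy'
      have := comm_fix ρ (hC _ u hh'.l hh'.ne (mem_hc.mp hu).2.1
        (hh'.not_mem (mem_hc.mp hu).2.2 hu0)).1 (actStab (oA Q) (e - γ • a) ⊓ actStab (oA Q) u)
        (fun g hg v hv => by
          have := Wo_map hv g
          rwa [mem_actStab.mp hg.1, mem_actStab.mp hg.2] at this)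
        (s := h.ez b y') (t := h.ez a y)
        ⟨h.ez_fix h3.l hy'.2 eb hy'.1.1.1, h.ez_fix h3.l hy'.2 ub hy'.1.1.2⟩
        ⟨h.ez_fix h2.l hy.1.2 ea hy.1.1.1, h.ez_fix h2.l hy.1.2 ua hy.1.1.2⟩ hv'
      rwa [h.ez_conj, mul_inv_cancel_right, h.ez_fix h3.l hy'.2 hb.2.1 hy'.1.2,
        h.ez_apply h3.l hy'.2, hyy, pb_comm Q y b, hy.2, one_smul, zero_smul, sub_zero, add_comm,
        h.ez_add h2.l hb.2.1 hy.1.2, mul_inv_cancel_right] at this)
    (show z ∈ _ from fun s => by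
      have k1 : h.ez (e - γ • a) (s.1 • a) = h.ez a ((-s.1) • e + (0 : F) • b) := by
        rw [h.ez_swap hh'.l (by rw [map_smul, ea]; simp) (by simp [Q_smul, h2.l]),
          h.ez_smul h2.l (by simp [ae, h2.ll]),
          show s.1 • -(e - γ • a) = ((-s.1) • e + (0 : F) • b) + (s.1 * γ) • a by module,
          h.ez_add h2.l (by simp [ae]) (by simp [h2.ll]), h.ez_self, mul_one]
      have k2 : h.ez (e - γ • a) (s.2 • b) =
          h.ez e (s.2 • b) * h.ez a ((0 : F) • e + (-(γ * s.2)) • b) := by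
        have q1 : Q (s.2 • b) = 0 := by simp [Q_smul, h3.l]
        rw [h.ez_swap hh'.l (by rw [map_smul, eb]; simp) q1, h.ez_swap hh.l (by simp [hb.1.1]) q1,
          show -(e - γ • a) = -e + γ • a by module, h.ez_add q1 (by simp [be]) (by simp [ba]),
          h.ez_swap q1 (y := γ • a) (by simp [ba]) (by simp [Q_smul, h2.l]),
          h.ez_smul h2.l (by simp [hb.2.1])]
        congr 2
        module
      simp only
      rw [h.ez_add hh'.l (by rw [map_smul, ea]; simp) (by rw [map_smul, eb]; simp), k1, k2,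
        act_mul_apply, act_mul_apply, z1, map_smul, z2, map_smul, map_smul, z1, smul_smul, smul_smul,
        ← AddChar.map_add_eq_mul, ← AddChar.map_add_eq_mul]
      simp)
  rw [LinearMap.mem_ker, LinearMap.sub_apply, sub_eq_zero, Module.End.one_apply] at this
  have k := z1 0 1
  rw [zero_smul, zero_add, one_smul, this] at k
  nth_rewrite 1 [← one_smul ℂ z] at k
  exact hψ (smul_left_injective ℂ hz0 k).symm

theorem exists_psi_one (F : Type*) [Field F] [Finite F] : ∃ ψ : AddChar F ℂ, ψ 1 ≠ 1 := by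
  obtain ⟨ψ, hψ⟩ := exists_psi_complex F
  obtain ⟨a, ha⟩ := AddChar.ne_one_iff.mp hψ
  exact ⟨ψ.mulShift a, by simpa using ha⟩

theorem om_caseB {ρ : Om Q →* Module.End ℂ V} (hψ : ψ ≠ 1) (h7 : 7 ≤ finrank F E) (hθ : ThetaOK Q)
    (hC : ∀ e w, Q e = 0 → e ≠ 0 → pb Q e w = 0 → w ∉ F ∙ e →
      finrank ℂ (Wo h ρ ψ e w) ≤ 1 ∧ (Wo h ρ ψ e w ≠ ⊥ ↔ Q w = 0)) {e f : E} (hh : Hyp Q e f)
    (hnum : Fintype.card F ^ 2 * ((lev Q (hc Q ⊤ e f) 0).card - 1) <
      2 * (Fintype.card F - 1 : ℝ) * (elts (hc Q ⊤ e f)).card) :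
    SingW h ρ ψ ∧ ∃ e f, Hyp Q e f ∧ ∃ v : V, v ≠ 0 ∧ ∀ g, oA Q g e = e → ρ g v = v := by
  have hns : SingW h ρ ψ := fun e w k1 k2 k3 k4 => by
    by_contra k
    refine k4 ((hC e w k1 k2 k3 fun k5 => ?_).2.mp k)
    obtain ⟨c, rfl⟩ := Submodule.mem_span_singleton.mp k5
    simp [Q_smul, k1] at k4
  refine ⟨hns, ?_⟩
  have hd := hh.finrank_hc (Y := ⊤) trivial trivial
  rw [finrank_top] at hd
  obtain ⟨a, ha, ha0, hQa⟩ := exists_sing_not_mem Q (Y := hc Q ⊤ e f) (R := ⊥) bot_le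
    (by rw [finrank_bot]; omega)
  rw [Submodule.mem_bot] at ha0
  have n2 := hh.not_mem (mem_hc.mp ha).2.2 ha0
  obtain ⟨k1, k2⟩ := hC e a hh.l hh.ne (mem_hc.mp ha).2.1 n2
  obtain ⟨v, hv, hv0⟩ := (Submodule.ne_bot_iff _).mp (k2.mpr hQa)
  obtain ⟨x, x1, x2, v', k3⟩ := exists_S_fixed hψ h7 hns hh ha ha0 hv hv0 (fun g g1 g2 =>
    theta_trivial_O h7 hθ hh.l hh.ne (mem_hc.mp ha).2.1 n2 hQa k1 g1 g2 hv) hnum
  obtain ⟨y, -, hy⟩ := (nd_top h.nd).exists_hyp (e := x) trivial x2 x1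
  exact ⟨x, y, hy, v', k3⟩

theorem om_even {ρ : Representation ℂ (Om Q) V} (hψ : ψ ≠ 1) (h7 : 7 ≤ finrank F E)
    (hθ : ThetaOK Q) (hρ : ρ.IsIrreducible) (hnt : ∃ g, ρ g ≠ 1) {t : ℝ}
    (ht : t ≤ -2 ∨ 5 ≤ t ∧ 3 ≤ Fintype.card F) (hE : ∀ e f, Hyp Q e f →
      ((elts (hc Q ⊤ e f)).card : ℝ) = (Fintype.card F * t) ^ 2 ∧
      ((lev Q (hc Q ⊤ e f) 0).card : ℝ) = Fintype.card F * t ^ 2 + (Fintype.card F - 1) * t) :
    (Fintype.card F ^ 2 * t - 1) * (Fintype.card F * t + Fintype.card F) ≤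
      (finrank ℂ V : ℝ) * (Fintype.card F ^ 2 - 1) ∨
    ∃ c : F, c ≠ 0 ∧ (∀ l : F, l ≠ 0 → l ^ 2 = 1) ∧ ∀ e w, Q e = 0 → e ≠ 0 →
      pb Q e w = 0 → w ∉ F ∙ e →
        finrank ℂ (Wo h ρ ψ e w) ≤ 1 ∧ (Wo h ρ ψ e w ≠ ⊥ ↔ Q w = c) := by
  obtain ⟨e, -, f, -, hh⟩ := (nd_top h.nd).exists_hyp' (by rw [finrank_top]; omega)
  obtain ⟨h1, h2⟩ := hE e f hh
  have hq2 : (2 : ℝ) ≤ Fintype.card F := by exact_mod_cast Fintype.one_lt_card
  have ht2 : 2 ≤ |t| := by
    rcases ht with k | k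
    · exact le_abs'.mpr (Or.inl k)
    · exact le_abs'.mpr (Or.inr (by linarith [k.1]))
  have hN := fun c hc0 => ((nd_top h.nd).hc hh trivial trivial).card_lev_even (t := t)
    (by rintro rfl; norm_num at ht2) (by
      rw [← mul_add_one]
      refine mul_ne_zero (by positivity) fun k => ?_
      rw [eq_neg_of_add_eq_zero_left k] at ht2
      norm_num at ht2) h1 h2 (k := c) hc0
  rcases om_trichotomy (h := h) (ρ := ρ) hψ h7 hnt hh
    (M := Fintype.card F * t ^ 2 - Fintype.card F * |t|) (by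
      rw [h2]
      have := neg_abs_le t
      nlinarith) (fun c hc0 => by
      rw [hN c hc0]
      have := le_abs_self t
      nlinarith) with k | ⟨c, k1, k2⟩
  · left
    refine le_trans ?_ (mul_le_mul_of_nonneg_right k (by nlinarith))
    obtain ⟨q, hq⟩ : ∃ q : ℝ, q = Fintype.card F := ⟨_, rfl⟩
    rw [← hq] at hq2 ⊢
    have : (q ^ 2 * t - 1) * (t + 1) ≤ 2 * (t ^ 2 - |t|) * (q ^ 2 - 1) := by
      have q4 : 4 ≤ q ^ 2 := by nlinarith
      generalize q ^ 2 = s at q4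
      rcases ht with k | k
      · rw [abs_of_neg (by linarith)]
        nlinarith [mul_nonneg (sub_nonneg.mpr q4) (mul_nonneg (sub_nonneg.mpr k) (by linarith : 0 ≤ -t))]
      · rw [abs_of_pos (by linarith [k.1])]
        nlinarith [mul_nonneg (sub_nonneg.mpr q4) (mul_nonneg (sub_nonneg.mpr k.1) (by linarith : 0 ≤ t))]
    nlinarith
  by_cases hc0 : c = 0
  · left
    subst hc0
    obtain ⟨hns, e', f', hh', v, hv0, hv⟩ := om_caseB hψ h7 hθ k2 hh (by
      rw [h1, h2]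
      have : Fintype.card F * t ^ 2 + (Fintype.card F - 1) * t - 1 <
          2 * (Fintype.card F - 1) * t ^ 2 := by
        rcases ht with k | k
        · nlinarith
        · have k3 : (3 : ℝ) ≤ Fintype.card F := by exact_mod_cast k.2
          nlinarith [mul_nonneg (sub_nonneg.mpr k3) (mul_nonneg (sub_nonneg.mpr k.1) (by linarith : 0 ≤ t))]
      have := mul_lt_mul_of_pos_left this (by positivity : (0 : ℝ) < Fintype.card F ^ 2)
      linarith)
    exact (dim_even hψ h7 hns hρ hnt hh' hv0 hv ht2 (hE _ _ hh').1 (hE _ _ hh').2).ge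
  · exact Or.inr ⟨c, hc0, fun l hl => mul_right_cancel₀ hc0 (by rw [k1 l hl, one_mul]), k2⟩

theorem even_counts {n : ℕ} (hn : finrank F E = 2 * (n + 2)) {ε : ℝ} (hε : ε ^ 2 = 1)
    (h0 : (Fintype.card F * (lev Q ⊤ 0).card : ℝ) =
      Fintype.card F ^ (2 * (n + 2)) + ε * (Fintype.card F - 1) * Fintype.card F ^ (n + 2))
    {e f : E} (hh : Hyp Q e f) :
    ((elts (hc Q ⊤ e f)).card : ℝ) = (Fintype.card F * (ε * Fintype.card F ^ n)) ^ 2 ∧
      ((lev Q (hc Q ⊤ e f) 0).card : ℝ) = Fintype.card F * (ε * Fintype.card F ^ n) ^ 2 +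
        (Fintype.card F - 1) * (ε * Fintype.card F ^ n) := by
  have hd := hh.finrank_hc (Y := ⊤) trivial trivial
  rw [finrank_top] at hd
  have hd' : finrank F (hc Q ⊤ e f) = 2 * (n + 1) := by omega
  rw [hh.card_lev (Y := ⊤) trivial trivial, hd'] at h0
  push_cast [Nat.cast_sub Fintype.card_pos] at h0
  rw [card_elts, hd']
  push_cast
  refine ⟨by linear_combination (-(Fintype.card F : ℝ) ^ (2 * (n + 1))) * hε, ?_⟩
  apply mul_left_cancel₀ (show (Fintype.card F : ℝ) ^ 2 ≠ 0 by simp)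
  linear_combination h0 - (Fintype.card F : ℝ) ^ (2 * n + 3) * hε

include h in
theorem om_plus {ρ : Representation ℂ (Om Q) V} {n : ℕ} (hn : finrank F E = 2 * (n + 2)) (h2 : 2 ≤ n)
    (hq : 3 < Fintype.card F) {T : Submodule F E} (hT : TotSing Q T) (hd : n + 2 ≤ finrank F T)
    (hρ : ρ.IsIrreducible) (hnt : ∃ g, ρ g ≠ 1) :
    (Fintype.card F ^ (n + 2) - 1) * (Fintype.card F ^ (n + 1) + Fintype.card F) ≤
      (Fintype.card F ^ 2 - 1) * finrank ℂ V := by
  obtain ⟨ψ, hψ⟩ := exists_psi_complex F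
  have h0 := card_lev_plus (n + 2) (nd_top h.nd) (by rw [finrank_top, hn]) hT le_top hd
  have hq4 : (4 : ℝ) ≤ Fintype.card F := by exact_mod_cast hq
  rcases om_even (h := h) hψ (by omega) (Or.inl (exists_sq_ne_one hq)) hρ hnt
    (t := 1 * Fintype.card F ^ n) (Or.inr ⟨by
      have := pow_le_pow_right₀ (by linarith : (1 : ℝ) ≤ Fintype.card F) h2
      nlinarith, hq.le⟩)
    (fun e f hh => even_counts hn (one_pow 2) (by
      have := congrArg (Nat.cast : ℕ → ℝ) h0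
      push_cast [Nat.cast_sub Fintype.card_pos] at this
      linear_combination this) hh) with k | ⟨c, -, k, -⟩
  · rw [← Nat.cast_le (α := ℝ)]
    push_cast [Nat.cast_sub (Nat.one_le_pow _ _ Fintype.card_pos)]
    linear_combination k
  · obtain ⟨l, h1, h2⟩ := exists_sq_ne_one hq
    exact absurd (k l h1) h2

include h in
theorem om_odd {ρ : Representation ℂ (Om Q) V} {n : ℕ} (hn : finrank F E = 2 * (n + 2) + 1)
    (h1 : 1 ≤ n) (hq : 3 < Fintype.card F) (hρ : ρ.IsIrreducible) (hnt : ∃ g, ρ g ≠ 1) :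
    Fintype.card F ^ (2 * (n + 2)) - 1 ≤ (Fintype.card F ^ 2 - 1) * finrank ℂ V := by
  obtain ⟨ψ, hψ⟩ := exists_psi_complex F
  have hq4 : (4 : ℝ) ≤ Fintype.card F := by exact_mod_cast hq
  have hE : ∀ e f, Hyp Q e f → finrank F (hc Q ⊤ e f) = 2 * (n + 1) + 1 ∧
      (lev Q (hc Q ⊤ e f) 0).card = Fintype.card F ^ (2 * (n + 1)) := fun e f hh => by
    have hd := hh.finrank_hc (Y := ⊤) trivial trivial
    rw [finrank_top] at hd
    exact ⟨by omega, card_lev_odd _ ((nd_top h.nd).hc hh trivial trivial) (by omega)⟩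
  obtain ⟨e, -, f, -, hh⟩ := (nd_top h.nd).exists_hyp' (by rw [finrank_top]; omega)
  obtain ⟨d1, d2⟩ := hE e f hh
  have hp : (1 : ℝ) ≤ Fintype.card F ^ (2 * n + 1) := one_le_pow₀ (by linarith)
  rw [← Nat.cast_le (α := ℝ)]
  push_cast [Nat.cast_sub (Nat.one_le_pow _ _ Fintype.card_pos)]
  rcases om_trichotomy (h := h) (ρ := ρ) hψ (by omega) hnt hh
    (M := (Fintype.card F - 1) * Fintype.card F ^ (2 * n + 1)) (by
      rw [d2]
      push_cast
      rw [show 2 * (n + 1) = 2 * n + 1 + 1 by ring, pow_succ _ (2 * n + 1)]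
      linarith) (fun c _ => by
      obtain ⟨a, ha, a', ha', k⟩ := ((nd_top h.nd).hc hh trivial trivial).exists_hyp' (by omega)
      have := k.finrank_hc ha ha'
      rw [k.card_lev ha ha', show finrank F (hc Q (hc Q ⊤ e f) a a') = 2 * n + 1 by omega]
      push_cast [Nat.cast_sub Fintype.card_pos]
      exact le_add_of_nonneg_left (by positivity)) with k | ⟨c, k1, k2⟩
  · refine le_trans ?_ (mul_le_mul_of_nonneg_left k (by nlinarith))
    rw [show 2 * (n + 2) = 2 * n + 1 + 3 by ring, pow_add]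
    generalize (Fintype.card F : ℝ) ^ (2 * n + 1) = u at hp
    generalize (Fintype.card F : ℝ) = q at hq4
    have : q ^ 3 ≤ (q ^ 2 - 1) * (2 * (q - 1)) := by nlinarith
    nlinarith
  by_cases hc0 : c = 0
  · subst hc0
    obtain ⟨hns, e', f', hh', v, hv0, hv⟩ := om_caseB hψ (by omega)
      (Or.inl (exists_sq_ne_one hq)) k2 hh (by
      rw [d2, card_elts, d1]
      push_cast
      rw [pow_succ _ (2 * (n + 1))]
      have : (0 : ℝ) < Fintype.card F ^ (2 * (n + 1)) := by positivity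
      generalize (Fintype.card F : ℝ) ^ (2 * (n + 1)) = u at this
      generalize (Fintype.card F : ℝ) = q at hq4
      nlinarith [mul_pos this (by nlinarith : 0 < q ^ 2 - 2 * q)])
    obtain ⟨d3, d4⟩ := hE e' f' hh'
    have := dim_odd hψ (by omega) hns hρ hnt hh' hv0 hv (by rw [card_elts, d3, d4, pow_succ'])
      (by rw [d4]; exact Nat.one_lt_pow (by omega) (by omega))
    rw [d4] at this
    push_cast at this
    refine le_of_eq ?_
    linear_combination -this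
  · obtain ⟨l, h1, h2⟩ := exists_sq_ne_one hq
    exact absurd (mul_right_cancel₀ hc0 (by rw [k1 l h1, one_mul])) h2

universe u in
theorem om_minus (n : ℕ) : ∀ {E : Type u} [AddCommGroup E] [Module F E] [FiniteDimensional F E]
    {Q : QuadraticForm F E}, OH Q → finrank F E = 2 * (n + 4) →
    (∀ T, TotSing Q T → finrank F T < n + 4) → ∀ (k : ℕ) (ρ : Representation ℂ (Om Q) (Fin k → ℂ)),
    ρ.IsIrreducible → (∃ g, ρ g ≠ 1) →
    ((Fintype.card F : ℝ) ^ (n + 4) + 1) * (Fintype.card F ^ (n + 3) - Fintype.card F) ≤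
      k * (Fintype.card F ^ 2 - 1) := by
  induction n using Nat.strong_induction_on with
  | _ n ih =>
  intro E _ _ _ Q h hn hT k ρ hρ hnt
  have : Finite E := Module.finite_of_finite F
  have := Fintype.ofFinite E
  obtain ⟨ψ, hψ1⟩ := exists_psi_one F
  have hψ : ψ ≠ 1 := by rintro rfl; simp at hψ1
  have h0 := card_lev_minus (n + 4) (nd_top h.nd) (by rw [finrank_top, hn]) fun T _ => hT T
  have hq2 : (2 : ℝ) ≤ Fintype.card F := by exact_mod_cast Fintype.one_lt_card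
  have hE := fun e f (hh : Hyp Q e f) => even_counts (n := n + 2) (ε := -1) hn (by norm_num) (by
    have := congrArg (Nat.cast : ℕ → ℝ) h0
    push_cast [Nat.cast_sub Fintype.card_pos] at this
    linear_combination this) hh
  have ht : -1 * (Fintype.card F : ℝ) ^ (n + 2) ≤ -2 := by
    have := pow_le_pow_right₀ (by linarith : (1 : ℝ) ≤ Fintype.card F) (show 1 ≤ n + 2 by omega)
    linarith
  rcases om_even (h := h) hψ (by omega) (by
      rcases Nat.eq_zero_or_pos n with rfl | hn0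
      · exact Or.inr (Or.inr ⟨by omega, fun T k => by have := hT T k; omega⟩)
      · exact Or.inr (Or.inl (by omega))) hρ hnt (Or.inl ht) hE with k | ⟨c, hc0, -, hC⟩
  · rw [Module.finrank_fin_fun] at k
    linear_combination k
  have hb : ∀ e f, Hyp Q e f → (finrank ℂ (Wo h ρ ψ e 0) : ℝ) +
      (Fintype.card F ^ (2 * n + 5) + Fintype.card F ^ (n + 2)) ≤ k := fun e f hh => by
    have := bound_nonsing (h := h) (ρ := ρ) hψ hh hc0 fun w hw k => (hC e w hh.l hh.ne
      (mem_hc.mp hw).2.1 (hh.not_mem (mem_hc.mp hw).2.2 (by rintro rfl; simp [← k] at hc0))).2.mpr k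
    rw [← Nat.cast_le (α := ℝ), Module.finrank_fin_fun, Nat.cast_add,
      ((nd_top h.nd).hc hh trivial trivial).card_lev_even (by linarith) (by nlinarith)
        (hE e f hh).1 (hE e f hh).2 hc0] at this
    linear_combination this
  obtain ⟨q, hq⟩ : ∃ q : ℝ, q = Fintype.card F := ⟨_, rfl⟩
  rcases n with _ | n
  · obtain ⟨e, -, f, -, hh⟩ := (nd_top h.nd).exists_hyp' (by rw [finrank_top]; omega)
    have := hb e f hh
    have k1 : (0 : ℝ) ≤ finrank ℂ (Wo h ρ ψ e 0) := by positivity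
    rw [← hq] at this hq2 ⊢
    refine le_trans ?_ (mul_le_mul_of_nonneg_right ((le_add_of_nonneg_left k1).trans this)
      (by nlinarith))
    simp only [zero_add, mul_zero]
    nlinarith [mul_nonneg (by nlinarith : 0 ≤ q ^ 2 - 1) (by nlinarith : 0 ≤ q ^ 2 - q)]
  · obtain ⟨e, f, hh, a, ha, b, hb', k1, k2, z, hz, hz'⟩ := exists_nontriv_V0 hψ1 (by omega) hC
    obtain ⟨φ, φ1, φ2⟩ := exists_ext (h := h) (by omega) hh
    have hst : ∀ g, ∀ v ∈ Wo h ρ ψ e 0, ρ (φ g) v ∈ Wo h ρ ψ e 0 := fun g v hv => by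
      simpa [φ1] using Wo_map hv (φ g)
    let ρ0 : Representation ℂ (Om (Q.comp (hc Q ⊤ e f).subtype)) (Wo h ρ ψ e 0) :=
      { toFun := fun g => (ρ (φ g)).restrict (hst g)
        map_one' := by ext; simp
        map_mul' := fun g g' => by ext; simp }
    have := finite_Om (Q := Q.comp (hc Q ⊤ e f).subtype)
    obtain ⟨m, σ, s1, s2, s3⟩ := exists_irr_nontriv ρ0
      (g := (h.res (by omega) hh).ez ⟨a, ha⟩ ⟨b, hb'⟩) fun k => hz' (by
        have := congrArg Subtype.val (DFunLike.congr_fun k ⟨z, hz⟩)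
        simpa [ρ0, φ2 ⟨a, ha⟩ ⟨b, hb'⟩ k1 k2] using this)
    have hd := hh.finrank_hc (Y := ⊤) trivial trivial
    rw [finrank_top] at hd
    have := ih n (by omega) (h.res (by omega) hh) (by omega) (fun T hT' => by
      have := hT (T.map (hc Q ⊤ e f).subtype ⊔ F ∙ e) (totSing_sup_span (by
        rintro _ ⟨x, hx, rfl⟩; exact hT' x hx) hh.l (by
        rintro _ ⟨x, -, rfl⟩; exact (mem_hc.mp x.2).2.1))
      rw [Submodule.finrank_sup_span_singleton (by
        rintro ⟨x, -, hx⟩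
        have := (mem_hc.mp x.2).2.2
        rw [show (x : E) = e from hx, hh.rl] at this
        exact one_ne_zero this), Submodule.finrank_map_subtype_eq] at this
      omega) m σ s1 ⟨_, s2⟩
    have k3 := hb e f hh
    have k4 : (m : ℝ) ≤ finrank ℂ (Wo h ρ ψ e 0) := by exact_mod_cast s3
    rw [← hq] at this hq2 k3 ⊢
    have q1 : 0 ≤ q ^ 2 - 1 := by nlinarith
    have k5 := mul_le_mul_of_nonneg_right k3 q1
    have k6 := mul_le_mul_of_nonneg_right k4 q1
    have k7 : 0 ≤ q ^ (n + 4) * (q ^ 2 - 1) := by positivity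
    ring_nf at this k5 k6 k7 ⊢
    linarith

theorem nontriv_of_two_le {G : Type*} [Group G] {k : ℕ} (ρ : Representation ℂ G (Fin k → ℂ))
    (hρ : ρ.IsIrreducible) (hk : 2 ≤ k) : ∃ g, ρ g ≠ 1 := by
  by_contra hc
  push Not at hc
  have := finrank_le_one_of_trivial ρ hρ hc
  rw [Module.finrank_fin_fun] at this
  omega

end Cfsg.Agent.H1
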