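import Cfsg.Agent.H1.OmFix

/-!
# The spherical function of a representation of `Ω` with only singular weights
-/

set_option autoImplicit false
set_option linter.unusedSectionVars false

namespace Cfsg.Agent.H1

open Module H6 Finset

variable {F : Type*} [Field F] [Fintype F] {E : Type*} [AddCommGroup E] [Module F E]
  [FiniteDimensional F E] [Fintype E] {Q : QuadraticForm F E} {h : OH Q}
variable {V : Type*} [AddCommGroup V] [Module ℂ V] [FiniteDimensional ℂ V]
  {ρ : Representation ℂ (Om Q) V} {ψ : AddChar F ℂ}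

open Classical in
theorem spherical (hψ : ψ ≠ 1) (h7 : 7 ≤ finrank F E) (hns : SingW h ρ ψ) (hρ : ρ.IsIrreducible)
    (hnt : ∃ g, ρ g ≠ 1) {e f : E} (hh : Hyp Q e f) {v0 : V} (hv0 : v0 ≠ 0)
    (hS : ∀ g, oA Q g e = e → ρ g v0 = v0) {N M : ℕ} (hN : N = (lev Q (hc Q ⊤ e f) 0).card)
    (hM : M = (elts (hc Q ⊤ e f)).card) :
    ∃ (n : ℝ) (θ b : F → ℂ) (a α β : ℂ), 0 < n ∧ α + β * N = n ∧
      Fintype.card F * (a - α) = β * (Fintype.card F * N - M) ∧
      (∀ y ∈ hc Q ⊤ e f, Q y ≠ 0 → b (-Q y) = α + β * sig Q ψ (hc Q ⊤ e f) y) ∧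
      (∀ l, l ≠ 0 → ‖θ l‖ = 1 ∧ θ l * a = a ∧ ∀ c, c ≠ 0 → b (l * c) = θ l * b c) ∧
      ∑ l ∈ univ.erase (0 : F), θ l * n + Fintype.card F * (N - 1) * a +
        M * ∑ c ∈ univ.erase (0 : F), b c = 0 ∧
      (Fintype.card F * N + (Fintype.card F - 1) * M - 1) * n ^ 2 = finrank ℂ V *
        ((Fintype.card F - 1) * n ^ 2 + Fintype.card F * (N - 1) * ‖a‖ ^ 2 +
          M * ∑ c ∈ univ.erase (0 : F), ‖b c‖ ^ 2) := by
  have := finite_Om (Q := Q)
  obtain ⟨B, hB, hBs, hBp⟩ := exists_inv_form ρ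
  obtain ⟨v, hv, hv0, lam, hlam⟩ := exists_common_eigenvector
    (fun g : {g : Om Q // ∃ l : F, oA Q g e = l • e} => ρ g)
    (Wt (fun g : actStab (oA Q) e => ρ g) fun _ => 1)
    ((Submodule.ne_bot_iff _).mpr ⟨v0, fun g => by rw [one_smul]; exact hS g g.2, hv0⟩)
    (fun g z hz s => by
      obtain ⟨l, hl⟩ := g.2
      have := hz ⟨g.1⁻¹ * s * g, by
        rw [mem_actStab, act_mul_apply, act_mul_apply, hl, map_smul, mem_actStab.mp s.2, ← hl,
          act_inv_apply]⟩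
      simp only [one_smul, act_mul_apply] at this ⊢
      conv_rhs => rw [← this, act_apply_inv])
    (fun g g' z hz => by
      obtain ⟨l, hl⟩ := g.2
      obtain ⟨l', hl'⟩ := g'.2
      have := hz ⟨(g'.1 * g.1)⁻¹ * (g.1 * g'.1), by
        rw [mem_actStab, act_mul_apply, show oA Q (g.1 * g'.1) e = oA Q (g'.1 * g.1) e by
          simp only [act_mul_apply, hl, hl', map_smul, smul_smul, mul_comm], act_inv_apply]⟩
      simp only [one_smul] at this
      conv_rhs => rw [← this, ← act_mul_apply, act_mul_apply _ _ (g.1 * g'.1), act_apply_inv,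
        act_mul_apply])
  have hvS : ∀ g, oA Q g e = e → ρ g v = v := fun g hg => by simpa using hv ⟨g, hg⟩
  have hwell : ∀ g g', oA Q g e = oA Q g' e → ρ g v = ρ g' v := fun g g' k => by
    conv_rhs => rw [← hvS (g'⁻¹ * g) (by rw [act_mul_apply, k, act_inv_apply]), act_mul_apply,
      act_apply_inv]
  obtain ⟨vx, hvx, hvx0⟩ : ∃ vx : E → V, (∀ g, vx (oA Q g e) = ρ g v) ∧ vx 0 = 0 := by
    refine ⟨fun x => if k : ∃ g, oA Q g e = x then ρ k.choose v else 0, fun g => ?_, ?_⟩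
    · have k : ∃ g', oA Q g' e = oA Q g e := ⟨g, rfl⟩
      simp only [dif_pos k]
      exact hwell _ _ k.choose_spec
    · refine dif_neg ?_
      rintro ⟨g, hg⟩
      exact hh.ne (rep_injective (oA Q) g (by rw [hg, map_zero]))
  have htr : ∀ x, Q x = 0 → x ≠ 0 → ∃ g, oA Q g e = x := fun x h1 h2 =>
    h.witt_one hh.ne h2 (by rw [h1, hh.l])
  have hmap : ∀ g x, Q x = 0 → ρ g (vx x) = vx (oA Q g x) := fun g x h1 => by
    by_cases h2 : x = 0
    · simp [h2, hvx0]
    obtain ⟨g', rfl⟩ := htr x h1 h2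
    rw [← act_mul_apply, hvx, hvx, act_mul_apply]
  have hve : vx e = v := by simpa using hvx 1
  obtain ⟨θ, hθ⟩ : ∃ θ : F → ℂ, ∀ l, l ≠ 0 → vx (l • e) = θ l • v := by
    have : ∀ l : F, ∃ c : ℂ, l ≠ 0 → vx (l • e) = c • v := fun l => by
      by_cases hl : l = 0
      · exact ⟨0, fun k => absurd hl k⟩
      obtain ⟨g, hg⟩ := htr (l • e) (by simp [Q_smul, hh.l]) (smul_ne_zero hl hh.ne)
      exact ⟨_, fun _ => by rw [← hg, hvx]; exact hlam ⟨g, l, hg⟩⟩
    exact ⟨_, fun l => (this l).choose_spec⟩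
  have hθx : ∀ l x, l ≠ 0 → Q x = 0 → x ≠ 0 → vx (l • x) = θ l • vx x := fun l x hl h1 h2 => by
    obtain ⟨g, rfl⟩ := htr x h1 h2
    rw [← map_smul, ← hmap _ _ (by simp [Q_smul, hh.l]), hθ l hl, map_smul, hvx]
  have hn : B v v = ((B v v).re : ℂ) := (Complex.conj_eq_iff_re.mp (hBs _ _)).symm
  have hn0 := hBp v hv0
  generalize (B v v).re = n at hn hn0
  have hnx : ∀ x, Q x = 0 → x ≠ 0 → B (vx x) (vx x) = n := fun x h1 h2 => by
    obtain ⟨g, rfl⟩ := htr x h1 h2
    rw [hvx, hB, hn]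
  have hθn : ∀ l, l ≠ 0 → ‖θ l‖ = 1 := fun l hl => by
    have := hnx (l • e) (by simp [Q_smul, hh.l]) (smul_ne_zero hl hh.ne)
    rw [hθ l hl, map_smul, LinearMap.map_smulₛₗ, LinearMap.smul_apply, hn, smul_eq_mul,
      smul_eq_mul, ← mul_assoc, Complex.mul_conj, Complex.normSq_eq_norm_sq] at this
    have k : ‖θ l‖ ^ 2 * n = n := by exact_mod_cast this
    have k2 : ‖θ l‖ ^ 2 = 1 := mul_right_cancel₀ hn0.ne' (by rw [k, one_mul])
    exact (pow_eq_one_iff_of_nonneg (norm_nonneg _) two_ne_zero).mp k2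
  have hΦ : ∀ x x', Q x = 0 → Q x' = 0 → x ∉ F ∙ e → x' ∉ F ∙ e → pb Q e x' = pb Q e x →
      B v (vx x') = B v (vx x) := fun x x' h1 h2 h3 h4 h5 => by
    obtain ⟨g, g1, g2⟩ := h.witt_two h7 hh.ne h3 hh.ne h4 rfl (by rw [h1, h2]) h5
    rw [← g2, ← hmap g x h1, ← hB g v (vx x), hvS g g1]
  have hnm : ∀ x, pb Q e x ≠ 0 → x ∉ F ∙ e := fun x h1 h2 => by
    obtain ⟨c, rfl⟩ := Submodule.mem_span_singleton.mp h2
    simp [hh.ll] at h1
  have hW := (nd_top h.nd).hc hh trivial trivial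
  have hsymm : hc Q ⊤ f e = hc Q ⊤ e f := by ext x; simp only [mem_hc]; tauto
  have hd := hh.finrank_hc (Y := ⊤) trivial trivial
  rw [finrank_top] at hd
  obtain ⟨a, ha, ha0, hQa⟩ := exists_sing_not_mem Q (Y := hc Q ⊤ e f) (R := ⊥) bot_le
    (by rw [finrank_bot]; omega)
  rw [Submodule.mem_bot] at ha0
  have hA : ∀ (μ : F), ∀ w ∈ hc Q ⊤ e f, w ≠ 0 → Q w = 0 → B v (vx (μ • e + w)) = B v (vx a) := by
    intro μ w hw h1 h2
    refine hΦ _ _ hQa (by simpa [h2] using hh.Q_comb hw μ 0) (hh.not_mem (mem_hc.mp ha).2.2 ha0)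
      (fun k => hh.not_mem (mem_hc.mp hw).2.2 h1 ?_)
      (by simp [hh.ll, (mem_hc.mp hw).2.1, (mem_hc.mp ha).2.1])
    exact (Submodule.add_mem_iff_right _
      (Submodule.smul_mem _ _ (Submodule.mem_span_singleton_self e))).mp k
  have hBc : ∀ x, Q x = 0 → pb Q e x ≠ 0 → B v (vx x) = B v (vx (pb Q e x • f)) := fun x h1 h2 =>
    hΦ _ _ (by simp [Q_smul, hh.r]) h1 (hnm _ (by simpa [hh.lr] using h2)) (hnm _ h2)
      (by simp [hh.lr])
  have hsum : ∀ κ : ℂ → ℂ, κ 0 = 0 → ∑ x ∈ lev Q ⊤ 0, κ (B v (vx x)) =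
      ∑ l ∈ univ.erase (0 : F), κ (θ l * n) + Fintype.card F * (N - 1) * κ (B v (vx a)) +
        M * ∑ c ∈ univ.erase (0 : F), κ (B v (vx (c • f))) := by
    intro κ hκ
    have h0 : (0 : E) ∈ lev Q (hc Q ⊤ e f) 0 := by simp [mem_lev]
    rw [hh.sum_lev (Y := ⊤) trivial trivial, ← Finset.add_sum_erase _ _ h0]
    congr 2
    · rw [← Finset.add_sum_erase _ _ (mem_univ 0)]
      simp only [zero_smul, add_zero, hvx0, map_zero, hκ, zero_add]
      exact Finset.sum_congr rfl fun l hl => by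
        rw [hθ l (mem_erase.mp hl).1, map_smul, hn, smul_eq_mul]
    · rw [Finset.sum_congr rfl fun w hw => Finset.sum_congr rfl fun μ _ => by
        rw [hA μ w (mem_lev.mp (mem_erase.mp hw).2).1 (mem_erase.mp hw).1
          (mem_lev.mp (mem_erase.mp hw).2).2]]
      simp only [sum_const, card_univ, nsmul_eq_mul, card_erase_of_mem h0, hN,
        Nat.cast_sub (Finset.card_pos.mpr ⟨0, h0⟩)]
      push_cast
      ring
    · rw [Finset.mul_sum]
      refine Finset.sum_congr rfl fun c hc0 => ?_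
      have hc0 := (mem_erase.mp hc0).1
      rw [Finset.sum_congr rfl fun w hw => show _ = κ (B v (vx (c • f))) by
        have k : pb Q e (((0 - Q w) / c) • e + c • f + w) = c := by
          simp [hh.ll, hh.lr, (mem_hc.mp (mem_elts.mp hw)).2.1]
        rw [hBc _ (by rw [hh.Q_comb (mem_elts.mp hw)]; field_simp; ring) (by rwa [k]), k]]
      simp [hM]
  have hperm : ∀ {A : Type _} [AddCommMonoid A] (g : Om Q) (G : E → A),
      ∑ x ∈ lev Q ⊤ 0, G (oA Q g x) = ∑ x ∈ lev Q ⊤ 0, G x := fun g G =>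
    Finset.sum_nbij' (fun x => oA Q g x) (fun x => oA Q g⁻¹ x) (by simp [mem_lev, oA_Q])
      (by simp [mem_lev, oA_Q]) (fun x _ => act_inv_apply _ _ _) (fun x _ => act_apply_inv _ _ _)
      fun _ _ => rfl
  obtain ⟨α, β, hF⟩ := fourier_form hψ h7 hns hh.symm B hB fun g _ k => hvS g k
  rw [hsymm] at hF
  have hF' : ∀ y ∈ hc Q ⊤ e f, B v (vx ((1 : F) • e + (-Q y) • f + -y)) =
      α + β * sig Q ψ (hc Q ⊤ e f) y := fun y hy => by
    rw [← hF y hy, ← hvx, h.ez_apply hh.r (mem_hc.mp hy).2.2, (mem_hc.mp hy).2.1, hh.lr]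
    congr 2
    module
  refine ⟨n, θ, fun c => B v (vx (c • f)), B v (vx a), α, β, hn0, ?_, ?_, ?_, ?_, ?_, ?_⟩
  · have := hF' 0 (Submodule.zero_mem _)
    rw [sig_zero, ← hN] at this
    rw [← this, ← hn]
    simp [hve]
  · have := hF' a ha
    rw [hQa, neg_zero, zero_smul, add_zero,
      hA 1 (-a) (Submodule.neg_mem _ ha) (neg_ne_zero.mpr ha0) (by simp [hQa])] at this
    have k := hW.sig_sing hψ ha ha0 hQa
    rw [← hN, ← hM] at k
    rw [this, ← k]
    ring
  · intro y hy hy0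
    have k : pb Q e ((1 : F) • e + (-Q y) • f + -y) = -Q y := by
      simp [hh.ll, hh.lr, (mem_hc.mp hy).2.1]
    rw [← hF' y hy, hBc _ (by rw [hh.Q_comb (Submodule.neg_mem _ hy)]; simp) (by rw [k]; simpa), k]
  · intro l hl
    refine ⟨hθn l hl, ?_, fun c hc0 => ?_⟩
    · have := hA 0 (l • a) (Submodule.smul_mem _ _ ha) (smul_ne_zero hl ha0) (by simp [Q_smul, hQa])
      rwa [zero_smul, zero_add, hθx l a hl hQa ha0, map_smul, smul_eq_mul] at this
    · simp only
      rw [mul_smul, hθx l _ hl (by simp [Q_smul, hh.r]) (smul_ne_zero hc0 hh.symm.ne), map_smul,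
        smul_eq_mul]
  · have := hsum id rfl
    simp only [id] at this
    rw [← this, ← map_sum]
    by_cases k : ∑ x ∈ lev Q ⊤ 0, vx x = 0
    · rw [k, map_zero]
    exfalso
    have := eq_top_of_invariant ρ hρ (Wt (fun g => ρ g) fun _ => 1) (fun g z hz s => by
      rw [hz g, one_smul]; exact hz s) ((Submodule.ne_bot_iff _).mpr ⟨_, fun g => by
        rw [one_smul, map_sum, Finset.sum_congr rfl fun x hx => hmap g x (mem_lev.mp hx).2]
        exact hperm g vx, k⟩)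
    obtain ⟨g, hg⟩ := hnt
    refine hg (LinearMap.ext fun z => ?_)
    simpa using (show z ∈ Wt (fun g => ρ g) fun _ => 1 from this ▸ trivial) g
  · obtain ⟨c, hc'⟩ := exists_eq_smul_of_commute ρ hρ
      (∑ x ∈ lev Q ⊤ 0, (B (vx x)).smulRight (vx x)) (fun g => by
        ext z
        simp only [LinearMap.comp_apply, LinearMap.sum_apply, LinearMap.smulRight_apply, map_sum,
          map_smul]
        rw [← hperm g]
        exact Finset.sum_congr rfl fun x hx => by rw [← hmap g x (mem_lev.mp hx).2, hB])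
    have t1 := congrArg (LinearMap.trace ℂ V) hc'
    have h0 : (0 : E) ∈ lev Q ⊤ 0 := by simp [mem_lev]
    simp only [map_sum, LinearMap.trace_smulRight, map_smul, LinearMap.trace_id, smul_eq_mul] at t1
    rw [← Finset.add_sum_erase _ _ h0, Finset.sum_congr rfl fun x hx =>
      hnx x (mem_lev.mp (mem_erase.mp hx).2).2 (mem_erase.mp hx).1, hvx0, map_zero, zero_add,
      sum_const, card_erase_of_mem h0, nsmul_eq_mul, Nat.cast_sub (Finset.card_pos.mpr ⟨0, h0⟩),
      hh.card_lev (Y := ⊤) trivial trivial, ← hN, ← card_elts, ← hM] at t1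
    have t2 := congrArg (fun T => B v (T v)) hc'
    simp only [LinearMap.sum_apply, LinearMap.smulRight_apply, map_sum, map_smul, smul_eq_mul,
      LinearMap.smul_apply, LinearMap.id_apply, hn] at t2
    rw [Finset.sum_congr rfl fun x _ => show _ = ((‖B v (vx x)‖ ^ 2 : ℝ) : ℂ) by
      rw [← hBs v, mul_comm, Complex.mul_conj, Complex.normSq_eq_norm_sq],
      hsum (fun z => ((‖z‖ ^ 2 : ℝ) : ℂ)) (by simp)] at t2
    have hθ1 : ∀ l ∈ univ.erase (0 : F), ((‖θ l * n‖ ^ 2 : ℝ) : ℂ) = n ^ 2 := fun l hl => by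
      rw [norm_mul, hθn l (mem_erase.mp hl).1, one_mul, Complex.norm_real, Real.norm_eq_abs, sq_abs]
      simp
    rw [Finset.sum_congr rfl hθ1, sum_const, card_erase_of_mem (mem_univ _), card_univ,
      nsmul_eq_mul] at t2
    push_cast [Nat.cast_sub Fintype.card_pos] at t1 t2
    apply Complex.ofReal_injective
    push_cast
    linear_combination n * t1 - finrank ℂ V * t2

include h in
theorem exists_Q_eq (h7 : 7 ≤ finrank F E) {e f : E} (hh : Hyp Q e f) (c : F) :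
    ∃ y ∈ hc Q ⊤ e f, Q y = c := by
  have hd := hh.finrank_hc (Y := ⊤) trivial trivial
  rw [finrank_top] at hd
  obtain ⟨a, ha, a', ha', k⟩ := ((nd_top h.nd).hc hh trivial trivial).exists_hyp' (by omega)
  exact k.represent ha ha' c

theorem dim_even (hψ : ψ ≠ 1) (h7 : 7 ≤ finrank F E) (hns : SingW h ρ ψ) (hρ : ρ.IsIrreducible)
    (hnt : ∃ g, ρ g ≠ 1) {e f : E} (hh : Hyp Q e f) {v0 : V} (hv0 : v0 ≠ 0)
    (hS : ∀ g, oA Q g e = e → ρ g v0 = v0) {t : ℝ} (ht : 2 ≤ |t|)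
    (h1 : ((elts (hc Q ⊤ e f)).card : ℝ) = (Fintype.card F * t) ^ 2)
    (h2 : ((lev Q (hc Q ⊤ e f) 0).card : ℝ) = Fintype.card F * t ^ 2 + (Fintype.card F - 1) * t) :
    (finrank ℂ V : ℝ) * (Fintype.card F ^ 2 - 1) =
      (Fintype.card F ^ 2 * t - 1) * (Fintype.card F * t + Fintype.card F) := by
  classical
  obtain ⟨n, θ, b, a, α, β, hn, e1, e2, e3, e4, e5, e6⟩ :=
    spherical hψ h7 hns hρ hnt hh hv0 hS rfl rfl
  have hW := (nd_top h.nd).hc hh trivial trivial
  have hb : ∀ c, c ≠ 0 → b c = α - β * t := fun c hc0 => by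
    obtain ⟨y, hy, hy'⟩ := exists_Q_eq (h := h) h7 hh (-c)
    have := e3 y hy (by simpa [hy'])
    rw [hW.sig_even hψ h1 h2 hy (by simpa [hy']), hy', neg_neg] at this
    rw [this]; ring
  have c1 : ((elts (hc Q ⊤ e f)).card : ℂ) = (Fintype.card F * t) ^ 2 := by exact_mod_cast h1
  have c2 : ((lev Q (hc Q ⊤ e f) 0).card : ℂ) =
      Fintype.card F * t ^ 2 + (Fintype.card F - 1) * t := by exact_mod_cast h2
  rw [c1, c2] at e2 e5
  rw [c2] at e1
  rw [h1, h2] at e6
  have hq2 : (2 : ℝ) ≤ Fintype.card F := by exact_mod_cast Fintype.one_lt_card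
  obtain ⟨q, hq⟩ : ∃ q : ℝ, q = Fintype.card F := ⟨_, rfl⟩
  have hqc : (Fintype.card F : ℂ) = q := by rw [hq]; simp
  rw [hqc] at e1 e2 e5
  rw [← hq] at e6 hq2 ⊢
  have q0 : q ≠ 0 := by positivity
  have t0 : t ≠ 0 := by rintro rfl; norm_num at ht
  have t1 : t + 1 ≠ 0 := by
    intro k
    rw [eq_neg_of_add_eq_zero_left k] at ht
    norm_num at ht
  have t2 : q ^ 2 * t - 1 ≠ 0 := by
    rcases le_abs'.mp ht with k | k <;> nlinarith
  have t3 : q * t + 1 ≠ 0 := by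
    rcases le_abs'.mp ht with k | k <;> nlinarith
  have q0' : (q : ℂ) ≠ 0 := by exact_mod_cast q0
  have t0' : (t : ℂ) ≠ 0 := by exact_mod_cast t0
  have n0 : (n : ℂ) ≠ 0 := by exact_mod_cast hn.ne'
  have ea : a = α + β * ((q - 1) * t) := by
    apply mul_left_cancel₀ q0'; linear_combination e2
  have hθ : ∀ l, l ≠ 0 → θ l = 1 := fun l hl => by
    by_contra k
    obtain ⟨-, k1, k2⟩ := e4 l hl
    have k3 := k2 1 one_ne_zero
    rw [hb _ (by simpa), hb _ one_ne_zero] at k3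
    have k4 : a = 0 := by
      apply mul_left_cancel₀ (sub_ne_zero.mpr k); linear_combination k1
    have k5 : α - β * t = 0 := by
      apply mul_left_cancel₀ (sub_ne_zero.mpr k); linear_combination -k3
    have k6 : β = 0 := by
      apply mul_left_cancel₀ (mul_ne_zero q0' t0'); linear_combination k4 - ea - k5
    apply n0
    rw [← e1, k6]
    simpa [k6] using k5
  rw [Finset.sum_congr rfl fun l hl => by rw [hθ l (mem_erase.mp hl).1],
    Finset.sum_congr rfl fun c hc0 => hb c (mem_erase.mp hc0).1] at e5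
  rw [Finset.sum_congr rfl fun c hc0 => by rw [hb c (mem_erase.mp hc0).1]] at e6
  simp only [sum_const, card_erase_of_mem (mem_univ _), card_univ, nsmul_eq_mul,
    Nat.cast_sub Fintype.card_pos, Nat.cast_one, hqc, ← hq] at e5 e6
  have t1' : (t : ℂ) + 1 ≠ 0 := by exact_mod_cast t1
  have t2' : (q : ℂ) ^ 2 * t - 1 ≠ 0 := by exact_mod_cast t2
  have eβ : β = n * (q * t + 1) / (q ^ 2 * t ^ 2 * (t + 1)) := by
    rw [eq_div_iff (by positivity)]
    apply mul_left_cancel₀ t2'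
    rw [ea, eq_sub_of_add_eq e1] at e5
    linear_combination -e5
  have fa : a = ((n * (q - 1) / (q * (t + 1)) : ℝ) : ℂ) := by
    rw [ea, eq_sub_of_add_eq e1, eβ]
    push_cast
    field_simp
    ring
  have fb : α - β * t = ((-n / (q * t) : ℝ) : ℂ) := by
    rw [eq_sub_of_add_eq e1, eβ]
    push_cast
    field_simp
    ring
  rw [fa, fb, Complex.norm_real, Complex.norm_real, Real.norm_eq_abs, Real.norm_eq_abs, sq_abs,
    sq_abs] at e6
  have n0' := hn.ne'
  field_simp at e6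
  apply mul_left_cancel₀ (mul_ne_zero t3 t1)
  linear_combination -e6

theorem dim_odd (hψ : ψ ≠ 1) (h7 : 7 ≤ finrank F E) (hns : SingW h ρ ψ) (hρ : ρ.IsIrreducible)
    (hnt : ∃ g, ρ g ≠ 1) {e f : E} (hh : Hyp Q e f) {v0 : V} (hv0 : v0 ≠ 0)
    (hS : ∀ g, oA Q g e = e → ρ g v0 = v0)
    (h1 : (elts (hc Q ⊤ e f)).card = Fintype.card F * (lev Q (hc Q ⊤ e f) 0).card)
    (h2 : 1 < (lev Q (hc Q ⊤ e f) 0).card) :
    (finrank ℂ V : ℝ) * (Fintype.card F ^ 2 - 1) =
      Fintype.card F ^ 2 * (lev Q (hc Q ⊤ e f) 0).card - 1 := by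
  classical
  obtain ⟨n, θ, b, a, α, β, hn, e1, e2, e3, e4, e5, e6⟩ :=
    spherical hψ h7 hns hρ hnt hh hv0 hS rfl rfl
  have hW := (nd_top h.nd).hc hh trivial trivial
  have s1 := hW.sum_sig hψ
  have s2 := hW.sum_sig_sq hψ
  have hq : (Fintype.card F : ℂ) ≠ 0 := by simp
  have hs : ∀ a ∈ hc Q ⊤ e f, a ≠ 0 → Q a = 0 → sig Q ψ (hc Q ⊤ e f) a = 0 := fun a ha k1 k2 => by
    apply mul_left_cancel₀ hq
    rw [hW.sig_sing hψ ha k1 k2, h1]; simp
  rw [sum_elts_three _ _ hs, sig_zero] at s1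
  rw [sum_elts_three _ _ (s := 0) fun a ha k1 k2 => by rw [hs a ha k1 k2]; simp, sig_zero] at s2
  have cn := card_nonsing (Q := Q) (hc Q ⊤ e f)
  rw [h1] at e2 e5 e6 s1 s2 cn
  obtain ⟨N, hN⟩ : ∃ N, N = (lev Q (hc Q ⊤ e f) 0).card := ⟨_, rfl⟩
  rw [← hN] at e1 e2 e5 e6 s1 s2 cn h2 ⊢
  push_cast at e2 e5 e6 s1 s2 cn
  have ea : a = α := by
    apply mul_left_cancel₀ hq; linear_combination e2
  have hq2 : (2 : ℝ) ≤ Fintype.card F := by exact_mod_cast Fintype.one_lt_card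
  have hN2 : (2 : ℝ) ≤ N := by exact_mod_cast h2
  have q1 : (Fintype.card F : ℂ) - 1 ≠ 0 := by
    have : (Fintype.card F : ℝ) - 1 ≠ 0 := by linarith
    exact_mod_cast this
  have N0 : (N : ℂ) ≠ 0 := by exact_mod_cast (by omega : N ≠ 0)
  have N1 : (N : ℂ) - 1 ≠ 0 := by
    have : (N : ℝ) - 1 ≠ 0 := by linarith
    exact_mod_cast this
  by_cases hθ : ∀ l, l ≠ 0 → θ l = 1
  · exfalso
    have hb : ∀ c, c ≠ 0 → b c = b 1 := fun c hc0 => by
      simpa [hθ c hc0] using (e4 c hc0).2.2 1 one_ne_zero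
    by_cases hβ : β = 0
    · obtain ⟨y, hy, hy'⟩ := exists_Q_eq (h := h) h7 hh (-1)
      have k := e3 y hy (by simp [hy'])
      rw [hy', neg_neg, hβ, zero_mul, add_zero] at k
      rw [hβ, zero_mul, add_zero] at e1
      rw [Finset.sum_congr rfl fun l hl => by rw [hθ l (mem_erase.mp hl).1],
        Finset.sum_congr rfl fun c hc0 => hb c (mem_erase.mp hc0).1, k, ea, e1] at e5
      simp only [sum_const, card_erase_of_mem (mem_univ _), card_univ, nsmul_eq_mul,
        Nat.cast_sub Fintype.card_pos, Nat.cast_one] at e5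
      have : ((Fintype.card F : ℝ) - 1) * (1 * n) + Fintype.card F * (N - 1) * n +
        Fintype.card F * N * ((Fintype.card F - 1) * n) = 0 := by exact_mod_cast e5
      have p1 : 0 < (Fintype.card F : ℝ) - 1 := by linarith
      have p2 : 0 < (N : ℝ) - 1 := by linarith
      have : 0 < ((Fintype.card F : ℝ) - 1) * (1 * n) + Fintype.card F * (N - 1) * n +
        Fintype.card F * N * ((Fintype.card F - 1) * n) := by positivity
      linarith
    · have hc' : ∀ y ∈ (elts (hc Q ⊤ e f)).filter (Q · ≠ 0),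
          sig Q ψ (hc Q ⊤ e f) y = (b 1 - α) / β := fun y hy => by
        obtain ⟨k1, k2⟩ := mem_filter.mp hy
        rw [← hb _ (neg_ne_zero.mpr k2), e3 y (mem_elts.mp k1) k2]
        field_simp
        ring
      rw [Finset.sum_congr rfl hc', sum_const, nsmul_eq_mul, cn] at s1
      rw [Finset.sum_congr rfl fun y hy => by rw [hc' y hy], sum_const, nsmul_eq_mul, cn] at s2
      have k : (b 1 - α) / β = 1 := by
        apply mul_left_cancel₀ (mul_ne_zero q1 N0); linear_combination s1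
      rw [k] at s2
      apply mul_ne_zero (mul_ne_zero q1 N0) N1
      linear_combination -s2
  · push Not at hθ
    obtain ⟨l, hl, hl1⟩ := hθ
    have a0 : a = 0 := by
      apply mul_left_cancel₀ (sub_ne_zero.mpr hl1); linear_combination (e4 l hl).2.1
    have hb : ∀ c, c ≠ 0 → ‖b c‖ = ‖b 1‖ := fun c hc0 => by
      have := (e4 c hc0).2.2 1 one_ne_zero
      rw [mul_one] at this
      rw [this, norm_mul, (e4 c hc0).1, one_mul]
    rw [← ea, a0, zero_add] at e1
    have hβ : β = ((n / N : ℝ) : ℂ) := by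
      push_cast
      rw [eq_div_iff N0, e1]
    have hc' : ∀ y ∈ (elts (hc Q ⊤ e f)).filter (Q · ≠ 0),
        (n / N : ℝ) ^ 2 * sig Q ψ (hc Q ⊤ e f) y ^ 2 = ((‖b 1‖ ^ 2 : ℝ) : ℂ) := fun y hy => by
      obtain ⟨k1, k2⟩ := mem_filter.mp hy
      rw [← hb _ (neg_ne_zero.mpr k2), e3 y (mem_elts.mp k1) k2, ← ea, a0, zero_add,
        ← Complex.normSq_eq_norm_sq, ← Complex.mul_conj, map_mul, sig_conj, hβ, Complex.conj_ofReal]
      ring
    have s3 := Finset.sum_congr rfl hc'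
    rw [← Finset.mul_sum, sum_const, nsmul_eq_mul, cn, eq_sub_of_add_eq' s2] at s3
    have s4 : (n / N : ℝ) ^ 2 * (Fintype.card F * N * N - (N ^ 2 + (N - 1) * 0)) =
        (Fintype.card F * N - N) * ‖b 1‖ ^ 2 := by exact_mod_cast s3
    rw [Finset.sum_congr rfl fun c hc0 => by rw [hb c (mem_erase.mp hc0).1], a0] at e6
    simp only [sum_const, card_erase_of_mem (mem_univ _), card_univ, nsmul_eq_mul,
      Nat.cast_sub Fintype.card_pos, Nat.cast_one, norm_zero] at e6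
    have N0' : (N : ℝ) ≠ 0 := by positivity
    have s5 : n ^ 2 * (Fintype.card F - 1) = (Fintype.card F * N - N) * ‖b 1‖ ^ 2 := by
      rw [← s4]; field_simp; ring
    apply mul_left_cancel₀ (pow_ne_zero 2 hn.ne')
    linear_combination -e6 + finrank ℂ V * Fintype.card F * s5

end Cfsg.Agent.H1
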