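import Cfsg.Agent.H1.DefZero
import Cfsg.Agent.H6.St2
import Cfsg.Agent.H6.Bruhat

/-!
# The split data and the local structure of `SL_n`
-/

set_option autoImplicit false
set_option linter.unusedSectionVars false

namespace Cfsg.Agent.H1

open Cfsg Module Matrix Cfsg.Agent.H6

/-- split data from rank one Steinberg relations -/
noncomputable def SplitData.ofR1 {G : Type*} [Group G] {F : Type*} [Field F] [Finite F] {ι : Type*}
    (U : Subgroup G) (w : G) (x y : ι → F → G) (r1 : ∀ i, IsR1 (x i) (y i))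
    (x_inj : ∀ i a, x i a = 1 → a = 0) (x_mem : ∀ i a, x i a ∈ U)
    (bruhat : ∀ g, (∀ u ∈ U, g⁻¹ * u * g ∈ U → u = 1) →
      ∃ u ∈ U, ∃ t, (∀ v ∈ U, t⁻¹ * v * t ∈ U) ∧ ∃ u' ∈ U, g = u * w * t * u')
    (h_norm : ∀ i a, a ≠ 0 → ∀ u ∈ U, (stH (x i) (y i) a)⁻¹ * u * stH (x i) (y i) a ∈ U)
    (decU : ∀ i, ∀ u ∈ U, ∃ a u', u = x i a * u' ∧
      ∀ b, (x i b * stW (x i) (y i) 1)⁻¹ * u' * (x i b * stW (x i) (y i) 1) ∈ U)
    (y_mem : ∀ i a, w * y i a * w⁻¹ ∈ U)
    (decV : ∀ i v, w * v * w⁻¹ ∈ U → ∃ v' b, v = v' * y i b ∧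
      ∀ a, w * (x i a * v' * (x i a)⁻¹) * w⁻¹ ∈ U)
    (gen : ∀ H : Subgroup G, (∀ v, w * v * w⁻¹ ∈ U → v ∈ H) → (∀ i a, x i a ∈ H) → H = ⊤) :
    SplitData G F ι :=
  have hy : ∀ i a, (stW (x i) (y i) 1)⁻¹ * x i a * stW (x i) (y i) 1 = y i (-a) := fun i a => by
    have := (r1 i).wx (-1) (by simp) a
    rw [(r1 i).w_neg, inv_inv] at this
    simpa using this
  { U := U
    w := w
    x := x
    n := fun i => stW (x i) (y i) 1
    h := fun i =>
      { toFun := fun a => stH (x i) (y i) a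
        map_one' := (r1 i).h_one
        map_mul' := fun a b => (r1 i).h_mul a.ne_zero b.ne_zero }
    x_add := fun i => (r1 i).addx
    x_inj := x_inj
    x_mem := x_mem
    bruhat := bruhat
    h_norm := fun i a => h_norm i a a.ne_zero
    n_sq := fun i => ⟨-1, by simpa using (r1 i).w_mul_w one_ne_zero one_ne_zero⟩
    nxn := fun i => ⟨Equiv.mulRight (-1), fun a => by
      refine ⟨-a⁻¹, _, h_norm i (-1) (by simp) _ (x_mem i (-a⁻¹)), ?_⟩
      have h1 := (r1 i).wx 1 one_ne_zero a
      have h2 := (r1 i).w_mul_w (s := 1) (t := 1) one_ne_zero one_ne_zero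
      have h3 := (r1 i).w_mul_h (s := 1) (t := a) one_ne_zero a.ne_zero
      have h4 := (r1 i).h_mul (t := a) (u := -1) a.ne_zero (by simp)
      simp only [inv_one, one_pow, one_mul, inv_neg] at h1 h2 h3
      have h5 : y i (-a) = x i (-a⁻¹) * stW (x i) (y i) a⁻¹ * x i (-a⁻¹) := by
        simp only [stW, inv_inv, (r1 i).x_neg, Units.val_inv_eq_inv_val]; group
      simp only [Equiv.coe_mulRight, MonoidHom.coe_mk, OneHom.coe_mk, Units.val_mul, Units.val_neg,
        Units.val_one, h4]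
      rw [← h3] at h5
      calc _ = (stW (x i) (y i) 1 * x i a * (stW (x i) (y i) 1)⁻¹) *
          (stW (x i) (y i) 1 * stW (x i) (y i) 1) := by group
        _ = _ := by rw [h1, h2, h5]; group⟩
    decU := decU
    v_mem := fun i a => by rw [hy]; exact y_mem i _
    decV := fun i v hv => by
      obtain ⟨v', b, e, h⟩ := decV i v hv
      exact ⟨v', -b, by rw [hy, neg_neg, e], h⟩
    gen := gen }

section tri

variable {F : Type*} [Field F] {ι : Type*} [Fintype ι] [DecidableEq ι]

theorem sl_mul (a b : Matrix.SpecialLinearGroup ι F) : (a * b).1 = a.1 * b.1 := rfl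

theorem sl_one : (1 : Matrix.SpecialLinearGroup ι F).1 = 1 := rfl

theorem sl_inv_mul (a : Matrix.SpecialLinearGroup ι F) : a⁻¹.1 * a.1 = 1 := by
  rw [← sl_mul, inv_mul_cancel, sl_one]

theorem sl_mul_inv (a : Matrix.SpecialLinearGroup ι F) : a.1 * a⁻¹.1 = 1 := by
  rw [← sl_mul, mul_inv_cancel, sl_one]

theorem sl_pow (a : Matrix.SpecialLinearGroup ι F) (k : ℕ) : (a ^ k).1 = a.1 ^ k := rfl

/-- strictly block triangular matrices -/
def StrictTri (ρ : ι → ℤ) (M : Matrix ι ι F) : Prop := ∀ i j, ¬ ρ i < ρ j → M i j = 0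

theorem StrictTri.mul_left {ρ : ι → ℤ} {A M : Matrix ι ι F} (hA : A.BlockTriangular ρ)
    (h : StrictTri ρ M) : StrictTri ρ (A * M) := by
  intro i j hij
  rw [mul_apply]
  refine Finset.sum_eq_zero (fun k _ => ?_)
  by_cases hk : ρ k < ρ i
  · rw [hA hk, zero_mul]
  · rw [h k j (by omega), mul_zero]

theorem StrictTri.mul_right {ρ : ι → ℤ} {A M : Matrix ι ι F} (hA : A.BlockTriangular ρ)
    (h : StrictTri ρ M) : StrictTri ρ (M * A) := by
  intro i j hij
  rw [mul_apply]
  refine Finset.sum_eq_zero (fun k _ => ?_)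
  by_cases hk : ρ j < ρ k
  · rw [hA hk, mul_zero]
  · rw [h i k (by omega), zero_mul]

theorem StrictTri.add {ρ : ι → ℤ} {A M : Matrix ι ι F} (hA : StrictTri ρ A)
    (h : StrictTri ρ M) : StrictTri ρ (A + M) := fun i j hij => by
  rw [Matrix.add_apply, hA i j hij, h i j hij, add_zero]

theorem StrictTri.blockTriangular {ρ : ι → ℤ} {M : Matrix ι ι F} (h : StrictTri ρ (M - 1)) :
    M.BlockTriangular ρ := by
  intro i j hij
  have := h i j (by omega)
  rwa [Matrix.sub_apply, one_apply_ne (by rintro rfl; omega), sub_zero] at this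

theorem strictTri_single {ρ : ι → ℤ} {i j : ι} (h : ρ i < ρ j) (a : F) :
    StrictTri ρ (single i j a) := by
  intro k l hkl
  rw [single_apply, if_neg]
  rintro ⟨rfl, rfl⟩
  exact hkl h

/-- block triangular elements -/
def parSL (F : Type*) [Field F] (ρ : ι → ℤ) : Subgroup (SpecialLinearGroup ι F) where
  carrier := {g | g.1.BlockTriangular ρ}
  mul_mem' ha hb := BlockTriangular.mul ha hb
  one_mem' := blockTriangular_one
  inv_mem' {a} ha := by
    have : Invertible a.1 := a.1.invertibleOfIsUnitDet (by simp)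
    have h := blockTriangular_inv_of_blockTriangular ha
    rw [inv_def, a.2] at h
    simpa using h

/-- the unipotent radical -/
def radSL (F : Type*) [Field F] (ρ : ι → ℤ) : Subgroup (SpecialLinearGroup ι F) where
  carrier := {g | StrictTri ρ (g.1 - 1)}
  mul_mem' {a b} ha hb := by
    have : (a * b).1 - 1 = a.1 * (b.1 - 1) + (a.1 - 1) := by
      simp [mul_sub]
    change StrictTri ρ _
    rw [this]
    exact (hb.mul_left ha.blockTriangular).add ha
  one_mem' := by intro i j _; simp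
  inv_mem' {a} ha := by
    have h1 : a⁻¹ ∈ parSL F ρ := inv_mem ha.blockTriangular
    have : (a⁻¹).1 - 1 = -(a⁻¹.1 * (a.1 - 1)) := by
      rw [mul_sub, sl_inv_mul]; simp
    change StrictTri ρ _
    rw [this]
    intro i j hij
    rw [Matrix.neg_apply, ha.mul_left h1 i j hij, neg_zero]

theorem radSL_le_parSL (ρ : ι → ℤ) : radSL F ρ ≤ parSL F ρ := fun _ h => h.blockTriangular

theorem conj_mem_radSL {ρ : ι → ℤ} {t u : SpecialLinearGroup ι F} (ht : t ∈ parSL F ρ)
    (hu : u ∈ radSL F ρ) : t⁻¹ * u * t ∈ radSL F ρ := by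
  have : (t⁻¹ * u * t).1 - 1 = t⁻¹.1 * (u.1 - 1) * t.1 := by
    rw [mul_sub, sub_mul, mul_one, sl_inv_mul]; rfl
  change StrictTri ρ _
  rw [this]
  exact (StrictTri.mul_left (inv_mem ht) hu).mul_right ht

theorem radSL_mono {ρ ρ' : ι → ℤ} (h : ∀ i j, ρ i < ρ j → ρ' i < ρ' j) :
    radSL F ρ ≤ radSL F ρ' := fun _ hg i j hij => hg i j (fun e => hij (h i j e))

theorem slX_mem_radSL {ρ : ι → ℤ} {i j : ι} (h : ρ i < ρ j) (a : F) : slX F i j a ∈ radSL F ρ := by
  change StrictTri ρ _
  rw [slX_val (by rintro rfl; omega), transvection, add_sub_cancel_left]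
  exact strictTri_single h a

theorem slX_mem_parSL {ρ : ι → ℤ} {i j : ι} (hij : i ≠ j) (h : ρ i ≤ ρ j) (a : F) :
    slX F i j a ∈ parSL F ρ := by
  change BlockTriangular _ ρ
  rw [slX_val hij]
  exact blockTriangular_transvection h a

theorem diag_of_mem_radSL {ρ : ι → ℤ} {u : SpecialLinearGroup ι F} (hu : u ∈ radSL F ρ) (i : ι) :
    u.1 i i = 1 := by
  have := hu i i (lt_irrefl _)
  rwa [Matrix.sub_apply, one_apply_eq, sub_eq_zero] at this

theorem StrictTri.pow {ρ : ι → ℤ} {M : Matrix ι ι F} (h : StrictTri ρ M) (k : ℕ) (i j : ι)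
    (hij : ρ j < ρ i + k) : (M ^ k) i j = 0 := by
  induction k generalizing i with
  | zero => rw [pow_zero, one_apply_ne]; rintro rfl; omega
  | succ k ih =>
    rw [pow_succ', mul_apply]
    refine Finset.sum_eq_zero (fun l _ => ?_)
    by_cases hl : ρ i < ρ l
    · rw [ih l (by push_cast at hij; omega), mul_zero]
    · rw [h i l hl, zero_mul]

theorem pow_eq_one_of_sub_one_pow {p : ℕ} [Fact p.Prime] [CharP F p] {M : Matrix ι ι F} {k : ℕ}
    (h : (M - 1) ^ p ^ k = 0) : M ^ p ^ k = 1 := by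
  rcases isEmpty_or_nonempty ι with _ | _
  · exact Subsingleton.elim _ _
  rwa [sub_pow_char_pow_of_commute _ _ (Commute.one_right M), one_pow, sub_eq_zero] at h

theorem isPGroup_radSL {p : ℕ} [hp : Fact p.Prime] [CharP F p] (ρ : ι → ℤ) :
    IsPGroup p (radSL F ρ) := by
  rintro ⟨u, hu⟩
  obtain ⟨N, hN⟩ : ∃ N : ℕ, ∀ i j, ρ j < ρ i + N := by
    obtain ⟨b, hb⟩ := (Set.finite_range (fun q : ι × ι => (ρ q.2 - ρ q.1).toNat)).bddAbove
    refine ⟨b + 1, fun i j => ?_⟩
    have := hb ⟨(i, j), rfl⟩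
    simp only at this
    push_cast
    omega
  refine ⟨N, Subtype.ext (Subtype.ext ?_)⟩
  apply pow_eq_one_of_sub_one_pow
  ext i j
  refine StrictTri.pow hu _ i j ?_
  have := hN i j
  have h2 : N < p ^ N := Nat.lt_pow_self hp.out.one_lt
  omega

theorem exists_monomial_SL [Nonempty ι] (σ : Equiv.Perm ι) :
    ∃ (w : SpecialLinearGroup ι F) (d : ι → F), (∀ i, d i ≠ 0) ∧
      w.1 = (permGL F σ).1 * diagonal d := by
  obtain ⟨i₀⟩ := ‹Nonempty ι›
  have h0 := (permGL F σ).det_ne_zero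
  refine ⟨⟨(permGL F σ).1 * diagonal (Function.update 1 i₀ (permGL F σ).1.det⁻¹), ?_⟩, _, ?_, rfl⟩
  · rw [det_mul, det_diagonal, Finset.prod_update_of_mem (Finset.mem_univ _)]
    simp [h0]
  · intro i
    by_cases h : i = i₀
    · subst h; simpa using h0
    · simp [h]

theorem conj_monomial_mem {σ : Equiv.Perm ι} {w : SpecialLinearGroup ι F} {d : ι → F}
    (hd : ∀ i, d i ≠ 0) (hw : w.1 = (permGL F σ).1 * diagonal d) (ρ : ι → ℤ)
    (v : SpecialLinearGroup ι F) : w * v * w⁻¹ ∈ radSL F ρ ↔ v ∈ radSL F (ρ ∘ σ) := by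
  have h1 : ((w * v * w⁻¹).1 - 1) * w.1 = w.1 * (v.1 - 1) := by
    rw [sub_mul, ← sl_mul, inv_mul_cancel_right]
    simp [mul_sub]
  have h2 : ∀ i j, ((w * v * w⁻¹).1 - 1) (σ i) (σ j) * d j = d i * (v.1 - 1) i j := by
    intro i j
    have := congrFun (congrFun h1 (σ i)) j
    rwa [hw, ← Matrix.mul_assoc, mul_diagonal, mul_permGL_apply, Matrix.mul_assoc,
      permGL_mul_apply, diagonal_mul] at this
  constructor
  · intro h i j hij
    have := h2 i j
    rw [h _ _ hij, zero_mul, eq_comm, mul_eq_zero] at this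
    exact this.resolve_left (hd i)
  · intro h i j hij
    obtain ⟨i, rfl⟩ := σ.surjective i
    obtain ⟨j, rfl⟩ := σ.surjective j
    have := h2 i j
    rw [h _ _ hij, mul_zero, mul_eq_zero] at this
    exact this.resolve_right (hd j)

end tri

section sln

variable {F : Type*} [Field F] {n : ℕ}

theorem blockTriangular_cast {M : Matrix (Fin n) (Fin n) F} :
    M.BlockTriangular (fun k => ((k : ℕ) : ℤ)) ↔ M.BlockTriangular id := by
  simp only [BlockTriangular, Nat.cast_lt, Fin.val_fin_lt, id]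

theorem exists_lt_of_ne_rev {σ : Equiv.Perm (Fin n)} (h : σ ≠ Fin.revPerm) :
    ∃ i j, i < j ∧ σ i < σ j := by
  by_contra hc
  push Not at hc
  apply h
  have : StrictMono (fun i => σ (Fin.rev i)) := by
    intro i j hij
    exact lt_of_le_of_ne (hc _ _ (Fin.rev_lt_rev.mpr hij))
      (fun e => hij.ne (Fin.rev_injective (σ.injective e)))
  have h2 := congrFun (this.eq_id)
  ext i
  have := h2 (Fin.rev i)
  simp only [Fin.rev_rev, id] at this
  rw [this]; rfl

theorem bruhat_SL {w : SpecialLinearGroup (Fin n) F} {d : Fin n → F} (hd : ∀ i, d i ≠ 0)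
    (hw : w.1 = (permGL F Fin.revPerm).1 * diagonal d) (g : SpecialLinearGroup (Fin n) F)
    (h : ∀ u ∈ radSL F (fun k : Fin n => ((k : ℕ) : ℤ)),
      g⁻¹ * u * g ∈ radSL F (fun k : Fin n => ((k : ℕ) : ℤ)) → u = 1) :
    ∃ u ∈ radSL F (fun k : Fin n => ((k : ℕ) : ℤ)), ∃ t ∈ parSL F (fun k : Fin n => ((k : ℕ) : ℤ)),
      g = u * w * t := by
  obtain ⟨σ, b, hb, b', hb', e⟩ := bruhat (SpecialLinearGroup.toGL g)
  have e1 : g.1 = b.1 * (permGL F σ).1 * b'.1 := congrArg Units.val e
  have e2 : g⁻¹.1 = b'⁻¹.1 * (permGL F σ⁻¹).1 * b⁻¹.1 := by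
    have : (SpecialLinearGroup.toGL g⁻¹) = b'⁻¹ * permGL F σ⁻¹ * b⁻¹ := by
      rw [map_inv, e, map_inv]; group
    exact congrArg Units.val this
  have t1 := blockTriangular_cast.mpr hb
  have t2 := blockTriangular_cast.mpr hb'
  have t3 := blockTriangular_cast.mpr (inv_mem hb)
  have t4 := blockTriangular_cast.mpr (inv_mem hb')
  have hσ : σ = Fin.revPerm := by
    by_contra hne
    obtain ⟨i, j, hij, hσ⟩ := exists_lt_of_ne_rev hne
    let u : SpecialLinearGroup (Fin n) F := ⟨b.1 * (slX F (σ i) (σ j) 1).1 * b⁻¹.1, by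
      rw [det_mul, det_mul, (slX F _ _ _).2, mul_one, ← det_mul, Units.mul_inv, det_one]⟩
    have hu : u.1 - 1 = b.1 * single (σ i) (σ j) 1 * b⁻¹.1 := by
      simp only [u, slX_val hσ.ne, transvection, mul_add, add_mul, mul_one, Units.mul_inv,
        add_sub_cancel_left]
    have h1 := h u (by
      change StrictTri _ _
      rw [hu]
      exact (StrictTri.mul_left t1 (strictTri_single (by simpa using hσ) _)).mul_right t3) (by
      change StrictTri _ _
      have : (g⁻¹ * u * g).1 - 1 = b'⁻¹.1 * single i j 1 * b'.1 := by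
        have h2 : (g⁻¹ * u * g).1 - 1 = g⁻¹.1 * (u.1 - 1) * g.1 := by
          rw [mul_sub, sub_mul, mul_one, sl_inv_mul]; rfl
        have h3 : (permGL F σ⁻¹).1 * single (σ i) (σ j) (1 : F) * (permGL F σ).1 = single i j 1 := by
          ext k l
          rw [mul_permGL_apply]
          conv_lhs => rw [← σ.symm_apply_apply k]
          rw [← Equiv.Perm.inv_def, permGL_mul_apply]
          simp [single_apply]
        rw [h2, hu, e1, e2, ← h3]
        simp only [Matrix.mul_assoc, Units.inv_mul_cancel_left]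
      rw [this]
      exact (StrictTri.mul_left t4 (strictTri_single (by simpa using hij) _)).mul_right t2)
    rw [h1, sl_one, sub_self] at hu
    have h4 : single (σ i) (σ j) (1 : F) = 0 := by
      have := congrArg (fun M => b⁻¹.1 * M * b.1) hu
      simpa [Matrix.mul_assoc] using this.symm
    simpa using congrFun (congrFun h4 (σ i)) (σ j)
  subst hσ
  have hb0 : ∀ i, b.1 i i ≠ 0 := by
    have := b.det_ne_zero
    rw [det_of_isUpperTriangular hb] at this
    exact fun i => Finset.prod_ne_zero_iff.mp this i (Finset.mem_univ _)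
  let u : SpecialLinearGroup (Fin n) F := ⟨b.1 * diagonal (fun i => (b.1 i i)⁻¹), by
    rw [det_mul, det_of_isUpperTriangular hb, det_diagonal, ← Finset.prod_mul_distrib]
    simp [hb0]⟩
  have hu : u ∈ radSL F (fun k : Fin n => ((k : ℕ) : ℤ)) := by
    intro i j hij
    simp only [u, Matrix.sub_apply, mul_diagonal]
    by_cases h : i = j
    · subst h; simp [hb0]
    · have h' : (i : ℕ) ≠ j := fun e => h (Fin.ext e)
      rw [t1 (by simp only at hij ⊢; omega), one_apply_ne h]; simp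
  refine ⟨u, hu, w⁻¹ * u⁻¹ * g, ?_, by group⟩
  have h1 : w.1 * (w⁻¹ * u⁻¹ * g).1 = diagonal (fun i => b.1 i i) * ((permGL F Fin.revPerm).1 * b'.1) := by
    rw [← sl_mul, show w * (w⁻¹ * u⁻¹ * g) = u⁻¹ * g by group, sl_mul, e1]
    have : b.1 = u.1 * diagonal (fun i => b.1 i i) := by
      simp [u, Matrix.mul_assoc, hb0]
    conv_lhs => rw [this]
    simp only [← Matrix.mul_assoc, sl_inv_mul, Matrix.one_mul]
  intro i j hij
  have := congrFun (congrFun h1 (Fin.revPerm i)) j
  rw [hw, Matrix.mul_assoc, permGL_mul_apply, diagonal_mul, diagonal_mul, permGL_mul_apply,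
    t2 hij, mul_zero, mul_eq_zero] at this
  exact this.resolve_left (hd i)

theorem slX_mul_apply {ι : Type*} [Fintype ι] [DecidableEq ι] {i j : ι} (h : i ≠ j) (a : F)
    (u : SpecialLinearGroup ι F) : (slX F i j a * u).1 i j = u.1 i j + a * u.1 j j := by
  rw [sl_mul, slX_val h, transvection_mul_apply_same]

theorem mul_slX_apply {ι : Type*} [Fintype ι] [DecidableEq ι] {i j : ι} (h : i ≠ j) (a : F)
    (u : SpecialLinearGroup ι F) : (u * slX F i j a).1 i j = u.1 i j + a * u.1 i i := by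
  rw [sl_mul, slX_val h, mul_transvection_apply_same]

/-- the split data of `SL_n` -/
theorem exists_splitData_SL [Finite F] (hn : 0 < n) :
    ∃ D : SplitData (SpecialLinearGroup (Fin n) F) F {q : Fin n × Fin n // (q.2 : ℕ) = q.1 + 1},
      D.U = radSL F (fun k : Fin n => ((k : ℕ) : ℤ)) := by
  have : Nonempty (Fin n) := ⟨⟨0, hn⟩⟩
  obtain ⟨w, d, hd, hw⟩ := exists_monomial_SL (F := F) (Fin.revPerm : Equiv.Perm (Fin n))
  have hV : ∀ v, w * v * w⁻¹ ∈ radSL F (fun k : Fin n => ((k : ℕ) : ℤ)) ↔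
      v ∈ radSL F (fun k : Fin n => -((k : ℕ) : ℤ)) := by
    intro v
    rw [conj_monomial_mem hd hw]
    constructor <;> apply radSL_mono <;> intro i j <;>
      simp only [Function.comp, Fin.revPerm_apply, Fin.val_rev] <;> omega
  have hne : ∀ q : {q : Fin n × Fin n // (q.2 : ℕ) = q.1 + 1}, q.1.1 ≠ q.1.2 := by
    intro q e
    have := q.2
    rw [e] at this
    omega
  refine ⟨SplitData.ofR1 (radSL F (fun k : Fin n => ((k : ℕ) : ℤ))) w
    (fun q => slX F q.1.1 q.1.2) (fun q => slX F q.1.2 q.1.1) (fun q => isSt_slX.r1 (hne q))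
    ?_ ?_ ?_ ?_ ?_ ?_ ?_ ?_, rfl⟩
  · intro q a h
    have := slX_mul_apply (hne q) a 1
    rw [h, mul_one, sl_one, one_apply_eq] at this
    simpa using this
  · intro q a
    exact slX_mem_radSL (by have := q.2; omega) a
  · intro g h
    obtain ⟨u, hu, t, ht, e⟩ := bruhat_SL hd hw g h
    exact ⟨u, hu, t, fun v hv => conj_mem_radSL ht hv, 1, one_mem _, by rw [e, mul_one]⟩
  · intro q a ha u hu
    refine conj_mem_radSL ?_ hu
    rw [stH_slX (hne q) ha]
    exact blockTriangular_diagonal _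
  · rintro ⟨⟨i, j⟩, hij⟩ u hu
    simp only at hij
    have hne : i ≠ j := by rintro rfl; omega
    refine ⟨u.1 i j, slX F i j (-u.1 i j) * u, by rw [isSt0_slX.neg hne]; group, fun b => ?_⟩
    let ρ : Fin n → ℤ := fun k => if k = j then (i : ℕ) else (k : ℕ)
    have h1 : slX F i j (-u.1 i j) * u ∈ radSL F ρ := by
      intro k l hkl
      by_cases h : k = i ∧ l = j
      · obtain ⟨rfl, rfl⟩ := h
        rw [Matrix.sub_apply, slX_mul_apply hne, diag_of_mem_radSL hu, one_apply_ne hne]; simp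
      · refine mul_mem (slX_mem_radSL (by omega) _) hu k l ?_
        simp only [ρ, Fin.ext_iff] at hkl h ⊢
        split_ifs at hkl <;> omega
    have x1 : ∀ a, slX F i j a ∈ parSL F ρ := slX_mem_parSL hne (by simp [ρ])
    have x2 : ∀ a, slX F j i a ∈ parSL F ρ := slX_mem_parSL hne.symm (by simp [ρ])
    refine radSL_mono ?_ (conj_mem_radSL (mul_mem (x1 b)
      (mul_mem (mul_mem (x1 _) (x2 _)) (x1 _))) h1)
    intro k l
    simp only [ρ, Fin.ext_iff]
    split_ifs <;> omega
  · intro q a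
    rw [hV]
    exact slX_mem_radSL (by have := q.2; omega) a
  · rintro ⟨⟨i, j⟩, hij⟩ v hv
    simp only at hij
    have hne : i ≠ j := by rintro rfl; omega
    rw [hV] at hv
    refine ⟨v * slX F j i (-v.1 j i), v.1 j i, by rw [isSt0_slX.neg hne.symm]; group, fun a => ?_⟩
    rw [hV]
    let ρ : Fin n → ℤ := fun k => if k = j then -(i : ℕ) else -(k : ℕ)
    have h1 : v * slX F j i (-v.1 j i) ∈ radSL F ρ := by
      intro k l hkl
      by_cases h : k = j ∧ l = i
      · obtain ⟨rfl, rfl⟩ := h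
        rw [Matrix.sub_apply, mul_slX_apply hne.symm, diag_of_mem_radSL hv,
          one_apply_ne hne.symm]; simp
      · refine mul_mem hv (slX_mem_radSL (by omega) _) k l ?_
        simp only [ρ, Fin.ext_iff] at hkl h ⊢
        split_ifs at hkl <;> omega
    have x1 : ∀ a, slX F i j a ∈ parSL F ρ := slX_mem_parSL hne (by simp [ρ])
    have := conj_mem_radSL (inv_mem (x1 a)) h1
    rw [inv_inv] at this
    refine radSL_mono ?_ this
    intro k l
    simp only [ρ, Fin.ext_iff]
    split_ifs <;> omega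
  · intro H h1 h2
    have h3 : ∀ m : ℕ, ∀ i j : Fin n, (j : ℕ) = i + (m + 1) → ∀ a, slX F i j a ∈ H := by
      intro m
      induction m with
      | zero => exact fun i j h a => h2 ⟨(i, j), h⟩ a
      | succ m ih =>
        intro i j h a
        let k : Fin n := ⟨i + (m + 1), by omega⟩
        have e := isSt0_slX.rel (K := F) (i := i) (j := k) (l := j)
          (by simp [Fin.ext_iff, k]) (by simp [Fin.ext_iff, k]; omega) (by simp [Fin.ext_iff]; omega)
          a 1
        rw [mul_one] at e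
        rw [← e]
        have a1 := ih i k rfl a
        have a2 := h2 ⟨(k, j), by simp [k]; omega⟩ 1
        exact mul_mem (mul_mem (mul_mem a1 a2) (inv_mem a1)) (inv_mem a2)
    rw [eq_top_iff, ← stGG_slX_univ]
    refine stGG_le (fun i _ j _ hij t => ?_)
    rcases lt_or_gt_of_ne hij with h | h
    · exact h3 (j - i - 1) i j (by have := Fin.lt_def.mp h; omega) t
    · exact h1 _ ((hV _).mpr (slX_mem_radSL (by have := Fin.lt_def.mp h; omega) t))

end sln

section locchar

variable {F : Type*} [Field F] {ι : Type*} [Fintype ι] [DecidableEq ι]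

theorem exists_eq_mul_of_left_kernel {N A : Matrix ι ι F}
    (h : ∀ φ : ι → F, φ ᵥ* N = 0 → φ ᵥ* A = 0) : ∃ f, A = N * f := by
  have key : ∀ j, ∃ v, N *ᵥ v = fun i => A i j := by
    intro j
    by_contra hc
    have : (fun i => A i j) ∉ LinearMap.range N.mulVecLin := by
      rintro ⟨v, hv⟩
      exact hc ⟨v, hv⟩
    obtain ⟨l, hl, hl'⟩ := Submodule.exists_dual_map_eq_bot_of_notMem this inferInstance
    have h1 : ∀ v, l v = (fun i => l (Pi.single i 1)) ⬝ᵥ v := by
      intro v
      conv_lhs => rw [← Finset.univ_sum_single v, map_sum]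
      refine Finset.sum_congr rfl (fun i _ => ?_)
      rw [mul_comm, ← smul_eq_mul, ← map_smul, ← Pi.single_smul, smul_eq_mul, mul_one]
    have h2 := h (fun i => l (Pi.single i 1)) (by
      ext k
      have : l (N *ᵥ Pi.single k 1) = 0 := by
        rw [← Submodule.mem_bot F, ← hl']
        exact ⟨_, ⟨_, rfl⟩, rfl⟩
      rw [h1, dotProduct_mulVec] at this
      simpa using this)
    apply hl
    rw [h1]
    exact congrFun h2 j
  choose v hv using key
  refine ⟨of (fun i j => v j i), ?_⟩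
  ext i j
  exact (congrFun (hv j) i).symm

theorem mul_pow_eq_zero {N f : Matrix ι ι F} (h : N * f * N = N * (N * f)) {k : ℕ} (hk : N ^ k = 0) :
    (N * f) ^ k = 0 := by
  have : ∀ k, (N * f) ^ k = N ^ k * f ^ k := by
    intro k
    induction k with
    | zero => simp
    | succ k ih =>
      rw [pow_succ', ih, ← Matrix.mul_assoc, (Commute.pow_right h k).eq, pow_succ N, pow_succ' f]
      simp only [Matrix.mul_assoc]
  rw [this, hk, Matrix.zero_mul]

theorem locChar_SL (p : ℕ) [hp : Fact p.Prime] [CharP F p] :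
    LocChar p (SpecialLinearGroup ι F) := by
  intro u hu
  set N := u.1 - 1 with hN
  have hN0 : N ≠ 0 := by
    intro h
    have : u = 1 := Subtype.ext (sub_eq_zero.mp h)
    rw [this, orderOf_one] at hu
    exact hp.out.ne_one hu.symm
  have hne : Nonempty ι := by
    by_contra h
    rw [not_nonempty_iff] at h
    exact hN0 (Subsingleton.elim _ _)
  have hNp : N ^ p = 0 := by
    rw [hN, sub_pow_char_of_commute _ (Commute.one_right _), ← sl_pow, ← hu, pow_orderOf_eq_one,
      one_pow, sl_one, sub_self]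
  have hC : ∀ x : SpecialLinearGroup ι F,
      x ∈ Subgroup.centralizer ({u} : Set (SpecialLinearGroup ι F)) ↔ x.1 * N = N * x.1 := by
    intro x
    rw [Subgroup.mem_centralizer_singleton_iff, hN, mul_sub, sub_mul, mul_one, one_mul,
      sub_left_inj, ← sl_mul, ← sl_mul]
    exact Subtype.ext_iff
  let S : Subgroup (SpecialLinearGroup ι F) :=
    { carrier := {g | g ∈ Subgroup.centralizer ({u} : Set (SpecialLinearGroup ι F)) ∧
        ∃ f, g.1 = 1 + N * f}
      mul_mem' := by
        rintro a b ⟨ha, f, hf⟩ ⟨hb, g, hg⟩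
        refine ⟨mul_mem ha hb, f + g + f * N * g, ?_⟩
        rw [sl_mul, hf, hg]
        noncomm_ring
      one_mem' := ⟨one_mem _, 0, by simp⟩
      inv_mem' := by
        rintro a ⟨ha, f, hf⟩
        refine ⟨inv_mem ha, -(f * a⁻¹.1), ?_⟩
        have := sl_mul_inv a
        rw [hf] at this
        rw [← this]
        noncomm_ring }
  have hpow : ∀ (x f : Matrix ι ι F), x * N = N * x → x = 1 + N * f → x ^ p = 1 := by
    intro x f h1 h2
    have := pow_eq_one_of_sub_one_pow (p := p) (M := x) (k := 1) (by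
      rw [pow_one, h2, add_sub_cancel_left]
      refine mul_pow_eq_zero ?_ hNp
      rw [h2, add_mul, mul_add, one_mul, mul_one, add_right_inj] at h1
      exact h1)
    rwa [pow_one] at this
  refine ⟨S, ?_, fun g hg => hg.1, ?_, ?_⟩
  · rintro ⟨g, hg, f, hf⟩
    exact ⟨1, Subtype.ext (Subtype.ext (by
      rw [pow_one]; exact hpow _ f ((hC g).mp hg) hf))⟩
  · rintro x hx s ⟨hs, f, hf⟩
    refine ⟨mul_mem (mul_mem (inv_mem hx) hs) hx, x⁻¹.1 * f * x.1, ?_⟩
    rw [sl_mul, sl_mul, hf, mul_add, add_mul, mul_one, sl_inv_mul, ← Matrix.mul_assoc,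
      (hC _).mp (inv_mem hx)]
    simp only [Matrix.mul_assoc]
  · intro x hx hxS
    obtain ⟨w', hw1, hw2⟩ : ∃ w' : ι → F, N *ᵥ w' ≠ 0 ∧ N *ᵥ (N *ᵥ w') = 0 := by
      classical
      have hex : ∃ k, N ^ (k + 1) = 0 := ⟨p - 1, by rwa [Nat.sub_add_cancel hp.out.one_le]⟩
      have h1 := Nat.find_spec hex
      have h2 : Nat.find hex ≠ 0 := fun h => hN0 (by simpa [h] using h1)
      obtain ⟨k, hk⟩ := Nat.exists_eq_succ_of_ne_zero h2
      have h3 : N ^ (k + 1) ≠ 0 := Nat.find_min hex (by omega)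
      obtain ⟨v, hv⟩ : ∃ v, N ^ (k + 1) *ᵥ v ≠ 0 := by
        by_contra hc
        push Not at hc
        exact h3 (ext_of_mulVec_single (fun i => by rw [hc, zero_mulVec]))
      refine ⟨N ^ k *ᵥ v, by rwa [mulVec_mulVec, ← pow_succ'], ?_⟩
      rw [hk] at h1
      simp only [mulVec_mulVec, ← pow_succ', h1, zero_mulVec]
    have hR : ∀ φ : ι → F, φ ᵥ* N = 0 →
        vecMulVec (x.1 *ᵥ (N *ᵥ w')) φ = vecMulVec (N *ᵥ w') (φ ᵥ* x.1) := by
      intro φ hφ
      let s : SpecialLinearGroup ι F := ⟨1 + vecMulVec (N *ᵥ w') φ, by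
        rw [vecMulVec_eq Unit, det_one_add_replicateCol_mul_replicateRow, dotProduct_mulVec, hφ]
        simp⟩
      have hs : s ∈ S := by
        refine ⟨(hC s).mpr ?_, vecMulVec w' φ, by rw [mul_vecMulVec]⟩
        simp only [s, add_mul, mul_add, one_mul, mul_one, vecMulVec_mul, hφ, mul_vecMulVec, hw2]
        simp
      have : s.1 * x.1 = x.1 * s.1 :=
        congrArg Subtype.val (Subgroup.mem_centralizer_iff.mp hxS s hs)
      simp only [s, add_mul, mul_add, one_mul, mul_one, vecMulVec_mul, mul_vecMulVec,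
        add_right_inj] at this
      exact this.symm
    obtain ⟨φ₀, hφ0, hφ1⟩ : ∃ φ₀ : ι → F, φ₀ ≠ 0 ∧ φ₀ ᵥ* N = 0 := by
      rw [exists_vecMul_eq_zero_iff]
      have := congrArg det hNp
      rw [det_pow, det_zero] at this
      exact pow_eq_zero_iff hp.out.ne_zero |>.mp this
    obtain ⟨j, hj⟩ := Function.ne_iff.mp hφ0
    obtain ⟨i, hi⟩ := Function.ne_iff.mp hw1
    simp only [Pi.zero_apply] at hi hj
    set c := (φ₀ ᵥ* x.1) j / φ₀ j with hc
    have h1 : x.1 *ᵥ (N *ᵥ w') = c • (N *ᵥ w') := by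
      ext k
      have := congrFun (congrFun (hR φ₀ hφ1) k) j
      simp only [vecMulVec_apply] at this
      rw [Pi.smul_apply, smul_eq_mul, hc]
      field_simp
      linear_combination this
    have hc0 : c ≠ 0 := by
      intro h
      apply hw1
      rw [← one_mulVec (N *ᵥ w'), ← sl_inv_mul x, ← mulVec_mulVec, h1, h]
      simp
    obtain ⟨f, hf⟩ := exists_eq_mul_of_left_kernel (N := N) (A := x.1 - c • 1) (by
      intro φ hφ
      ext k
      have := congrFun (congrFun (hR φ hφ) i) k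
      simp only [vecMulVec_apply, h1, Pi.smul_apply, smul_eq_mul] at this
      simp only [vecMul_sub, vecMul_smul, vecMul_one, Pi.sub_apply, Pi.smul_apply, smul_eq_mul,
        Pi.zero_apply]
      apply mul_left_cancel₀ hi
      linear_combination -this)
    have h2 : c⁻¹ • x.1 = 1 + N * (c⁻¹ • f) := by
      rw [Matrix.mul_smul, ← hf, smul_sub, smul_smul, inv_mul_cancel₀ hc0]
      simp
    have h3 : c⁻¹ • x.1 * N = N * c⁻¹ • x.1 := by
      rw [Matrix.smul_mul, Matrix.mul_smul, (hC x).mp hx]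
    have h4 : (c⁻¹ • x.1).det = 1 := by
      have := congrArg det (hpow _ _ h3 h2)
      rw [det_pow, det_one] at this
      apply frobenius_inj F p
      rw [frobenius_def, this, map_one]
    have h5 : (c • (1 : Matrix ι ι F)).det = 1 := by
      rw [det_smul, x.2, mul_one, inv_pow, inv_eq_one] at h4
      rw [det_smul, h4, det_one, mul_one]
    refine ⟨⟨c • 1, h5⟩, ?_, ⟨c⁻¹ • x.1, h4⟩, ⟨(hC _).mpr h3, _, h2⟩, Subtype.ext ?_⟩
    · refine Subgroup.mem_center_iff.mpr (fun g => Subtype.ext ?_)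
      change g.1 * (c • 1) = (c • 1) * g.1
      simp
    · change x.1 = (c • 1) * (c⁻¹ • x.1)
      simp [smul_smul, hc0]

end locchar

end Cfsg.Agent.H1
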