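import Cfsg.Agent.H1.SUGen

/-!
# Special unitary groups: lower bounds for the degrees of complex representations
-/

set_option autoImplicit false
set_option linter.unusedSectionVars false

namespace Cfsg.Agent.H1

open Module H5

theorem card_le_finrank_sub {K : Type*} [Field K] {V : Type*} [AddCommGroup V] [Module K V]
    [FiniteDimensional K V] {ι Φ : Type*} (a : ι → Module.End K V) (l : Φ → ι → K) (s : Finset Φ)
    (hl : Set.InjOn l s) (x : Φ → V) (hx : ∀ φ, x φ ∈ Wt a (l φ)) (hx0 : ∀ φ, x φ ≠ 0)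
    (S : Submodule K V) (hS : ∀ φ, x φ ∈ S) : s.card ≤ finrank K S := by
  classical
  have := sum_finrank_Wt_le' a l (fun φ => K ∙ x φ)
    (fun φ => (Submodule.span_singleton_le_iff_mem _ _).mpr (hx φ)) s hl
  simp only [finrank_span_singleton (hx0 _), Finset.sum_const, smul_eq_mul, mul_one] at this
  rw [this]
  exact Submodule.finrank_mono (Finset.sup_le fun φ _ =>
    (Submodule.span_singleton_le_iff_mem _ _).mpr (hS φ))

variable {F : Type*} [Field F] [Fintype F] {σ : F →+* F} {q : ℕ} (hU : UF σ q)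

section Orbit

variable {L : Type*} [AddCommGroup L] [Module F L] [FiniteDimensional F L]

include hU in
theorem card_norm_le (c : F) : Nat.card {x : F // x * σ x = c} ≤ q + 1 := by
  by_cases h0 : c = 0
  · subst h0
    rw [UF.card_norm_zero]; omega
  by_cases hc : σ c = c
  · exact (hU.card_norm_eq hc h0).le
  · have : IsEmpty {x : F // x * σ x = c} := ⟨fun x => hc (by rw [← x.2, hU.norm_fixed])⟩
    simp

include hU in
theorem sesq_pres (h : Sesq σ L) {δ : L ≃ₗ[F] L} (hδ : ∀ x, h (δ x) (δ x) = h x x) (x y : L) :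
    h (δ x) (δ y) = h x y := by
  obtain ⟨θ, hθ⟩ := hU.exists_ne
  have h1 := hδ (x + y)
  have h2 := hδ (θ • x + y)
  simp only [map_add, map_smul, LinearMap.map_smulₛₗ, LinearMap.add_apply, LinearMap.smul_apply,
    hδ, smul_eq_mul] at h1 h2
  refine mul_left_cancel₀ (sub_ne_zero.mpr hθ) ?_
  linear_combination σ θ * h1 - h2

include hU in
theorem orbit_bound_herm (h : Sesq σ L) (hh : ∀ x y, h y x = -σ (h x y)) {u : L} (hu : h u u ≠ 0)
    (Ω : Finset (L → F)) (hΩ : ∀ (u u' : L) (l l' : Dual F L), l u = 1 → l' u' = 1 →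
      ∃ γ : L ≃ₗ[F] L, γ u = u' ∧ (∀ x, l' (γ x) = l x) ∧ (fun x => h (γ.symm x) (γ.symm x)) ∈ Ω) :
    Fintype.card F ^ finrank F L - 1 ≤ (q + 1) * Ω.card := by
  have : Finite L := Module.finite_of_finite F
  obtain ⟨l, hl⟩ : ∃ l : Dual F L, ∀ x, l x = (h u u)⁻¹ * h x u := ⟨(h u u)⁻¹ • h.flip u, fun x => rfl⟩
  have hlu : l u = 1 := by rw [hl, inv_mul_cancel₀ hu]
  have hl0 : l ≠ 0 := by intro e; simp [e] at hlu
  have hf : IsFrame (fun _ : Fin 1 => u) (fun _ => l) := fun i j => by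
    simp [hlu, Subsingleton.elim i j]
  have := frame_bound (fun x => h x x) hf Ω (fun u' l' h' => by
      obtain ⟨γ, h1, h2, h3⟩ := hΩ u (u' 0) l (l' 0) hlu (by simpa using h' 0 0)
      exact ⟨γ, fun i => by rw [Subsingleton.elim i 0, h1],
        fun i => by rw [Subsingleton.elim i 0]; exact h2, h3⟩)
    (fun δ h1 h2 _ x => by
      rw [hl, hl, ← sesq_pres hU h h1 x u, h2 0])
    (N := (q + 1) * Fintype.card F ^ (finrank F L - 1)) (fun u' => h (u' 0) (u' 0) = h u u)
    (fun δ h => h u) (by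
      rw [← card_dual_fiber hl0 0]
      refine card_le_mul_of_fiber (fun x => ⟨x.1 0 - l (x.1 0) • u, by simp [hlu]⟩) fun y => ?_
      refine le_trans (Nat.card_le_card_of_injective (fun x => ⟨l (x.1.1 0), ?_⟩) ?_)
        (card_norm_le hU ((h u u - h y.1 y.1) / h u u))
      swap
      · have e : x.1.1 0 = l (x.1.1 0) • u + y.1 := by
          rw [← congrArg Subtype.val x.2]; simp
        have e2 := x.1.2
        have e3 : h y.1 u = 0 := by
          have := y.2
          rw [hl] at this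
          exact (mul_eq_zero.mp this).resolve_left (inv_ne_zero hu)
        have e4 : h u y.1 = 0 := by rw [hh, e3]; simp
        rw [e] at e2
        simp only [map_add, map_smul, LinearMap.map_smulₛₗ, LinearMap.add_apply,
          LinearMap.smul_apply, smul_eq_mul, e3, e4] at e2
        rw [eq_div_iff hu]
        linear_combination e2
      · rintro ⟨⟨x, hx⟩, e1⟩ ⟨⟨x', hx'⟩, e2⟩ e
        simp only [Subtype.mk.injEq] at e
        have := congrArg Subtype.val (e1.trans e2.symm)
        simp only [e, sub_left_inj] at this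
        exact Subtype.ext (Subtype.ext (funext fun i => by
          rw [Subsingleton.elim i 0]; exact this)))
  simp only [Finset.univ_unique, Fin.default_eq_zero, Finset.prod_singleton, Fin.val_zero,
    pow_zero, pow_one] at this
  have hpos : 0 < Fintype.card F ^ (finrank F L - 1) := pow_pos Fintype.card_pos _
  refine Nat.le_of_mul_le_mul_right (this.trans (le_of_eq ?_)) hpos
  ring

end Orbit

variable {E : Type*} [AddCommGroup E] [Module F E] [FiniteDimensional F E]
variable {B : Sesq σ E} (hB : IsEps B 1)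

include hB hU in
theorem exists_max_iso (U : Submodule F E) (hU' : ∀ x ∈ U, ∀ y ∈ U, B x y = 0) :
    ∃ L, U ≤ L ∧ (∀ x ∈ L, ∀ y ∈ L, B x y = 0) ∧ finrank F E ≤ 2 * finrank F L + 1 ∧
      2 * finrank F L ≤ finrank F E := by
  suffices ∀ k : ℕ, ∀ U : Submodule F E, finrank F E ≤ finrank F U + k →
      (∀ x ∈ U, ∀ y ∈ U, B x y = 0) → ∃ L, U ≤ L ∧ (∀ x ∈ L, ∀ y ∈ L, B x y = 0) ∧
        finrank F E ≤ 2 * finrank F L + 1 ∧ 2 * finrank F L ≤ finrank F E from
    this (finrank F E) U (by omega) hU'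
  intro k
  induction k with
  | zero =>
    intro U h hU'
    have h1 := hB.finrank_perp U
    have h2 : finrank F U ≤ finrank F (perp B U) := Submodule.finrank_mono fun x hx => hU' x hx
    exact ⟨U, le_rfl, hU', by omega, by omega⟩
  | succ k ih =>
    intro U h hU'
    have h1 := hB.finrank_perp U
    have h2 : finrank F U ≤ finrank F (perp B U) := Submodule.finrank_mono fun x hx => hU' x hx
    by_cases h3 : finrank F U + 2 ≤ finrank F (perp B U)
    · obtain ⟨C, hC⟩ := Submodule.exists_isCompl U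
      have h4 := Submodule.finrank_add_eq_of_isCompl hC
      have h5 := Submodule.finrank_sup_add_finrank_inf_eq (perp B U) C
      have h6 := Submodule.finrank_le (perp B U ⊔ C)
      obtain ⟨z, hz, hz0, hzz⟩ := exists_iso_vec hB hU (perp B U ⊓ C) (by omega)
      have hz' : z ∉ U := fun hh => hz0 (Submodule.disjoint_def.mp hC.disjoint z hh hz.2)
      obtain ⟨L, h7, h8⟩ := ih (U ⊔ F ∙ z)
        (by rw [Submodule.finrank_sup_span_singleton hz']; omega) (by
          intro x hx y hy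
          obtain ⟨w, hw, u, hu, rfl⟩ := Submodule.mem_sup.mp hx
          obtain ⟨c, rfl⟩ := Submodule.mem_span_singleton.mp hu
          obtain ⟨w', hw', u', hu', rfl⟩ := Submodule.mem_sup.mp hy
          obtain ⟨c', rfl⟩ := Submodule.mem_span_singleton.mp hu'
          simp [hU' w hw w' hw', hzz, mem_perp.mp hz.1 w' hw', hB.refl (mem_perp.mp hz.1 w hw)])
      exact ⟨L, le_sup_left.trans h7, h8⟩
    · exact ⟨U, le_rfl, hU', by omega, by omega⟩

include hB hU in
theorem exists_lift_su (h3 : 3 ≤ finrank F E) {L : Submodule F E}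
    (hL : ∀ x ∈ L, ∀ y ∈ L, B x y = 0) (u u' : L) (l l' : Dual F L) (h : l u = 1) (h' : l' u' = 1) :
    ∃ (γ : L ≃ₗ[F] L) (g : SUb B), γ u = u' ∧ (∀ x, l' (γ x) = l x) ∧
      ∀ x : L, suAct B g x = γ x := by
  have hu0 : u ≠ 0 := by rintro rfl; simp at h
  have hu0' : u' ≠ 0 := by rintro rfl; simp at h'
  by_cases h2 : 2 ≤ finrank F L
  · obtain ⟨γ, h1, h4⟩ := exists_move_frame_SL h2 h h'
    let S : Subgroup (SpecialLinearGroup F L) :=
      { carrier := {γ | ∃ g : SUb B, ∀ x : L, suAct B g x = slAct γ x}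
        mul_mem' := by
          rintro a b ⟨g, hg⟩ ⟨g', hg'⟩
          exact ⟨g * g', fun x => by rw [act_mul_apply, hg', hg, act_mul_apply]⟩
        one_mem' := ⟨1, by simp⟩
        inv_mem' := by
          rintro a ⟨g, hg⟩
          refine ⟨g⁻¹, fun x => ?_⟩
          conv_lhs => rw [← act_apply_inv slAct a x, ← hg, act_inv_apply] }
    have := eq_top_of_tv S fun a f hf => by
      obtain ⟨f', hf'⟩ := LinearMap.exists_extend f
      obtain ⟨b, hb⟩ := hB.exists_rep
        (((σ.toSemilinearMap).comp f' : E →ₛₗ[σ] F))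
      have hb' : ∀ x : L, B x b = f x := fun x => by
        rw [hB.herm, hb, ← hf']
        exact hB.invol _
      obtain ⟨μ, hμ⟩ := hU.trace_surj (hB.herm_self (-b))
      have ha : Adm B (-b) a μ := ⟨hL _ a.2 _ a.2, by
        simp [hB.refl ((hb' a).trans hf)], by rw [hμ, add_comm]⟩
      refine ⟨ei hB (-b) a μ, fun x => ?_⟩
      rw [ei_apply hB ha, tv_apply hf, hL _ x.2 _ a.2]
      simp [hb']
    obtain ⟨g, hg⟩ : γ ∈ S := this ▸ Subgroup.mem_top γ
    exact ⟨γ.1, g, h1, fun x => by rw [← h4]; exact slDual_slAct γ l x, hg⟩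
  · obtain ⟨g, -, hg⟩ := move_iso hB hU ⊤ ⊥ (fun _ _ _ _ _ _ => Subgroup.mem_top _) (by simp)
      (by rw [finrank_bot]; omega) (e := u.1) (e' := u'.1)
      (fun _ h => by simp [(Submodule.mem_bot F).mp h])
      (fun _ h => by simp [(Submodule.mem_bot F).mp h]) (by simpa using hu0) (by simpa using hu0')
      (hL _ u.2 _ u.2) (hL _ u'.2 _ u'.2)
    have hsp : ∀ x : L, ∃ c : F, c • u = x := by
      have : F ∙ u = ⊤ := Submodule.eq_top_of_finrank_eq (le_antisymm (Submodule.finrank_le _)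
        (by rw [finrank_span_singleton hu0]; omega))
      exact fun x => Submodule.mem_span_singleton.mp (this ▸ Submodule.mem_top)
    obtain ⟨s, rfl⟩ := hsp u'
    have hs : s ≠ 0 := by rintro rfl; simp at hu0'
    refine ⟨LinearEquiv.smulOfNeZero F L s hs, g, rfl, fun x => ?_, fun x => ?_⟩
    · obtain ⟨c, rfl⟩ := hsp x
      rw [map_smul, map_smul, map_smul, h]
      exact congrArg _ h'
    · obtain ⟨c, rfl⟩ := hsp x
      rw [map_smul, Submodule.coe_smul, map_smul, hg]
      rfl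

variable {V : Type*} [AddCommGroup V] [Module ℂ V] [FiniteDimensional ℂ V]

/-- weight space of the centre of the radical of a maximal isotropic stabiliser -/
noncomputable def Wu (ρ : SUb B →* Module.End ℂ V) (χ : AddChar F ℂ) (L : Submodule F E)
    (Q : L → F) : Submodule ℂ V :=
  Wt (fun p : L × {c : F // σ c = -c} => ρ (ut hB p.1 p.2)) (fun p => χ (p.2 * Q p.1))

theorem mem_Wu {ρ : SUb B →* Module.End ℂ V} {χ : AddChar F ℂ} {L : Submodule F E} {Q : L → F}
    {z : V} : z ∈ Wu hB ρ χ L Q ↔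
      ∀ (v : L) (c : F), σ c = -c → ρ (ut hB v c) z = χ (c * Q v) • z :=
  ⟨fun h v c hc => h (v, ⟨c, hc⟩), fun h p => h p.1 p.2.1 p.2.2⟩

include hU in
theorem le_of_Wu (ρ : SUb B →* Module.End ℂ V) {χ : AddChar F ℂ} (hχ : χ 1 ≠ 1)
    {L : Submodule F E} (hL : ∀ x ∈ L, ∀ y ∈ L, B x y = 0) (P : Submodule ℂ V)
    (h : ∀ H : Sesq σ L, (∀ x y, H y x = -σ (H x y)) →
      ∀ z ∈ Wu hB ρ χ L (fun x => H x x), z ∈ P) (z : V) : z ∈ P := by
  let ψ := χ.compAddMonoidHom (AddMonoidHom.id F + σ.toAddMonoidHom)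
  have hψ' : ∀ x, ψ x = χ (x + σ x) := fun x => rfl
  have hψ : ψ ≠ 1 := by
    intro e
    obtain ⟨θ, hθ⟩ := hU.exists_trace_one
    have := DFunLike.congr_fun e θ
    rw [hψ', add_comm, hθ] at this
    exact hχ this
  refine le_of_unip (suAct B) (suAct_injective B)
    (fun p : L × {c : F // σ c = -c} => ut hB p.1 p.2)
    (fun p => p.2.1 • (B.flip p.1).smulRight (p.1 : E)) (fun p => ?_) (fun p p' => ?_)
    (fun p => ⟨(p.1, ⟨-p.2.1, by simp [p.2.2]⟩), by simp⟩) ρ hψ ⊤ P
    (fun _ _ _ => Submodule.mem_top) (fun φ z _ hw => ?_) Submodule.mem_top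
  · ext x
    simp [ut_apply hB (hL _ p.1.2 _ p.1.2) p.2.2, mul_smul]
  · ext x
    simp [hL _ p'.1.2 _ p.1.2]
  · obtain ⟨H0, hH0⟩ : ∃ H0 : L → L → F, ∀ v w, H0 v w = φ ((B.flip w).smulRight (v : E)) :=
      ⟨_, fun _ _ => rfl⟩
    have a1 : ∀ a b w, H0 (a + b) w = H0 a w + H0 b w := fun a b w => by
      rw [hH0, hH0, hH0, ← map_add]; congr 1; ext; simp
    have a2 : ∀ (c : F) a w, H0 (c • a) w = c * H0 a w := fun c a w => by
      rw [hH0, hH0, ← smul_eq_mul, ← map_smul]; congr 1; ext; simp [smul_smul, mul_comm]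
    have a3 : ∀ v a b, H0 v (a + b) = H0 v a + H0 v b := fun v a b => by
      rw [hH0, hH0, hH0, ← map_add]; congr 1; ext; simp [add_smul]
    have a4 : ∀ (c : F) v a, H0 v (c • a) = σ c * H0 v a := fun c v a => by
      rw [hH0, hH0, ← smul_eq_mul, ← map_smul]; congr 1; ext; simp [smul_smul]
    refine h (LinearMap.mk₂'ₛₗ (RingHom.id F) σ (fun v w : L => H0 v w - σ (H0 w v))
      (fun a b w => by simp only [a1, a3, map_add]; ring)
      (fun c a w => by simp only [a2, a4, map_mul, hB.invol, smul_eq_mul, RingHom.id_apply]; ring)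
      (fun v a b => by simp only [a1, a3, map_add]; ring)
      (fun c v a => by simp only [a2, a4, map_mul, smul_eq_mul]; ring))
      (fun x y => by simp [hB.invol]) z ?_
    rw [mem_Wu]
    intro v c hc
    have := hw (v, ⟨c, hc⟩)
    simp only [map_smul, smul_eq_mul, hψ', map_mul, hc, ← hH0] at this
    rw [this]
    congr 2
    simp only [LinearMap.mk₂'ₛₗ_apply]
    ring

theorem Wu_map {ρ : SUb B →* Module.End ℂ V} {χ : AddChar F ℂ} {L : Submodule F E}
    (hL : ∀ x ∈ L, ∀ y ∈ L, B x y = 0) {Q : L → F}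
    {z : V} (hz : z ∈ Wu hB ρ χ L Q) {g : SUb B} {γ : L ≃ₗ[F] L}
    (hg : ∀ x : L, suAct B g x = γ x) : ρ g z ∈ Wu hB ρ χ L (fun x => Q (γ.symm x)) := by
  rw [mem_Wu] at hz ⊢
  intro v c hc
  obtain ⟨v, rfl⟩ := γ.surjective v
  rw [← hg, ← act_mul_apply, ← ut_conj hB g (hL _ v.2 _ v.2) hc, act_mul_apply, hz _ _ hc, map_smul,
    γ.symm_apply_apply]

include hU in
theorem le_finrank_Wu (ρ : SUb B →* Module.End ℂ V) {χ : AddChar F ℂ} (hχ : χ 1 ≠ 1)
    {L : Submodule F E} (hL : ∀ x ∈ L, ∀ y ∈ L, B x y = 0) {x0 : E} (hx0 : x0 ∈ perp B L)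
    (hxx : B x0 x0 ≠ 0) {Q : L → F} {u : L} (hu : Q u ≠ 0) (hu' : σ (Q u) = -Q u)
    (hQ : Wu hB ρ χ L Q ≠ ⊥) : q ≤ finrank ℂ (Wu hB ρ χ L Q) := by
  classical
  have hex : ∀ a : F, ∃ μ, Adm B (a • x0) u μ := fun a => by
    obtain ⟨b, hb⟩ := hU.trace_surj (hB.herm_self (a • x0))
    exact ⟨b, hL _ u.2 _ u.2, by simp [hx0 _ u.2], by rw [hb, add_comm]⟩
  choose μ hμ using hex
  let Y : F → Module.End ℂ V := fun a => ρ (ei hB (a • x0) u (μ a))
  have hst : ∀ a, ∀ z ∈ Wu hB ρ χ L Q, Y a z ∈ Wu hB ρ χ L Q := fun a z hz =>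
    Wu_map hB hL hz (γ := LinearEquiv.refl F L) fun x => by
      rw [ei_apply hB (hμ a)]
      simp [hL _ x.2 _ u.2, hB.refl (hx0 _ x.2)]
  have hcomm : ∀ a b, ∀ z ∈ Wu hB ρ χ L Q,
      Y a (Y b z) = χ ((a * σ b - b * σ a) * B x0 x0 * Q u) • Y b (Y a z) := by
    intro a b z hz
    have hc : σ ((a * σ b - b * σ a) * B x0 x0) = -((a * σ b - b * σ a) * B x0 x0) := by
      simp only [map_mul, map_sub, hB.invol, hB.herm_self]; ring
    have e : ei hB (a • x0) u (μ a) * ei hB (b • x0) u (μ b) =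
        ei hB (b • x0) u (μ b) * ei hB (a • x0) u (μ a) *
          ut hB u ((a * σ b - b * σ a) * B x0 x0) := by
      rw [ei_mul hB (hμ a) (hμ b), ei_mul hB (hμ b) (hμ a), ut,
        ei_mul hB ((hμ b).add hB (hμ a)) (adm_zero (hL _ u.2 _ u.2) hc)]
      congr 1
      · abel
      · simp only [map_smul, LinearMap.map_smulₛₗ, LinearMap.smul_apply, smul_eq_mul, map_zero,
          LinearMap.zero_apply]
        ring
    simp only [Y]
    rw [← act_mul_apply, e, act_mul_apply, act_mul_apply, (mem_Wu hB).mp hz u _ hc, map_smul,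
      map_smul]
  obtain ⟨v, hv, hv0, l, hl⟩ := exists_common_eigenvector (fun s : {s : F // σ s = s} => Y s)
    (Wu hB ρ χ L Q) hQ (fun s => hst s) (fun s t z hz => by
      rw [hcomm _ _ z hz, s.2, t.2, mul_comm s.1 t.1]; simp)
  obtain ⟨θ, hθ⟩ := hU.exists_ne
  obtain ⟨κ, hκ⟩ : ∃ κ, κ = (σ θ - θ) * B x0 x0 * Q u := ⟨_, rfl⟩
  have hκ0 : κ ≠ 0 := hκ ▸ mul_ne_zero (mul_ne_zero (sub_ne_zero.mpr hθ) hxx) hu
  have hκ1 : σ κ = κ := by
    simp only [hκ, map_mul, map_sub, hB.invol, hB.herm_self, hu']; ring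
  have hl0 : ∀ s, l s ≠ 0 := fun s e => hv0 (by
    have := hl s
    rw [e, zero_smul] at this
    exact rep_injective ρ (ei hB (s.1 • x0) u (μ s.1)) (this.trans (map_zero _).symm))
  have := card_le_finrank_sub (fun s : {s : F // σ s = s} => Y s)
    (fun (r : {s : F // σ s = s}) s => χ (s * r * κ) * l s) Finset.univ (fun r _ r' _ e => by
      by_contra hne
      have h1 : (r.1 - r'.1) * κ ≠ 0 := mul_ne_zero (sub_ne_zero.mpr fun h => hne (Subtype.ext h)) hκ0
      have h2 := mul_right_cancel₀ (hl0 _) (congrFun e ⟨((r.1 - r'.1) * κ)⁻¹, by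
        rw [map_inv₀, map_mul, map_sub, r.2, r'.2, hκ1]⟩)
      simp only at h2
      apply hχ
      have h3 := inv_mul_cancel₀ h1
      generalize ((r.1 - r'.1) * κ)⁻¹ = k at h2 h3
      have h4 : (1 : F) = k * r.1 * κ + -(k * r'.1 * κ) := by rw [← h3]; ring
      rw [h4, AddChar.map_add_eq_mul, h2, ← AddChar.map_add_eq_mul]
      simp)
    (fun r => Y (r * θ) v) (fun r s => by
      simp only
      rw [hcomm _ _ v hv, hl, map_smul, smul_smul, map_mul σ, s.2, r.2, hκ]
      congr 3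
      ring)
    (fun r e => hv0 (rep_injective ρ (ei hB ((r.1 * θ) • x0) u (μ (r.1 * θ)))
      (e.trans (map_zero _).symm))) _ (fun r => hst _ v hv)
  rwa [Finset.card_univ, ← Nat.card_eq_fintype_card, hU.card_fixed] at this

include hU in
theorem su_bound (h3 : 3 ≤ finrank F E) (ρ : SUb B →* Module.End ℂ V) {e : E} {c : F}
    (he : B e e = 0) (hc : σ c = -c) (h : ρ (ut hB e c) ≠ 1) :
    q ^ (finrank F E % 2) * (q ^ (2 * (finrank F E / 2)) - 1) ≤ (q + 1) * finrank ℂ V := by
  classical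
  obtain ⟨ψ, hψ⟩ := exists_psi_complex F
  obtain ⟨a, ha⟩ := AddChar.ne_one_iff.mp hψ
  let χ := ψ.mulShift a
  have hχ : χ 1 ≠ 1 := by simpa [χ] using ha
  obtain ⟨L, h1, hL, h4, h5⟩ := exists_max_iso hU hB (F ∙ e) (by
    intro x hx y hy
    obtain ⟨a, rfl⟩ := Submodule.mem_span_singleton.mp hx
    obtain ⟨b, rfl⟩ := Submodule.mem_span_singleton.mp hy
    simp [he])
  have heL : e ∈ L := h1 (Submodule.mem_span_singleton_self e)
  have hm : finrank F L = finrank F E / 2 := by omega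
  have : Finite L := Module.finite_of_finite F
  have := Fintype.ofFinite L
  let Ω : Finset (L → F) := Finset.univ.filter fun Q =>
    (∀ v, σ (Q v) = -Q v) ∧ (∃ u, Q u ≠ 0) ∧ Wu hB ρ χ L Q ≠ ⊥
  have hΩ : Ω.card * q ^ (finrank F E % 2) ≤ finrank ℂ V := by
    refine card_mul_le_finrank (fun p : L × {c : F // σ c = -c} => ρ (ut hB p.1 p.2))
      (fun (Q : L → F) p => χ (p.2 * Q p.1)) Ω (fun Q hQ Q' hQ' e => funext fun v => ?_)
      fun Q hQ => ?_
    · have k1 := (Finset.mem_filter.mp hQ).2.1 v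
      have k2 := (Finset.mem_filter.mp hQ').2.1 v
      by_contra hne
      have h1 : Q v - Q' v ≠ 0 := sub_ne_zero.mpr hne
      have h2 := congrFun e (v, ⟨(Q v - Q' v)⁻¹, by
        rw [map_inv₀, map_sub, k1, k2, ← inv_neg]; congr 1; ring⟩)
      simp only at h2
      apply hχ
      rw [← inv_mul_cancel₀ h1, mul_sub, sub_eq_add_neg, AddChar.map_add_eq_mul, h2,
        ← AddChar.map_add_eq_mul]
      simp
    · obtain ⟨k1, ⟨u, k2⟩, k3⟩ := (Finset.mem_filter.mp hQ).2
      rcases Nat.mod_two_eq_zero_or_one (finrank F E) with h0 | h0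
      · rw [h0, pow_zero, Nat.one_le_iff_ne_zero]
        exact fun e => k3 (Submodule.finrank_eq_zero.mp e)
      · rw [h0, pow_one]
        obtain ⟨x0, hx0, hxx⟩ := hU.exists_aniso (B := B) (W := perp B L) (by
          rw [hB.perp_perp]
          intro hle
          have := Submodule.finrank_mono hle
          have := hB.finrank_perp L
          omega)
        exact le_finrank_Wu hU hB ρ hχ hL hx0 hxx k2 (k1 u) k3
  by_contra hcon
  apply h
  ext z
  have := le_of_Wu hU hB ρ hχ hL (LinearMap.ker (ρ (ut hB e c) - 1)) (fun H hH z hz => by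
    by_cases h0 : H ⟨e, heL⟩ ⟨e, heL⟩ = 0
    · have := (mem_Wu hB).mp hz ⟨e, heL⟩ c hc
      simp only [h0, mul_zero, AddChar.map_zero_eq_one, one_smul] at this
      simp [this]
    · by_contra hz0
      have hz1 : z ≠ 0 := by rintro rfl; simp at hz0
      apply hcon
      have := orbit_bound_herm hU H hH h0 Ω fun u u' l l' hl hl' => by
        obtain ⟨γ, g, k1, k2, k3⟩ := exists_lift_su hU hB h3 hL u u' l l' hl hl'
        refine ⟨γ, k1, k2, ?_⟩
        simp only [Ω, Finset.mem_filter, Finset.mem_univ, true_and]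
        refine ⟨fun v => by linear_combination hH (γ.symm v) (γ.symm v), ⟨γ ⟨e, heL⟩, by simpa using h0⟩,
          (Submodule.ne_bot_iff _).mpr ⟨_, Wu_map hB hL hz k3, fun e => hz1 (rep_injective ρ g
            (by rw [e, map_zero]))⟩⟩
      rw [hU.card, ← pow_mul, hm] at this
      calc _ ≤ q ^ (finrank F E % 2) * ((q + 1) * Ω.card) := Nat.mul_le_mul_left _ this
        _ = (q + 1) * (Ω.card * q ^ (finrank F E % 2)) := by ring
        _ ≤ _ := Nat.mul_le_mul_left _ hΩ) z
  simpa [sub_eq_zero] using this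

include hB hU in
theorem su_min_degree (h3 : 3 ≤ finrank F E) (h : 4 ≤ finrank F E ∨ q ≠ 2)
    (ρ : Representation ℂ (SUb B) V) (hρ : ρ.IsIrreducible) (hV : 2 ≤ finrank ℂ V) :
    q ^ (finrank F E % 2) * (q ^ (2 * (finrank F E / 2)) - 1) ≤ (q + 1) * finrank ℂ V := by
  by_cases h1 : ∀ e c, B e e = 0 → σ c = -c → ρ (ut hB e c) = 1
  · have := su_eq_top_of_normal hB hU (h.imp id fun hq => by
      classical
      by_contra hc
      push Not at hc
      have h2 := hU.card_fixed
      have h4 := hU.two_le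
      have := Nat.card_le_card_of_injective (fun x : {x : F // σ x = x} => decide (x.1 = 0))
        (fun x y e => by
          simp only [decide_eq_decide] at e
          by_cases hx : x.1 = 0
          · exact Subtype.ext (hx.trans (e.mp hx).symm)
          · exact Subtype.ext ((hc _ x.2 hx).trans (hc _ y.2 fun h => hx (e.mpr h)).symm))
      simp only [Nat.card_eq_fintype_card, Fintype.card_bool] at this h2
      omega) (MonoidHom.ker ρ) h1
    have := finrank_le_one_of_trivial ρ hρ fun g =>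
      (show g ∈ MonoidHom.ker ρ from this ▸ Subgroup.mem_top g)
    omega
  · push Not at h1
    obtain ⟨e, c, he, hc, h2⟩ := h1
    exact su_bound hU hB h3 ρ he hc h2

include hU in
theorem exists_su_hom (n : ℕ) : ∃ e : SUb (stdU (Fin n) σ) →* Cfsg.SU n F q,
    Function.Surjective e := by
  classical
  let f : Cfsg.SU n F q →* SUb (stdU (Fin n) σ) :=
    ((hU.guEquiv n).toMonoidHom.comp (suToGU n F q)).codRestrict _ fun k => by
      change LinearMap.det ((hU.guEquiv n (suToGU n F q k)).1 :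
        (Fin n → F) →ₗ[F] (Fin n → F)) = 1
      rw [hU.guEquiv_coe, LinearMap.det_toLin']
      exact k.1.2
  have hf : Function.Bijective f := by
    constructor
    · intro a b e
      exact suToGU_injective n ((hU.guEquiv n).injective (congrArg Subtype.val e))
    · intro g
      obtain ⟨k, hk⟩ := exists_su_of_det ((hU.guEquiv n).symm g.1) (by
        rw [← LinearMap.det_toLin', ← hU.guEquiv_coe, MulEquiv.apply_symm_apply]
        exact g.2)
      exact ⟨k, Subtype.ext (by simp [f, hk])⟩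
  exact ⟨(MulEquiv.ofBijective f hf).symm.toMonoidHom, (MulEquiv.ofBijective f hf).symm.surjective⟩

end Cfsg.Agent.H1
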