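import Cfsg.Agent.H5.U3H
import Cfsg.Agent.H5.TA0
import Cfsg.Agent.H1.MIU6

/-!
# Rank one data of `PSU(3, 2 ^ m)`
-/

set_option autoImplicit false
set_option linter.unusedSectionVars false

namespace Cfsg.Agent.H1.TU

open Module H5 H5.TA Projectivization
open scoped LinearAlgebra.Projectivization

variable {F : Type} [Field F] {σ : F →+* F} {E : Type*} [AddCommGroup E] [Module F E]
  [FiniteDimensional F E] {B : Sesq σ E} {e w f : E} [Fintype F] {q : ℕ}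

/-- the fixed field -/
def Fx (σ : F →+* F) : Subfield F := σ.eqLocusField (RingHom.id F)

/-- the stabiliser of a vector -/
def S0 (B : Sesq σ E) (e : E) : Subgroup (SUb B) where
  carrier := {g | suAct B g e = e}
  one_mem' := by simp
  mul_mem' := fun {a b} ha hb => by
    change suAct B (a * b) e = e
    rw [act_mul_apply, hb, ha]
  inv_mem' := fun ha => act_inv_eq ha

/-- diagonal elements -/
def Dia (e w f : E) (g : SUb B) (l ν : F) : Prop :=
  l ≠ 0 ∧ ν * l = σ l ∧ ν * σ ν = 1 ∧ suAct B g e = l • e ∧ suAct B g w = ν • w ∧ suAct B g f = (σ l)⁻¹ • f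

theorem Dia.mul {g g' : SUb B} {l ν l' ν' : F} (h : Dia e w f g l ν) (h' : Dia e w f g' l' ν') :
    Dia e w f (g * g') (l * l') (ν * ν') := by
  obtain ⟨a1, a2, a3, a4, a5, a6⟩ := h
  obtain ⟨b1, b2, b3, b4, b5, b6⟩ := h'
  refine ⟨mul_ne_zero a1 b1, by rw [map_mul]; linear_combination ν' * l' * a2 + σ l * b2,
    by rw [map_mul]; linear_combination ν' * σ ν' * a3 + b3, ?_, ?_, ?_⟩ <;>
  simp [act_mul_apply, a4, a5, a6, b4, b5, b6, smul_smul, mul_comm]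

theorem Dia.inv {g : SUb B} {l ν : F} (h : Dia e w f g l ν) : Dia e w f g⁻¹ l⁻¹ ν⁻¹ := by
  obtain ⟨a1, a2, a3, a4, a5, a6⟩ := h
  have n0 : ν ≠ 0 := by rintro rfl; simp at a3
  have s0 : σ l ≠ 0 := (map_ne_zero σ).2 a1
  refine ⟨inv_ne_zero a1, by rw [map_inv₀, ← a2, mul_inv], by rw [map_inv₀, ← mul_inv, a3, inv_one],
    act_inv_eq ?_, act_inv_eq ?_, act_inv_eq ?_⟩ <;>
  simp [a4, a5, a6, smul_smul, a1, n0, s0]

/-- the torus -/
def T0 (B : Sesq σ E) (e w f : E) : Subgroup (SUb B) where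
  carrier := {g | ∃ l ν, Dia e w f g l ν}
  one_mem' := ⟨1, 1, by simp [Dia]⟩
  mul_mem' := fun ⟨_, _, h⟩ ⟨_, _, h'⟩ => ⟨_, _, h.mul h'⟩
  inv_mem' := fun ⟨_, _, h⟩ => ⟨_, _, h.inv⟩

theorem exists_dia (h : Fr3 B e w f) {l : F} (l0 : l ≠ 0) : ∃ g : SUb B, Dia e w f g l (σ l / l) := by
  obtain ⟨g, hg⟩ := exists_tor h.eps h.ee h.ff h.fe (by simp [h.ww]) h.we h.wf l0
  have s0 : σ l ≠ 0 := (map_ne_zero σ).2 l0
  refine ⟨g, l0, by field_simp, by rw [map_div₀, h.eps.invol]; field_simp, ?_, ?_, ?_⟩ <;>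
  simp [hg, h.ee, h.ff, h.fe, h.ef, h.ew, h.we, h.wf, h.fw, h.ww, sub_smul]

theorem exists_weyl (hU : UF σ q) (h : Fr3 B e w f) : ∃ g : SUb B, suAct B g e = f ∧ suAct B g f = e ∧
    suAct B g w = -w := by
  obtain ⟨g, h1, h2⟩ := su_move2 h.eps hU (e := e) (e' := f) (w := f) (w' := e) (u := w) h.e0 h.f0
    (fun k => by
      obtain ⟨c, hc⟩ := Submodule.mem_span_singleton.1 k
      have := h.fe
      simp [← hc, h.ee] at this)
    (fun k => by
      obtain ⟨c, hc⟩ := Submodule.mem_span_singleton.1 k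
      have := h.ef
      simp [← hc, h.ff] at this)
    (by rw [h.ee, h.ff]) (by rw [h.ef, h.fe]) (by rw [h.ee, h.ff]) (by simp [h.ww]) h.we h.wf
  refine ⟨g, h1, h2, ?_⟩
  have a1 : B (suAct B g w) f = 0 := by rw [← h1, suAct_pres, h.we]
  have a2 : B (suAct B g w) e = 0 := by rw [← h2, suAct_pres, h.wf]
  have a3 := h.dec (suAct B g w)
  rw [a1, a2] at a3
  have a4 := h.det_eq (T := suAct B g) (a₁ := 0) (a₂ := 0) (a₃ := 1) (c₁ := 1) (c₂ := 0) (c₃ := 0)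
    (by simp [h1]) a3 (by simp [h2])
  rw [suAct_det] at a4
  rw [a3, show B (suAct B g w) w = -1 by linear_combination a4]
  simp

theorem borel (h : Fr3 B e w f) {g : SUb B} {l : F} (hg : suAct B g e = l • e) :
    ∃ s ∈ S0 B e, ∃ t ∈ T0 B e w f, g = s * t := by
  obtain ⟨t, ht⟩ := exists_dia h (h.stab hg).1
  refine ⟨g * t⁻¹, ?_, t, ⟨_, _, ht⟩, by group⟩
  change suAct B (g * t⁻¹) e = e
  rw [act_mul_apply, ht.inv.2.2.2.1, map_smul, hg, smul_smul, inv_mul_cancel₀ ht.1, one_smul]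

theorem move (h : Fr3 B e w f) {u : E} (hu : B u u = 0) :
    (∃ l : F, u = l • e) ∨ ∃ s ∈ S0 B e, ∃ c : F, suAct B s (c • f) = u := by
  by_cases h0 : B u e = 0
  · left
    have a1 := h.dec u
    have a2 : B u w * σ (B u w) = 0 := by
      have := hu
      rw [a1] at this
      simpa [h0, h.ee, h.ew, h.we, h.ww, mul_comm] using this
    have a3 : B u w = 0 := by simpa using a2
    exact ⟨_, by rwa [h0, a3, zero_smul, zero_smul, add_zero, add_zero] at a1⟩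
  · obtain ⟨μ, a1, a2⟩ := ei_move h.eps (e := e) (f := B u e • f) (f' := u) h.ee (by simp [h.ff, hu])
      (by simp [h.fe]) (by simpa [h.fe] using h0)
    exact Or.inr ⟨_, ei_fix h.eps a1, _, a2⟩

/-- the two coordinates -/
noncomputable def om (e w f : E) (g : SUb B) : F := B (suAct B g f) w / B (suAct B g f) e

noncomputable def ps (e w f : E) (g : SUb B) : F := B (suAct B g w) w / B (suAct B g f) e

theorem out_eq (hU : UF σ q) (h : Fr3 B e w f) (g : SUb B) : ∃ c : F, c ≠ 0 ∧ ∀ v,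
    suAct B (Quotient.out (g : SUb B ⧸ Subgroup.center (SUb B))) v = c • suAct B g v := by
  obtain ⟨⟨z, hz⟩, k⟩ := QuotientGroup.mk_out_eq_mul (Subgroup.center (SUb B)) g
  rw [h.center_eq hU] at hz
  obtain ⟨c, hc⟩ := hz
  refine ⟨c, fun c0 => by simpa [c0] using (h.scalar hc).2, fun v => ?_⟩
  rw [k, act_mul_apply, hc, map_smul]

theorem om_out (hU : UF σ q) (h : Fr3 B e w f) (g : SUb B) :
    om e w f (Quotient.out (g : SUb B ⧸ Subgroup.center (SUb B))) = om e w f g := by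
  obtain ⟨c, c0, hc⟩ := out_eq hU h g
  simp only [om, hc, map_smul, LinearMap.smul_apply, smul_eq_mul, mul_div_mul_left _ _ c0]

theorem ps_out (hU : UF σ q) (h : Fr3 B e w f) (g : SUb B) :
    ps e w f (Quotient.out (g : SUb B ⧸ Subgroup.center (SUb B))) = ps e w f g := by
  obtain ⟨c, c0, hc⟩ := out_eq hU h g
  simp only [ps, hc, map_smul, LinearMap.smul_apply, smul_eq_mul, mul_div_mul_left _ _ c0]

theorem om_eq (h : Fr3 B e w f) {g : SUb B} {a c : F} (hg : suAct B g f = f - a • w + c • e) :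
    om e w f g = -a := by
  simp [om, hg, h.fw, h.ww, h.ew, h.fe, h.we, h.ee]

theorem ps_eq (h : Fr3 B e w f) {g : SUb B} {l ν : F} (hg : Dia e w f g l ν) : ps e w f g = ν * σ l := by
  simp [ps, hg.2.2.2.2.1, hg.2.2.2.2.2, h.ww, h.fe]

theorem eq_ut (h : Fr3 B e w f) {g : SUb B} (h1 : suAct B g e = e) {c : F} (h2 : suAct B g f = f + c • e) :
    σ c = -c ∧ g = ut h.eps e c := by
  have a1 : σ c = -c := by
    have := suAct_pres g f f
    simp only [h2, map_add, map_smul, LinearMap.add_apply, LinearMap.smul_apply, LinearMap.map_smulₛₗ, h.ff,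
      h.fe, h.ef, h.ee, smul_eq_mul, RingHom.id_apply] at this
    linear_combination this
  refine ⟨a1, ?_⟩
  rw [← inv_mul_eq_one]
  refine h.eq_one (c := 1) ?_ ?_
  · rw [act_mul_apply]
    exact act_inv_eq (by simp [ut_apply h.eps h.ee a1, h.ee, h1])
  · rw [act_mul_apply, one_smul]
    exact act_inv_eq (by simp [ut_apply h.eps h.ee a1, h.fe, h2])

theorem ut_mem (h : Fr3 B e w f) {c : F} (hc : σ c = -c) : ut h.eps e c ∈ S0 B e := by
  change suAct B _ e = e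
  simp [ut_apply h.eps h.ee hc, h.ee]

theorem gen0 (hU : UF σ q) (hq : 3 ≤ q) (h : Fr3 B e w f) {W : SUb B} (w1 : suAct B W e = f)
    (w2 : suAct B W f = e) {M : Subgroup (SUb B)} (h1 : S0 B e ≤ M) (h2 : ∀ s ∈ S0 B e, W * s * W⁻¹ ∈ M) :
    M = ⊤ := by
  obtain ⟨θ, θ0, hθ⟩ := hU.exists_trace_zero
  have k1 : ∀ (u : E) (hu : u ≠ 0), B u u = 0 → B u e ≠ 0 →
      ∃ g ∈ M, g • Projectivization.mk F f h.f0 = Projectivization.mk F u hu := fun u hu uu ue => by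
    rcases move h uu with ⟨l, rfl⟩ | ⟨s, hs, c, hc⟩
    · simp [h.ee] at ue
    · have c0 : c ≠ 0 := by rintro rfl; simp at hc; exact hu hc.symm
      exact ⟨s, h1 hs, smul_mk_eq.2 ⟨c⁻¹, by rw [← hc, map_smul, smul_smul, inv_mul_cancel₀ c0, one_smul]⟩⟩
  have k2 : ∀ x ∈ Om B, ∃ g ∈ M, g • Projectivization.mk F f h.f0 = x := fun x hx => by
    by_cases hne : x = Projectivization.mk F e h.e0
    · have a1 : suAct B (W * ut h.eps e θ * W⁻¹) e = e + θ • f := by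
        rw [act_mul_apply, act_mul_apply, act_inv_eq w2, ut_apply h.eps h.ee hθ]
        simp [w1, w2, h.fe]
      have a2 : B (e + θ • f) e ≠ 0 := by simpa [h.ee, h.fe] using θ0
      obtain ⟨g, hg, k⟩ := k1 (e + θ • f) (by rintro k; simp [k] at a2) (by rw [← a1, suAct_pres, h.ee]) a2
      refine ⟨(W * ut h.eps e θ * W⁻¹)⁻¹ * g, M.mul_mem (M.inv_mem (h2 _ (ut_mem h hθ))) hg, ?_⟩
      rw [mul_smul, k, hne, inv_smul_eq_iff]
      exact (smul_mk_eq.2 ⟨1, by rw [a1, one_smul]⟩).symm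
    · obtain ⟨u, hu, rfl, uu, ue⟩ := h.exists_rep hx hne
      exact k1 u hu uu (by simp [ue])
  refine h.top_of_P0 hU hq (fun x hx y hy => ?_) fun c hc => h.mem_P0.2 ⟨_, h1 (ut_mem h hc), ut_mem h hc, ?_, ?_⟩
  · obtain ⟨g, hg, rfl⟩ := k2 x hx
    obtain ⟨g', hg', rfl⟩ := k2 y hy
    exact ⟨g' * g⁻¹, M.mul_mem hg' (M.inv_mem hg), by rw [mul_smul, inv_smul_smul]⟩
  · simp [ut_apply h.eps h.ee hc, h.we]
  · simp [ut_apply h.eps h.ee hc, h.fe]

theorem scal_of_eq (hU : UF σ q) (h : Fr3 B e w f) {g k : SUb B}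
    (hk : (g : SUb B ⧸ Subgroup.center (SUb B)) = k) : ∃ c : F, ∀ v, suAct B k v = c • suAct B g v := by
  have := QuotientGroup.eq.1 hk
  rw [h.center_eq hU] at this
  obtain ⟨c, hc⟩ := this
  refine ⟨c, fun v => ?_⟩
  rw [← map_smul, ← hc, ← act_mul_apply, mul_inv_cancel_left]

set_option maxHeartbeats 1600000 in
theorem exists_R0 {m : ℕ} (hU : UF σ (2 ^ m)) (hm : 2 ≤ m) (h : Fr3 B e w f) :
    Nonempty (R0 (⊤ : Subgroup (SUb B ⧸ Subgroup.center (SUb B))) (Fx σ) F m 3) := by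
  have h2 : (2 : F) = 0 := by
    have := hU.cast_q
    push_cast at this
    exact pow_eq_zero_iff (by omega) |>.1 this
  have neg : ∀ x : F, -x = x := fun x => by linear_combination -x * h2
  have hq : 4 ≤ 2 ^ m := le_trans (by norm_num) (Nat.pow_le_pow_right (by norm_num) hm)
  have fx : ∀ x : Fx σ, σ x.1 = -x.1 := fun x => (neg _).symm ▸ x.2
  obtain ⟨W, w1, w2, w3⟩ := exists_weyl hU h
  let π := QuotientGroup.mk' (Subgroup.center (SUb B))
  have πω : ∀ g, om e w f (Quotient.out (π g)) = om e w f g := om_out hU h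
  have πψ : ∀ g, ps e w f (Quotient.out (π g)) = ps e w f g := ps_out hU h
  have cj : ∀ {t s : SUb B} {l ν : F}, Dia e w f t l ν → s ∈ S0 B e → t * s * t⁻¹ ∈ S0 B e := by
    intro t s l ν ht hs
    change suAct B _ e = e
    rw [act_mul_apply, act_mul_apply, ht.inv.2.2.2.1, map_smul, hs, map_smul, ht.2.2.2.1, smul_smul,
      inv_mul_cancel₀ ht.1, one_smul]
  refine ⟨{
    S := (S0 B e).map π
    T := (T0 B e w f).map π
    w := π W
    ζ := fun x => π (ut h.eps e x.1)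
    ω := fun g => om e w f (Quotient.out g)
    ψ := fun g => ps e w f (Quotient.out g)
    ν := fun a => ⟨a * σ a, hU.norm_fixed a⟩
    ι := (Fx σ).subtype
    θ := σ
    cardF := hU.card_fixed
    hm := hm
    finK := inferInstance
    S_le := le_top
    T_le := le_top
    w_mem := trivial
    ζ_add := fun x y => by rw [← map_mul, ut_mul h.eps h.ee (fx x) (fx y)]; rfl
    ζ_inj := fun x y k => ?_
    ζ_mem := fun x => ⟨_, ut_mem h (fx x), rfl⟩
    ζ_comm := ?_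
    ω_mul := ?_
    ω_ker := ?_
    sq := ?_
    hν := fun _ => rfl
    T_norm := ?_
    ω_conj := ?_
    ζ_conj := ?_
    ψ_mul := ?_
    ψ_ne := ?_
    ψ_inj := ?_
    χ_surj := fun c c0 => ?_
    w_norm := ?_
    bruhat := fun g _ => ?_
    ti := ?_
    gen := fun M h1 h3 => ?_
    typ := Or.inr (Or.inr ⟨rfl, fun a => ?_, by rw [Nat.card_eq_fintype_card, hU.card], hU.apply, ?_⟩) }⟩
  · obtain ⟨c, hc⟩ := scal_of_eq hU h k
    have a1 := congrArg (fun z => B z e) (hc f)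
    have a2 := congrArg (fun z => B z f) (hc f)
    simp [ut_apply h.eps h.ee (fx _), h.fe, h.ee, h.ff, h.ef] at a1 a2
    exact Subtype.ext (by rw [a2, ← a1, one_mul])
  · rintro x _ ⟨s, hs, rfl⟩
    rw [← map_mul, ← map_mul, ut_conj h.eps s h.ee (fx x), hs]
  · rintro _ ⟨s, hs, rfl⟩ _ ⟨s', hs', rfl⟩
    obtain ⟨a, c, a1, a2⟩ := h.unip hs
    obtain ⟨a', c', b1, b2⟩ := h.unip hs'
    rw [← map_mul, πω, πω, πω, om_eq h a2, om_eq h b2, om_eq h (a := σ a + σ a') (c := c + c' - σ a' * a)]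
    · ring
    · rw [act_mul_apply, b2, map_add, map_sub, map_smul, map_smul, a1, a2, hs]
      module
  · rintro _ ⟨s, hs, rfl⟩
    obtain ⟨a, c, a1, a2⟩ := h.unip hs
    rw [πω]
    constructor
    · intro k
      rw [om_eq h a2, neg_eq_zero] at k
      obtain ⟨k1, k2⟩ := eq_ut h hs (c := c) (by simpa [k] using a2)
      exact ⟨⟨c, k1.trans (neg c)⟩, congrArg π k2⟩
    · rintro ⟨x, k⟩
      rw [← πω, k, πω, om_eq h (a := 0) (c := x.1) (by simp [ut_apply h.eps h.ee (fx x), h.fe]), neg_zero]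
  · rintro _ ⟨s, hs, rfl⟩
    obtain ⟨a, c, a1, a2⟩ := h.unip hs
    rw [← map_mul]
    congr 1
    rw [πω, om_eq h a2, neg]
    refine (eq_ut h ((S0 B e).mul_mem hs hs) ?_).2
    rw [act_mul_apply, a2, map_add, map_sub, map_smul, map_smul, a1, a2, hs]
    simp only [hU.invol]
    match_scalars
    · ring
    · linear_combination -σ a * h2
    · linear_combination (c - σ a * a) * h2
  · rintro _ ⟨t, ⟨l, ν, ht⟩, rfl⟩ _ ⟨s, hs, rfl⟩
    exact ⟨_, cj ht hs, by simp⟩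
  · rintro _ ⟨t, ⟨l, ν, ht⟩, rfl⟩ _ ⟨s, hs, rfl⟩
    obtain ⟨a, c, a1, a2⟩ := h.unip hs
    have s0 : σ l ≠ 0 := (map_ne_zero σ).2 ht.1
    rw [← map_inv, ← map_mul, ← map_mul, πω, πω, πψ, ps_eq h ht, om_eq h a2,
      om_eq h (a := ν * σ l * σ a) (c := σ l * c * l)]
    · ring
    · rw [act_mul_apply, act_mul_apply, ht.inv.2.2.2.2.2, map_smul, a2]
      simp only [map_smul, map_add, map_sub, ht.2.2.2.1, ht.2.2.2.2.1, ht.2.2.2.2.2, map_inv₀, inv_inv]
      match_scalars <;> field_simp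
  · rintro _ ⟨t, ⟨l, ν, ht⟩, rfl⟩ x
    rw [← map_inv, ← map_mul, ← map_mul, ut_conj h.eps t h.ee (fx x), mul_inv_cancel_right, ht.2.2.2.1,
      ut_smul h.eps h.ee l (fx x), πψ, ps_eq h ht]
    congr 2
    simp only [Subfield.coe_mul, map_mul, hU.invol]
    linear_combination -(l * σ l * x.1) * ht.2.2.1
  · rintro _ ⟨t, ⟨l, ν, ht⟩, rfl⟩ _ ⟨t', ⟨l', ν', ht'⟩, rfl⟩
    rw [← map_mul, πψ, πψ, πψ, ps_eq h ht, ps_eq h ht', ps_eq h (ht.mul ht'), map_mul]
    ring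
  · rintro _ ⟨t, ⟨l, ν, ht⟩, rfl⟩
    rw [πψ, ps_eq h ht]
    exact mul_ne_zero (by rintro rfl; simpa using ht.2.2.1) ((map_ne_zero σ).2 ht.1)
  · rintro _ ⟨t, ⟨l, ν, ht⟩, rfl⟩ k
    rw [πψ, ps_eq h ht] at k
    obtain ⟨a1, a2, a3, a4, a5, a6⟩ := ht
    have k' := congrArg σ k
    rw [map_mul, hU.invol, map_one] at k'
    have b1 : ν = l := by linear_combination l * a3 - ν * k'
    have b2 : (σ l)⁻¹ = l := (eq_inv_of_mul_eq_one_left (b1 ▸ k)).symm
    refine (QuotientGroup.eq_one_iff _).2 ?_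
    rw [h.center_eq hU]
    refine ⟨l, fun v => ?_⟩
    obtain ⟨x, y, z, rfl⟩ := h.exists_dec v
    simp only [map_add, map_smul, a4, a5, a6, b1, b2]
    module
  · obtain ⟨l, hl⟩ := hU.norm_surj (c := c.1) c.2
    have l0 : l ≠ 0 := by rintro rfl; exact c0 (Subtype.ext (by simpa using hl.symm))
    obtain ⟨t, ht⟩ := exists_dia h l0
    refine ⟨_, ⟨t, ⟨_, _, ht⟩, rfl⟩, Subtype.ext ?_⟩
    simp only [πψ, ps_eq h ht, map_mul σ, hU.invol]
    linear_combination l * σ l * ht.2.2.1 + hl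
  · rintro _ ⟨t, ⟨l, ν, a1, a2, a3, a4, a5, a6⟩, rfl⟩
    have s0 : σ l ≠ 0 := (map_ne_zero σ).2 a1
    refine ⟨W * t * W⁻¹, ⟨(σ l)⁻¹, ν, inv_ne_zero s0, ?_, a3, ?_, ?_, ?_⟩, by simp⟩
    · rw [map_inv₀, hU.invol, ← a2]
      have : ν ≠ 0 := by rintro rfl; simp at a3
      field_simp
    · rw [act_mul_apply, act_mul_apply, act_inv_eq w2, a6, map_smul, w2]
    · rw [act_mul_apply, act_mul_apply, act_inv_eq (u := -w) (by rw [map_neg, w3, neg_neg]), map_neg, a5,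
        map_neg, map_smul, w3, smul_neg, neg_neg]
    · rw [act_mul_apply, act_mul_apply, act_inv_eq w1, a4, map_smul, w1, map_inv₀, hU.invol, inv_inv]
  · obtain ⟨g, rfl⟩ := QuotientGroup.mk'_surjective _ g
    rcases move h (u := suAct B g e) (by rw [suAct_pres, h.ee]) with ⟨l, hl⟩ | ⟨s, hs, c, hc⟩
    · obtain ⟨s, hs, t, ht, rfl⟩ := borel h hl
      exact Or.inl ⟨_, ⟨s, hs, rfl⟩, _, ⟨t, ht, rfl⟩, map_mul _ _ _⟩
    · obtain ⟨s', hs', t, ht, k⟩ := borel h (g := W⁻¹ * s⁻¹ * g) (l := c) (by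
        rw [act_mul_apply, act_mul_apply, act_inv_eq hc, map_smul, act_inv_eq w1])
      refine Or.inr ⟨_, ⟨s, hs, rfl⟩, _, ⟨s', hs', rfl⟩, _, ⟨t, ht, rfl⟩, ?_⟩
      rw [← map_mul, ← map_mul, ← map_mul, ← k]
      congr 1
      group
  · rintro _ ⟨s, hs, rfl⟩ _ ⟨s', hs', rfl⟩ _ ⟨t, ⟨l, ν, ht⟩, rfl⟩ k
    rw [← map_inv, ← map_mul, ← map_mul, ← map_mul] at k
    obtain ⟨c, hc⟩ := scal_of_eq hU h k.symm
    have a1 := hc e
    rw [act_mul_apply, act_mul_apply, act_inv_eq w2, act_mul_apply, ht.2.2.2.1, map_smul, hs', smul_smul,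
      ← w2, ← map_smul] at a1
    rw [h.eq_one hs (rep_injective _ W a1), map_one]
  · have := gen0 hU (by omega) h w1 w2 (M := M.comap π) (Subgroup.map_le_iff_le_comap.1 h1) fun s hs => by
      simpa using h3 _ ⟨s, hs, rfl⟩
    intro g _
    obtain ⟨g, rfl⟩ := QuotientGroup.mk'_surjective _ g
    exact (this ▸ Subgroup.mem_top g : g ∈ M.comap π)
  · obtain ⟨μ, hμ⟩ := hU.trace_surj (hU.norm_fixed a)
    have ad : Adm B (a • w) e μ := ⟨h.ee, by simp [h.we], by simp [h.ww, add_comm μ, ← hμ, mul_comm]⟩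
    refine ⟨_, ⟨_, ei_fix h.eps ad, rfl⟩, ?_⟩
    rw [πω, om_eq h (a := -a) (c := -μ), neg_neg]
    simp [ei_apply h.eps ad, h.fe, h.fw, sub_eq_add_neg]
  · obtain ⟨ζ, hζ⟩ := hU.exists_prim
    have z0 : ζ ≠ 0 := hζ.ne_zero (by omega)
    have z1 : ζ * σ ζ = 1 := by rw [hU.norm_eq, hζ.pow_eq_one]
    obtain ⟨t, ht⟩ := exists_dia h z0
    refine ⟨_, ⟨t, ⟨_, _, ht⟩, rfl⟩, fun k => ?_, Subtype.ext ?_⟩
    · rw [πψ, ps_eq h ht] at k
      refine hζ.pow_ne_one_of_pos_of_lt (l := 3) (by omega) (by omega) ?_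
      field_simp at k
      linear_combination -ζ ^ 2 * k + (ζ * σ ζ + 1) * z1
    · simp only [πψ, ps_eq h ht, map_mul σ, hU.invol, OneMemClass.coe_one]
      linear_combination ζ * σ ζ * ht.2.2.1 + z1

theorem instU3 {K : Type} [Field K] [Fintype K] {m : ℕ} (h : Fintype.card K = (2 ^ m) ^ 2) (hm : 2 ≤ m) :
    ∃ (F' K' : Type) (_ : Field F') (_ : Field K'),
      Nonempty (R0 (⊤ : Subgroup (Cfsg.PSU 3 K (2 ^ m))) F' K' m 3) := by
  have hU := uf_frob h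
  have hB := hU.isEps_std (Fin 3)
  obtain ⟨e, -, e0, he⟩ := exists_iso_vec hB hU ⊤ (by simp)
  obtain ⟨w, f, hF⟩ := exists_fr3 hU hB (by simp) e0 he
  obtain ⟨R⟩ := exists_R0 hU hm hF
  obtain ⟨φ⟩ := exists_su_equiv hU 3
  refine ⟨_, _, inferInstance, inferInstance, R.of_equiv (Subgroup.topEquiv.trans
    (QuotientGroup.congr _ _ φ.symm ?_))⟩
  ext g
  simp only [Subgroup.mem_map, Subgroup.mem_center_iff]
  constructor
  · rintro ⟨x, hx, rfl⟩ y
    simpa using congrArg φ.symm (hx (φ y))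
  · exact fun hg => ⟨φ g, fun y => by simpa using congrArg φ (hg (φ.symm y)), by simp⟩

end Cfsg.Agent.H1.TU
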