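import Cfsg.Agent.H5.TA0

/-!
# Affine planes: translations
-/

set_option autoImplicit false

namespace Cfsg.Agent.H1.TV

open scoped Pointwise

variable {G Ω : Type*} [Group G] [MulAction G Ω] {Ln : Set Ω → Prop}

/-- an invariant affine plane -/
structure Aff (G : Type*) {Ω : Type*} [Group G] [MulAction G Ω] (Ln : Set Ω → Prop) : Prop where
  ex : ∀ x y, x ≠ y → ∃ m, Ln m ∧ x ∈ m ∧ y ∈ m
  uq : ∀ {m m' x y}, Ln m → Ln m' → x ≠ y → x ∈ m → y ∈ m → x ∈ m' → y ∈ m' → m = m'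
  inv : ∀ (g : G) {m}, Ln m → Ln (g • m)
  pex : ∀ {m y}, Ln m → y ∉ m → ∃ m', Ln m' ∧ y ∈ m' ∧ Disjoint m m'
  puq : ∀ {m m₁ m₂ y}, Ln m → Ln m₁ → Ln m₂ → y ∈ m₁ → y ∈ m₂ → Disjoint m m₁ → Disjoint m m₂ → m₁ = m₂
  out : ∀ {m}, Ln m → ∃ y, y ∉ m
  two : ∀ a b c d : Ω, a ≠ b → c ≠ d → ∃ g : G, g • a = c ∧ g • b = d
  faith : ∀ g : G, (∀ x : Ω, g • x = x) → g = 1

/-- parallel -/
def Par (m m' : Set Ω) : Prop := m = m' ∨ Disjoint m m'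

theorem Par.symm {m m' : Set Ω} (h : Par m m') : Par m' m := h.imp Eq.symm fun k => k.symm

theorem Par.smul {m m' : Set Ω} (h : Par m m') (g : G) : Par (g • m) (g • m') :=
  h.imp (congrArg _) (Set.disjoint_smul_set.2)

theorem Par.eq {m m' : Set Ω} (h : Par m m') {y : Ω} (h1 : y ∈ m) (h2 : y ∈ m') : m = m' :=
  h.resolve_right fun k => Set.disjoint_left.1 k h1 h2

/-- dilatations -/
def Dil (Ln : Set Ω → Prop) (g : G) : Prop := ∀ m, Ln m → Par m (g • m)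

namespace Aff

variable (A : Aff G Ln)
include A

theorem trans {m m₁ m₂ : Set Ω} (h : Ln m) (h1 : Ln m₁) (h2 : Ln m₂) (p1 : Par m₁ m) (p2 : Par m m₂) :
    Par m₁ m₂ := by
  rcases p1 with rfl | p1
  · exact p2
  rcases p2 with rfl | p2
  · exact Or.inr p1
  by_cases k : Disjoint m₁ m₂
  · exact Or.inr k
  · obtain ⟨y, y1, y2⟩ := Set.not_disjoint_iff.1 k
    exact Or.inl (A.puq h h1 h2 y1 y2 p1.symm p2)

theorem par_ex {m : Set Ω} (h : Ln m) (y : Ω) : ∃ m', Ln m' ∧ y ∈ m' ∧ Par m m' := by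
  by_cases k : y ∈ m
  · exact ⟨m, h, k, Or.inl rfl⟩
  · obtain ⟨m', a, b, c⟩ := A.pex h k
    exact ⟨m', a, b, Or.inr c⟩

theorem dil_mul {g h : G} (hg : Dil Ln g) (hh : Dil Ln h) : Dil Ln (g * h) := fun m hm => by
  rw [mul_smul]
  exact A.trans (A.inv h hm) hm (A.inv g (A.inv h hm)) (hh m hm) (hg _ (A.inv h hm))

theorem dil_inv {g : G} (hg : Dil Ln g) : Dil Ln g⁻¹ := fun m hm => by
  simpa using (hg _ (A.inv g⁻¹ hm)).symm

theorem dil_conj {g : G} (hg : Dil Ln g) (h : G) : Dil Ln (h * g * h⁻¹) := fun m hm => by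
  simpa [mul_smul] using (hg _ (A.inv h⁻¹ hm)).smul h

theorem fix_aux {g : G} (hg : Dil Ln g) {y z w : Ω} (hy : g • y = y) (hz : g • z = z)
    (hw : ∀ m, Ln m → y ∈ m → z ∈ m → w ∉ m) (hyz : y ≠ z) : g • w = w := by
  obtain ⟨m, m1, m2, m3⟩ := A.ex y z hyz
  have wy : y ≠ w := fun e => hw m m1 m2 m3 (e ▸ m2)
  have wz : z ≠ w := fun e => hw m m1 m2 m3 (e ▸ m3)
  obtain ⟨p, p1, p2, p3⟩ := A.ex y w wy
  obtain ⟨r, r1, r2, r3⟩ := A.ex z w wz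
  by_contra k
  have a1 : g • w ∈ p := (hg p p1).eq p2 (hy ▸ Set.smul_mem_smul_set p2) ▸ Set.smul_mem_smul_set p3
  have a2 : g • w ∈ r := (hg r r1).eq r2 (hz ▸ Set.smul_mem_smul_set r2) ▸ Set.smul_mem_smul_set r3
  exact hw p p1 p2 (A.uq p1 r1 k a1 p3 a2 r3 ▸ r2) p3

theorem eq_one {g : G} (hg : Dil Ln g) {y z : Ω} (hy : g • y = y) (hz : g • z = z) (hyz : y ≠ z) : g = 1 := by
  obtain ⟨m, m1, m2, m3⟩ := A.ex y z hyz
  have key : ∀ w, w ∉ m → g • w = w := fun w hw =>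
    A.fix_aux hg hy hz (fun m' a b c => A.uq m1 a hyz m2 m3 b c ▸ hw) hyz
  refine A.faith g fun w => ?_
  by_cases hw : w ∈ m
  · obtain ⟨u, hu⟩ := A.out m1
    rcases eq_or_ne y w with rfl | k
    · exact hy
    · exact A.fix_aux hg hy (key u hu) (fun m' a b c d => hu (A.uq m1 a k m2 hw b d ▸ c)) fun e => hu (e ▸ m2)
  · exact key w hw

theorem trace {g : G} (hg : Dil Ln g) (hf : ∀ x : Ω, g • x ≠ x) {L T : Set Ω} (hL : Ln L) (hT : Ln T) {y z : Ω}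
    (y1 : y ∈ L) (y2 : g • y ∈ L) (z1 : z ∈ T) (z2 : g • z ∈ T) (hz : z ∉ L) : Disjoint L T := by
  have a1 := (hg L hL).eq y2 (Set.smul_mem_smul_set y1)
  have a2 := (hg T hT).eq z2 (Set.smul_mem_smul_set z1)
  refine Set.disjoint_left.2 fun p p1 p2 => hz ?_
  rw [A.uq hL hT (hf p) (a1 ▸ Set.smul_mem_smul_set p1) p1 (a2 ▸ Set.smul_mem_smul_set p2) p2]
  exact z1

theorem tr_eq {g h : G} (hg : Dil Ln g) (gf : ∀ x : Ω, g • x ≠ x) (hh : Dil Ln h) (hf : ∀ x : Ω, h • x ≠ x)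
    {y : Ω} (e : g • y = h • y) : g = h := by
  obtain ⟨L, l1, l2, l3⟩ := A.ex y (g • y) (gf y).symm
  obtain ⟨z, hz⟩ := A.out l1
  have yz : y ≠ z := fun k => hz (k ▸ l2)
  obtain ⟨M, m1, m2, m3⟩ := A.ex y z yz
  obtain ⟨T, t1, t2, t3⟩ := A.ex z (g • z) (gf z).symm
  obtain ⟨T', u1, u2, u3⟩ := A.ex z (h • z) (hf z).symm
  have d1 := A.trace hg gf l1 t1 l2 l3 t2 t3 hz
  obtain rfl := A.puq l1 t1 u1 t2 u2 d1 (A.trace hh hf l1 u1 l2 (e ▸ l3) u2 u3 hz)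
  have a1 : g • M = h • M := (A.trans m1 (A.inv g m1) (A.inv h m1) (hg M m1).symm (hh M m1)).eq
    (Set.smul_mem_smul_set m2) (e ▸ Set.smul_mem_smul_set m2)
  have a2 : g • z = h • z := by
    by_contra k
    refine Set.disjoint_left.1 d1 l3 ?_
    rw [A.uq t1 (A.inv g m1) k t3 u3 (Set.smul_mem_smul_set m3) (a1 ▸ Set.smul_mem_smul_set m3)]
    exact Set.smul_mem_smul_set m2
  rw [← inv_mul_eq_one]
  exact A.eq_one (A.dil_mul (A.dil_inv hg) hh) (y := y) (z := z) (by rw [mul_smul, ← e, inv_smul_smul])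
    (by rw [mul_smul, ← a2, inv_smul_smul]) yz

theorem hasReg {g : G} (hg : Dil Ln g) (gf : ∀ x : Ω, g • x ≠ x) : H5.TA.HasReg G Ω := by
  have invf : ∀ {g : G}, (∀ x : Ω, g • x ≠ x) → ∀ x : Ω, g⁻¹ • x ≠ x := fun h x k =>
    h x (inv_smul_eq_iff.1 k).symm
  have cjf : ∀ {g : G}, (∀ x : Ω, g • x ≠ x) → ∀ (h : G) (x : Ω), (h * g * h⁻¹) • x ≠ x := fun k h x e =>
    k (h⁻¹ • x) (by rwa [mul_smul, mul_smul, smul_eq_iff_eq_inv_smul] at e)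
  refine ⟨{ carrier := {g | g = 1 ∨ Dil Ln g ∧ ∀ x : Ω, g • x ≠ x}
            one_mem' := Or.inl rfl
            mul_mem' := ?_
            inv_mem' := ?_ }, ⟨?_⟩, fun x y => ?_, fun x r hr e => ?_⟩
  · rintro a b (rfl | ⟨a1, a2⟩) hb
    · rwa [one_mul]
    rcases hb with rfl | ⟨b1, b2⟩
    · exact Or.inr (by rw [mul_one]; exact ⟨a1, a2⟩)
    by_cases k : ∀ x : Ω, (a * b) • x ≠ x
    · exact Or.inr ⟨A.dil_mul a1 b1, k⟩
    · push Not at k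
      obtain ⟨y, hy⟩ := k
      left
      rw [← A.tr_eq (A.dil_inv a1) (invf a2) b1 b2 (y := y) (by rw [inv_smul_eq_iff, ← mul_smul, hy]),
        mul_inv_cancel]
  · rintro a (rfl | ⟨a1, a2⟩)
    · exact Or.inl inv_one
    · exact Or.inr ⟨A.dil_inv a1, invf a2⟩
  · rintro a (rfl | ⟨a1, a2⟩) h
    · exact Or.inl (by simp)
    · exact Or.inr ⟨A.dil_conj a1 h, cjf a2 h⟩
  · rcases eq_or_ne x y with rfl | k
    · exact ⟨1, Or.inl rfl, one_smul _ _⟩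
    · obtain ⟨h, h1, h2⟩ := A.two x (g • x) x y (gf x).symm k
      exact ⟨h * g * h⁻¹, Or.inr ⟨A.dil_conj hg h, cjf gf h⟩, by
        rw [mul_smul, mul_smul, inv_smul_eq_iff.2 h1.symm, h2]⟩
  · exact hr.resolve_right fun k => k.2 x e

/-- two parallel axes give a translation -/
theorem hasReg' {l₁ l₂ : Set Ω} (h1 : Ln l₁) (h2 : Ln l₂) (d : Disjoint l₁ l₂) {a : Ω} (ha : a ∈ l₁) {t : G}
    (t1 : ∀ y ∈ l₁, t • y = y) (t2 : ∀ m, Ln m → Par l₁ m → t • m = m)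
    (t3 : ∀ k, Ln k → a ∈ k → t • k = k → k = l₁)
    (hS : ∀ b ∈ l₂, ∀ k k', Ln k → Ln k' → b ∈ k → b ∈ k' → k ≠ l₂ → k' ≠ l₂ → ∃ x : G, x • k = k' ∧
      (∀ m, Ln m → Par l₂ m → x • m = m) ∧ (x = 1 ∨ ∀ y, x • y = y → y ∈ l₂)) : H5.TA.HasReg G Ω := by
  obtain ⟨b, hb⟩ : ∃ b, b ∈ l₂ := by
    by_contra k
    push Not at k
    obtain ⟨y, hy⟩ := A.out h1
    obtain ⟨m, m1, m2, m3⟩ := A.ex a y fun e => hy (e ▸ ha)
    have e : ∀ m', Disjoint l₂ m' := fun m' => Set.disjoint_left.2 fun z hz => (k z hz).elim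
    exact hy (A.puq h2 h1 m1 ha m2 (e _) (e _) ▸ m3)
  have nb : b ∉ l₁ := fun e => Set.disjoint_left.1 d e hb
  obtain ⟨k, k1, k2, k3⟩ := A.ex a b fun e => nb (e ▸ ha)
  have kl : k ≠ l₁ := fun e => nb (e ▸ k3)
  have at' : a ∈ t • k := t1 a ha ▸ Set.smul_mem_smul_set k2
  obtain ⟨k', q1, q2, q3⟩ := A.par_ex (A.inv t k1) b
  obtain ⟨x, x1, x2, x3⟩ := hS b hb k k' k1 q1 k3 q2 (fun e => Set.disjoint_left.1 d ha (e ▸ k2)) (by
    rintro rfl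
    have := (A.trans h2 (A.inv t k1) h1 q3 (Or.inr d.symm)).eq at' ha
    exact kl (by rw [smul_eq_iff_eq_inv_smul] at this; rw [this, inv_smul_eq_iff, t2 _ h1 (Or.inl rfl)]))
  have g1 : ∀ m, Ln m → Par l₁ m → (t⁻¹ * x) • m = m := fun m m1 m2 => by
    rw [mul_smul, x2 m m1 (A.trans h1 h2 m1 (Or.inr d.symm) m2), inv_smul_eq_iff, t2 m m1 m2]
  have g2 : Par k ((t⁻¹ * x) • k) := by simpa [mul_smul, x1] using q3.smul t⁻¹
  have gf : ∀ y : Ω, (t⁻¹ * x) • y ≠ y := by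
    intro y hy
    obtain ⟨p, p1, p2, p3⟩ := A.par_ex k1 y
    have a1 : p = (t⁻¹ * x) • p := (A.trans (A.inv _ k1) p1 (A.inv _ p1)
      (A.trans k1 p1 (A.inv _ k1) p3.symm g2) (p3.smul _)).eq p2 (hy ▸ Set.smul_mem_smul_set p2)
    have np : ¬ Par l₁ p := fun e => kl ((A.trans p1 h1 k1 e p3.symm).eq ha k2).symm
    obtain ⟨z, z1, z2⟩ := Set.not_disjoint_iff.1 fun e => np (Or.inr e)
    have a2 : (t⁻¹ * x) • z = z := by
      by_contra e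
      exact np (Or.inl (A.uq h1 p1 e (g1 _ h1 (Or.inl rfl) ▸ Set.smul_mem_smul_set z1) z1
        (a1 ▸ Set.smul_mem_smul_set z2) z2))
    rw [mul_smul, inv_smul_eq_iff, t1 z z1] at a2
    rcases x3 with rfl | x3
    · rw [one_smul] at x1
      subst x1
      exact kl (t3 k k1 k2 (q3.eq at' k2))
    · exact Set.disjoint_left.1 d z1 (x3 z a2)
  refine A.hasReg (g := t⁻¹ * x) (fun n n1 => ?_) gf
  by_contra e
  obtain ⟨_, y1, y, y2, rfl⟩ := Set.not_disjoint_iff.1 fun k => e (Or.inr k)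
  obtain ⟨p, p1, p2, p3⟩ := A.par_ex h1 y
  obtain rfl := A.uq n1 p1 (gf y) y1 y2 (g1 p p1 p3 ▸ Set.smul_mem_smul_set p2) p2
  exact e (Or.inl (g1 _ p1 p3).symm)

end Aff

end Cfsg.Agent.H1.TV
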