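import Cfsg.Agent.H1.TV2
import Cfsg.Agent.H5.TB2
import Cfsg.Agent.H5.U3A
import Cfsg.Agent.H4.PF

/-!
# The linear space of case IV.2
-/

set_option autoImplicit false
set_option linter.unusedSectionVars false

namespace Cfsg.Agent.H1.TV

open Cfsg.Agent.H5.TA Subgroup MulAction
open scoped Pointwise

variable {G Ω : Type*} [Group G] [Finite G] [Finite Ω] [MulAction G Ω] {F K : Type} [Field F] [Field K] {m i : ℕ}

/-- the hypotheses of case IV.2 -/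
structure H2 (C : Cfg G Ω F K m i) : Prop where
  h1 : ∀ a b, a ≠ b → ∃ t, Iv (C.N a) t ∧ t ∈ C.N b
  hF : ∀ a b t, Iv (C.N a) t → t • b = b → t ∈ C.N b
  hK : ∀ {a b t u}, a ≠ b → Iv (C.N a) t → t • b = b → Iv (C.N a) u → (u • b = b ↔ Commute t u)

theorem cj_comm {g x y : G} : Commute (g * x * g⁻¹) (g * y * g⁻¹) ↔ Commute x y := by
  rw [Commute, SemiconjBy, conj_mul, conj_mul, mul_left_inj, mul_right_inj]; rfl

theorem cj_fix {g x : G} {y : Ω} : (g * x * g⁻¹) • g • y = g • y ↔ x • y = y := by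
  rw [mul_smul, mul_smul, inv_smul_smul, smul_left_cancel_iff]

theorem h2_of (C : Cfg G Ω F K m i) (h1 : ∀ a b, a ≠ b → ∃ t, Iv (C.N a) t ∧ t ∈ C.N b)
    (hF : ∀ a b t, Iv (C.N a) t → t • b = b → t ∈ C.N b) {a b : Ω} {t : G} (hab : a ≠ b)
    (ht : Iv (C.N a) t) (hZ : ∀ u, Iv (C.N a) u → Commute u t → u • b = b)
    (hc : ∀ u, Iv (C.N a) u → u ∈ C.N b → Commute t u) : H2 C := by
  refine ⟨h1, hF, fun {x y v u} hxy hv hvy hu => ?_⟩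
  obtain ⟨g, rfl, rfl⟩ := C.two a b x y hab hxy
  obtain ⟨v, rfl⟩ := (MulAut.conj g).surjective v
  obtain ⟨u, rfl⟩ := (MulAut.conj g).surjective u
  have iv : ∀ {u}, Iv (C.N (g • a)) (g * u * g⁻¹) → Iv (C.N a) u := fun hu => by
    simpa [mul_assoc] using C.iv_conj (inv_smul_smul g a) hu
  have R := (C.loc a).some
  have hv' := iv hv
  have hu' := iv hu
  have c1 := hc v hv' (hF a b v hv' (cj_fix.1 hvy))
  exact cj_fix.trans (Iff.trans ⟨fun e => R.comm_trans hv' ht hu' c1.symm (hc u hu' (hF a b u hu' e)),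
    fun e => hZ u hu' (R.comm_trans hu' hv' ht e.symm c1.symm)⟩ cj_comm.symm)

/-- lines -/
def Ln (C : Cfg G Ω F K m i) (l : Set Ω) : Prop := ∃ e t, Iv (C.N e) t ∧ fixedBy Ω t = l

/-- the line of a Sylow subgroup -/
abbrev L (Ω : Type*) [MulAction G Ω] {N : Subgroup G} (R : R0 N F K m i) : Set Ω := fixedBy Ω (R.ζ 1)

theorem Ln.smul {C : Cfg G Ω F K m i} {l : Set Ω} (h : Ln C l) (g : G) : Ln C (g • l) := by
  obtain ⟨e, t, ht, rfl⟩ := h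
  exact ⟨_, _, C.iv_conj rfl ht, (smul_fixedBy Ω t g).symm⟩

theorem ln_L {C : Cfg G Ω F K m i} {e : Ω} (R : R0 (C.N e) F K m i) : Ln C (L Ω R) :=
  ⟨e, _, R.iv_ζ one_ne_zero, rfl⟩

theorem mem_L {C : Cfg G Ω F K m i} {e : Ω} (R : R0 (C.N e) F K m i) : e ∈ L Ω R :=
  C.fix e _ (R.iv_ζ one_ne_zero).1

theorem Ln.out {C : Cfg G Ω F K m i} {l : Set Ω} (h : Ln C l) : ∃ y, y ∉ l := by
  obtain ⟨e, t, ht, rfl⟩ := h
  exact C.exists_move ht.2.1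

theorem smul_mem_of {g : G} {l : Set Ω} (h : g • l = l) {x : Ω} (hx : x ∈ l) : g • x ∈ l :=
  h ▸ Set.smul_mem_smul_set hx

theorem smul_eq_of_fix {g : G} {l : Set Ω} (h : ∀ x ∈ l, g • x = x) : g • l = l :=
  Set.ext fun x => ⟨by rintro ⟨y, hy, rfl⟩; simp only; rwa [h y hy], fun hx => ⟨x, hx, h x hx⟩⟩

namespace H2

variable {C : Cfg G Ω F K m i} (H : H2 C)
include H

theorem iv {e x : Ω} {t : G} (ht : Iv (C.N e) t) (hx : t • x = x) : Iv (C.N x) t := ⟨H.hF e x t ht hx, ht.2⟩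

theorem fx_eq {e : Ω} {t u : G} (ht : Iv (C.N e) t) (hu : Iv (C.N e) u) (h : Commute t u) :
    fixedBy Ω t = fixedBy Ω u := by
  ext x
  rcases eq_or_ne e x with rfl | k
  · exact iff_of_true (C.fix _ _ ht.1) (C.fix _ _ hu.1)
  · exact ⟨fun e => (H.hK k ht e hu).2 h, fun e => (H.hK k hu e ht).2 h.symm⟩

theorem two {l : Set Ω} (h : Ln C l) {e : Ω} (he : e ∈ l) : ∃ x ∈ l, e ≠ x := by
  obtain ⟨e', t, ht, rfl⟩ := h
  obtain ⟨b, hb⟩ := C.exists_ne e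
  obtain ⟨u, hu, k⟩ := H.h1 e b hb
  obtain ⟨g, hg, rfl⟩ := (C.loc e).some.iv_conj hu (H.iv ht he)
  exact ⟨g • b, cj_fix.2 (C.fix b u k), fun e1 => hb (smul_left_cancel g ((C.fix e g hg).trans e1))⟩

theorem ex {x y : Ω} (h : x ≠ y) : ∃ l, Ln C l ∧ x ∈ l ∧ y ∈ l := by
  obtain ⟨u, hu, k⟩ := H.h1 x y h
  exact ⟨_, ⟨x, u, hu, rfl⟩, C.fix x u hu.1, C.fix y u k⟩

theorem uq {l l' : Set Ω} {x y : Ω} (h : Ln C l) (h' : Ln C l') (hxy : x ≠ y) (x1 : x ∈ l) (y1 : y ∈ l)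
    (x2 : x ∈ l') (y2 : y ∈ l') : l = l' := by
  obtain ⟨e, t, ht, rfl⟩ := h
  obtain ⟨e', t', ht', rfl⟩ := h'
  exact H.fx_eq (H.iv ht x1) (H.iv ht' x2) ((H.hK hxy (H.iv ht x1) y1 (H.iv ht' x2)).1 y2)

theorem at' {l : Set Ω} (h : Ln C l) {e : Ω} (he : e ∈ l) : ∃ R : R0 (C.N e) F K m i, L Ω R = l := by
  obtain ⟨e', t, ht, rfl⟩ := h
  obtain ⟨R, hR⟩ := C.exists_at (H.iv ht he)
  exact ⟨R, by rw [← hR]⟩

theorem smul_eq {l : Set Ω} (h : Ln C l) {g : G} {x y : Ω} (hxy : x ≠ y) (x1 : x ∈ l) (y1 : y ∈ l)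
    (x2 : g • x ∈ l) (y2 : g • y ∈ l) : g • l = l :=
  H.uq (h.smul g) h (fun e => hxy (smul_left_cancel g e)) (Set.smul_mem_smul_set x1) (Set.smul_mem_smul_set y1) x2 y2

theorem ncard_eq {l l' : Set Ω} (h : Ln C l) (h' : Ln C l') : l.ncard = l'.ncard := by
  obtain ⟨e, t, ht, rfl⟩ := h
  obtain ⟨e', t', ht', rfl⟩ := h'
  obtain ⟨g, -, rfl⟩ := C.iv_isConj ht ht'
  rw [← smul_fixedBy, Set.ncard_smul_set]

variable {e : Ω} (R : R0 (C.N e) F K m i)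

theorem L_Z {z : G} (hz : z ∈ R.Z) (h1 : z ≠ 1) : fixedBy Ω z = L Ω R :=
  H.fx_eq ⟨R.S_le (R.Z_le hz), h1, R.Z_sq hz⟩ (R.iv_ζ one_ne_zero) (R.Z_comm hz (R.ζ_mem 1))

theorem Z_of {u : G} (hu : Iv (C.N e) u) {x : Ω} (h : e ≠ x) (hx : x ∈ L Ω R) (k : u • x = x) : u ∈ R.Z :=
  R.iv_mem_Z_of_comm hu (R.ζ_mem 1) (R.iv_ζ one_ne_zero).2.1
    ((H.hK h (R.iv_ζ one_ne_zero) hx hu).1 k).symm

theorem Z_of' {u : G} (hu : Iv (C.N e) u) (k : fixedBy Ω u = L Ω R) : u ∈ R.Z := by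
  obtain ⟨x, hx, h⟩ := H.two (ln_L R) (mem_L R)
  exact H.Z_of R hu h hx (k ▸ hx : x ∈ fixedBy Ω u)

theorem L_Nm {g : G} (hg : g ∈ Nm R.S) : g • L Ω R = L Ω R := by
  rw [smul_fixedBy, H.L_Z R (R.Z_norm hg (R.ζ_mem_Z 1)) (mt conj_eq_one_iff.1 (R.iv_ζ one_ne_zero).2.1)]

theorem Nm_of {g : G} (hg : g • e = e) (h : g • L Ω R = L Ω R) : g ∈ Nm R.S :=
  R.Nm_of_mem (C.nm hg) (R.ζ_mem 1) (R.iv_ζ one_ne_zero).2.1
    (R.Z_le (H.Z_of' R (C.iv_conj hg (R.iv_ζ one_ne_zero)) (by rw [← h, smul_fixedBy])))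

theorem L_eq {R' : R0 (C.N e) F K m i} (h : R'.S = R.S) : L Ω R' = L Ω R :=
  H.L_Z R (R.Z_eq h ▸ R'.ζ_mem_Z 1) (R'.iv_ζ one_ne_zero).2.1

theorem S_tr {k k' : Set Ω} (hk : Ln C k) (hk' : Ln C k') (e1 : e ∈ k) (e2 : e ∈ k') (n1 : k ≠ L Ω R)
    (n2 : k' ≠ L Ω R) : ∃ s ∈ R.S, s • k = k' := by
  obtain ⟨R1, rfl⟩ := H.at' hk e1
  obtain ⟨R2, rfl⟩ := H.at' hk' e2
  obtain ⟨s, hs, h⟩ := R.exists_S' (p := R1.pt) (p' := R2.pt) (fun h => n1 (H.L_eq R (congrArg Subtype.val h)))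
    fun h => n2 (H.L_eq R (congrArg Subtype.val h))
  have h : cj s R1.S = R2.S := congrArg Subtype.val h
  refine ⟨s, hs, ?_⟩
  rw [smul_fixedBy, H.L_Z R2 ((R2.sq_eq_one (h ▸ conj_mem_cj.2 (R1.ζ_mem 1))).1 (by rw [conj_mul, R1.ζ_sq]; simp))
    (mt conj_eq_one_iff.1 (R1.iv_ζ one_ne_zero).2.1)]

theorem S_semi {k : Set Ω} (hk : Ln C k) (e1 : e ∈ k) (n1 : k ≠ L Ω R) {s : G} (hs : s ∈ R.S) (h : s • k = k) :
    s = 1 := by
  obtain ⟨R1, rfl⟩ := H.at' hk e1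
  by_contra h1
  exact n1 (H.L_eq R (congrArg Subtype.val
    (R.S_fix hs h1 (R1.fix_pt.2 (H.Nm_of R1 (C.fix e s (R.S_le hs)) h)))))

theorem S_off {s : G} (hs : s ∈ R.S) {y : Ω} (hy : y ∉ L Ω R) (h : s • y = y) : s = 1 := by
  have n : e ≠ y := fun k => hy (k ▸ mem_L R)
  obtain ⟨k, k1, k2, k3⟩ := H.ex n
  exact H.S_semi R k1 k2 (fun e => hy (e ▸ k3)) hs
    (H.smul_eq k1 n k2 k3 ((C.fix e s (R.S_le hs)).symm ▸ k2) (h.symm ▸ k3))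

theorem even : Even (L Ω R).ncard := by
  obtain ⟨b, hb, n⟩ := H.two (ln_L R) (mem_L R)
  obtain ⟨d, hd⟩ := C.exists_sw n
  have k : d • L Ω R = L Ω R :=
    H.smul_eq (ln_L R) n (mem_L R) hb (hd.2.symm ▸ hb) ((hd.symm C).2.symm ▸ mem_L R)
  by_contra h
  obtain ⟨⟨x, hx⟩, h⟩ := odd_fix (α := L Ω R) (fun x => ⟨d • x.1, smul_mem_of k x.2⟩)
    (fun x => Subtype.ext (by simp only; rw [← mul_smul, hd.sq, one_smul])) (Nat.not_even_iff_odd.1 h)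
  have h : d • x = x := congrArg Subtype.val h
  obtain ⟨y, hy⟩ := hd.1
  obtain ⟨R1, h1⟩ := H.at' (ln_L R) hx
  have := H.L_Z R1 (R1.iv_mem_Z (H.iv hy h) (H.Nm_of R1 h (by rw [h1, k]))) hy.2.1
  exact n (((this.trans h1).symm ▸ mem_L R : e ∈ fixedBy Ω d).symm.trans hd.2)

theorem S_on {s : G} (hs : s ∈ R.S) {c : Ω} (hc : c ∈ L Ω R) : s • c = c := by
  letI : MulAction R.S (L Ω R) :=
    { smul := fun s x => ⟨(s : G) • x.1, smul_mem_of (H.L_Nm R (R.S_le_Nm s.2)) x.2⟩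
      one_smul := fun x => Subtype.ext (one_smul G x.1)
      mul_smul := fun s s' x => Subtype.ext (mul_smul (s : G) s' x.1) }
  obtain ⟨⟨y, hy⟩, k, ne⟩ := R.isPGroup_S.exists_fixed_point_of_prime_dvd_card_of_fixed_point _
    (even_iff_two_dvd.1 (H.even R)) (a := (⟨e, mem_L R⟩ : L Ω R)) fun s => Subtype.ext (C.fix e _ (R.S_le s.2))
  have ne : e ≠ y := fun e => ne (Subtype.ext e)
  rcases eq_or_ne e c with rfl | n
  · exact C.fix e s (R.S_le hs)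
  obtain ⟨g, h1, rfl⟩ := C.two e y e c ne n
  have := Nm_conj' (H.Nm_of R h1 (H.smul_eq (ln_L R) ne (mem_L R) hy (h1.symm ▸ mem_L R) hc)) hs
  have : (g⁻¹ * s * g) • y = y := congrArg Subtype.val (k ⟨_, this⟩)
  rwa [mul_smul, mul_smul, inv_smul_eq_iff] at this

theorem N_tr {k : Set Ω} (hk : Ln C k) (e1 : e ∈ k) : ∃ n ∈ C.N e, n • L Ω R = k := by
  obtain ⟨R1, rfl⟩ := H.at' hk e1
  obtain ⟨g, hg, h⟩ := R.iv_conj (R.iv_ζ one_ne_zero) (R1.iv_ζ one_ne_zero)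
  exact ⟨g, hg, by rw [smul_fixedBy, h]⟩

theorem cn_one {c : G} (hc : c ∈ Cn (C.N e)) (h : ∀ x ∈ L Ω R, c • x = x) : c = 1 := by
  refine C.faith c fun y => ?_
  rcases eq_or_ne e y with rfl | n
  · exact h _ (mem_L R)
  obtain ⟨k, k1, k2, k3⟩ := H.ex n
  obtain ⟨g, hg, rfl⟩ := H.N_tr R k1 k2
  obtain ⟨x, hx, rfl⟩ := k3
  simp only
  rw [← mul_smul, ← mem_Cn.1 hc g hg, mul_smul, h x hx]

theorem Z_le_Z {e' : Ω} (R' : R0 (C.N e') F K m i) (h : L Ω R' = L Ω R) : R'.Z ≤ R.Z := fun z hz => by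
  by_cases k : z = 1
  · exact k ▸ one_mem _
  have := (H.L_Z R' hz k).trans h
  exact H.Z_of' R (H.iv ⟨R'.S_le (R'.Z_le hz), k, R'.Z_sq hz⟩ (this ▸ mem_L R : e ∈ fixedBy Ω z)) this

theorem inner {y s : G} (hs : s ∈ R.S) (hc : s * y ∈ Cn (C.N e)) (h : ∀ x ∈ L Ω R, y • x = x) : y ∈ R.S :=
  eq_inv_of_mul_eq_one_right (H.cn_one R hc fun x hx => by rw [mul_smul, h x hx, H.S_on R hs hx]) ▸ inv_mem hs

theorem S_le_S {e' : Ω} (R' : R0 (C.N e') F K m i) (h : L Ω R' = L Ω R) : R'.S ≤ R.S := by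
  have f : ∀ y ∈ R'.S, ∀ x ∈ L Ω R, y • x = x := fun y hy x hx => H.S_on R' hy (h ▸ hx)
  have n : R'.S ≤ Nm R.S := fun y hy => H.Nm_of R (f y hy e (mem_L R)) (smul_eq_of_fix (f y hy))
  have z : ∀ y ∈ R'.S, ∀ x, y * R.ζ x * y⁻¹ = R.ζ x := fun y hy x => by
    rw [← R'.Z_comm (H.Z_le_Z R' R h.symm (R.ζ_mem_Z x)) hy, mul_inv_cancel_right]
  by_cases k : i = 3
  · subst k
    refine H4.PA.thetaOut R R' (le_antisymm (H.Z_le_Z R R' h) (H.Z_le_Z R' R h.symm)) n fun y hy k => ?_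
    obtain ⟨s, hs, c⟩ := R.FA (C.nm (f y hy e (mem_L R))) (n hy) (z y hy) k
    exact H.inner R hs c (f y hy)
  · intro y hy
    obtain ⟨s, hs, c⟩ := R.FA' k (C.nm (f y hy e (mem_L R))) (z y hy)
    exact H.inner R hs c (f y hy)

theorem S_eq {e' : Ω} (R' : R0 (C.N e') F K m i) (h : L Ω R' = L Ω R) : R'.S = R.S :=
  le_antisymm (H.S_le_S R R' h) (H.S_le_S R' R h.symm)

/-- `S` is transitive on the other lines through any point of its line -/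
theorem S_tr' {b : Ω} (hb : b ∈ L Ω R) {k k' : Set Ω} (hk : Ln C k) (hk' : Ln C k') (e1 : b ∈ k) (e2 : b ∈ k')
    (n1 : k ≠ L Ω R) (n2 : k' ≠ L Ω R) : ∃ s ∈ R.S, s • k = k' := by
  obtain ⟨R1, h⟩ := H.at' (ln_L R) hb
  exact H.S_eq R R1 h ▸ H.S_tr R1 hk hk' e1 e2 (h ▸ n1) (h ▸ n2)

theorem S_semi' {b : Ω} (hb : b ∈ L Ω R) {k : Set Ω} (hk : Ln C k) (e1 : b ∈ k) (n1 : k ≠ L Ω R) {s : G}
    (hs : s ∈ R.S) (h : s • k = k) : s = 1 := by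
  obtain ⟨R1, h1⟩ := H.at' (ln_L R) hb
  exact H.S_semi R1 hk e1 (h1 ▸ n1) (H.S_eq R R1 h1 ▸ hs) h

/-- the stabiliser of a line normalises its group -/
theorem Nm_of' {g : G} (h : g • L Ω R = L Ω R) : g ∈ Nm R.S :=
  cj_eq_iff.1 (H.S_eq R (R.cj g (C.cj_eq g e)) (by rw [← h, smul_fixedBy]; rfl))

theorem fx_S {s : G} (hs : s ∈ R.S) (h1 : s ≠ 1) : fixedBy Ω s = L Ω R := Set.ext fun _ =>
  ⟨fun k => by_contra fun n => h1 (H.S_off R hs n k), H.S_on R hs⟩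

end H2

end Cfsg.Agent.H1.TV
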