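import Cfsg.Agent.H1.TV3
import Cfsg.Agent.H4.PE

/-!
# Case IV.2: the plane and the counts
-/

set_option autoImplicit false
set_option linter.unusedSectionVars false

namespace Cfsg.Agent.H1.TV

open Cfsg.Agent.H5.TA Subgroup MulAction
open scoped Pointwise

variable {G Ω : Type*} [Group G] [Finite G] [Finite Ω] [MulAction G Ω] {F K : Type} [Field F] [Field K] {m i : ℕ}

theorem Ln.ne {C : Cfg G Ω F K m i} {l : Set Ω} (h : Ln C l) : ∃ y, y ∈ l := by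
  obtain ⟨e, t, ht, rfl⟩ := h
  exact ⟨e, C.fix e t ht.1⟩

namespace H2

variable {C : Cfg G Ω F K m i} (H : H2 C) {e : Ω} (R : R0 (C.N e) F K m i)
include H

theorem sline {s : G} (hs : s ∈ R.S) (h1 : s ≠ 1) {y : Ω} (hy : y ∉ L Ω R) :
    ∃ k, Ln C k ∧ y ∈ k ∧ s • y ∈ k ∧ Disjoint (L Ω R) k := by
  obtain ⟨k, k1, k2, k3⟩ := H.ex (x := y) (y := s • y) fun k => h1 (H.S_off R hs hy k.symm)
  refine ⟨k, k1, k2, k3, Set.disjoint_left.2 fun b b1 b2 => h1 (H.S_semi' R b1 k1 b2 (fun e => hy (e ▸ k2)) hs ?_)⟩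
  exact H.smul_eq k1 (x := b) (y := y) (fun e => hy (e ▸ b1)) b2 k2 ((H.S_on R hs b1).symm ▸ b2) k3

theorem tline {y : Ω} (hy : y ∉ L Ω R) :
    ∃ R' : R0 (C.N y) F K m i, R.ζ 1 • L Ω R' = L Ω R' ∧ Disjoint (L Ω R) (L Ω R') := by
  obtain ⟨k, k1, k2, k3, k4⟩ := H.sline R (R.ζ_mem 1) (R.iv_ζ one_ne_zero).2.1 hy
  obtain ⟨R', rfl⟩ := H.at' k1 k2
  exact ⟨R', H.smul_eq k1 (x := y) (y := R.ζ 1 • y) (fun e => hy e.symm) k2 k3 k3
    (by rwa [← mul_smul, R.ζ_sq, one_smul]), k4⟩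

theorem play {l k : Set Ω} (hl : Ln C l) (d : Disjoint l (L Ω R)) (hn : (2 ^ m) ^ i ≤ l.ncard) (hk : Ln C k)
    (e1 : e ∈ k) (d' : Disjoint l k) : k = L Ω R := by
  by_contra n
  have ne : e ∉ l := fun h => Set.disjoint_left.1 d h (mem_L R)
  have : ∀ x : l, ∃ s : R.S, x.1 ∈ (s : G) • k := fun x => by
    obtain ⟨p, p1, p2, p3⟩ := H.ex (x := e) (y := x) fun h => ne (h ▸ x.2)
    obtain ⟨s, hs, rfl⟩ := H.S_tr R hk p1 e1 p2 n fun h => Set.disjoint_left.1 d x.2 (h ▸ p3)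
    exact ⟨⟨s, hs⟩, p3⟩
  choose f hf using this
  have inj : Function.Injective f := fun x x' h => by
    by_contra k1
    refine ne (H.uq (hk.smul (f x : G)) hl (fun e => k1 (Subtype.ext e)) (hf x) (h ▸ hf x') x.2 x'.2 ▸ ?_)
    simpa only [C.fix e _ (R.S_le (f x).2)] using Set.smul_mem_smul_set (a := (f x : G)) e1
  obtain ⟨x, hx⟩ := (inj.bijective_of_nat_card_le (by rw [R.card_S]; exact hn)).2 1
  have := hf x
  rw [hx, OneMemClass.coe_one, one_smul] at this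
  exact Set.disjoint_left.1 d' x.2 this

theorem aff (hn : (2 ^ m) ^ i ≤ (L Ω R).ncard) : Aff G (Ln C) where
  ex := fun _ _ => H.ex
  uq := H.uq
  inv := fun g _ h => h.smul g
  pex := fun {l y} h hy => by
    obtain ⟨x, hx⟩ := h.ne
    obtain ⟨R1, rfl⟩ := H.at' h hx
    obtain ⟨R', -, k⟩ := H.tline R1 hy
    exact ⟨_, ln_L R', mem_L R', k⟩
  puq := fun {l l₁ l₂ y} h h1 h2 y1 y2 d1 d2 => by
    obtain ⟨R1, rfl⟩ := H.at' h1 y1
    exact (H.play R1 h d1 (H.ncard_eq h (ln_L R) ▸ hn) h2 y2 d2).symm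
  out := Ln.out
  two := C.two
  faith := C.faith

omit R in
theorem par_fix (A : Aff G (Ln C)) (R : R0 (C.N e) F K m i) {s : G} (hs : s ∈ R.S) (k : Set Ω) (hk : Ln C k)
    (p : Par (L Ω R) k) : s • k = k := by
  have h0 := H.L_Nm R (R.S_le_Nm hs)
  rcases p with rfl | p
  · exact h0
  by_cases h1 : s = 1
  · rw [h1, one_smul]
  obtain ⟨y, hy⟩ := hk.ne
  obtain ⟨k', k1, k2, k3, k4⟩ := H.sline R hs h1 fun h => Set.disjoint_left.1 p h hy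
  obtain rfl := A.puq (ln_L R) hk k1 hy k2 p k4
  exact A.puq (ln_L R) (hk.smul s) hk (Set.smul_mem_smul_set hy) k3 (h0 ▸ Set.disjoint_smul_set.2 p) p

theorem plane (hn : (2 ^ m) ^ i ≤ (L Ω R).ncard) : HasReg G Ω := by
  have A := H.aff R hn
  obtain ⟨y, hy⟩ := (ln_L R).out
  obtain ⟨R', -, d⟩ := H.tline R hy
  refine A.hasReg' (ln_L R) (ln_L R') d (mem_L R) (t := R.ζ 1) (fun _ h => h) (H.par_fix A R (R.ζ_mem 1))
    (fun k k1 k2 k3 => by_contra fun n => (R.iv_ζ one_ne_zero).2.1 (H.S_semi R k1 k2 n (R.ζ_mem 1) k3))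
    fun b hb k k' k1 k2 b1 b2 n1 n2 => ?_
  obtain ⟨s, hs, h⟩ := H.S_tr' R' hb k1 k2 b1 b2 n1 n2
  exact ⟨s, h, H.par_fix A R' hs, or_iff_not_imp_left.2 fun h1 y k => H.fx_S R' hs h1 ▸ k⟩

theorem card_off : (L Ω R)ᶜ.ncard = (2 ^ m) ^ i * ((L Ω R).ncard - 1) := by
  obtain ⟨y, hy⟩ := (ln_L R).out
  obtain ⟨k, k1, k2, k3⟩ := H.ex (x := e) (y := y) fun h => hy (h ▸ mem_L R)
  have n : k ≠ L Ω R := fun h => hy (h ▸ k3)
  have fe : ∀ s : R.S, (s : G) • e = e := fun s => C.fix e _ (R.S_le s.2)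
  have off : ∀ x ∈ k, x ≠ e → x ∉ L Ω R := fun x h1 h2 h3 => n (H.uq k1 (ln_L R) h2 h1 k2 h3 (mem_L R))
  rw [H.ncard_eq (ln_L R) k1, ← Set.ncard_sdiff_singleton_of_mem k2, ← R.card_S, ← Nat.card_coe_set_eq,
    ← Nat.card_coe_set_eq, ← Nat.card_prod]
  symm
  refine Nat.card_congr (Equiv.ofBijective (fun x => ⟨(x.1 : G) • x.2.1, fun h => off _ x.2.2.1 x.2.2.2 ?_⟩) ⟨?_, ?_⟩)
  · simpa using smul_mem_of (H.L_Nm R (R.S_le_Nm (inv_mem x.1.2))) h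
  · rintro ⟨s, x, x1, x2⟩ ⟨s', x', y1, y2⟩ h
    have h : (s : G) • x = (s' : G) • x' := congrArg Subtype.val h
    have h' : ((s'⁻¹ * s : R.S) : G) • x = x' := by rw [coe_mul, mul_smul, h, coe_inv, inv_smul_smul]
    have := H.S_semi R k1 k2 n (s'⁻¹ * s).2 (H.smul_eq k1 x2 x1 k2 (h' ▸ y1) ((fe _).symm ▸ k2))
    rw [this, one_smul] at h'
    obtain rfl : s' = s := inv_mul_eq_one.1 (Subtype.ext this)
    subst h'
    rfl
  · rintro ⟨x, hx⟩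
    have ne : e ≠ x := fun h => hx (h ▸ mem_L R)
    obtain ⟨p, p1, p2, p3⟩ := H.ex ne
    obtain ⟨s, hs, rfl⟩ := H.S_tr R k1 p1 k2 p2 n fun h => hx (h ▸ p3)
    obtain ⟨x', h1, rfl⟩ := p3
    exact ⟨(⟨s, hs⟩, ⟨x', h1, fun h => ne (by rw [Set.mem_singleton_iff.1 h]; exact (fe ⟨s, hs⟩).symm)⟩), rfl⟩

theorem c12 {e' : Ω} (R' : R0 (C.N e') F K m i) (n : L Ω R ≠ L Ω R') (x : G)
    (hx : x ∈ R'.S ⊓ stabilizer G (L Ω R)) (h1 : x ≠ 1) (s : G) (hs : s ∈ R.S) :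
    Commute s x ↔ s ∈ R.S ⊓ stabilizer G (L Ω R') := by
  constructor
  · refine fun h => ⟨hs, ?_⟩
    change s • L Ω R' = L Ω R'
    rw [← H.fx_S R' hx.1 h1, smul_fixedBy, h.eq, mul_inv_cancel_right]
  · intro h
    by_contra k
    have k : s * x * s⁻¹ * x⁻¹ ≠ 1 := fun e => k (mul_inv_eq_iff_eq_mul.1 (mul_inv_eq_one.1 e))
    refine n ((H.fx_S R ?_ k).symm.trans (H.fx_S R' (mul_mem (Nm_conj (H.Nm_of' R' h.2) hx.1) (inv_mem hx.1)) k))
    have := mul_mem hs (Nm_conj (H.Nm_of' R hx.2) (inv_mem hs))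
    rwa [← mul_assoc, ← mul_assoc] at this

theorem ee (hi : i ≠ 1) {e' : Ω} (R' : R0 (C.N e') F K m i) (ht : R.ζ 1 • L Ω R' = L Ω R')
    (n : L Ω R ≠ L Ω R') : R.S ⊓ stabilizer G (L Ω R') = R.S ∨
      (i = 2 ∧ R.S ⊓ stabilizer G (L Ω R') = R.Z ∧ R'.S ⊓ stabilizer G (L Ω R) = R'.Z) := by
  refine H4.PA.EE R R' hi inf_le_left inf_le_left (fun x hx => H.Nm_of' R hx.2) (fun x hx => H.Nm_of' R' hx.2)
    (H.c12 R R' n) (H.c12 R' R n.symm)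
    (fun h => (R.iv_ζ one_ne_zero).2.1 (mem_bot.1 (h ▸ ⟨R.ζ_mem 1, ht⟩))) fun h => ?_
  obtain ⟨f, -, hf⟩ := R'.exists_LZ (H.Nm_of' R' ht)
  have key : ∀ x, f x = x → x = 0 := fun x hx => R'.ζ_eq_one.1 (mem_bot.1 (h ▸ ⟨R'.ζ_mem x, by
    change R'.ζ x • L Ω R = L Ω R
    have := hf x
    rw [hx, mul_inv_eq_iff_eq_mul] at this
    rw [smul_fixedBy, ← this, mul_inv_cancel_right]⟩))
  have h2 : f (f 1) = 1 := R'.ζ_inj (by
    rw [← hf, ← hf, R.ζ_inv]; simp only [mul_assoc, R.ζ_sq, mul_one]; rw [← mul_assoc, R.ζ_sq, one_mul])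
  have h3 := key (f 1 + 1) (by rw [map_add, h2, add_comm])
  exact one_ne_zero (key 1 (by linear_combination h3 - R.addF 1))

theorem dvd_of {e' : Ω} (R' : R0 (C.N e') F K m i) (d : Disjoint (L Ω R) (L Ω R')) :
    Nat.card (R.S ⊓ stabilizer G (L Ω R') : Subgroup G) ∣ (L Ω R).ncard := by
  rw [H.ncard_eq (ln_L R) (ln_L R')]
  exact H5.card_dvd_ncard (Set.toFinite _) (fun k hk x hx => smul_mem_of hk.2 hx)
    fun x hx k hk h => H.S_off R hk.1 (fun h => Set.disjoint_left.1 d h hx) h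

theorem two_le : 2 ≤ (L Ω R).ncard := by
  obtain ⟨b, hb, n⟩ := H.two (ln_L R) (mem_L R)
  exact (Set.one_lt_ncard (Set.toFinite _)).2 ⟨e, mem_L R, b, hb, n⟩

theorem sz (hi : i = 2) (hκ : (L Ω R).ncard = 2 ^ m)
    (hT : ∀ b c, b ∈ L Ω R → c ∈ L Ω R → e ≠ b → e ≠ c → ∃ h ∈ R.T, h • b = c)
    (h : ∀ y ∉ L Ω R, ∃ R' : R0 (C.N y) F K m i, Disjoint (L Ω R) (L Ω R') ∧
      R.S ⊓ stabilizer G (L Ω R') = R.Z ∧ R'.S ⊓ stabilizer G (L Ω R) = R'.Z) : False := by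
  subst hi
  classical
  obtain ⟨b, hb, n⟩ := H.two (ln_L R) (mem_L R)
  have k1 : ∀ y ∉ L Ω R, ∃ d : G, d * d = 1 ∧ d • y = y ∧ d • e = b ∧ d • L Ω R = L Ω R ∧
      (∀ x, d * R.ζ x * d⁻¹ = R.ζ x) ∧ (fixedBy Ω d).ncard = 2 ^ m := fun y hy => by
    obtain ⟨R', d, e1, e2⟩ := h y hy
    have st : ∀ z : R'.Z, (z : G) • L Ω R = L Ω R := fun z => (e2.ge z.2).2
    have inj : Function.Injective fun z : R'.Z => (⟨(z : G) • e, smul_mem_of (st z) (mem_L R)⟩ : L Ω R) :=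
      fun z z' k => by
        have k : (z : G) • e = (z' : G) • e := congrArg Subtype.val k
        exact (inv_mul_eq_one.1 (Subtype.ext (H.S_off R' (R'.Z_le (z'⁻¹ * z).2)
          (fun h => Set.disjoint_left.1 d (mem_L R) h) (by rw [coe_mul, mul_smul, k, coe_inv, inv_smul_smul])))).symm
    obtain ⟨z, hz⟩ := (inj.bijective_of_nat_card_le (by rw [R'.card_Z]; exact hκ.le)).2 ⟨b, hb⟩
    have hz : (z : G) • e = b := congrArg Subtype.val hz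
    have z1 : (z : G) ≠ 1 := fun k => n (by rw [← hz, k, one_smul])
    refine ⟨z, R'.Z_sq z.2, C.fix y _ (R'.S_le (R'.Z_le z.2)), hz, st z, fun x => ?_, ?_⟩
    · have := (H.c12 R R' (fun k => hy (k ▸ mem_L R')) z (e2.ge z.2) z1 _ (R.ζ_mem x)).2 (e1.ge (R.ζ_mem_Z x))
      rw [← this.eq, mul_inv_cancel_right]
    · rw [H.L_Z R' z.2 z1, H.ncard_eq (ln_L R') (ln_L R), hκ]
  obtain ⟨y0, hy0⟩ := (ln_L R).out
  obtain ⟨d0, a1, -, a2, a3, a4, -⟩ := k1 y0 hy0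
  have a5 : d0 • b = e := by rw [← a2, ← mul_smul, a1, one_smul]
  have k2 : ∀ y : ((L Ω R)ᶜ : Set Ω), ∃ s, (s ∈ R.S ∧ d0 * s * (d0 * s) = 1) ∧ (d0 * s) • y.1 = y.1 ∧
      (fixedBy Ω (d0 * s)).ncard = 2 ^ m := fun y => by
    obtain ⟨d, b1, b2, b3, -, b4, b5⟩ := k1 y.1 y.2
    have b6 : d • b = e := by rw [← b3, ← mul_smul, b1, one_smul]
    obtain ⟨s, hs, c⟩ := R.FA' (by norm_num) (g := d0 * d) (C.nm (by rw [mul_smul, b3, a5])) fun x => by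
      calc _ = d0 * (d * R.ζ x * d⁻¹) * d0⁻¹ := by group
        _ = _ := by rw [b4, a4]
    have c1 : (s * (d0 * d)) • b = b := by rw [mul_smul, mul_smul, b6, a2, H.S_on R hs hb]
    have c2 := H.cn_one R c fun x hx => by
      rcases eq_or_ne e x with rfl | k
      · exact C.cn_fix c
      obtain ⟨t, ht, rfl⟩ := hT b x hb hx n k
      rw [← mul_smul, ← mem_Cn.1 c t (R.T_le ht), mul_smul, c1]
    have c3 : d0 * s⁻¹ = d := by rw [← eq_inv_of_mul_eq_one_right c2, ← mul_assoc, a1, one_mul]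
    exact ⟨s⁻¹, ⟨inv_mem hs, by rw [c3, b1]⟩, by rw [c3, b2], by rw [c3, b5]⟩
  choose f f1 f2 f3 using k2
  haveI := Fintype.ofFinite G
  haveI := Fintype.ofFinite ((L Ω R)ᶜ : Set Ω)
  have k3 := Finset.card_le_mul_card_image_of_maps_to (f := f) (s := Finset.univ)
    (t := {s | s ∈ R.S ∧ d0 * s * (d0 * s) = 1}.toFinset) (fun y _ => Set.mem_toFinset.2 (f1 y)) (2 ^ m) fun s _ => by
      rcases (Finset.univ.filter fun y => f y = s).eq_empty_or_nonempty with k | ⟨y, k⟩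
      · simp [k]
      obtain rfl := (Finset.mem_filter.1 k).2
      rw [← f3 y, ← Set.ncard_coe_finset]
      exact Set.ncard_le_ncard_of_injOn Subtype.val
        (fun z hz => (Finset.mem_filter.1 hz).2 ▸ f2 z) Subtype.val_injective.injOn
  rw [Finset.card_univ, ← Nat.card_eq_fintype_card, Nat.card_coe_set_eq, H.card_off R, hκ, ← Set.ncard_eq_toFinset_card',
    pow_two, mul_assoc] at k3
  exact absurd (Nat.le_of_mul_le_mul_left k3 (by positivity)) (not_le.2 (H4.PA.szEnd R a1 (H.Nm_of' R a3) a4))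

theorem main
    (hB : 2 < (L Ω R).ncard → ∀ h ∈ R.T, ∀ b ∈ L Ω R, e ≠ b → h • b = b → R.ν (R.ψ h) = 1)
    (hC : i = 1 → (L Ω R).ncard = 2 → m = 2) : (Nat.card Ω = 6 ∧ m = 2 ∧ i = 1) ∨ HasReg G Ω := by
  by_cases hn : (2 ^ m) ^ i ≤ (L Ω R).ncard
  · exact Or.inr (H.plane R hn)
  have h2 := H.two_le R
  have h4 := R.four_le
  have inv : ∀ h ∈ R.T, ∀ x ∈ L Ω R \ {e}, h • x ∈ L Ω R \ {e} := fun k hk x hx =>
    ⟨smul_mem_of (H.L_Nm R (R.T_le_Nm hk)) hx.1,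
      fun h => hx.2 (smul_left_cancel k (h.trans (C.fix e k (R.T_le hk)).symm))⟩
  have semi : i ≠ 3 → 2 < (L Ω R).ncard → ∀ x ∈ L Ω R \ {e}, ∀ h ∈ R.T, h • x = x → h = 1 := fun h3 h x hx k hk e1 =>
    R.ψ_inj k hk (R.ν_inj h3 ((hB h k hk x hx.1 (Ne.symm hx.2) e1).trans R.ν_one.symm))
  have dv : i ≠ 3 → 2 < (L Ω R).ncard → 2 ^ m - 1 ∣ (L Ω R).ncard - 1 := fun h3 h => by
    rw [← R.card_T h3, ← Set.ncard_sdiff_singleton_of_mem (mem_L R)]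
    exact H5.card_dvd_ncard (Set.toFinite _) inv (semi h3 h)
  by_cases hi : i = 1
  · subst hi
    rcases h2.eq_or_lt with k | k
    · obtain rfl := hC rfl k.symm
      refine Or.inl ⟨?_, rfl, rfl⟩
      rw [← Set.ncard_add_ncard_compl (L Ω R), H.card_off R, ← k]
      rfl
    · have := Nat.le_of_dvd (by omega) (dv (by norm_num) k)
      rw [pow_one] at hn
      omega
  exfalso
  have key : ∀ y ∉ L Ω R, ∃ R' : R0 (C.N y) F K m i, Disjoint (L Ω R) (L Ω R') ∧ i = 2 ∧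
      R.S ⊓ stabilizer G (L Ω R') = R.Z ∧ R'.S ⊓ stabilizer G (L Ω R) = R'.Z := fun y hy => by
    obtain ⟨R', k, d⟩ := H.tline R hy
    refine ⟨R', d, (H.ee R hi R' k fun e => hy (e ▸ mem_L R')).resolve_left fun e => hn ?_⟩
    have := H.dvd_of R R' d
    rw [e, R.card_S] at this
    exact Nat.le_of_dvd (by omega) this
  obtain ⟨y, hy⟩ := (ln_L R).out
  obtain ⟨R', d, rfl, e1, -⟩ := key y hy
  obtain ⟨u, hu⟩ : 2 ^ m ∣ (L Ω R).ncard := by simpa only [e1, R.card_Z] using H.dvd_of R R' d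
  have h3 : 2 < (L Ω R).ncard := by
    rcases u with _ | u
    · omega
    · rw [hu]; nlinarith
  have hκ : (L Ω R).ncard = 2 ^ m := by
    have k := dv (by norm_num) h3
    rw [hu] at k hn h2 ⊢
    obtain ⟨p, hp⟩ : ∃ p, 2 ^ m = p + 1 := ⟨2 ^ m - 1, by omega⟩
    rw [hp] at k hn h2 ⊢
    rcases u with _ | u
    · omega
    rw [Nat.add_sub_cancel, show (p + 1) * (u + 1) - 1 = p * (u + 1) + u by rw [add_mul]; omega,
      Nat.dvd_add_right (dvd_mul_right _ _)] at k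
    rw [Nat.eq_zero_of_dvd_of_lt k (by nlinarith), zero_add, mul_one]
  refine H.sz R rfl hκ (fun b c hb hc nb nc => ?_) fun y hy => (key y hy).imp fun _ k => ⟨k.1, k.2.2⟩
  have inj : Function.Injective fun t : R.T => (⟨(t : G) • b, inv t t.2 b ⟨hb, nb.symm⟩⟩ : (L Ω R \ {e} : Set Ω)) :=
    fun z z' k => by
      have k : (z : G) • b = (z' : G) • b := congrArg Subtype.val k
      exact (inv_mul_eq_one.1 (Subtype.ext (semi (by norm_num) h3 b ⟨hb, nb.symm⟩ _ (z'⁻¹ * z).2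
        (by rw [coe_mul, mul_smul, k, coe_inv, inv_smul_smul])))).symm
  obtain ⟨z, hz⟩ := (inj.bijective_of_nat_card_le (by
    rw [R.card_T (by norm_num), Nat.card_coe_set_eq, Set.ncard_sdiff_singleton_of_mem (mem_L R), hκ])).2 ⟨c, hc, nc.symm⟩
  exact ⟨z, z.2, congrArg Subtype.val hz⟩

end H2

end Cfsg.Agent.H1.TV
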