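import Cfsg.Agent.H1.URb

/-! Rank 3 actions of unitary groups: numerical data. -/

set_option autoImplicit false

namespace Cfsg.Agent.H1.UR

open Module H5 Matrix
open scoped Classical

/-- the numerical relations (no parity) -/
structure SN (N θ₀ θ f k₁ k₂ μ ρ s β γ : ℤ) : Prop where
  h1 : N = 1 + k₁ + k₂
  k2 : 0 ≤ k₂
  h2 : k₁ = μ + ρ * s
  mu : 1 ≤ μ
  h3 : N * μ = (k₁ - ρ) * (k₁ + s)
  h4 : f * (ρ + s) + k₁ + s = s * N
  h5 : θ₀ = β * k₁ + γ * k₂
  h6 : θ + γ = (β - γ) * ρ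
  lt : γ < β
  g0 : 0 ≤ γ
  lam : s ≤ μ + ρ
  s0 : 0 ≤ s
  rho : 0 < ρ

section

variable {G X : Type*} [Group G] [MulAction G X] {adj : X → X → Prop} [Fintype X]

theorem num_aux (h : Rk3 G adj) {K E : Matrix X X ℝ} {β γ : ℕ}
    (hK : K = (β : ℝ) • adjM adj + (γ : ℝ) • (JM X X - 1 - adjM adj)) (hle : γ ≤ β)
    {θ₀ θ : ℤ} (hJ : K * JM X X = (θ₀ : ℝ) • JM X X) (hE : InvM G E) (h1 : E * E = E)
    (h0 : E ≠ 0) (hJE : JM X X * E = 0) (hθ : K * E = (θ : ℝ) • E) (pos : 0 < θ) :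
    ∃ f k₁ k₂ μ ρ s β γ : ℤ, (f : ℝ) = E.trace ∧ SN (Fintype.card X) θ₀ θ f k₁ k₂ μ ρ s β γ := by
  obtain ⟨a, b, c, hab, hbc, hac, hac'⟩ := h.conn
  have hA := h.entries (h.invM_adj.mul h.invM_adj) hab hac hac'
  rw [Rk3.adj_sq, Rk3.adj_sq, Rk3.adj_sq] at hA
  have ek : (Finset.univ.filter fun z => adj a z ∧ adj z a) = H2.nbF adj a := by
    ext z; simp only [Finset.mem_filter, Finset.mem_univ, true_and, H2.mem_nbF]
    exact ⟨fun e => e.1, fun e => ⟨e, h.symm e⟩⟩
  rw [ek] at hA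
  have hJA := h.J_mul_adj a
  have hAJ := h.adj_mul_J a
  have m1 : 1 ≤ (Finset.univ.filter fun z => adj a z ∧ adj z c).card :=
    Finset.card_pos.2 ⟨b, by simp [hab, hbc]⟩
  have m2 : (Finset.univ.filter fun z => adj a z ∧ adj z c).card ≤ (H2.nbF adj a).card :=
    Finset.card_le_card fun z hz => H2.mem_nbF.2 (Finset.mem_filter.1 hz).2.1
  have m3 : (H2.nbF adj a).card + 1 ≤ Fintype.card X := by
    rw [← Finset.card_insert_of_notMem (fun e => h.irrefl a (H2.mem_nbF.1 e))]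
    exact Finset.card_le_univ _
  set k := (H2.nbF adj a).card
  set l := (Finset.univ.filter fun z => adj a z ∧ adj z b).card
  set μ := (Finset.univ.filter fun z => adj a z ∧ adj z c).card
  set N := Fintype.card X
  have hJJ := JM_mul_JM X X X
  obtain ⟨α, y, z, e⟩ := h.span hE
  set A := adjM adj
  set J := JM X X
  have hAE : A * E = (y * (k - μ)) • (1 : Matrix X X ℝ) + (α + y * (l - μ)) • A + (y * μ + z * k) • J := by
    rw [e, Matrix.mul_add, Matrix.mul_add, Matrix.mul_smul, Matrix.mul_smul, Matrix.mul_smul, hA, hAJ,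
      Matrix.mul_one]
    module
  have q1 : (-(γ + θ) * α + (β - γ) * (y * (k - μ))) • (1 : Matrix X X ℝ) +
      (-(γ + θ) * y + (β - γ) * (α + y * (l - μ))) • A +
      (-(γ + θ) * z + (β - γ) * (y * μ + z * k)) • J = 0 := by
    rw [hK, Matrix.add_mul, Matrix.smul_mul, Matrix.smul_mul, Matrix.sub_mul, Matrix.sub_mul, hJE,
      Matrix.one_mul, hAE] at hθ
    rw [← sub_eq_zero] at hθ
    rw [← hθ, e]
    module
  have q2 : (α * α - α + y * (y * (k - μ))) • (1 : Matrix X X ℝ) +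
      (α * y - y + y * (α + y * (l - μ))) • A + (α * z - z + y * (y * μ + z * k)) • J = 0 := by
    have : E * E = α • E + y • (A * E) + z • (J * E) := by
      conv_lhs => lhs; rw [e]
      simp only [Matrix.add_mul, Matrix.smul_mul, Matrix.one_mul]
    rw [h1, hAE, hJE, ← sub_eq_zero] at this
    rw [← neg_eq_zero, ← this, e]
    module
  have q3 : α + y * k + z * N = 0 := by
    rw [e, Matrix.mul_add, Matrix.mul_add, Matrix.mul_smul, Matrix.mul_smul, Matrix.mul_smul, hJA, hJJ,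
      Matrix.mul_one] at hJE
    have := congrFun (congrFun hJE a) a
    simpa [J, JM_apply] using this
  have q4 : (θ₀ : ℝ) = β * k + γ * (N - 1 - k) := by
    rw [hK, Matrix.add_mul, Matrix.smul_mul, Matrix.smul_mul, Matrix.sub_mul, Matrix.sub_mul, hAJ, hJJ,
      Matrix.one_mul] at hJ
    have := congrFun (congrFun hJ a) a
    simpa [J, JM_apply] using this.symm
  have q5 : E.trace = α * N + z * N := by
    rw [e]
    simp [Matrix.trace, A, J, adjM, JM_apply, h.irrefl, N]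
    ring
  obtain ⟨r1, r2, r3⟩ := h.indep q1
  obtain ⟨-, r4, -⟩ := h.indep q2
  have hN : (0 : ℝ) < N := by exact_mod_cast h.card_pos
  have hp : (0 : ℝ) < γ + θ := by
    have : (0 : ℝ) < θ := by exact_mod_cast pos
    positivity
  have y0 : y ≠ 0 := by
    rintro rfl
    have ha : α = 0 := by
      have : (γ + θ) * α = 0 := by linarith
      exact (mul_eq_zero.1 this).resolve_left hp.ne'
    have hz : z = 0 := by
      have : z * N = 0 := by linarith
      exact (mul_eq_zero.1 this).resolve_right hN.ne'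
    exact h0 (by rw [e, ha, hz]; simp)
  have d0 : (β : ℤ) - γ ≠ 0 := by
    intro hd
    have : (β : ℝ) - γ = 0 := by exact_mod_cast hd
    rw [this] at r2
    exact y0 ((mul_eq_zero.1 (by linarith : (γ + θ) * y = 0)).resolve_left hp.ne')
  obtain ⟨ρ, hρ⟩ : (β : ℤ) - γ ∣ θ + γ := by
    refine dvd_of_monic_root (c₁ := l - μ) (c₂ := k - μ) d0 ?_
    have : y * (((θ : ℝ) + γ) ^ 2 - ((β - γ) * (l - μ) * (θ + γ) + (β - γ) ^ 2 * (k - μ))) = 0 := by
      linear_combination (-((θ : ℝ) + γ)) * r2 - (β - γ) * r1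
    have := sub_eq_zero.1 ((mul_eq_zero.1 this).resolve_left y0)
    exact_mod_cast this
  have hρ' : (θ : ℝ) + γ = (β - γ) * ρ := by exact_mod_cast hρ
  have d0' : (β : ℝ) - γ ≠ 0 := by exact_mod_cast d0
  have dp : (0 : ℤ) < β - γ := by omega
  have ρp : 0 < ρ := by
    by_contra hc
    have := mul_nonpos_of_nonneg_of_nonpos dp.le (not_lt.1 hc)
    omega
  have t1 : α = y * (ρ + μ - l) := by
    apply mul_left_cancel₀ d0'
    linear_combination r2 + y * hρ'
  have t2 : (k : ℝ) = μ + ρ * (ρ + μ - l) := by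
    apply mul_left_cancel₀ (mul_ne_zero d0' y0)
    linear_combination r1 + α * hρ' + (β - γ) * ρ * t1
  have t3 : y * (ρ + (ρ + μ - l)) = 1 := by
    apply mul_left_cancel₀ y0
    linear_combination r4 - 2 * y * t1
  have t4 : z * (k - ρ) + y * μ = 0 := by
    apply mul_left_cancel₀ d0'
    linear_combination r3 + z * hρ'
  obtain ⟨f, hf⟩ := trace_idem_nat h1
  have t2' : (k : ℤ) = μ + ρ * (ρ + μ - l) := by exact_mod_cast t2
  refine ⟨f, k, N - 1 - k, μ, ρ, ρ + μ - l, β, γ, by rw [hf]; simp, by ring, by omega, t2', by omega,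
    ?_, ?_, by exact_mod_cast q4, hρ, by omega, by omega,
    by omega, ?_, ρp⟩
  · have : (N : ℝ) * μ = (k - ρ) * (k + (ρ + μ - l)) := by
      apply mul_left_cancel₀ y0
      linear_combination N * t4 - (k - ρ) * q3 + (k - ρ) * t1
    exact_mod_cast this
  · have : (f : ℝ) * (ρ + (ρ + μ - l)) + k + (ρ + μ - l) = (ρ + μ - l) * N := by
      rw [← hf, q5]
      linear_combination (ρ + (ρ + μ - l)) * q3 + (ρ + (ρ + μ - l)) * (N - 1) * t1 +
        ((N - 1) * (ρ + μ - l) - k) * t3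
    exact_mod_cast this
  · by_contra hc
    have := mul_neg_of_pos_of_neg ρp (not_le.1 hc)
    omega

theorem num (h : Rk3 G adj) {K E : Matrix X X ℝ} (hK : InvM G K) (hd : ∀ x, K x x = 0)
    (hev : ∀ x y, ∃ n : ℕ, K x y = n) {θ₀ θ : ℤ} (hJ : K * JM X X = (θ₀ : ℝ) • JM X X)
    (hE : InvM G E) (h1 : E * E = E) (h0 : E ≠ 0) (hθ : K * E = (θ : ℝ) • E) (pos : 0 < θ)
    (hne : θ ≠ θ₀) :
    ∃ f k₁ k₂ μ ρ s β γ : ℤ, (f : ℝ) = E.trace ∧ SN (Fintype.card X) θ₀ θ f k₁ k₂ μ ρ s β γ := by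
  have hJE := h.J_mul_eq_zero hK hJ hθ (by exact_mod_cast hne)
  obtain ⟨a, b, c, hab, -, hac, hac'⟩ := h.conn
  have e := h.entries hK hab hac hac'
  obtain ⟨β, hb⟩ := hev a b
  obtain ⟨γ, hg⟩ := hev a c
  rw [hd, hb, hg, zero_smul, zero_add] at e
  rcases le_total γ β with hle | hle
  · exact num_aux h e hle hJ hE h1 h0 hJE hθ pos
  · refine num_aux h.compl ?_ hle hJ hE h1 h0 hJE hθ pos
    have : adjM (fun a b => a ≠ b ∧ ¬ adj a b) = JM X X - 1 - adjM adj := by
      ext x y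
      by_cases h1 : x = y
      · simp [adjM, JM_apply, h1, h.irrefl]
      · by_cases h2 : adj x y <;> simp [adjM, JM_apply, h1, h2]
    rw [this, e]
    module

theorem key_int (h : Rk3 G adj) {K E : Matrix X X ℝ} (hK : InvM G K) (hd : ∀ x, K x x = 0)
    (hev : ∀ x y, ∃ n : ℕ, K x y = n) {θ₀ θ : ℤ} (hJ : K * JM X X = (θ₀ : ℝ) • JM X X)
    (hE : InvM G E) (h1 : E * E = E) (h0 : E ≠ 0) (hθ : K * E = (θ : ℝ) • E) (hne : θ ≠ θ₀) :
    ∃ f a : ℤ, (f : ℝ) = E.trace ∧ f + 1 ≤ Fintype.card X ∧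
      a * Fintype.card X = θ₀ + a + f * (θ + a) := by
  have hJE := h.J_mul_eq_zero hK hJ hθ (by exact_mod_cast hne)
  have hle : E.trace + 1 ≤ Fintype.card X := by
    have hN : (Fintype.card X : ℝ) ≠ 0 := by exact_mod_cast h.card_pos.ne'
    have hEJ : E * JM X X = 0 := by
      rw [← h.symm_of_inv _ hE, ← JM_transpose, ← Matrix.transpose_mul, hJE, Matrix.transpose_zero]
    obtain ⟨n, hn⟩ := trace_idem_nat (E := 1 - (Fintype.card X : ℝ)⁻¹ • JM X X - E) (by
      simp only [Matrix.sub_mul, Matrix.mul_sub, Matrix.one_mul, Matrix.mul_one, Matrix.smul_mul,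
        Matrix.mul_smul, JM_mul_JM, hJE, hEJ, h1, smul_smul, inv_mul_cancel₀ hN, mul_one]
      simp)
    rw [Matrix.trace_sub, Matrix.trace_sub, Matrix.trace_smul] at hn
    simp [Matrix.trace, JM_apply, hN] at hn
    have : (0 : ℝ) ≤ n := Nat.cast_nonneg n
    simp only [Matrix.trace, Matrix.diag]
    linarith
  obtain ⟨β, γ, hK⟩ : ∃ β γ : ℕ, K = (β : ℝ) • adjM adj + (γ : ℝ) • (JM X X - 1 - adjM adj) := by
    obtain ⟨a, b, c, hab, -, hac, hac'⟩ := h.conn
    have e := h.entries hK hab hac hac'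
    obtain ⟨β, hb⟩ := hev a b
    obtain ⟨γ, hg⟩ := hev a c
    rw [hd, hb, hg, zero_smul, zero_add] at e
    exact ⟨β, γ, e⟩
  obtain ⟨a, b, c, hab, hbc, hac, hac'⟩ := h.conn
  have hA := h.entries (h.invM_adj.mul h.invM_adj) hab hac hac'
  rw [Rk3.adj_sq, Rk3.adj_sq, Rk3.adj_sq] at hA
  have ek : (Finset.univ.filter fun z => adj a z ∧ adj z a) = H2.nbF adj a := by
    ext z; simp only [Finset.mem_filter, Finset.mem_univ, true_and, H2.mem_nbF]
    exact ⟨fun e => e.1, fun e => ⟨e, h.symm e⟩⟩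
  rw [ek] at hA
  have hJA := h.J_mul_adj a
  have hAJ := h.adj_mul_J a
  have m1 : 1 ≤ (Finset.univ.filter fun z => adj a z ∧ adj z c).card :=
    Finset.card_pos.2 ⟨b, by simp [hab, hbc]⟩
  have m2 : (Finset.univ.filter fun z => adj a z ∧ adj z c).card ≤ (H2.nbF adj a).card :=
    Finset.card_le_card fun z hz => H2.mem_nbF.2 (Finset.mem_filter.1 hz).2.1
  have m3 : (H2.nbF adj a).card + 1 ≤ Fintype.card X := by
    rw [← Finset.card_insert_of_notMem (fun e => h.irrefl a (H2.mem_nbF.1 e))]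
    exact Finset.card_le_univ _
  set k := (H2.nbF adj a).card
  set l := (Finset.univ.filter fun z => adj a z ∧ adj z b).card
  set μ := (Finset.univ.filter fun z => adj a z ∧ adj z c).card
  set N := Fintype.card X
  have hJJ := JM_mul_JM X X X
  obtain ⟨α, y, z, e⟩ := h.span hE
  set A := adjM adj
  set J := JM X X
  have hAE : A * E = (y * (k - μ)) • (1 : Matrix X X ℝ) + (α + y * (l - μ)) • A + (y * μ + z * k) • J := by
    rw [e, Matrix.mul_add, Matrix.mul_add, Matrix.mul_smul, Matrix.mul_smul, Matrix.mul_smul, hA, hAJ,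
      Matrix.mul_one]
    module
  have q1 : (-(γ + θ) * α + (β - γ) * (y * (k - μ))) • (1 : Matrix X X ℝ) +
      (-(γ + θ) * y + (β - γ) * (α + y * (l - μ))) • A +
      (-(γ + θ) * z + (β - γ) * (y * μ + z * k)) • J = 0 := by
    rw [hK, Matrix.add_mul, Matrix.smul_mul, Matrix.smul_mul, Matrix.sub_mul, Matrix.sub_mul, hJE,
      Matrix.one_mul, hAE] at hθ
    rw [← sub_eq_zero] at hθ
    rw [← hθ, e]
    module
  have q2 : (α * α - α + y * (y * (k - μ))) • (1 : Matrix X X ℝ) +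
      (α * y - y + y * (α + y * (l - μ))) • A + (α * z - z + y * (y * μ + z * k)) • J = 0 := by
    have : E * E = α • E + y • (A * E) + z • (J * E) := by
      conv_lhs => lhs; rw [e]
      simp only [Matrix.add_mul, Matrix.smul_mul, Matrix.one_mul]
    rw [h1, hAE, hJE, ← sub_eq_zero] at this
    rw [← neg_eq_zero, ← this, e]
    module
  have q3 : α + y * k + z * N = 0 := by
    rw [e, Matrix.mul_add, Matrix.mul_add, Matrix.mul_smul, Matrix.mul_smul, Matrix.mul_smul, hJA, hJJ,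
      Matrix.mul_one] at hJE
    have := congrFun (congrFun hJE a) a
    simpa [J, JM_apply] using this
  have q4 : (θ₀ : ℝ) = β * k + γ * (N - 1 - k) := by
    rw [hK, Matrix.add_mul, Matrix.smul_mul, Matrix.smul_mul, Matrix.sub_mul, Matrix.sub_mul, hAJ, hJJ,
      Matrix.one_mul] at hJ
    have := congrFun (congrFun hJ a) a
    simpa [J, JM_apply] using this.symm
  have q5 : E.trace = α * N + z * N := by
    rw [e]
    simp [Matrix.trace, A, J, adjM, JM_apply, h.irrefl, N]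
    ring
  obtain ⟨r1, r2, r3⟩ := h.indep q1
  obtain ⟨-, r4, -⟩ := h.indep q2
  have hN : (0 : ℝ) < N := by exact_mod_cast h.card_pos
  obtain ⟨f, hf⟩ := trace_idem_nat h1
  refine ⟨f, θ + 2 * γ - (β - γ) * (l - μ), by rw [hf]; simp, by rw [hf] at hle; exact_mod_cast hle, ?_⟩
  have : ((θ : ℝ) + 2 * γ - (β - γ) * (l - μ)) * N =
      θ₀ + (θ + 2 * γ - (β - γ) * (l - μ)) + f * (θ + (θ + 2 * γ - (β - γ) * (l - μ))) := by
    rw [← hf, q5, q4]
    by_cases y0 : y = 0
    · subst y0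
      have ha : α ≠ 0 := by
        rintro rfl
        have hz : z = 0 := by
          have : z * N = 0 := by linarith
          exact (mul_eq_zero.1 this).resolve_right hN.ne'
        exact h0 (by rw [e, hz]; simp)
      have d0 : (β : ℝ) = γ := by
        apply mul_left_cancel₀ ha; linear_combination r2
      have t0 : (θ : ℝ) = -γ := by
        apply mul_left_cancel₀ ha; linear_combination -r1
      rw [d0, t0]; ring
    · have t : 2 * α - 1 + y * (l - μ) = 0 := by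
        apply mul_left_cancel₀ y0; linear_combination r4
      have t2 : y * (θ + (θ + 2 * γ - (β - γ) * (l - μ))) = β - γ := by
        linear_combination (-2) * r2 + (β - γ) * t
      apply mul_left_cancel₀ y0
      linear_combination (N - 1 - (α * N + z * N)) * t2 - (β - γ) * q3 + (N - 1) * r2 - (β - γ) * (N - 1) * t
  exact_mod_cast this

end

variable {F : Type*} [Field F] {σ : F →+* F} {E : Type*} [AddCommGroup E] [Module F E]
  [FiniteDimensional F E] {B : Sesq σ E} (hB : IsEps B 1) [Fintype F] [Fintype E] {q : ℕ} (hU : UF σ q)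

/-- a constituent of degree `f` on which the sum of the transvections is `θ` occurs in `X` -/
def Occ (X : Type*) [MulAction (SUb B) X] [Fintype X] (θ f : ℝ) : Prop :=
  ∃ P : Matrix X X ℝ, Prim (SUb B) P ∧ P ≠ 0 ∧ P.trace = f ∧ Kt hB X * P = θ • P

/-- the point stabiliser is transitive on totally isotropic `j`-spaces -/
def Tr (B : Sesq σ E) {X : Type*} [MulAction (SUb B) X] (ω : X) (j : ℕ) : Prop :=
  ∀ y y' : TI B j, ∃ g : SUb B, g • ω = ω ∧ g • y = y'

/-- the point stabiliser contains an element of order `r` with a nonzero fixed vector -/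
def TyA (B : Sesq σ E) {X : Type*} [MulAction (SUb B) X] (ω : X) (r : ℕ) : Prop :=
  ∃ g : SUb B, g • ω = ω ∧ orderOf g = r ∧ ∃ v, v ≠ 0 ∧ suAct B g v = v

variable {X : Type*} [MulAction (SUb B) X] [Fintype X] {adj : X → X → Prop} {ω : X}

theorem Occ.of_prim {Y : Type*} [MulAction (SUb B) Y] [Fintype Y] {e : Matrix Y Y ℝ} (he : Prim (SUb B) e)
    {θ : ℝ} (hk : Kt hB Y * e = θ • e) {a : Matrix X Y ℝ} (ha : InvM (SUb B) a) (hne : a * e ≠ 0) :
    Occ hB X θ e.trace := by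
  obtain ⟨P, e1, e2, e3, e4⟩ := he.transfer ha hne
  exact ⟨P, e1, e2, e3, e4 _ _ _ (ha.opS_comm _ _) hk⟩

theorem Sit.diag (hs : Sit B adj ω) (ht : TF hB ω) (x : X) : Kt hB X x x = 0 := by
  obtain ⟨g, rfl⟩ := hs.rk.tr ω x
  exact (ht.smul hB g).diag hB

include hU in
theorem Occ.num (hs : Sit B adj ω) (ht : TF hB ω) {θ₀ θ : ℤ} {f : ℝ} (h : Occ hB X θ f)
    (h0 : ((q : ℝ) + 1) * θ₀ = cI q (finrank F E) - 1) (pos : 0 < θ) (hne : θ ≠ θ₀) :
    ∃ f' k₁ k₂ μ ρ s β γ : ℤ, (f' : ℝ) = f ∧ SN (Fintype.card X) θ₀ θ f' k₁ k₂ μ ρ s β γ := by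
  obtain ⟨P, p, z, rfl, k⟩ := h
  refine UR.num hs.rk (invM_Kt hB X) (hs.diag hB ht) (Kt_nat hB X) ?_ p.inv p.idem z k pos hne
  rw [Kt_mul_J hB hU, ← h0, mul_div_cancel_left₀ _ (by positivity)]

include hU in
theorem Occ.key (hs : Sit B adj ω) (ht : TF hB ω) {θ₀ θ : ℤ} {f : ℝ} (h : Occ hB X θ f)
    (h0 : ((q : ℝ) + 1) * θ₀ = cI q (finrank F E) - 1) (hne : θ ≠ θ₀) :
    ∃ f' a : ℤ, (f' : ℝ) = f ∧ f' + 1 ≤ Fintype.card X ∧
      a * Fintype.card X = θ₀ + a + f' * (θ + a) := by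
  obtain ⟨P, p, z, rfl, k⟩ := h
  refine key_int hs.rk (invM_Kt hB X) (hs.diag hB ht) (Kt_nat hB X) ?_ p.inv p.idem z k hne
  rw [Kt_mul_J hB hU, ← h0, mul_div_cancel_left₀ _ (by positivity)]

end Cfsg.Agent.H1.UR
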