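import Cfsg.Agent.H1.URc

/-! Rank 3 actions of unitary groups: the action on isotropic points. -/

set_option autoImplicit false

namespace Cfsg.Agent.H1.UR

open Module H5 Matrix
open scoped Classical

theorem cI_succ {q y : ℝ} (hq : q ≠ 0) (hy : y = -q) (d : ℕ) :
    cI q (d + 1) = y ^ (d + 1) + y ^ d - y ^ (2 * d + 1) := by
  have : q ^ (2 * (d + 1)) = (-q) ^ (2 * (d + 1)) := (Even.neg_pow ⟨d + 1, by ring⟩ q).symm
  rw [cI, this, hy, div_eq_iff hq]
  ring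

variable {F : Type*} [Field F] {σ : F →+* F} {E : Type*} [AddCommGroup E] [Module F E]
  [FiniteDimensional F E] {B : Sesq σ E} (hB : IsEps B 1) [Fintype F] {q : ℕ} (hU : UF σ q)

/-- collinearity of points -/
def adjP (B : Sesq σ E) (a b : TI B 1) : Prop := a ≠ b ∧ a.1 ≤ perp B b.1

omit [Fintype F] in
theorem pt_inf {a b : TI B 1} (h : a ≠ b) : a.1 ⊓ b.1 = ⊥ := by
  obtain ⟨v, hv, hi, rfl⟩ := exists_pt a
  rw [eq_bot_iff]
  rintro w ⟨h1, h2⟩
  obtain ⟨c, rfl⟩ := Submodule.mem_span_singleton.1 h1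
  by_contra h0
  exact h ((eq_pt_iff hv hi b).2 ((b.1.smul_mem_iff (left_ne_zero_of_smul h0)).1 h2)).symm

omit [Fintype F] in
theorem pt_inf_of_not_le {a : TI B 1} {U : Submodule F E} (h : ¬ a.1 ≤ U) : a.1 ⊓ U = ⊥ := by
  obtain ⟨v, hv, hi, rfl⟩ := exists_pt a
  rw [eq_bot_iff]
  rintro w ⟨h1, h2⟩
  obtain ⟨c, rfl⟩ := Submodule.mem_span_singleton.1 h1
  by_contra h0
  exact h ((Submodule.span_singleton_le_iff_mem _ _).2 ((U.smul_mem_iff (left_ne_zero_of_smul h0)).1 h2))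

omit [Fintype F] in
theorem pt_ne_bot (a : TI B 1) : a.1 ≠ ⊥ := fun e => by
  have := a.2.1; rw [e, finrank_bot] at this; omega

include hB hU in
theorem exists_hyp3 (h4 : 4 ≤ finrank F E) : ∃ u w z : E, B u u = 0 ∧ B w w = 0 ∧ B z z = 0 ∧ B w u = 1 ∧
    z ≠ 0 ∧ B z u = 0 ∧ B z w = 0 := by
  haveI : Nontrivial E := Module.nontrivial_of_finrank_pos (R := F) (by omega)
  obtain ⟨v, hv⟩ := exists_ne (0 : E)
  obtain ⟨u, -, hu, u0⟩ := exists_iso_pairing hB hU (S := ⊤) (by simp [hB.perp_top]) (by simp; omega)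
    (v := v) (by simpa [hB.perp_top] using hv)
  have u0 : u ≠ 0 := by rintro rfl; simp at u0
  obtain ⟨z, hz, h1, h2⟩ := exists_iso_line hB hU h4 hu u0
  obtain ⟨w, hw, h3, h5⟩ := exists_partner hB hU u0 hu (S := F ∙ z) (fun e => by
    obtain ⟨c, rfl⟩ := Submodule.mem_span_singleton.1 e
    exact h2 (Submodule.mem_span_singleton.2 ⟨c⁻¹, by
      rw [smul_smul, inv_mul_cancel₀ (left_ne_zero_of_smul u0), one_smul]⟩)) (fun s hs => by
    obtain ⟨c, rfl⟩ := Submodule.mem_span_singleton.1 hs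
    simp [hB.refl h1])
  exact ⟨u, w, z, hu, hw, hz, h3, fun e => h2 (e ▸ Submodule.zero_mem _), h1,
    hB.refl (h5 z (Submodule.mem_span_singleton_self z))⟩

include hB hU in
theorem rk3_pt (h4 : 4 ≤ finrank F E) : Rk3 (SUb B) (adjP B) where
  symm e := ⟨e.1.symm, hB.le_perp_comm e.2⟩
  irrefl _ e := e.1 rfl
  inv g _ _ e := ⟨fun e' => e.1 (smul_left_cancel g e'), by
    rw [TI.smul_val, TI.smul_val, ← im_perp, im_le_iff]; exact e.2⟩
  tE {a b a' b'} e e' := by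
    obtain ⟨g, h1, h2⟩ := pair_trans hB hU b.2.2 b'.2.2 a.2.2 a'.2.2 (pt_ne_bot b) (b.2.1.trans b'.2.1.symm)
      (a.2.1.trans a'.2.1.symm) (by rw [pt_inf e.1, pt_inf e'.1]) (by
        rw [inf_eq_left.2 (hB.le_perp_comm e.2), inf_eq_left.2 (hB.le_perp_comm e'.2), b.2.1, b'.2.1])
    exact ⟨g, TI.ext' h1, TI.ext' h2⟩
  tN {a b a' b'} e1 e2 e1' e2' := by
    obtain ⟨g, h1, h2⟩ := pair_trans hB hU b.2.2 b'.2.2 a.2.2 a'.2.2 (pt_ne_bot b) (b.2.1.trans b'.2.1.symm)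
      (a.2.1.trans a'.2.1.symm) (by rw [pt_inf e1, pt_inf e1']) (by
        rw [pt_inf_of_not_le fun e => e2 ⟨e1, hB.le_perp_comm e⟩,
          pt_inf_of_not_le fun e => e2' ⟨e1', hB.le_perp_comm e⟩])
    exact ⟨g, TI.ext' h1, TI.ext' h2⟩
  tr a a' := by
    obtain ⟨g, h1, -⟩ := pair_trans hB hU a.2.2 a'.2.2 a.2.2 a'.2.2 (pt_ne_bot a) (a.2.1.trans a'.2.1.symm)
      (a.2.1.trans a'.2.1.symm) (by rw [inf_idem, inf_idem, a.2.1, a'.2.1]) (by
        rw [inf_eq_left.2 a.2.2, inf_eq_left.2 a'.2.2, a.2.1, a'.2.1])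
    exact ⟨g, TI.ext' h1⟩
  conn := by
    obtain ⟨u, w, z, hu, hw, hz, h1, z0, h2, h3⟩ := exists_hyp3 hB hU h4
    have u0 : u ≠ 0 := by rintro rfl; simp at h1
    have w0 : w ≠ 0 := by rintro rfl; simp at h1
    have h4 : B u w ≠ 0 := fun e => by rw [hB.refl e] at h1; exact zero_ne_one h1
    refine ⟨pt u0 hu, pt z0 hz, pt w0 hw, ⟨fun e => ?_, span_le_perp.2 (hB.refl h2)⟩,
      ⟨fun e => ?_, span_le_perp.2 h3⟩, fun e => ?_, fun e => h4 (span_le_perp.1 e.2)⟩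
    · obtain ⟨c, rfl⟩ := (pt_eq_iff _ _ _ _).1 e.symm
      simp [h3] at h4
    · obtain ⟨c, rfl⟩ := (pt_eq_iff _ _ _ _).1 e
      simp [h2] at h1
    · obtain ⟨c, rfl⟩ := (pt_eq_iff _ _ _ _).1 e
      simp [hu] at h1
  coconn := by
    obtain ⟨u, w, z, hu, hw, hz, h1, z0, h2, h3⟩ := exists_hyp3 hB hU h4
    have u0 : u ≠ 0 := by rintro rfl; simp at h1
    have w0 : w ≠ 0 := by rintro rfl; simp at h1
    have h4 : B u w ≠ 0 := fun e => by rw [hB.refl e] at h1; exact zero_ne_one h1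
    have h5 : B w (u + z) = 1 := by simp [h1, hB.refl h3]
    have c0 : u + z ≠ 0 := fun e => by simp [e] at h5
    have h6 : B u (u + z) = 0 := by simp [hu, hB.refl h2]
    have h7 : B (u + z) (u + z) = 0 := by simp [hu, hB.refl h2, h2, hz]
    refine ⟨pt u0 hu, pt w0 hw, pt c0 h7, fun e => ?_, fun e => h4 (span_le_perp.1 e.2), fun e => ?_,
      fun e => by simpa [h5] using span_le_perp.1 e.2, fun e => ?_, span_le_perp.2 h6⟩
    · obtain ⟨c, rfl⟩ := (pt_eq_iff _ _ _ _).1 e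
      simp [hu] at h1
    · obtain ⟨c, hc⟩ := (pt_eq_iff _ _ _ _).1 e
      simp [← hc, hw] at h5
    · obtain ⟨c, hc⟩ := (pt_eq_iff _ _ _ _).1 e
      have : σ c = 1 := by simpa [← hc, h1] using h5
      have : c = 1 := σ.injective (by rw [this, map_one])
      simp [this, z0] at hc

variable [Fintype E]

include hU in
theorem pt_idem {k : ℕ} (hn : finrank F E = k + 6) (hq : 3 ≤ q) {y : ℝ} (hy : y = -q) :
    ∃ eA eB : Matrix (TI B 1) (TI B 1) ℝ, Prim (SUb B) eA ∧ Prim (SUb B) eB ∧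
      eA + eB = 1 - (Fintype.card (TI B 1) : ℝ)⁻¹ • JM _ _ ∧
      (Fintype.card (TI B 1) : ℝ) * (y ^ 2 - 1) = -(y ^ (k + 6) - 1) * (y ^ (k + 5) - 1) ∧
      Kt hB _ * eA = ((y ^ (k + 5) - 1) * (y ^ (k + 4) - 1) / (y - 1)) • eA ∧
      Kt hB _ * eB = ((y ^ (k + 6) - 1) * (y ^ (k + 3) - 1) / (y - 1)) • eB ∧
      eA.trace * ((y - 1) * (y ^ 2 - 1)) = y ^ 2 * (y ^ (k + 6) - 1) * (y ^ (k + 3) - 1) ∧
      eB.trace * ((y - 1) * (y ^ 2 - 1)) = -y ^ 3 * (y ^ (k + 5) - 1) * (y ^ (k + 4) - 1) := by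
  have h3 := rk3_pt hB hU (by omega)
  have q3 : (3 : ℝ) ≤ q := by exact_mod_cast hq
  have q0 : (q : ℝ) ≠ 0 := by linarith
  have y0 : y ≠ 0 := by linarith
  have y1 : y - 1 ≠ 0 := by linarith
  have y2 : y ^ 2 - 1 ≠ 0 := by nlinarith
  have hQ : (q : ℝ) ^ 2 = y ^ 2 := by rw [hy]; ring
  set J := JM (TI B 1) (TI B 1) with hJ
  set P : Matrix (TI B 1) (TI B 1) ℝ := 1 + adjM (adjP B) with hP
  have Pa : ∀ a b, P a b = if a.1 ≤ perp B b.1 then 1 else 0 := fun a b => by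
    by_cases e : a = b
    · simp [hP, e, adjM, adjP, b.2.2]
    · simp [hP, e, adjM, adjP]
  set n : ℝ := (Fintype.card (TI B 1) : ℝ) with hn'
  set T := y ^ (k + 3) with hT
  have T0 : T ≠ 0 := pow_ne_zero _ y0
  have c6 : cI q (k + 6) = y ^ 3 * T + y ^ 2 * T - y ^ 5 * T ^ 2 := by rw [cI_succ q0 hy, hT]; ring
  have c4 : cI q (k + 4) = y * T + T - y * T ^ 2 := by rw [cI_succ q0 hy, hT]; ring
  have c2 : (y ^ 2) ^ 2 * cI q (k + 2) = y ^ 3 * T + y ^ 2 * T - y * T ^ 2 := by rw [cI_succ q0 hy, hT]; ring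
  have n1 : (y ^ 2 - 1) * n = y ^ 3 * T + y ^ 2 * T - y ^ 5 * T ^ 2 - 1 := by
    have := sum_pt_le hB hU (S := ⊤) (r := 0) (s := k + 6) (by simp [hB.perp_top]) (by simp [hn])
    simpa only [le_top, if_true, Finset.sum_const, Finset.card_univ, nsmul_eq_mul, mul_one, hQ, c6, pow_zero,
      one_mul] using this
  have n0 : n ≠ 0 := Nat.cast_ne_zero.2 h3.card_pos.ne'
  have fp : ∀ a : TI B 1, finrank F (perp B a.1) = 1 + (k + 4) := fun a => by
    have := hB.finrank_perp a.1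
    rw [a.2.1] at this; omega
  have fr : ∀ a : TI B 1, finrank F (perp B a.1 ⊓ perp B (perp B a.1) : Submodule F E) = 1 := fun a => by
    rw [hB.perp_perp, inf_eq_right.2 a.2.2, a.2.1]
  obtain ⟨m, hm⟩ : ∃ m, (y ^ 2 - 1) * m = y ^ 3 * T + y ^ 2 * T - y ^ 3 * T ^ 2 - 1 :=
    ⟨_, mul_div_cancel₀ _ y2⟩
  obtain ⟨m', hm'⟩ : ∃ m, (y ^ 2 - 1) * m = y * T + T - y * T ^ 2 - 1 := ⟨_, mul_div_cancel₀ _ y2⟩
  have PJ : P * J = m • J := by
    ext a b
    have := sum_pt_le hB hU (fr a) (fp a)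
    simp only [Matrix.mul_apply, Pa, hJ, JM_apply, mul_one, Matrix.smul_apply, smul_eq_mul]
    apply mul_left_cancel₀ y2
    rw [hm, show y ^ 3 * T + y ^ 2 * T - y ^ 3 * T ^ 2 = ((q : ℝ) ^ 2) ^ 1 * cI q (k + 4) by
      rw [c4, hQ]; ring, ← this, hQ]
    congr 2
    ext z
    exact if_congr ⟨hB.le_perp_comm, hB.le_perp_comm⟩ rfl rfl
  have Pi : InvM (SUb B) P := invM_one.add h3.invM_adj
  have JP : J * P = m • J := by
    have := congrArg Matrix.transpose PJ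
    rwa [Matrix.transpose_mul, h3.symm_of_inv _ Pi, Matrix.transpose_smul] at this
  have PP : P * P = (-y * T ^ 2) • (1 : Matrix _ _ ℝ) + (T * (y + 1)) • P + m' • J := by
    ext a b
    have e1 : (P * P) a b = ∑ z : TI B 1, if z.1 ≤ perp B (a.1 ⊔ b.1) then (1 : ℝ) else 0 := by
      simp only [Matrix.mul_apply, Pa, perp_sup, le_inf_iff, ite_zero_mul_ite_zero, mul_one]
      congr 1
      ext z
      exact if_congr (and_congr_left' ⟨hB.le_perp_comm, hB.le_perp_comm⟩) rfl rfl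
    apply mul_left_cancel₀ y2
    simp only [e1, Matrix.add_apply, Matrix.smul_apply, Pa, hJ, JM_apply, smul_eq_mul]
    by_cases e : a = b
    · subst e
      have := sum_pt_le hB hU (fr a) (fp a)
      rw [hQ, c4] at this
      rw [sup_idem, this, if_pos a.2.2, Matrix.one_apply_eq]
      linear_combination -hm'
    have d0 : finrank F (a.1 ⊔ b.1 : Submodule F E) = 2 := by
      have := Submodule.finrank_sup_add_finrank_inf_eq a.1 b.1
      rw [pt_inf e, finrank_bot, a.2.1, b.2.1] at this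
      omega
    have d1 := hB.finrank_perp (a.1 ⊔ b.1)
    rw [Matrix.one_apply_ne e]
    by_cases e' : a.1 ≤ perp B b.1
    · have := sum_pt_le hB hU (S := perp B (a.1 ⊔ b.1)) (r := 2) (s := k + 2) (by
        rw [hB.perp_perp, inf_eq_right.2, d0]
        rw [perp_sup]
        exact sup_le (le_inf a.2.2 e') (le_inf (hB.le_perp_comm e') b.2.2)) (by omega)
      rw [hQ, c2] at this
      rw [this, if_pos e']
      linear_combination -hm'
    · have := sum_pt_le hB hU (S := perp B (a.1 ⊔ b.1)) (r := 0) (s := k + 4) (by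
        rw [hB.perp_perp, Submodule.finrank_eq_zero, eq_bot_iff, perp_sup]
        rintro v ⟨⟨h1, h2⟩, h4⟩
        obtain ⟨s, hs, t, ht, rfl⟩ := Submodule.mem_sup.1 h4
        have s1 : s ∈ a.1 ⊓ perp B b.1 := ⟨hs, by simpa using Submodule.sub_mem _ h2 (b.2.2 ht)⟩
        have t1 : t ∈ b.1 ⊓ perp B a.1 := ⟨ht, by simpa using Submodule.sub_mem _ h1 (a.2.2 hs)⟩
        rw [pt_inf_of_not_le e'] at s1
        rw [pt_inf_of_not_le fun e => e' (hB.le_perp_comm e)] at t1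
        exact Submodule.add_mem _ s1 t1) (by omega)
      rw [hQ, c4] at this
      rw [this, if_neg e']
      linear_combination -hm'
  have JJ : J * J = n • J := JM_mul_JM _ _ _
  have nm : n - m = -y ^ 3 * T ^ 2 := by
    apply mul_left_cancel₀ y2; linear_combination n1 - hm
  have hK : Kt hB (TI B 1) = (-(y + 1) * m) • (1 : Matrix _ _ ℝ) + (-(y + 1)) • (J - P) := by
    obtain ⟨a, b, c, hab, -, hac, hac'⟩ := h3.conn
    have e := h3.entries (invM_Kt hB _) hab hac hac'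
    obtain ⟨ε, e0, he⟩ := hU.exists_trace_zero
    have e1 : Kt hB _ a a = -(y + 1) * m := by
      have h1 := sum_iso hB hU (fr a) (fp a)
      obtain ⟨v, hv, hi, rfl⟩ := exists_pt a
      have h2 := sum_Trs hB hU e0 he fun t => if t • pt hv hi = pt hv hi then (1 : ℝ) else 0
      rw [Finset.sum_congr rfl (g := fun u => if u ∈ perp B (pt hv hi).1 then (1 : ℝ) else 0)
        (fun u hu => if_congr ?_ rfl rfl), h1, hQ, c4] at h2
      · apply mul_left_cancel₀ y1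
        have : Kt hB _ (pt hv hi) (pt hv hi) = ∑ t ∈ Trs hB, if t • pt hv hi = pt hv hi then (1 : ℝ) else 0 := rfl
        rw [this]
        linear_combination -h2 + hm + (∑ t ∈ Trs hB, if t • pt hv hi = pt hv hi then (1 : ℝ) else 0) * hy
      · rw [smul_pt, eq_comm, pt_eq_iff, ut_apply hB (mem_Iso.1 hu).2 he]
        refine Iff.trans ⟨fun ⟨c, hc⟩ => ?_, fun h => ⟨1, by simp [hB.refl h]⟩⟩ mem_perp_one.symm
        by_contra h0
        have := congrArg (B · v) hc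
        simp [hi, e0, h0] at this
        exact h0 (hB.refl this)
    have e2 : Kt hB _ a b = 0 := by
      obtain ⟨v, hv, hi, rfl⟩ := exists_pt a
      obtain ⟨w, hw, hj, rfl⟩ := exists_pt b
      refine Finset.sum_eq_zero fun t ht => if_neg fun h => hab.1 ?_
      obtain ⟨u, d, u0, hu, d0, hd, rfl⟩ := (mem_Trs hB).1 ht
      rw [id, smul_pt, eq_comm, pt_eq_iff, ut_apply hB hu hd] at h
      obtain ⟨c, hc⟩ := h
      have h1 : B v u = 0 := by
        by_contra h0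
        have := congrArg (B · v) hc
        simp [hi, d0, h0, hB.refl (span_le_perp.1 hab.2)] at this
        exact h0 (hB.refl this)
      exact ((pt_eq_iff _ _ _ _).2 ⟨c, by simpa [h1] using hc⟩).symm
    rw [e1, e2, zero_smul, add_zero, sub_sub, ← hP] at e
    have e3 := Kt_mul_J hB hU (TI B 1)
    rw [e, Matrix.add_mul, Matrix.smul_mul, Matrix.smul_mul, Matrix.sub_mul, ← hJ, JJ, PJ, Matrix.one_mul,
      hn, c6] at e3
    have e4 := congrFun (congrFun e3 a) a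
    simp only [hJ, JM_apply, Matrix.add_apply, Matrix.smul_apply, Matrix.sub_apply, smul_eq_mul,
      mul_one] at e4
    rw [e]
    congr 2
    rw [nm, show (q : ℝ) + 1 = -(y - 1) by rw [hy]; ring, eq_div_iff (neg_ne_zero.2 y1)] at e4
    apply mul_left_cancel₀ (mul_ne_zero y1 (mul_ne_zero (pow_ne_zero 3 y0) (pow_ne_zero 2 T0)))
    linear_combination e4 - hm
  have e6 : y ^ (k + 6) = y ^ 3 * T := by rw [hT]; ring
  have e5 : y ^ (k + 5) = y ^ 2 * T := by rw [hT]; ring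
  have e4 : y ^ (k + 4) = y * T := by rw [hT]; ring
  rw [e6, e5, e4]
  clear_value T
  have m3 : m' * n = (m - T) * (m - y * T) := by
    apply mul_left_cancel₀ (pow_ne_zero 2 y2)
    linear_combination (y ^ 2 - 1) * n * hm' + (y * T + T - y * T ^ 2 - 1) * n1 -
      ((y ^ 2 - 1) * (m - T - y * T) + (y ^ 3 * T + y ^ 2 * T - y ^ 3 * T ^ 2 - 1)) * hm
  let e : ℝ → ℝ → Matrix (TI B 1) (TI B 1) ℝ := fun s t =>
    (s - t)⁻¹ • (P - t • (1 : Matrix _ _ ℝ) - ((m - t) / n) • J)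
  have main : ∀ s t, s * t = y * T ^ 2 → s + t = T * (y + 1) → s - t ≠ 0 → Prim (SUb B) (e s t) ∧
      Kt hB _ * e s t = (-(y + 1) * (m - s)) • e s t ∧ (e s t).trace * (s - t) = n - t * n - m + t := by
    intro s t h1 h2 h4
    have m4 : m' * n = (m - s) * (m - t) := by linear_combination m3 + m * h2 - h1
    have Je : J * e s t = 0 := by
      simp only [e, Matrix.mul_smul, Matrix.mul_sub, JJ, JP, Matrix.mul_one]
      match_scalars; field_simp; ring
    have Pe : P * e s t = s • e s t := by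
      simp only [e, Matrix.mul_smul, Matrix.mul_sub, PP, PJ, Matrix.mul_one]
      match_scalars
      · linear_combination (s - t)⁻¹ * h1 - (s - t)⁻¹ * h2
      · linear_combination -(s - t)⁻¹ * h2
      · field_simp; linear_combination m4
    have ei : InvM (SUb B) (e s t) := ((Pi.sub (invM_one.smul _)).sub (invM_J.smul _)).smul _
    have ee : e s t * e s t = e s t := by
      conv_lhs => lhs; simp only [e]
      simp only [Matrix.smul_mul, Matrix.sub_mul, Je, Pe, Matrix.one_mul, smul_zero, sub_zero, ← sub_smul,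
        smul_smul, inv_mul_cancel₀ h4, one_smul]
    refine ⟨⟨ei, h3.symm_of_inv _ ei, ee, fun Z hZ => ?_⟩, ?_, ?_⟩
    · obtain ⟨α, β, γ, rfl⟩ := h3.span hZ
      have : adjM (adjP B) = P - 1 := by rw [hP]; abel
      refine ⟨α + β * (s - 1), ?_⟩
      rw [this, Matrix.mul_assoc, ← hJ]
      simp only [Matrix.smul_mul, Matrix.add_mul, Matrix.sub_mul, Je, Pe, Matrix.one_mul, Matrix.mul_add,
        Matrix.mul_sub, Matrix.mul_smul, ee, smul_zero, Matrix.mul_zero]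
      module
    · rw [hK]
      simp only [Matrix.smul_mul, Matrix.add_mul, Matrix.sub_mul, Je, Pe, Matrix.one_mul]
      module
    · have tJ : J.trace = n := by simp [Matrix.trace, hJ, JM_apply, hn']
      have tP : P.trace = n := by
        have : ∀ y, P y y = 1 := fun y => by rw [Pa, if_pos y.2.2]
        simp [Matrix.trace, this, hn']
      simp only [e, Matrix.trace_smul, Matrix.trace_sub, Matrix.trace_one, tJ, tP, smul_eq_mul, ← hn']
      field_simp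
      ring
  have d1 : y * T - T ≠ 0 := by rw [← sub_one_mul]; exact mul_ne_zero y1 T0
  have d2 : T - y * T ≠ 0 := by rw [← neg_sub]; exact neg_ne_zero.2 d1
  obtain ⟨a1, a2, a3⟩ := main (y * T) T (by ring) (by ring) d1
  obtain ⟨b1, b2, b3⟩ := main T (y * T) (by ring) (by ring) d2
  refine ⟨_, _, a1, b1, ?_, by linear_combination n1, ?_, ?_, ?_, ?_⟩
  · simp only [e]
    rw [← neg_sub (y * T) T, inv_neg]
    match_scalars <;> field_simp <;> ring
  · rw [a2]; congr 1; rw [eq_div_iff y1]; linear_combination -hm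
  · rw [b2]; congr 1; rw [eq_div_iff y1]; linear_combination -hm
  · apply mul_left_cancel₀ T0
    linear_combination (y ^ 2 - 1) * a3 + (1 - T) * n1 - hm
  · apply mul_left_cancel₀ T0
    linear_combination -(y ^ 2 - 1) * b3 - (1 - y * T) * n1 + hm

variable {X : Type*} [MulAction (SUb B) X] [Fintype X] {adj : X → X → Prop} {ω : X}

omit [Fintype F] [Fintype E] [Fintype X] in
theorem orb_row (y y' : TI B 1) : orbM (SUb B) ω y ω y' = if Rel B ω y y' then 1 else 0 := rfl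

include hU in
theorem two_orb {k : ℕ} (hn : finrank F E = k + 6) (hq : 3 ≤ q) {y : ℝ} (hy : y = -q) (h : ¬ Tr B ω 1) :
    (∃ f, Occ hB X ((y ^ (k + 5) - 1) * (y ^ (k + 4) - 1) / (y - 1)) f ∧
      f * ((y - 1) * (y ^ 2 - 1)) = y ^ 2 * (y ^ (k + 6) - 1) * (y ^ (k + 3) - 1)) ∨
    ∃ f, Occ hB X ((y ^ (k + 6) - 1) * (y ^ (k + 3) - 1) / (y - 1)) f ∧
      f * ((y - 1) * (y ^ 2 - 1)) = -y ^ 3 * (y ^ (k + 5) - 1) * (y ^ (k + 4) - 1) := by
  obtain ⟨eA, eB, pA, pB, es, -, kA, kB, tA, tB⟩ := pt_idem hB hU hn hq hy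
  simp only [Tr, not_forall] at h
  obtain ⟨a, b, h⟩ := h
  by_cases c1 : orbM (SUb B) ω a * eA = 0
  · by_cases c2 : orbM (SUb B) ω a * eB = 0
    · have := const_row es c1 c2 ω a b
      rw [orb_row, orb_row, if_pos (Rel.refl ω a), if_neg (show ¬ Rel B ω a b from h)] at this
      exact absurd this one_ne_zero
    · exact Or.inr ⟨_, Occ.of_prim hB pB kB (invM_orbM ω a) c2, tB⟩
  · exact Or.inl ⟨_, Occ.of_prim hB pA kA (invM_orbM ω a) c1, tA⟩

theorem th_ne {y : ℝ} (hy : y ≤ -3) (k : ℕ) :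
    (y ^ (k + 5) - 1) * (y ^ (k + 4) - 1) ≠ (y ^ (k + 6) - 1) * (y ^ (k + 5) - 1) ∧
    (y ^ (k + 6) - 1) * (y ^ (k + 3) - 1) ≠ (y ^ (k + 6) - 1) * (y ^ (k + 5) - 1) ∧
    (y ^ (k + 5) - 1) * (y ^ (k + 4) - 1) ≠ (y ^ (k + 6) - 1) * (y ^ (k + 3) - 1) := by
  have y0 : y ≠ 0 := by linarith
  have h1 : ∀ j, y ^ (j + 1) - 1 ≠ 0 := fun j e => by
    have := congrArg abs (sub_eq_zero.1 e)
    rw [abs_pow, abs_one, pow_eq_one_iff_of_nonneg (abs_nonneg _) (by omega), abs_of_neg (by linarith)] at this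
    linarith
  have h2 := h1 1
  refine ⟨fun e => ?_, fun e => ?_, fun e => ?_⟩
  · exact mul_ne_zero (h1 (k + 4)) (mul_ne_zero (pow_ne_zero (k + 4) y0) h2) (by linear_combination -e)
  · exact mul_ne_zero (h1 (k + 5)) (mul_ne_zero (pow_ne_zero (k + 3) y0) h2) (by linear_combination -e)
  · exact mul_ne_zero (h1 0) (mul_ne_zero (pow_ne_zero (k + 3) y0) h2) (by linear_combination e)

include hB hU in
theorem three_orb (hs : Sit B adj ω) {k : ℕ} (hn : finrank F E = k + 6) (hq : 3 ≤ q) {y : ℝ} (hy : y = -q)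
    (ho : ¬ O2 B ω) : (Fintype.card X : ℝ) * (y ^ 2 - 1) = -(y ^ (k + 6) - 1) * (y ^ (k + 5) - 1) := by
  obtain ⟨eA, eB, pA, pB, es, -, kA, kB, tA, tB⟩ := pt_idem hB hU hn hq hy
  simp only [O2, not_forall, not_or] at ho
  obtain ⟨y₁, y₂, y₃, r12, r13, r23⟩ := ho
  have r21 : ¬ Rel B ω y₂ y₁ := fun e => r12 e.symm
  have ex : ∀ e e' : Matrix (TI B 1) (TI B 1) ℝ, Prim (SUb B) e' →
      e + e' = 1 - (Fintype.card (TI B 1) : ℝ)⁻¹ • JM _ _ →
      ∃ a : Matrix X (TI B 1) ℝ, InvM (SUb B) a ∧ a * e ≠ 0 := fun e e' p es => by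
    by_contra hn
    push Not at hn
    obtain ⟨s, t, h1, h3⟩ := p.dep hs.rk.symm_of_inv (invM_orbM ω y₁) (invM_orbM ω y₂)
    have c := const_row es (hn _ (((invM_orbM ω y₁).smul s).add ((invM_orbM ω y₂).smul t))) h3 ω
    have c1 := c y₁ y₃
    have c2 := c y₂ y₃
    simp [orb_row, Rel.refl, r12, r13, r23, r21] at c1 c2
    exact h1.elim (· c1) (· c2)
  obtain ⟨a₁, i₁, n₁⟩ := ex eA eB pB es
  obtain ⟨a₂, i₂, n₂⟩ := ex eB eA pA ((add_comm _ _).trans es)
  obtain ⟨E₁, p₁, z₁, t₁, k₁⟩ := Occ.of_prim hB pA kA i₁ n₁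
  obtain ⟨E₂, p₂, z₂, t₂, k₂⟩ := Occ.of_prim hB pB kB i₂ n₂
  have q3 : (3 : ℝ) ≤ q := by exact_mod_cast hq
  have y1 : y - 1 ≠ 0 := by linarith
  have KJ := Kt_mul_J hB hU X
  rw [hn, cI_succ (by linarith) hy, show (y ^ (k + 5 + 1) + y ^ (k + 5) - y ^ (2 * (k + 5) + 1) - 1) / (q + 1) =
    (y ^ (k + 6) - 1) * (y ^ (k + 5) - 1) / (y - 1) by
      rw [div_eq_div_iff (by linarith) y1, show (q : ℝ) = -y by linarith]; ring] at KJ
  obtain ⟨n1, n2, n3⟩ := th_ne (y := y) (by linarith) k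
  have := hs.rk.card_two (invM_Kt hB X) KJ p₁ p₂ z₁ z₂ k₁ k₂ (fun e => n1 ((div_left_inj' y1).1 e))
    (fun e => n2 ((div_left_inj' y1).1 e)) (fun e => n3 ((div_left_inj' y1).1 e))
  apply mul_left_cancel₀ y1
  rw [this, t₁, t₂]
  linear_combination tA + tB

end Cfsg.Agent.H1.UR
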