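import Cfsg.Agent.H1.URc
import Cfsg.Agent.H1.MIU8

/-! Rank 3 actions of unitary groups: definitions for the local analysis. -/

set_option autoImplicit false

namespace Cfsg.Agent.H1.UR

open Module H5 Matrix
open scoped Classical

variable {F : Type*} [Field F] {σ : F →+* F} {E : Type*} [AddCommGroup E] [Module F E]
  [FiniteDimensional F E] {B : Sesq σ E}

/-- fixed vectors -/
def fx (B : Sesq σ E) (g : SUb B) : Submodule F E where
  carrier := {v | suAct B g v = v}
  add_mem' ha hb := by simp only [Set.mem_setOf_eq] at *; rw [map_add, ha, hb]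
  zero_mem' := map_zero _
  smul_mem' c _ ha := by simp only [Set.mem_setOf_eq] at *; rw [map_smul, ha]

theorem mem_fx {g : SUb B} {v : E} : v ∈ fx B g ↔ suAct B g v = v := Iff.rfl

theorem im_fx (a g : SUb B) : im a (fx B g) = fx B (a * g * a⁻¹) := by
  ext v
  rw [mem_im, mem_fx, mem_fx, sa_mul, sa_mul]
  exact ⟨fun e => by rw [e, sa_app_inv], fun e => sa_inj a (by rw [e, sa_app_inv])⟩

/-- pointwise stabiliser -/
def PW (B : Sesq σ E) (U : Submodule F E) : Subgroup (SUb B) where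
  carrier := {g | ∀ v ∈ U, suAct B g v = v}
  mul_mem' ha hb v hv := by rw [sa_mul, hb v hv, ha v hv]
  one_mem' v _ := sa_one v
  inv_mem' {g} hg v hv := sa_inj g (by rw [sa_app_inv, hg v hv])

theorem mem_PW {U : Submodule F E} {g : SUb B} : g ∈ PW B U ↔ ∀ v ∈ U, suAct B g v = v := Iff.rfl

theorem PW_conj {U : Submodule F E} {g : SUb B} (hg : g ∈ PW B U) (a : SUb B) :
    a * g * a⁻¹ ∈ PW B (im a U) := fun v hv => by
  rw [sa_mul, sa_mul, hg _ (mem_im.1 hv), sa_app_inv]

/-- the primitive prime divisor -/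
structure Pd (q n r d : ℕ) : Prop where
  pr : r.Prime
  ord : orderOf (q : ZMod r) = 2 * d
  odd : Odd d
  hn : n = d + 2 ∨ n = d + 3
  n6 : 6 ≤ n

/-- `g` is `-1` on `l` and `1` on its perp -/
def IsI (B : Sesq σ E) (l : Submodule F E) (g : SUb B) : Prop :=
  (∀ v ∈ l, suAct B g v = -v) ∧ ∀ v ∈ perp B l, suAct B g v = v

/-- hyperbolic lines whose involution fixes `ω` -/
def Ln (B : Sesq σ E) {X : Type*} [MulAction (SUb B) X] (ω : X) (l : Submodule F E) : Prop :=
  finrank F l = 2 ∧ Disjoint l (perp B l) ∧ ∃ g : SUb B, g • ω = ω ∧ IsI B l g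

/-- an element of order `r` of the point stabiliser with nonzero fixed vectors -/
structure TA (B : Sesq σ E) {X : Type*} [MulAction (SUb B) X] (ω : X) (r : ℕ) (g : SUb B) : Prop where
  fix : g • ω = ω
  ord : orderOf g = r
  ne : fx B g ≠ ⊥

theorem TyA.exists_TA {X : Type*} [MulAction (SUb B) X] {ω : X} {r : ℕ} (h : TyA B ω r) :
    ∃ g, TA B ω r g := by
  obtain ⟨g, h1, h2, v, v0, hv⟩ := h
  exact ⟨g, h1, h2, (Submodule.ne_bot_iff _).2 ⟨v, hv, v0⟩⟩

theorem TA.conj {X : Type*} [MulAction (SUb B) X] {ω : X} {r : ℕ} {g : SUb B} (h : TA B ω r g)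
    (a : SUb B) : TA B (a • ω) r (a * g * a⁻¹) := by
  refine ⟨by rw [mul_smul, mul_smul, inv_smul_smul, h.fix], ?_, fun e => h.ne ?_⟩
  · rw [← h.ord]; exact (MulAut.conj a).orderOf_eq g
  · rw [← Submodule.finrank_eq_zero, ← finrank_im a, im_fx, e, finrank_bot]

end Cfsg.Agent.H1.UR
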