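import Cfsg.Agent.H1.URe

/-! Rank 3 actions of unitary groups: elements of order a primitive prime divisor. -/

set_option autoImplicit false
set_option linter.unusedSectionVars false

namespace Cfsg.Agent.H1.UR

open Module H5 Matrix
open scoped Classical

theorem AL {G Z : Type*} [Group G] [MulAction G Z] {N : Subgroup G} {z : Z} (hN : ∀ n ∈ N, n • z = z)
    {T : Finset G} (hT : ∀ n ∈ N, ∀ t ∈ T, n * t * n⁻¹ ∈ T) {O : Finset Z} (h1 : ∀ t ∈ T, t • z ∈ O)
    (h2 : ∀ y ∈ O, ∀ y' ∈ O, ∃ n ∈ N, n • y = y') : O.card ∣ T.card := by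
  rcases O.eq_empty_or_nonempty with rfl | ⟨y, hy⟩
  · rw [Finset.eq_empty_of_forall_notMem (s := T) fun t ht => by simpa using h1 t ht]; simp
  have le : ∀ y ∈ O, ∀ y' ∈ O, (T.filter fun t => t • z = y).card ≤ (T.filter fun t => t • z = y').card :=
    fun y hy y' hy' => by
      obtain ⟨n, hn, rfl⟩ := h2 y hy y' hy'
      refine Finset.card_le_card_of_injOn (fun t => n * t * n⁻¹) (fun t ht => ?_) fun t _ t' _ e => by simpa using e
      obtain ⟨h3, rfl⟩ := Finset.mem_filter.1 ht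
      exact Finset.mem_filter.2 ⟨hT n hn t h3, by rw [mul_smul, mul_smul, hN _ (N.inv_mem hn)]⟩
  rw [Finset.card_eq_sum_card_fiberwise (f := fun t => t • z) (t := O) h1,
    Finset.sum_congr rfl fun y' hy' => le_antisymm (le y' hy' y hy) (le y hy y' hy'), Finset.sum_const, smul_eq_mul]
  exact Dvd.intro _ rfl

theorem Pd.d3 {q n r d : ℕ} (h : Pd q n r d) : 3 ≤ d := by
  have := h.hn; have := h.n6; have := h.odd; omega

theorem Pd.modEq {q n r d : ℕ} (h : Pd q n r d) (a b : ℕ) : q ^ a ≡ q ^ b [MOD r] ↔ a ≡ b [MOD 2 * d] := by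
  rw [← ZMod.natCast_eq_natCast_iff, Nat.cast_pow, Nat.cast_pow, ← h.ord]
  exact (orderOf_pos_iff.1 (by rw [h.ord]; have := h.d3; omega)).pow_eq_pow_iff_modEq

theorem Pd.not_dvd {q n r d : ℕ} (h : Pd q n r d) : ¬ r ∣ q := fun e => by
  haveI := Fact.mk h.pr
  have := h.ord
  rw [(ZMod.natCast_eq_zero_iff q r).2 e, orderOf_zero] at this
  have := h.d3; omega

theorem Pd.r3 {q n r d : ℕ} (h : Pd q n r d) : r ≠ 2 := by
  rintro rfl
  have h1 : orderOf (q : ZMod 2) ≤ 2 := by simpa using orderOf_le_card_univ (x := (q : ZMod 2))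
  rw [h.ord] at h1
  have := h.d3; omega

variable {F : Type*} [Field F] {σ : F →+* F} {E : Type*} [AddCommGroup E] [Module F E]
  [FiniteDimensional F E] {B : Sesq σ E} (hB : IsEps B 1) [Fintype F] [Fintype E] {q : ℕ} (hU : UF σ q)
variable {X : Type*} [MulAction (SUb B) X] [Fintype X] {ω : X} {r d : ℕ} {g : SUb B}

theorem card_modEq (hr : r.Prime) {k : ℕ} (hg : g ^ r ^ k = 1) (A : E → Prop) (hA : ∀ v, A v → A (suAct B g v)) :
    Nat.card {v // A v} ≡ Nat.card {v // A v ∧ v ∈ fx B g} [MOD r] := by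
  haveI := Fact.mk hr
  let f : Function.End {v // A v} := fun v => ⟨suAct B g v, hA _ v.2⟩
  have h1 : ∀ m v, ((f ^ m) v).1 = suAct B (g ^ m) v := fun m v => by
    induction m with
    | zero => exact (sa_one _).symm
    | succ m ih => rw [pow_succ', pow_succ', sa_mul, ← ih]; rfl
  have h2 := Equiv.Perm.card_fixedPoints_modEq (f := f) (p := r) (n := k)
    (funext fun v => Subtype.ext (by rw [h1, hg]; exact sa_one _))
  rw [← Nat.card_eq_fintype_card, ← Nat.card_eq_fintype_card] at h2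
  rwa [Nat.card_congr (show f.fixedPoints ≃ {v // A v ∧ v ∈ fx B g} from
    ⟨fun v => ⟨v.1.1, v.1.2, congrArg Subtype.val v.2⟩, fun v => ⟨⟨v.1, v.2.1⟩, Subtype.ext v.2.2⟩,
      fun _ => rfl, fun _ => rfl⟩)] at h2

include hU in
theorem Pd.dvd (hp : Pd q (finrank F E) r d) {k : ℕ} (hg : g ^ r ^ k = 1) {U : Submodule F E}
    (hU' : ∀ v ∈ U, suAct B g v ∈ U) : d ∣ finrank F U - finrank F (U ⊓ fx B g : Submodule F E) := by
  have h1 : Nat.card U ≡ Nat.card (U ⊓ fx B g : Submodule F E) [MOD r] := card_modEq hp.pr hg (· ∈ U) hU'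
  rw [card_sub_u hU, card_sub_u hU, hp.modEq, Nat.ModEq.mul_left_cancel_iff' two_ne_zero] at h1
  exact (Nat.modEq_iff_dvd' (Submodule.finrank_mono inf_le_left)).1 h1.symm

include hU in
theorem Pd.cast_ne (hp : Pd q (finrank F E) r d) : (r : F) ≠ 0 := fun e => by
  haveI := (CharP.charP_iff_prime_eq_zero (R := F) hp.pr).2 e
  exact hp.not_dvd (hU.char_dvd r)

include hB hU in
theorem Pd.fx_spec (hp : Pd q (finrank F E) r d) (hg : orderOf g = r) (h0 : fx B g ≠ ⊥ ∨ 7 ≤ finrank F E) :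
    finrank F (fx B g) + d = finrank F E ∧ Disjoint (fx B g) (perp B (fx B g)) := by
  have g1 : g ^ r = 1 := hg ▸ pow_orderOf_eq_one g
  constructor
  · obtain ⟨c, hc⟩ := hp.dvd hU (k := 1) (by rw [pow_one, g1]) (U := ⊤) fun _ _ => trivial
    rw [top_inf_eq, finrank_top] at hc
    have h3 : finrank F (fx B g) < finrank F E := Submodule.finrank_lt fun e => hp.pr.one_lt.ne' (by
      rw [← hg, su_ext (h := 1) fun v => (e ▸ Submodule.mem_top : v ∈ fx B g).trans (sa_one v).symm, orderOf_one])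
    have h4 : 0 < finrank F (fx B g) ∨ 7 ≤ finrank F E :=
      h0.imp_left fun e => Nat.pos_of_ne_zero fun e' => e (Submodule.finrank_eq_zero.1 e')
    have := hp.hn
    have := hp.d3
    have := hp.odd
    rcases c with _ | _ | c
    · omega
    · omega
    · have : d * 2 ≤ d * (c + 1 + 1) := Nat.mul_le_mul_left _ (by omega)
      omega
  · refine Submodule.disjoint_def.2 fun v h1 h2 => hB.nondeg v fun w => hB.refl ?_
    have h3 : ∑ i ∈ Finset.range r, suAct B (g ^ i) w ∈ fx B g := by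
      rw [mem_fx, map_sum]
      simp only [← sa_mul, ← pow_succ']
      have := Finset.sum_range_succ (fun i => suAct B (g ^ i) w) r
      rw [Finset.sum_range_succ', g1, pow_zero] at this
      exact add_right_cancel this
    have h4 : ∀ i, suAct B (g ^ i) v = v := fun i => by
      induction i with
      | zero => exact sa_one v
      | succ i ih => rw [pow_succ, sa_mul, h1, ih]
    have h5 := hB.refl (h2 _ h3)
    rw [LinearMap.map_sum₂, Finset.sum_congr rfl (g := fun _ => B w v) fun i _ => by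
      rw [← suAct_pres (g ^ i) w v, h4], Finset.sum_const, Finset.card_range, nsmul_eq_mul] at h5
    exact (mul_eq_zero.1 h5).resolve_left (hp.cast_ne hU)

include hB hU in
theorem TA.spec (hp : Pd q (finrank F E) r d) (hg : TA B ω r g) :
    finrank F (fx B g) + d = finrank F E ∧ Disjoint (fx B g) (perp B (fx B g)) ∧
      finrank F (perp B (fx B g)) = d ∧ ∀ v, ∃ a ∈ fx B g, ∃ b ∈ perp B (fx B g), a + b = v := by
  obtain ⟨h1, h2⟩ := hp.fx_spec hB hU hg.ord (Or.inl hg.ne)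
  have := hB.finrank_perp (fx B g)
  exact ⟨h1, h2, by omega, fun v => Submodule.mem_sup.1 ((hB.isCompl_perp h2).sup_eq_top ▸ Submodule.mem_top)⟩

include hU in
theorem Pd.eq_or (hp : Pd q (finrank F E) r d) {k : ℕ} (hg : g ^ r ^ k = 1) {U D : Submodule F E}
    (hU' : ∀ v ∈ U, suAct B g v ∈ U) (hD : finrank F D = d) (hle : U ≤ D) (h0 : U ⊓ fx B g = ⊥) :
    U = ⊥ ∨ U = D := by
  obtain ⟨c, hc⟩ := hp.dvd hU hg hU'
  rw [h0, finrank_bot, Nat.sub_zero] at hc
  have := Submodule.finrank_mono hle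
  rcases c with _ | c
  · exact Or.inl (Submodule.finrank_eq_zero.1 (by simpa using hc))
  · exact Or.inr (Submodule.eq_of_le_of_finrank_le hle (by rw [hc, hD]; exact Nat.le_mul_of_pos_right _ c.succ_pos))

include hU in
theorem Pd.A_le (hp : Pd q (finrank F E) r d) (ht : TF hB ω) (hg : TA B ω r g) {u : E} (hu : u ∈ fx B g)
    (u0 : u ≠ 0) (he : B u u = 0) {a : E} (ha : a ∈ (uD hB he).A ω) : a ∈ fx B g := by
  obtain ⟨-, dj, dD, dec⟩ := hg.spec hB hU hp
  set D := perp B (fx B g)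
  have g1 : g ^ r ^ 1 = 1 := by rw [pow_one, ← hg.ord, pow_orderOf_eq_one]
  have gD : ∀ v ∈ D, suAct B g v ∈ D := mapsTo_perp fun v hv => by rw [mem_fx.1 hv]; exact hv
  have gA : ∀ v ∈ (uD hB he).A ω, suAct B g v ∈ (uD hB he).A ω := fun v hv => by
    simpa [hg.fix] using uA_conj hB he (a := 1) (g := g) (by rw [one_smul]; exact hu) one_ne_zero hv
  by_contra hn
  have bD : suAct B g a - a ∈ D := by
    obtain ⟨a₀, h0, a₁, h1, rfl⟩ := dec a
    rw [map_add, mem_fx.1 h0, add_sub_add_left_eq_sub]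
    exact D.sub_mem (gD _ h1) h1
  have bA := AddSubgroup.sub_mem _ (gA a ha) ha
  have b0 : suAct B g a - a ≠ 0 := fun e => hn (sub_eq_zero.1 e)
  generalize suAct B g a - a = b at bD bA b0
  let S : Set E := {v | v ∈ D ∧ v ∈ (uD hB he).A ω}
  have hS : Submodule.span F S = D := (hp.eq_or hU g1 (U := Submodule.span F S) (fun v hv =>
    Submodule.span_le.2 (show S ⊆ (Submodule.span F S).comap (suAct B g) from fun v hv =>
      Submodule.subset_span ⟨gD v hv.1, gA v hv.2⟩) hv) dD (Submodule.span_le.2 fun v hv => hv.1)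
    (eq_bot_iff.2 ((inf_le_inf_right _ (Submodule.span_le.2 fun v hv => hv.1)).trans dj.symm.le_bot))).resolve_left
    fun e => b0 ((Submodule.eq_bot_iff _).1 e b (Submodule.subset_span ⟨bD, bA⟩))
  let K := σ.eqLocusField (RingHom.id F)
  have cK : Nat.card K = q := hU.card_fixed
  let A : Submodule K E :=
    { carrier := {v | v ∈ D ∧ ∀ s ∈ S, σ (B v s) = B v s}
      add_mem' := fun h h' => ⟨D.add_mem h.1 h'.1, fun s hs => by simp [h.2 s hs, h'.2 s hs]⟩
      zero_mem' := ⟨D.zero_mem, by simp⟩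
      smul_mem' := fun c v h => ⟨D.smul_mem c.1 h.1, fun s hs => by
        have : σ c.1 = c.1 := c.2
        change σ (B (c.1 • v) s) = B (c.1 • v) s
        simp [h.2 s hs, this]⟩ }
  have cA : Nat.card A = q ^ finrank K A := by rw [Module.natCard_eq_pow_finrank (K := K), cK]
  have gS : ∀ s ∈ S, suAct B g⁻¹ s ∈ S := fun s hs => by
    have : g⁻¹ = g ^ (r - 1) := by
      rw [inv_eq_iff_mul_eq_one, ← pow_succ', Nat.sub_add_cancel hp.pr.pos, ← hg.ord, pow_orderOf_eq_one]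
    rw [this]
    induction (r - 1) with
    | zero => rwa [pow_zero, sa_one]
    | succ i ih => rw [pow_succ', sa_mul]; exact ⟨gD _ ih.1, gA _ ih.2⟩
  have m1 : Nat.card A ≡ Nat.card {v // v ∈ A ∧ v ∈ fx B g} [MOD r] := card_modEq hp.pr g1 (· ∈ A) fun v hv =>
    ⟨gD v hv.1, fun s hs => by rw [sa_left]; exact hv.2 _ (gS s hs)⟩
  have m2 : Nat.card {v // v ∈ A ∧ v ∈ fx B g} = q ^ 0 := Nat.card_eq_one_iff_exists.2
    ⟨⟨0, A.zero_mem, Submodule.zero_mem _⟩, fun v => Subtype.ext (Submodule.disjoint_def.1 dj _ v.2.2 v.2.1.1)⟩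
  rw [m2, cA, hp.modEq, Nat.modEq_zero_iff_dvd] at m1
  obtain ⟨w, hw⟩ := hU.exists_ne
  have m3 : Nat.card (A × A) ≤ Nat.card D := Nat.card_le_card_of_injective
    (fun x => ⟨x.1.1 + w • x.2.1, D.add_mem x.1.2.1 (D.smul_mem w x.2.2.1)⟩) fun x y e => by
      have e1 : (x.1 - y.1).1 + w • (x.2 - y.2).1 = 0 := by
        have := congrArg Subtype.val e
        simp only [Submodule.coe_sub] at this ⊢
        linear_combination (norm := module) this
      have e2 : (x.2 - y.2).1 = 0 := by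
        refine Submodule.disjoint_def.1 dj _ ?_ (x.2 - y.2).2.1
        rw [← hB.perp_perp (fx B g)]
        change _ ∈ perp B D
        rw [← hS]
        refine mem_perp_span.2 fun s hs => ?_
        have e3 := congrArg (B · s) e1
        simp only [map_add, map_smul, LinearMap.add_apply, LinearMap.smul_apply, smul_eq_mul, map_zero,
          LinearMap.zero_apply] at e3
        have e4 := congrArg σ e3
        rw [map_add, map_mul, (x.1 - y.1).2.2 s hs, (x.2 - y.2).2.2 s hs, map_zero] at e4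
        exact (mul_eq_zero.1 (show (σ w - w) * _ = 0 by linear_combination e4 - e3)).resolve_left
          (sub_ne_zero.2 hw)
      rw [e2, smul_zero, add_zero] at e1
      exact Prod.ext (sub_eq_zero.1 (Subtype.ext e1)) (sub_eq_zero.1 (Subtype.ext e2))
  rw [Nat.card_prod, cA, ← pow_add, card_sub_u hU, dD, Nat.pow_le_pow_iff_right hU.two_le] at m3
  have := hp.d3
  have m4 := Nat.eq_zero_of_dvd_of_lt m1 (by omega)
  exact b0 ((Submodule.eq_bot_iff _).1 (Submodule.finrank_eq_zero.1 m4) b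
    ⟨bD, fun s hs => ht.real hB u0 he bA hs.2⟩)

theorem maps_of_im {a : SUb B} {U : Submodule F E} (h : im a U = U) : ∀ v ∈ U, suAct B a v ∈ U :=
  fun _ hv => h ▸ app_mem_im.2 hv

theorem im_inv_eq {a : SUb B} {U : Submodule F E} (h : im a U = U) : im a⁻¹ U = U := by
  conv_lhs => rw [← h, im_inv]

include hB hU in
theorem Pd.fx_cases (hp : Pd q (finrank F E) r d) (hg : TA B ω r g) {x : SUb B} (ho : orderOf x = r)
    (h0 : fx B x ≠ ⊥) (hx : im x (fx B g) = fx B g) : fx B x = fx B g ∨ fx B x = perp B (fx B g) := by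
  obtain ⟨e1, dj, dD, dec⟩ := hg.spec hB hU hp
  obtain ⟨e2, -⟩ := hp.fx_spec hB hU ho (Or.inl h0)
  have x1 : x ^ r ^ 1 = 1 := by rw [pow_one, ← ho, pow_orderOf_eq_one]
  have m1 := maps_of_im hx
  have m2 := mapsTo_perp m1
  have h1 : fx B x ≤ fx B g ⊓ fx B x ⊔ perp B (fx B g) ⊓ fx B x := fun v hv => by
    obtain ⟨a, ha, b, hb, rfl⟩ := dec v
    have h2 : suAct B x a - a = b - suAct B x b := by
      have := mem_fx.1 hv
      rw [map_add] at this
      linear_combination (norm := module) this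
    have h3 := Submodule.disjoint_def.1 dj _ (Submodule.sub_mem _ (m1 a ha) ha)
      (h2 ▸ Submodule.sub_mem _ hb (m2 b hb))
    exact Submodule.add_mem_sup ⟨ha, sub_eq_zero.1 h3⟩ ⟨hb, (sub_eq_zero.1 (h2 ▸ h3)).symm⟩
  obtain ⟨c, hc⟩ := hp.dvd hU x1 m2
  have l1 := Submodule.finrank_mono (inf_le_left : perp B (fx B g) ⊓ fx B x ≤ _)
  have := hp.d3
  have := hp.hn
  rcases c with _ | c
  · exact Or.inr (Submodule.eq_of_le_of_finrank_le (inf_eq_left.1 (Submodule.eq_of_le_of_finrank_le inf_le_left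
      (by omega))) (by omega)).symm
  · have : d * 1 ≤ d * (c + 1) := Nat.mul_le_mul_left _ (by omega)
    rw [Submodule.finrank_eq_zero.1 (by omega : finrank F (perp B (fx B g) ⊓ fx B x : Submodule F E) = 0),
      sup_bot_eq] at h1
    exact Or.inl (Submodule.eq_of_le_of_finrank_le (h1.trans inf_le_left) (by omega))

include hB hU in
theorem Pd.pgroup (hp : Pd q (finrank F E) r d) (hg : TA B ω r g) {P : Subgroup (SUb B)} (hP : IsPGroup r P)
    (h : g ∈ P) {x : SUb B} (hx : x ∈ P) : im x (fx B g) = fx B g := by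
  haveI := finite_SUb B
  haveI := Fact.mk hp.pr
  let S : Subgroup P :=
    { carrier := {x | im x.1 (fx B g) = fx B g}
      mul_mem' := fun {a b} ha hb => by
        change im (a.1 * b.1) _ = _
        rw [im_mul, hb, ha]
      one_mem' := im_one _
      inv_mem' := fun ha => im_inv_eq ha }
  by_contra hn
  haveI := hP.isNilpotent
  have mS : ∀ x : P, x ∈ S ↔ im x.1 (fx B g) = fx B g := fun _ => Iff.rfl
  clear_value S
  obtain ⟨p, h1, h2⟩ := SetLike.exists_of_lt (Group.normalizerCondition_of_isNilpotent S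
    (lt_top_iff_ne_top.2 fun e => hn ((mS ⟨x, hx⟩).1 (by rw [e]; trivial))))
  have gS : (⟨g, h⟩ : P) ∈ S := (mS _).2 (im_eq_of_mapsTo (fun v hv => by rw [mem_fx.1 hv]; exact hv) rfl)
  have h3 := hp.fx_cases hB hU hg (hg.conj p.1).ord (hg.conj p.1).ne
    ((mS _).1 ((Subgroup.mem_normalizer_iff.1 h1 _).1 gS))
  rw [← im_fx] at h3
  have h5 := h3.resolve_left (mt (mS p).2 h2)
  have h4 : p * p ∈ S := by rw [mS, Subgroup.coe_mul, im_mul, h5, im_perp, h5, hB.perp_perp]
  obtain ⟨k, hk⟩ := hP p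
  obtain ⟨j, hj⟩ : Odd (r ^ k) := (hp.pr.odd_of_ne_two hp.r3).pow
  rw [hj, pow_succ, pow_mul, pow_two, mul_eq_one_iff_inv_eq] at hk
  exact h2 (hk ▸ S.inv_mem (S.pow_mem h4 j))

include hB hU in
theorem Pd.syl (hp : Pd q (finrank F E) r d) (hg : TA B ω r g) {Z : Type*} [MulAction (SUb B) Z] {x y : Z}
    (hx : g • x = x) (hy : g • y = y) {a : SUb B} (ha : a • ω = ω) (ha' : a • x = y) :
    ∃ n : SUb B, n • ω = ω ∧ n • x = y ∧ (im n (fx B g) = fx B g ∨ im n (fx B g) = perp B (fx B g)) := by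
  haveI := finite_SUb B
  haveI := Fact.mk hp.pr
  let S := MulAction.stabilizer (SUb B) ω ⊓ MulAction.stabilizer (SUb B) y
  let g₁ : S := ⟨g, hg.fix, hy⟩
  let g₂ : S := ⟨a * g * a⁻¹, Subgroup.mem_inf.2 ⟨mul_mem (mul_mem ha hg.fix) (inv_mem ha), by
    rw [MulAction.mem_stabilizer_iff, ← ha', mul_smul, inv_smul_smul, mul_smul, hx]⟩⟩
  have pg : ∀ s : S, orderOf s.1 = r → IsPGroup r (Subgroup.zpowers s) := fun s hs =>
    IsPGroup.of_card (n := 1) (by rw [Nat.card_zpowers, ← Subgroup.orderOf_coe, hs, pow_one])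
  obtain ⟨Q₁, q₁⟩ := (pg g₁ hg.ord).exists_le_sylow
  obtain ⟨Q₂, q₂⟩ := (pg g₂ (hg.conj a).ord).exists_le_sylow
  obtain ⟨b, hb⟩ := MulAction.exists_smul_eq S Q₂ Q₁
  have m1 : g₁ ∈ Q₁ := q₁ (Subgroup.mem_zpowers _)
  have m2 : b * g₂ * b⁻¹ ∈ Q₁ := by
    rw [← hb]; exact Subgroup.smul_mem_pointwise_smul _ (MulAut.conj b) _ (q₂ (Subgroup.mem_zpowers _))
  have e1 : (b * g₂ * b⁻¹).1 = b.1 * a * g * (b.1 * a)⁻¹ := by simp [g₂, mul_assoc]
  refine ⟨b.1 * a, by rw [mul_smul, ha]; exact b.2.1, by rw [mul_smul, ha']; exact b.2.2, ?_⟩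
  rw [im_fx]
  exact hp.fx_cases hB hU hg (hg.conj _).ord (hg.conj _).ne
    (hp.pgroup hB hU hg (Q₁.2.map S.subtype) ⟨g₁, m1, rfl⟩ ⟨_, m2, e1⟩)

/-- eigenspace inside `D` -/
noncomputable def Eg (B : Sesq σ E) (D : Submodule F E) (x : SUb B) (s : F) : Submodule F E :=
  D ⊓ LinearMap.ker (suAct B x - s • LinearMap.id)

theorem mem_Eg {D : Submodule F E} {x : SUb B} {s : F} {v : E} : v ∈ Eg B D x s ↔ v ∈ D ∧ suAct B x v = s • v := by
  simp [Eg, sub_eq_zero]

theorem Eg_ge {D : Submodule F E} {x : SUb B} {s : F} (h1 : ∀ v ∈ D, suAct B x v ∈ D)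
    (h2 : ∀ v ∈ D, suAct B (x * x) v = (s * s) • v) :
    finrank F D ≤ finrank F (Eg B D x s) + finrank F (Eg B D x (-s)) := by
  have h3 := LinearMap.finrank_range_add_finrank_ker ((suAct B x - s • LinearMap.id).domRestrict D)
  have h4 : finrank F (LinearMap.range ((suAct B x - s • LinearMap.id).domRestrict D)) ≤
      finrank F (Eg B D x (-s)) := Submodule.finrank_mono (by
    rintro _ ⟨v, rfl⟩
    refine mem_Eg.2 ⟨D.sub_mem (h1 _ v.2) (D.smul_mem s v.2), ?_⟩
    have := h2 _ v.2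
    rw [sa_mul] at this
    simp only [LinearMap.domRestrict_apply, LinearMap.sub_apply, LinearMap.smul_apply, LinearMap.id_apply, map_sub,
      map_smul, this]
    module)
  have h5 : finrank F (LinearMap.ker ((suAct B x - s • LinearMap.id).domRestrict D)) = finrank F (Eg B D x s) := by
    rw [LinearMap.ker_domRestrict, Eg, ← Submodule.map_comap_subtype, Submodule.finrank_map_subtype_eq]
  omega

theorem comm_of_scalar {U : Submodule F E} (dec : ∀ v, ∃ a ∈ U, ∃ b ∈ perp B U, a + b = v) {x h : SUb B}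
    (hx : ∀ v ∈ U, suAct B x v ∈ U) {c : F} (hc : ∀ v ∈ perp B U, suAct B x v = c • v) (hh : h ∈ PW B U) :
    x * h = h * x := su_ext fun v => by
  obtain ⟨a, ha, b, hb, rfl⟩ := dec v
  have := mapsTo_perp (g := h) (fun v hv => by rw [hh v hv]; exact hv) b hb
  simp only [sa_mul, map_add, hh a ha, hh _ (hx a ha), hc b hb, hc _ this, map_smul]

include hB hU in
theorem Pd.exists_N (hp : Pd q (finrank F E) r d) (hg : TA B ω r g) : ∃ N : Subgroup (SUb B),
    (∀ n ∈ N, n • ω = ω ∧ im n (fx B g) = fx B g) ∧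
    (∀ a : SUb B, a • ω = ω → im a (fx B g) = fx B g → ∃ n ∈ N, ∃ b ∈ PW B (fx B g), b • ω = ω ∧ a = n * b) ∧
    (∀ a : SUb B, a • ω = ω → (∀ b, a * b = b * a) → a ∈ N) ∧
    ∀ τ ∈ N, ∀ k : ℕ, τ ^ 2 ^ k = 1 → ∃ c : F, ∀ v ∈ perp B (fx B g), suAct B τ v = c • v := by
  haveI := finite_SUb B
  haveI := Fact.mk hp.pr
  obtain ⟨e1, dj, dD, dec⟩ := hg.spec hB hU hp
  set Φ := fx B g
  let S := MulAction.stabilizer (SUb B) ω ⊓ PW B Φ
  let g₁ : S := ⟨g, hg.fix, fun v hv => hv⟩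
  obtain ⟨R, hR⟩ := (IsPGroup.of_card (p := r) (G := Subgroup.zpowers g₁) (n := 1) (by
    rw [Nat.card_zpowers, ← Subgroup.orderOf_coe, hg.ord, pow_one])).exists_le_sylow
  let R' := R.1.map S.subtype
  have gR : g ∈ R' := ⟨g₁, hR (Subgroup.mem_zpowers _), rfl⟩
  have RW : ∀ x ∈ R', x ∈ PW B Φ := by rintro _ ⟨x, -, rfl⟩; exact x.2.2
  have n1 : ∀ n ∈ Subgroup.normalizer (R' : Set (SUb B)), im n Φ = Φ := fun n hn =>
    (Submodule.eq_of_le_of_finrank_eq (fun v hv => by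
      rw [im_fx]; exact RW _ ((Subgroup.mem_normalizer_iff.1 hn g).1 gR) v hv) (finrank_im n Φ).symm).symm
  refine ⟨MulAction.stabilizer (SUb B) ω ⊓ Subgroup.normalizer R', fun n hn => ⟨hn.1, n1 n hn.2⟩,
    fun a ha ha' => ?_, fun a ha h => ⟨ha, Subgroup.mem_normalizer_iff.2 fun x => by
      rw [h, mul_inv_cancel_right]⟩, fun τ hτ k hk => ?_⟩
  · have cj : ∀ x : S, a * x * a⁻¹ ∈ S := fun x =>
      Subgroup.mem_inf.2 ⟨mul_mem (mul_mem ha x.2.1) (inv_mem ha), ha' ▸ PW_conj x.2.2 a⟩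
    let φ : S →* S := ((MulAut.conj a).toMonoidHom.comp S.subtype).codRestrict S cj
    obtain ⟨Q, hQ⟩ := (R.2.map φ).exists_le_sylow
    obtain ⟨b, hb⟩ := MulAction.exists_smul_eq S Q R
    have hn : b.1 * a ∈ Subgroup.normalizer (R' : Set (SUb B)) := Subgroup.mem_normalizer_fintype (by
      rintro _ ⟨x, hx, rfl⟩
      refine ⟨b * φ x * b⁻¹, ?_, by simp [φ, mul_assoc]⟩
      rw [← hb]
      exact Subgroup.smul_mem_pointwise_smul _ (MulAut.conj b) _ (hQ ⟨x, hx, rfl⟩))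
    have hω : (b.1 * a) • ω = ω := by rw [mul_smul, ha]; exact b.2.1
    refine ⟨_, ⟨hω, hn⟩, (b.1 * a)⁻¹ * b.1⁻¹ * (b.1 * a)⁻¹⁻¹,
      im_inv_eq (n1 _ hn) ▸ PW_conj (inv_mem b.2.2) _, ?_, by group⟩
    rw [inv_inv, mul_smul, hω, mul_smul, inv_smul_eq_iff.2 (Eq.symm b.2.1), inv_smul_eq_iff.2 hω.symm]
  have hτ := hτ.2
  suffices h : ∀ k, ∀ τ ∈ Subgroup.normalizer (R' : Set (SUb B)), (∃ c : F, ∀ v ∈ perp B Φ, suAct B (τ ^ 2 ^ k) v = c • v) →
      ∃ c : F, ∀ v ∈ perp B Φ, suAct B τ v = c • v from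
    h k τ hτ ⟨1, fun v _ => by rw [hk, sa_one, one_smul]⟩
  intro k
  induction k with
  | zero => exact fun τ _ h => by simpa using h
  | succ k ih =>
    intro τ hτ h
    rw [pow_succ', pow_mul, pow_two] at h
    obtain ⟨c, hc⟩ := ih _ (mul_mem hτ hτ) h
    have d3 := hp.d3
    obtain ⟨w, hw, hw'⟩ : ∃ w ∈ perp B Φ, ∃ v ∈ perp B Φ, B w v ≠ 0 := by
      by_contra hn
      push Not at hn
      have : perp B Φ ≤ Φ := fun w hw => by rw [← hB.perp_perp Φ]; exact fun v hv => hn w hw v hv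
      rw [dj.symm.eq_bot_of_le this, finrank_bot] at dD
      omega
    obtain ⟨v, hv, hv'⟩ := hw'
    have c1 : c * σ c = 1 := by
      have := suAct_pres (τ * τ) w v
      rw [hc w hw, hc v hv] at this
      apply mul_right_cancel₀ hv'
      simpa [mul_assoc, mul_left_comm] using this
    obtain ⟨s, rfl⟩ : IsSquare c := by
      by_cases h2 : ringChar F = 2
      · exact FiniteField.isSquare_of_char_two h2 c
      refine (FiniteField.isSquare_iff h2 (left_ne_zero_of_mul_eq_one c1)).2 ?_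
      have h3 := FiniteField.odd_card_of_char_ne_two h2
      rw [hU.card] at h3 ⊢
      obtain ⟨j, rfl⟩ : Odd q := (Nat.odd_pow_iff two_ne_zero).1 (Nat.odd_iff.2 h3)
      rw [show (2 * j + 1) ^ 2 / 2 = (2 * j + 1 + 1) * j by ring_nf; omega, pow_mul, ← hU.norm_eq, c1, one_pow]
    have m1 := maps_of_im (n1 τ hτ)
    have m2 := mapsTo_perp m1
    have cm : ∀ x ∈ R', τ * τ * x = x * (τ * τ) := fun x hx =>
      comm_of_scalar dec (maps_of_im (n1 _ (mul_mem hτ hτ))) hc (RW x hx)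
    have E1 := Eg_ge m2 hc
    set h := g⁻¹ * (τ * g * τ⁻¹) with hh
    have hR : h ∈ R' := mul_mem (inv_mem gR) ((Subgroup.mem_normalizer_iff.1 hτ g).1 gR)
    by_cases h1 : h = 1
    · have h2 : g * τ = τ * g := by rw [inv_mul_eq_one, eq_mul_inv_iff_mul_eq] at h1; exact h1
      have h3 : ∀ s, Eg B (perp B Φ) τ s = ⊥ ∨ Eg B (perp B Φ) τ s = perp B Φ := fun s =>
        hp.eq_or hU (k := 1) (g := g) (by rw [pow_one, ← hg.ord, pow_orderOf_eq_one]) (fun v hv => mem_Eg.2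
          ⟨mapsTo_perp (fun v hv => by rw [mem_fx.1 hv]; exact hv) v (mem_Eg.1 hv).1, by
            rw [← sa_mul, ← h2, sa_mul, (mem_Eg.1 hv).2, map_smul]⟩) dD inf_le_left
          (eq_bot_iff.2 ((inf_le_inf_right _ inf_le_left).trans dj.symm.le_bot))
      rcases h3 s with e | e
      · rcases h3 (-s) with e' | e'
        · rw [e, e', finrank_bot] at E1; omega
        · exact ⟨-s, fun v hv => (mem_Eg.1 (e'.symm ▸ hv)).2⟩
      · exact ⟨s, fun v hv => (mem_Eg.1 (e.symm ▸ hv)).2⟩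
    exfalso
    have hD : ∀ x ∈ R', ∀ v ∈ perp B Φ, suAct B x v ∈ perp B Φ := fun x hx =>
      mapsTo_perp fun v hv => by rw [RW x hx v hv]; exact hv
    have sq : h * τ * (h * τ) = τ * τ := by
      calc h * τ * (h * τ) = g⁻¹ * τ * g * g⁻¹ * (τ * g) := by rw [hh]; group
        _ = g⁻¹ * (τ * τ * g) := by group
        _ = τ * τ := by rw [cm g gR]; group
    have E2 := Eg_ge (x := h * τ) (s := s) (fun v hv => by rw [sa_mul]; exact hD h hR _ (m2 v hv)) (sq ▸ hc)
    obtain ⟨j, hj⟩ := (R.2.map S.subtype) ⟨h, hR⟩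
    have hj : h ^ r ^ j = 1 := congrArg Subtype.val hj
    have f0 : perp B Φ ⊓ fx B (h * h) = ⊥ := by
      obtain ⟨c, hc⟩ := hp.dvd hU (k := j) (g := h * h) (by rw [← pow_two, ← pow_mul, mul_comm, pow_mul, hj, one_pow])
        (hD _ (mul_mem hR hR))
      rcases c with _ | c
      · have h2 : perp B Φ ≤ fx B (h * h) := inf_eq_left.1 (Submodule.eq_of_le_of_finrank_le inf_le_left (by omega))
        have h3 : h * h = 1 := su_ext fun v => by
          obtain ⟨a, ha, b, hb, rfl⟩ := dec v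
          rw [map_add, RW _ (mul_mem hR hR) a ha, h2 hb, sa_one]
        obtain ⟨i, hi⟩ : Odd (r ^ j) := (hp.pr.odd_of_ne_two hp.r3).pow
        rw [hi, pow_succ, pow_mul, pow_two, h3, one_pow, one_mul] at hj
        exact absurd hj h1
      · have : d * 1 ≤ d * (c + 1) := Nat.mul_le_mul_left _ (by omega)
        exact Submodule.finrank_eq_zero.1 (by omega)
    have s0 : s ≠ 0 := left_ne_zero_of_mul (left_ne_zero_of_mul_eq_one c1)
    have le : ∀ t t', t * t = s * s → t' * t' = s * s →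
        finrank F (Eg B (perp B Φ) τ t) + finrank F (Eg B (perp B Φ) (h * τ) t') ≤ d := fun t t' ht ht' => by
      rw [← Submodule.finrank_sup_add_finrank_inf_eq, (eq_bot_iff.2 (le_trans (fun v hv => ?_) f0.le) : _ ⊓ _ = ⊥),
        finrank_bot, add_zero, ← dD]
      · exact Submodule.finrank_mono (sup_le inf_le_left inf_le_left)
      obtain ⟨⟨a1, a2⟩, -, a3⟩ := And.intro (mem_Eg.1 hv.1) (mem_Eg.1 hv.2)
      rw [sa_mul, a2, map_smul] at a3
      refine ⟨a1, smul_right_injective E (mul_ne_zero s0 s0) ?_⟩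
      change (s * s) • suAct B (h * h) v = (s * s) • v
      rw [sa_mul, ← ht, mul_smul, ← map_smul, a3, map_smul, smul_comm, a3, smul_smul, ht', ht]
    have l1 := le s s rfl rfl
    have l2 := le s (-s) rfl (by ring)
    have l3 := le (-s) s (by ring) rfl
    have l4 := le (-s) (-s) (by ring) (by ring)
    obtain ⟨i, hi⟩ := hp.odd
    omega

end Cfsg.Agent.H1.UR
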