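import Cfsg.Agent.H1.URf
import Cfsg.Agent.H1.URd
import Cfsg.Agent.H6.UL2

/-! Rank 3 actions of unitary groups: the local analysis in characteristic two. -/

set_option autoImplicit false
set_option linter.unusedSectionVars false

namespace Cfsg.Agent.H1.UR

open Module H5 Matrix H6.UL
open scoped Classical Pointwise

theorem single_orbit {G Z : Type*} [Group G] [Finite G] [MulAction G Z] [Fintype Z] {N : Subgroup G}
    (hN : Odd (Nat.card N)) {O : Finset Z} (hO : Odd O.card) (hi : ∀ n ∈ N, ∀ x ∈ O, n • x ∈ O)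
    (h3 : ∀ x ∈ O, ∀ y ∈ O, ∀ z ∈ O, (∃ n ∈ N, n • x = y) ∨ (∃ n ∈ N, n • x = z) ∨ ∃ n ∈ N, n • y = z) :
    ∀ x ∈ O, ∀ y ∈ O, ∃ n ∈ N, n • x = y := by
  intro x hx y hy
  by_contra hn
  have od : ∀ x : Z, Odd (H2.orbF N x).card := fun x => Odd.of_dvd_nat hN (Dvd.intro _ (H2.orbF_card N x))
  have e : O = H2.orbF N x ∪ H2.orbF N y := by
    ext z
    simp only [Finset.mem_union, H2.mem_orbF]
    refine ⟨fun hz => (h3 x hx y hy z hz).resolve_left hn, ?_⟩
    rintro (⟨n, h, rfl⟩ | ⟨n, h, rfl⟩)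
    · exact hi n h x hx
    · exact hi n h y hy
  rw [e, Finset.card_union_of_disjoint (Finset.disjoint_left.2 fun z h1 h2 => by
    obtain ⟨n, h, rfl⟩ := H2.mem_orbF.1 h1
    obtain ⟨m, h', e⟩ := H2.mem_orbF.1 h2
    exact hn ⟨m⁻¹ * n, mul_mem (inv_mem h') h, by rw [mul_smul, ← e, inv_smul_smul]⟩)] at hO
  exact Nat.not_even_iff_odd.2 hO ((od x).add_odd (od y))

theorem num_even3 {q n : ℕ} (hq : 2 ≤ q) (h1 : q ^ 3 ∣ n + 1) (h : n ∣ (q ^ 3 + 1) * (q - 1)) : False := by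
  obtain ⟨m, hm⟩ := h1
  obtain ⟨j, hj⟩ := h
  obtain ⟨p, rfl⟩ : ∃ p, q = p + 1 := ⟨q - 1, by omega⟩
  rw [Nat.add_sub_cancel] at hj
  have p1 : 1 ≤ p := by omega
  have h2 : (p + 1) ^ 3 ∣ j + p := by
    have : (p + 1) ^ 3 * (m * j) = (p + 1) ^ 3 * p + (j + p) := by
      rw [← mul_assoc, ← hm]; nlinarith
    exact (Nat.dvd_add_right (Dvd.intro _ rfl)).1 (this ▸ Dvd.intro _ rfl)
  have h3 := Nat.le_of_dvd (by omega) h2
  have h4 := Nat.le_of_dvd n.succ_pos ⟨m, hm⟩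
  have h5 : p + 1 ≤ (p + 1) ^ 2 := by nlinarith
  have h6 : (p + 1) ^ 3 = (p + 1) * (p + 1) ^ 2 := by ring
  generalize (p + 1) ^ 3 = Q at *
  have h7 : p ≤ Q := by nlinarith
  obtain ⟨a, rfl⟩ : ∃ a, Q = a + p := ⟨Q - p, by omega⟩
  have : a ≤ j := by omega
  have : a + p ≤ n + 1 := h4
  have : 2 * p + 2 ≤ a := by nlinarith
  nlinarith

theorem num_even2 {q n : ℕ} (hq : 2 ≤ q) (h1 : q ∣ n + 1) (h : n ∣ q ^ 2 - 1) : n + 1 = q ∨ n + 1 = q ^ 2 := by
  obtain ⟨m, hm⟩ := h1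
  obtain ⟨j, hj⟩ := h
  have q1 : 1 ≤ q ^ 2 := Nat.one_le_pow _ _ (by omega)
  have hj' : q ^ 2 = n * j + 1 := by omega
  have j1 : 1 ≤ j := by rcases j with _ | j; nlinarith; omega
  have h2 : q ∣ j - 1 := by
    have : q * (m * j) = q * q + (j - 1) := by
      rw [← mul_assoc, ← hm, ← pow_two, hj', add_mul]; omega
    exact (Nat.dvd_add_right (Dvd.intro _ rfl)).1 (this ▸ Dvd.intro _ rfl)
  obtain ⟨i, hi⟩ := h2
  rcases i with _ | i
  · right; have : j = 1 := by omega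
    subst this; omega
  · left
    have h3 : q + 1 ≤ j := by have : q * 1 ≤ q * (i + 1) := Nat.mul_le_mul_left _ (by omega); omega
    rcases m with _ | _ | m
    · omega
    · omega
    · have : q * 2 ≤ q * (m + 1 + 1) := Nat.mul_le_mul_left _ (by omega)
      nlinarith

variable {F : Type*} [Field F] {σ : F →+* F} {E : Type*} [AddCommGroup E] [Module F E]
  [FiniteDimensional F E] {B : Sesq σ E} (hB : IsEps B 1) [Fintype F] [Fintype E] {q : ℕ} (hU : UF σ q)
variable {X : Type*} [MulAction (SUb B) X] [Fintype X] {adj : X → X → Prop} {ω : X} {r d : ℕ} {g : SUb B}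

theorem invol_ut (h2 : (2 : F) = 0) {Φ : Submodule F E} (h3 : finrank F Φ ≤ 3) (hd : Disjoint Φ (perp B Φ))
    {τ : SUb B} (hτ : τ * τ = 1) (hD : τ ∈ PW B (perp B Φ)) : τ = 1 ∨ IsT hB τ := by
  refine or_iff_not_imp_left.2 fun h1 => ?_
  let ν : E →ₗ[F] E := suAct B τ - LinearMap.id
  have adj : ∀ x y, B (ν x) y = B x (ν y) := fun x y => by
    simp [ν, sa_left, inv_eq_of_mul_eq_one_right hτ]
  have νν : ∀ x, ν (ν x) = 0 := fun x => by
    have : suAct B τ (suAct B τ x) = x := by rw [← sa_mul, hτ, sa_one]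
    simp only [ν, LinearMap.sub_apply, LinearMap.id_apply, map_sub, this]
    linear_combination (norm := module) h2 • x - h2 • suAct B τ x
  have νD : ∀ x ∈ perp B Φ, ν x = 0 := fun x hx => sub_eq_zero.2 (hD x hx)
  have T1 : LinearMap.range ν ≤ Φ := by
    rintro _ ⟨x, rfl⟩
    rw [← hB.perp_perp Φ]
    exact fun y hy => by rw [adj, νD y hy, map_zero]
  have T2 : LinearMap.range ν ⊔ perp B Φ ≤ perp B (LinearMap.range ν) := sup_le (by
    rintro _ ⟨x, rfl⟩ _ ⟨y, rfl⟩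
    rw [adj, νν, map_zero]) (hB.le_perp_comm (T1.trans (hB.le_perp_perp Φ)))
  have T3 := Submodule.finrank_sup_add_finrank_inf_eq (LinearMap.range ν) (perp B Φ)
  rw [(hd.mono_left T1).eq_bot, finrank_bot] at T3
  have := Submodule.finrank_mono T2
  have := hB.finrank_perp Φ
  have := hB.finrank_perp (LinearMap.range ν)
  obtain ⟨⟨v, x₀, rfl⟩, hv⟩ := finrank_le_one_iff.1 (by omega : finrank F (LinearMap.range ν) ≤ 1)
  have hφ : ∀ x, ∃ c : F, c • ν x₀ = ν x := fun x => (hv ⟨_, x, rfl⟩).imp fun c hc => congrArg Subtype.val hc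
  choose φ hφ using hφ
  have ex : ∀ c : F, (∀ x, φ x = c * B x (ν x₀)) → ∀ x, suAct B τ x = x + (c * B x (ν x₀)) • ν x₀ := fun c h x => by
    rw [← h, hφ]; simp [ν]
  have v0 : ν x₀ ≠ 0 := fun e => h1 (su_ext fun x => by
    have := hφ x
    rw [e, smul_zero, eq_comm] at this
    exact (sub_eq_zero.1 this).trans (sa_one x).symm)
  have vi : B (ν x₀) (ν x₀) = 0 := by rw [adj, νν, map_zero]
  obtain ⟨y, hy⟩ := exists_pair hB v0
  have hy' : B (ν x₀) y = 1 := by rw [hB.herm, hy]; simp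
  have k : ∀ x, φ x = σ (φ y) * B x (ν x₀) := fun x => by
    have := adj x y
    rw [← hφ x, ← hφ y] at this
    simpa [hy'] using this
  have k1 : σ (σ (φ y)) = -σ (φ y) := by
    have := k y
    rw [hy, mul_one] at this
    rw [← this, ← this]
    linear_combination φ y * h2
  refine ⟨_, σ (φ y), v0, vi, fun e => h1 (su_ext fun x => ?_), k1, su_ext fun x => by
    rw [ex _ k, ut_apply hB vi k1]⟩
  rw [ex _ k, e, sa_one]; simp

include hU in
theorem card_T3 {Φ : Submodule F E} (h2 : finrank F Φ = 3) (hd : Disjoint Φ (perp B Φ)) :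
    ((Trs hB).filter fun t => t ∈ PW B (perp B Φ)).card = (q ^ 3 + 1) * (q - 1) := by
  obtain ⟨c, c0, hc⟩ := hU.exists_trace_zero
  have s := sum_Trs hB hU c0 hc fun t => if t ∈ PW B (perp B Φ) then (1 : ℝ) else 0
  rw [Finset.sum_congr rfl fun v hv => if_congr (ut_mem_PW hB (mem_Iso.1 hv).2 hc c0 (mem_Iso.1 hv).1) rfl rfl,
    sum_iso hB hU (r := 0) (s := 3) (by rw [hd.eq_bot, finrank_bot]) (by omega), Finset.sum_boole, cI] at s
  have q2 : (2 : ℝ) ≤ q := by exact_mod_cast hU.two_le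
  apply Nat.cast_injective (R := ℝ)
  apply mul_left_cancel₀ (by linarith : (q : ℝ) + 1 ≠ 0)
  rw [s]; push_cast [Nat.cast_sub hU.pos]; field_simp; ring

include hB hU in
theorem exists_syl3 {Φ : Submodule F E} (h3 : finrank F Φ = 3) (hd : Disjoint Φ (perp B Φ)) {p : ℕ}
    (pp : p.Prime) (hp : (p : F) = 0) : ∃ S ≤ PW B (perp B Φ), IsPGroup p S ∧ q ^ 3 ∣ Nat.card S := by
  haveI := finite_SUb B
  haveI := Fact.mk pp
  obtain ⟨u, hu, u0, he⟩ := exists_iso_vec hB hU Φ (by omega)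
  have hS : IsPGroup p (PW B (perp B Φ) ⊓ (uD hB he).Q : Subgroup (SUb B)) :=
    (Q_pgroup hB he hp).to_le inf_le_right
  refine ⟨_, inf_le_left, hS, ?_⟩
  obtain ⟨a, ⟨ha, ha'⟩, ha0⟩ : ∃ a ∈ Φ ⊓ perp B (F ∙ u), a ∉ F ∙ u := by
    by_contra hn
    push Not at hn
    have h1 := Submodule.finrank_mono (show Φ ⊓ perp B (F ∙ u) ≤ F ∙ u from hn)
    have h2 := Submodule.finrank_sup_add_finrank_inf_eq Φ (perp B (F ∙ u))
    have h4 := hB.finrank_perp (F ∙ u)
    have h5 := Submodule.finrank_le (Φ ⊔ perp B (F ∙ u))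
    rw [finrank_span_singleton u0] at h1 h4
    omega
  have ha' : B a u = 0 := mem_perp_one.1 ha'
  have hμ : ∀ l : F, ∃ μ, B (l • a) (l • a) = σ μ + μ := fun l => hU.trace_surj (hB.herm_self _)
  choose μ hμ using hμ
  have ad : ∀ (l : F) (c : {c : F // σ c = -c}), Adm B (l • a) u (μ l + c) := fun l c =>
    ⟨he, by simp [ha'], by rw [hμ, map_add, c.2]; ring⟩
  have le := Nat.card_le_card_of_injective (fun x : F × {c : F // σ c = -c} =>
    (⟨ei hB (x.1 • a) u (μ x.1 + x.2), fun z hz => by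
      rw [ei_apply hB (ad _ _), hz u hu, hz _ (Φ.smul_mem _ ha)]; simp, _, _, ad _ _, rfl⟩ :
      (PW B (perp B Φ) ⊓ (uD hB he).Q : Subgroup (SUb B)))) (fun x y e => by
    obtain ⟨z, hz⟩ := exists_pair hB u0
    have e1 := congrArg (fun t : (PW B (perp B Φ) ⊓ (uD hB he).Q : Subgroup (SUb B)) => suAct B t.1 z) e
    simp only [ei_apply hB (ad _ _), hz, one_smul, mul_one] at e1
    have e2 : x.1 = y.1 := by
      by_contra hn
      refine ha0 ((Submodule.smul_mem_iff _ (sub_ne_zero.2 hn)).1 (Submodule.mem_span_singleton.2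
        ⟨(B z (x.1 • a) + (μ x.1 + x.2)) - (B z (y.1 • a) + (μ y.1 + y.2)), ?_⟩))
      linear_combination (norm := module) -e1
    rw [e2, sub_right_inj] at e1
    exact Prod.ext e2 (Subtype.ext (by simpa using smul_left_injective F u0 e1)))
  rw [Nat.card_prod, card_trace_zero hU, Nat.card_eq_fintype_card, hU.card] at le
  obtain ⟨p', k, pp', -, rfl, hp'⟩ := exists_char hU
  haveI := (CharP.charP_iff_prime_eq_zero (R := F) pp).2 hp
  obtain rfl : p = p' := (Nat.prime_dvd_prime_iff_eq pp pp').1 ((CharP.cast_eq_zero_iff F p p').1 hp')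
  obtain ⟨j, hj⟩ := IsPGroup.iff_card.1 hS
  rw [hj, ← pow_mul] at le ⊢
  rw [← pow_add, Nat.pow_le_pow_iff_right pp.one_lt] at le
  exact pow_dvd_pow _ (by omega)

include hB hU in
theorem pair_false (h2 : (2 : F) = 0) (hq : 3 ≤ q) {Φ : Submodule F E} (hΦ : finrank F Φ = 2)
    (hd : Disjoint Φ (perp B Φ)) {Z : Type*} [MulAction (SUb B) Z] [Fintype Z] {z : Z}
    (odd : ∀ b ∈ PW B (perp B Φ), b • z = z → b * b = 1 → b = 1)
    (hY : (H2.orbF (PW B (perp B Φ)) z).card ≡ 1 [MOD q - 1])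
    (tr : ∀ y y' : TI B 1, y.1 ≤ Φ → y'.1 ≤ Φ → ∃ n : SUb B, n • z = z ∧ im n Φ = Φ ∧ n • y = y') : False := by
  haveI := finite_SUb B
  obtain ⟨s, sp, hs⟩ := Nat.exists_prime_and_dvd (n := q - 1) (by omega)
  haveI := Fact.mk sp
  obtain ⟨l, hl⟩ := exists_prime_orderOf_dvd_card' (G := Fˣ) s (by rw [hU.card_units]; exact hs.mul_left _)
  have l1 : (l : F) ^ s = 1 := by rw [← Units.val_pow_eq_pow_val, ← hl, pow_orderOf_eq_one, Units.val_one]
  have l2 : σ l = l := by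
    obtain ⟨c, hc⟩ := hs
    rw [hU.apply, show q = s * c + 1 by omega, pow_succ, pow_mul, l1, one_pow, one_mul]
  have l0 : (l : F) ≠ 0 := l.ne_zero
  have l3 : (l : F) ≠ (l : F)⁻¹ := fun e => by
    have h : ((l : F) - 1) ^ 2 = 0 := by
      linear_combination (l : F) * e + mul_inv_cancel₀ l0 + (1 - (l : F)) * h2
    have : l = 1 := Units.ext (sub_eq_zero.1 (pow_eq_zero_iff two_ne_zero |>.1 h))
    rw [this, orderOf_one] at hl
    exact sp.one_lt.ne hl
  generalize (l : F) = t at l1 l2 l0 l3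
  let R : TI B 1 → TI B 1 → Prop := fun y y' => y'.1 ≤ Φ ∧ ∃ x ∈ PW B (perp B Φ), x • z = z ∧
    (∀ v ∈ y.1, suAct B x v = t • v) ∧ ∀ v ∈ y'.1, suAct B x v = t⁻¹ • v
  have Rne : ∀ y y', R y y' → y' ≠ y := by
    rintro y y' ⟨-, x, -, -, h1, h3⟩ rfl
    obtain ⟨v, v0, hv, rfl⟩ := exists_pt y'
    have := Submodule.mem_span_singleton_self (R := F) v
    exact l3 (smul_left_injective F v0 ((h1 v this).symm.trans (h3 v this)))
  have Rs : ∀ y y', y.1 ≤ Φ → R y y' → R y' y := by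
    rintro y y' hy ⟨-, x, h0, h1, h3, h4⟩
    refine ⟨hy, x⁻¹, inv_mem h0, inv_smul_eq_iff.2 h1.symm, fun v hv => sa_inj x ?_, fun v hv => sa_inj x ?_⟩
    · rw [sa_app_inv, map_smul, h4 v hv, smul_smul, mul_inv_cancel₀ l0, one_smul]
    · rw [sa_app_inv, map_smul, h3 v hv, smul_smul, inv_mul_cancel₀ l0, one_smul]
  have Rc : ∀ (n : SUb B) y y', n • z = z → im n Φ = Φ → R y y' → R (n • y) (n • y') := by
    rintro n y y' hn hn' ⟨hy, x, h0, h1, h3, h4⟩
    refine ⟨hn' ▸ im_le_iff.2 hy, n * x * n⁻¹, ?_, by rw [mul_smul, mul_smul, inv_smul_eq_iff.2 hn.symm, h1, hn],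
      fun v hv => ?_, fun v hv => ?_⟩
    · have := PW_conj h0 n
      rwa [im_perp, hn'] at this
    · rw [sa_mul, sa_mul, h3 _ (mem_im.1 hv), map_smul, sa_app_inv]
    · rw [sa_mul, sa_mul, h4 _ (mem_im.1 hv), map_smul, sa_app_inv]
  have sup : ∀ y y' : TI B 1, y.1 ≤ Φ → y'.1 ≤ Φ → y ≠ y' → y.1 ⊔ y'.1 = Φ := fun y y' hy hy' h => by
    have := Submodule.finrank_sup_add_finrank_inf_eq y.1 y'.1
    rw [pt_inf h, finrank_bot, y.2.1, y'.2.1] at this
    exact Submodule.eq_of_le_of_finrank_le (sup_le hy hy') (by omega)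
  have Ru : ∀ y y' y'', y.1 ≤ Φ → R y y' → R y y'' → y' = y'' := by
    intro y y' y'' hy h h'
    by_contra hne
    have s1 := sup _ _ hy h.1 (Rne _ _ h).symm
    have s2 := sup _ _ h.1 h'.1 hne
    obtain ⟨-, x, h0, h1, h3, h4⟩ := h
    obtain ⟨-, x', h0', h1', h3', h4'⟩ := h'
    have f1 : ∀ v ∈ y.1, suAct B (x⁻¹ * x') v = v := fun v hv => by rw [sa_mul, h3' v hv, ← h3 v hv, sa_inv_app]
    have m := mul_mem (inv_mem h0) h0'
    have f2 : ∀ v ∈ Φ, suAct B (x⁻¹ * x') v - v ∈ y.1 := fun v hv => by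
      have h5 : Φ ⊓ perp B y.1 = y.1 := by
        refine (Submodule.eq_of_le_of_finrank_le (le_inf hy y.2.2) ?_).symm
        have h6 : Φ ⊓ perp B y.1 < Φ := lt_of_le_of_ne inf_le_left fun e => pt_ne_bot y
          ((hd.mono_left hy).eq_bot_of_le (hB.le_perp_comm (inf_eq_left.1 e)))
        have := Submodule.finrank_lt_finrank_of_lt h6
        rw [y.2.1]; omega
      rw [← h5]
      refine ⟨Φ.sub_mem (PW_maps hB m hv) hv, fun w hw => ?_⟩
      rw [map_sub, LinearMap.sub_apply, ← suAct_pres (x⁻¹ * x') v w, f1 w hw, sub_self]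
    have e := odd _ m (by rw [mul_smul, h1', inv_smul_eq_iff, h1]) (su_ext fun v => by
      obtain ⟨a, ha, b, hb, rfl⟩ := decomp hB hd v
      have := f1 _ (f2 a ha)
      rw [map_sub] at this
      rw [sa_mul, sa_one, map_add, map_add, m b hb, m b hb]
      linear_combination (norm := module) this + h2 • (suAct B (x⁻¹ * x') a - a))
    obtain rfl := inv_mul_eq_one.1 e
    obtain ⟨v, v0, hv, rfl⟩ := exists_pt y
    have := Submodule.mem_span_singleton_self (R := F) v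
    obtain ⟨a, ha, b, hb, e'⟩ := Submodule.mem_sup.1 (s2 ▸ hy this)
    refine l3 (smul_left_injective F v0 ((h3 v this).symm.trans ?_))
    change _ = t⁻¹ • v
    rw [← e', map_add, h4 a ha, h4' b hb, smul_add]
  obtain ⟨y₀, y₀', hy₀, h₀⟩ : ∃ y y', y.1 ≤ Φ ∧ R y y' := by
    obtain ⟨u, hu, u0, he⟩ := exists_iso_vec hB hU Φ (by omega)
    obtain ⟨v, hv, h1, h3⟩ := exists_partner hB hU u0 he (S := perp B Φ)
      (fun e => u0 (Submodule.disjoint_def.1 hd u hu e)) fun s hs => hB.refl (hs u hu)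
    have vΦ : v ∈ Φ := by rw [← hB.perp_perp Φ]; exact h3
    have v0 : v ≠ 0 := by rintro rfl; simp at h1
    have h4 : B u v = 1 := by rw [hB.herm, h1]; simp
    obtain ⟨x, x1, x2⟩ := exists_hy hB he hv h1 l0
    let x' : SUb B := ⟨x, x1.trans (by rw [l2, div_self l0])⟩
    have x3 : ∀ w, suAct B x' w = w + ((t - 1) * B w v) • u + ((t⁻¹ - 1) * B w u) • v := fun w => by
      rw [← l2]; nth_rewrite 1 [l2]; exact x2 w
    have xL : x' ∈ PW B (perp B Φ) := fun w hw => by simp [x3, hw u hu, hw v vΦ]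
    have xu : ∀ k : ℕ, suAct B (x' ^ k) u = t ^ k • u ∧ suAct B (x' ^ k) v = t⁻¹ ^ k • v := fun k => by
      induction k with
      | zero => simp
      | succ k ih =>
        rw [pow_succ, sa_mul, sa_mul, x3 u, x3 v]
        simp only [he, hv, h1, h4, map_add, map_smul, ih]
        constructor <;> module
    have xs : x' ^ s = 1 := su_ext fun w => by
      obtain ⟨a, ha, b, hb, rfl⟩ := decomp hB hd w
      rw [← sup (pt u0 he) (pt v0 hv) ((Submodule.span_singleton_le_iff_mem _ _).2 hu)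
        ((Submodule.span_singleton_le_iff_mem _ _).2 vΦ) fun e => by
          obtain ⟨c, rfl⟩ := (pt_eq_iff _ _ _ _).1 e
          simp [he] at h1] at ha
      obtain ⟨c, c', rfl⟩ := mem_span_pair'.1 ha
      simp only [map_add, map_smul, xu, inv_pow, l1, pow_mem xL s b hb, inv_one, one_smul, sa_one]
    obtain ⟨y, hy, e⟩ : ∃ y ∈ H2.orbF (PW B (perp B Φ)) z, x' • y = y := by
      by_contra hn
      push Not at hn
      have xo : orderOf x' = s := orderOf_eq_prime xs fun e => hn z (H2.mem_orbF.2 ⟨1, one_mem _, one_smul _ _⟩)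
        (by rw [e, one_smul])
      have := H2.dvd_card_of_semireg (Subgroup.zpowers x') (H2.orbF (PW B (perp B Φ)) z) (fun a ha y hy => by
        obtain ⟨b, hb, rfl⟩ := H2.mem_orbF.1 hy
        exact H2.mem_orbF.2 ⟨a * b, mul_mem (Subgroup.zpowers_le.2 xL ha) hb, mul_smul _ _ _⟩) fun a ha y hy e => by
        by_contra a1
        obtain ⟨k, hk⟩ := mem_zpowers_of_prime_card (G := Subgroup.zpowers x') (p := s)
          (by rw [Nat.card_zpowers, xo]) (g := ⟨a, ha⟩) (g' := ⟨x', Subgroup.mem_zpowers _⟩)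
          fun e => a1 (congrArg Subtype.val e)
        have : a ^ k = x' := congrArg Subtype.val hk
        exact hn y hy (this ▸ zpow_mem (show a ∈ MulAction.stabilizer _ y from e) k)
      rw [Nat.card_zpowers, xo] at this
      exact sp.one_lt.ne' (Nat.dvd_one.1 (((hY.of_dvd hs).dvd_iff dvd_rfl).1 this))
    obtain ⟨b, hb, rfl⟩ := H2.mem_orbF.1 hy
    have bΦ := fun w hw => PW_maps hB (inv_mem hb) (v := w) hw
    refine ⟨b⁻¹ • pt u0 he, b⁻¹ • pt v0 hv, ?_, ?_, b⁻¹ * x' * b, mul_mem (mul_mem (inv_mem hb) xL) hb,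
      by rw [mul_smul, mul_smul, e, inv_smul_smul], fun w hw => ?_, fun w hw => ?_⟩
    · rw [smul_pt]; exact (Submodule.span_singleton_le_iff_mem _ _).2 (bΦ u hu)
    · rw [smul_pt]; exact (Submodule.span_singleton_le_iff_mem _ _).2 (bΦ v vΦ)
    all_goals
      rw [smul_pt] at hw
      obtain ⟨c, rfl⟩ := Submodule.mem_span_singleton.1 hw
      have := xu 1
      simp only [pow_one] at this
      simp only [sa_mul, map_smul, sa_app_inv, this, smul_comm c]
  have ex : ∀ y : TI B 1, ∃ y', y.1 ≤ Φ → R y y' := fun y => by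
    by_cases hy : y.1 ≤ Φ
    · obtain ⟨n, h1, h3, rfl⟩ := tr y₀ y hy₀ hy
      exact ⟨_, fun _ => Rc n _ _ h1 h3 h₀⟩
    · exact ⟨y, fun h => absurd h hy⟩
  choose f hf using ex
  have ev := H2.even_card_of_invol (Finset.univ.filter fun y : TI B 1 => y.1 ≤ Φ) f
    (fun y hy => by simpa using (hf y (by simpa using hy)).1)
    (fun y hy => by
      have h := hf y (by simpa using hy)
      exact Ru _ _ _ h.1 (hf _ h.1) (Rs _ _ (by simpa using hy) h))
    fun y hy => Rne _ _ (hf y (by simpa using hy))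
  have c := sum_pt_le hB hU (S := Φ) (r := 0) (s := 2) (by rw [hd.eq_bot, finrank_bot]) (by omega)
  rw [Finset.sum_boole, cI] at c
  have q3 : (3 : ℝ) ≤ q := by exact_mod_cast hq
  have c' : (Finset.univ.filter fun y : TI B 1 => y.1 ≤ Φ).card = q + 1 := by
    apply Nat.cast_injective (R := ℝ)
    apply mul_left_cancel₀ (by nlinarith : (q : ℝ) ^ 2 - 1 ≠ 0)
    rw [c]; push_cast; field_simp; ring
  haveI := (CharP.charP_iff_prime_eq_zero (R := F) Nat.prime_two).2 (by exact_mod_cast h2)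
  have := hU.char_dvd 2
  rw [c', Nat.even_iff] at ev
  omega

include hU in
theorem even_false (hs : Sit B adj ω) (ht : TF hB ω) (hp : Pd q (finrank F E) r d) (hq : 3 ≤ q)
    (h2 : (2 : F) = 0) (hg : TA B ω r g) (h1 : Odd (finrank F E) → Tr B ω 1) : False := by
  haveI := finite_SUb B
  obtain ⟨e1, dj, dD, dec⟩ := hg.spec hB hU hp
  obtain ⟨N, N1, N2, -, N4⟩ := hp.exists_N hB hU hg
  have hn := hp.hn
  set Φ := fx B g with hΦ
  have gΦ : g ∈ PW B Φ := fun v hv => hv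
  have oN : Odd (Nat.card N) := Nat.not_even_iff_odd.1 fun e => by
    obtain ⟨τ, hτ⟩ := exists_prime_orderOf_dvd_card' (G := N) 2 e.two_dvd
    have t2 : τ.1 * τ.1 = 1 := by rw [← pow_two, ← Subgroup.coe_pow, ← hτ, pow_orderOf_eq_one]; rfl
    obtain ⟨c, hc⟩ := N4 τ τ.2 1 (by simpa [pow_two] using t2)
    have tL : τ.1 ∈ PW B (perp B Φ) := fun v hv => by
      have := congrArg (fun x => suAct B x v) t2
      simp only [sa_mul, sa_one, hc v hv, map_smul, smul_smul] at this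
      have h3 : ((c - 1) ^ 2) • v = 0 := by linear_combination (norm := module) this + h2 • ((1 - c) • v)
      rcases smul_eq_zero.1 h3 with h | h
      · rw [hc v hv, sub_eq_zero.1 (pow_eq_zero_iff two_ne_zero |>.1 h), one_smul]
      · rw [h, map_zero]
    rcases invol_ut hB h2 (by omega) dj t2 tL with h | ⟨v, c, v0, hv, c0, hc, h⟩
    · rw [show τ = 1 from Subtype.ext h, orderOf_one] at hτ; omega
    · exact c0 (ht v c v0 hv hc (h ▸ (N1 τ τ.2).1))
  let z : Set X := {x | ∃ a ∈ PW B Φ, a • ω = x}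
  have hz : ∀ m m' : SUb B, im m Φ = Φ → im m' Φ = Φ → (m • z = m' • z ↔ ∃ a ∈ PW B Φ, a • m • ω = m' • ω) := by
    have h : ∀ m : SUb B, im m Φ = Φ → ∀ x, x ∈ m • z ↔ ∃ a ∈ PW B Φ, a • m • ω = x := fun m hm x => by
      rw [Set.mem_smul_set_iff_inv_smul_mem]
      refine ⟨fun ⟨a, ha, e⟩ => ⟨m * a * m⁻¹, hm ▸ PW_conj ha m, ?_⟩, fun ⟨a, ha, e⟩ =>
        ⟨m⁻¹ * a * m⁻¹⁻¹, im_inv_eq hm ▸ PW_conj ha m⁻¹, ?_⟩⟩
      · rw [mul_smul, mul_smul, inv_smul_smul, e, smul_inv_smul]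
      · rw [inv_inv, mul_smul, mul_smul, e]
    intro m m' hm hm'
    refine ⟨fun e => (h m hm _).1 (e ▸ (h m' hm' _).2 ⟨1, one_mem _, one_smul _ _⟩), fun ⟨a, ha, e⟩ => ?_⟩
    ext x
    rw [h m hm, h m' hm', ← e]
    exact ⟨fun ⟨b, hb, e⟩ => ⟨b * a⁻¹, mul_mem hb (inv_mem ha), by rw [mul_smul, inv_smul_smul, e]⟩,
      fun ⟨b, hb, e⟩ => ⟨b * a, mul_mem hb ha, by rw [mul_smul, e]⟩⟩
  have zH : ∀ n : SUb B, n • ω = ω → im n Φ = Φ → n • z = z := fun n h h' => by
    simpa using (hz n 1 h' (im_one _)).2 ⟨1, one_mem _, by simp [h]⟩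
  clear_value z
  set L := PW B (perp B Φ) with hL
  have cL : ∀ n : SUb B, im n Φ = Φ → ∀ a ∈ L, n * a * n⁻¹ ∈ L := fun n hn a ha => by
    have := PW_conj ha n
    rwa [im_perp, hn] at this
  have odd : ∀ b ∈ L, b • z = z → ∀ k, b ^ 2 ^ k = 1 → b = 1 := fun b hb e k hk => by
    obtain ⟨a, ha, e'⟩ := (hz b 1 (im_PW hB hb) (im_one _)).1 (by simpa using e)
    have aΦ : im a Φ = Φ := im_eq_of_mapsTo (fun v hv => by rw [ha v hv]; exact hv) rfl
    obtain ⟨n, hn, b', hb', -, e2⟩ := N2 (a * b) (by rw [mul_smul, e', one_smul]) (by rw [im_mul, im_PW hB hb, aΦ])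
    have e3 : n = a * b'⁻¹ * b := by
      rw [mul_assoc, PW_comm hB dj (inv_mem hb') hb, ← mul_assoc, e2, mul_inv_cancel_right]
    have c := PW_comm hB dj (mul_mem ha (inv_mem hb')) hb
    have e4 : n ^ Nat.card N = 1 := congrArg Subtype.val (pow_card_eq_one' (x := (⟨n, hn⟩ : N)))
    rw [e3, (show Commute _ _ from c).mul_pow, mul_eq_one_iff_inv_eq] at e4
    have e5 : b ^ Nat.card N = 1 := su_ext fun v => by
      obtain ⟨x, hx, y, hy, rfl⟩ := dec v
      rw [map_add, pow_mem hb _ y hy, ← e4, inv_mem (pow_mem (mul_mem ha (inv_mem hb')) _) x hx, sa_one]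
    have := pow_gcd_eq_one.2 ⟨e5, hk⟩
    rwa [(Nat.Coprime.pow_right k (Nat.coprime_two_right.2 oN)).gcd_eq_one, pow_one] at this
  haveI : Fintype (Set X) := Fintype.ofFinite _
  set Y := H2.orbF L z with hY
  have zY : z ∈ Y := H2.mem_orbF.2 ⟨1, one_mem _, one_smul _ _⟩
  have semi : ∀ S ≤ L, IsPGroup 2 S → Nat.card S ∣ (Y.erase z).card + 1 := fun S hS hS' => by
    rw [Finset.card_erase_add_one zY]
    refine H2.dvd_card_of_semireg S Y (fun a ha y hy => ?_) fun a ha y hy e => ?_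
    · obtain ⟨b, hb, rfl⟩ := H2.mem_orbF.1 hy
      exact H2.mem_orbF.2 ⟨a * b, mul_mem (hS ha) hb, mul_smul _ _ _⟩
    · obtain ⟨b, hb, rfl⟩ := H2.mem_orbF.1 hy
      obtain ⟨k, hk⟩ := hS' ⟨a, ha⟩
      have hk : a ^ 2 ^ k = 1 := congrArg Subtype.val hk
      simpa [mul_assoc, inv_mul_eq_one] using odd (b⁻¹ * a * b⁻¹⁻¹) (mul_mem (mul_mem (inv_mem hb) (hS ha))
        (inv_mem (inv_mem hb))) (by rw [inv_inv, mul_smul, mul_smul, e, inv_smul_smul]) k
        (by rw [conj_pow, hk]; simp)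
  obtain ⟨u, hu, u0, he⟩ := exists_iso_vec hB hU Φ (by omega)
  have dq : q ∣ (Y.erase z).card + 1 := by
    obtain ⟨R, cR, hR⟩ := exists_root hB hU u0 he
    refine cR ▸ semi R (fun t tR => ?_) fun t => ?_
    · obtain ⟨c, hc, rfl⟩ := hR t tR
      exact fun w hw => by rw [ut_apply hB he hc, hw u hu, mul_zero, zero_smul, add_zero]
    · obtain ⟨c, hc, e⟩ := hR t t.2
      exact ⟨1, Subtype.ext (by
        rw [Subgroup.coe_pow, e, ut_pow hB he hc]; push_cast; rw [h2, zero_mul]; exact ut_zero hB he)⟩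
  haveI := (CharP.charP_iff_prime_eq_zero (R := F) Nat.prime_two).2 (by exact_mod_cast h2)
  have q2 := hU.char_dvd 2
  have gY : ∀ b ∈ L, g • b • ω = b • ω := fun b hb => by rw [← mul_smul, PW_comm hB dj gΦ hb, mul_smul, hg.fix]
  have rel : ∀ b ∈ L, ∀ b' ∈ L, b' • z ≠ z → (∃ a : SUb B, a • ω = ω ∧ a • b • ω = b' • ω) →
      ∃ n ∈ N, n • b • z = b' • z := by
    rintro b hb b' hb' hne ⟨a, a1, a2⟩
    obtain ⟨m, m1, m2, m3 | m3⟩ := hp.syl hB hU hg (gY b hb) (gY b' hb') a1 a2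
    · obtain ⟨n, hn, c, hc, c1, rfl⟩ := N2 m m1 m3
      refine ⟨n, hn, ?_⟩
      rw [← mul_smul, hz _ _ (by rw [im_mul, im_PW hB hb, (N1 n hn).2]) (im_PW hB hb')]
      refine ⟨1, one_mem _, ?_⟩
      rw [one_smul, ← m2, mul_smul, mul_smul, ← mul_smul c, PW_comm hB dj hc hb, mul_smul, c1]
    · refine absurd ((hz 1 b' (im_one _) (im_PW hB hb')).2 ⟨m * b * m⁻¹, ?_, ?_⟩ |>.symm.trans (one_smul _ _)) hne
      · have := PW_conj hb m
        rwa [im_perp, m3, hB.perp_perp] at this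
      · rw [one_smul, mul_smul, mul_smul, inv_smul_eq_iff.2 m1.symm, m2]
  have ne : ∀ b ∈ L, b • z ≠ z → ω ≠ b • ω := fun b hb h e => h (zH b e.symm (im_PW hB hb))
  have one := single_orbit oN (O := Y.erase z) (by have := q2.trans dq; rw [Nat.odd_iff]; omega)
    (fun n hn y hy => by
      obtain ⟨h3, h4⟩ := Finset.mem_erase.1 hy
      obtain ⟨b, hb, rfl⟩ := H2.mem_orbF.1 h4
      have := zH n (N1 n hn).1 (N1 n hn).2
      refine Finset.mem_erase.2 ⟨fun e => h3 (smul_left_cancel n (e.trans this.symm)),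
        H2.mem_orbF.2 ⟨_, cL n (N1 n hn).2 b hb, ?_⟩⟩
      rw [mul_smul, mul_smul, inv_smul_eq_iff.2 this.symm])
    (fun x hx y hy w hw => by
      obtain ⟨x1, x2⟩ := Finset.mem_erase.1 hx
      obtain ⟨y1, y2⟩ := Finset.mem_erase.1 hy
      obtain ⟨w1, w2⟩ := Finset.mem_erase.1 hw
      obtain ⟨a, ha, rfl⟩ := H2.mem_orbF.1 x2
      obtain ⟨b, hb, rfl⟩ := H2.mem_orbF.1 y2
      obtain ⟨c, hc, rfl⟩ := H2.mem_orbF.1 w2
      exact (hs.rk.three ω (ne a ha x1) (ne b hb y1) (ne c hc w1)).imp (rel a ha b hb y1)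
        (Or.imp (rel a ha c hc w1) (rel b hb c hc w1)))
  have al := AL (N := N) (z := z) (fun n hn => zH n (N1 n hn).1 (N1 n hn).2)
    (T := (Trs hB).filter fun t => t ∈ L) (O := Y.erase z) (fun n hn t ht => by
      simp only [Finset.mem_filter, mem_Trs] at ht ⊢
      exact ⟨ht.1.conj hB n, cL n (N1 n hn).2 t ht.2⟩) (fun t ht' => by
      simp only [Finset.mem_filter, mem_Trs] at ht'
      obtain ⟨⟨v, c, v0, hv, c0, hc, rfl⟩, tL⟩ := ht'
      refine Finset.mem_erase.2 ⟨fun e => ut_ne_one hB v0 hv hc c0 (odd _ tL e 1 ?_),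
        H2.mem_orbF.2 ⟨_, tL, rfl⟩⟩
      rw [ut_pow hB hv hc]; push_cast; rw [h2, zero_mul]; exact ut_zero hB hv) one
  rcases hn with hn | hn
  · rw [card_T hB hU (by omega) dj] at al
    have tr := h1 (by rw [hn]; exact hp.odd.add_even even_two)
    refine pair_false hB hU h2 hq (by omega) dj (z := z) (fun b hb e e' => odd b hb e 1 (by simpa [pow_two] using e'))
      ?_ fun y y' hy hy' => ?_
    · have q1 : q ≡ 1 [MOD q - 1] := ((Nat.modEq_iff_dvd' (by omega)).2 dvd_rfl).symm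
      rw [← hY, ← Finset.card_erase_add_one zY]
      rcases num_even2 (by omega) dq al with e | e
      · exact e ▸ q1
      · simpa [e] using q1.pow 2
    · obtain ⟨a, a1, a2⟩ := tr y y'
      have gy : ∀ y : TI B 1, y.1 ≤ Φ → g • y = y := fun y hy =>
        TI.ext' (im_eq_of_mapsTo (fun v hv => by rw [gΦ v (hy hv)]; exact hv) rfl)
      obtain ⟨m, m1, m2, m3 | m3⟩ := hp.syl hB hU hg (gy y hy) (gy y' hy') a1 a2
      · exact ⟨m, zH m m1 m3, m3, m2⟩
      · have := finrank_im m Φ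
        have := hp.d3
        rw [m3] at *
        omega
  · rw [card_T3 hB hU (by omega) dj] at al
    obtain ⟨S, h3, h4, h5⟩ := exists_syl3 hB hU (Φ := Φ) (by omega) dj Nat.prime_two (by exact_mod_cast h2)
    exact num_even3 (by omega) (h5.trans (semi S h3 h4)) al

end Cfsg.Agent.H1.UR
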