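import Cfsg.Agent.H1.URg
import Cfsg.Agent.H6.UL4
import Cfsg.Agent.H6.UL1
import Cfsg.Agent.H6.UN2
import Cfsg.Agent.H9.UL2
import Cfsg.Agent.H2.UF2
import Cfsg.Agent.H2.UE5
import Cfsg.Agent.H5.UI1
import Cfsg.Agent.H5.UT2
import Cfsg.Agent.H4.UT2
import Cfsg.Agent.L0.UN.B
import Cfsg.Agent.H2.Zsig

/-! Rank 3 actions of unitary groups: the main theorem. -/

set_option autoImplicit false
set_option linter.unusedSectionVars false

namespace Cfsg.Agent.H1.UR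

open Module H5 Matrix
open scoped Classical

theorem prod_neg {y : ℤ} (hy : y ≤ -3) (a b : ℕ) : (y ^ (a + 2 * b + 2) - 1) * (y ^ (a + 1) - 1) < 0 := by
  have h1 : ∀ j, 1 < y ^ (2 * (j + 1)) := fun j => by
    rw [pow_mul]; exact one_lt_pow₀ (by nlinarith) (by omega)
  have h2 : ∀ j, y ^ (2 * j + 1) < 0 := fun j => Odd.pow_neg ⟨j, rfl⟩ (by omega)
  obtain ⟨c, rfl | rfl⟩ := Nat.even_or_odd' a
  · have := h1 (c + b)
    have := h2 c
    rw [show 2 * c + 2 * b + 2 = 2 * (c + b + 1) by ring]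
    nlinarith
  · have := h2 (c + b + 1)
    have := h1 c
    rw [show 2 * c + 1 + 2 * b + 2 = 2 * (c + b + 1) + 1 by ring, show 2 * c + 1 + 1 = 2 * (c + 1) by ring]
    nlinarith

theorem exists_th (y : ℤ) (a b : ℕ) : ∃ θ : ℤ, θ * (y - 1) = (y ^ a - 1) * (y ^ b - 1) := by
  obtain ⟨c, hc⟩ := sub_dvd_pow_sub_pow y 1 a
  exact ⟨c * (y ^ b - 1), by rw [one_pow] at hc; rw [hc]; ring⟩

variable {F : Type*} [Field F] {σ : F →+* F} {E : Type*} [AddCommGroup E] [Module F E]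
  [FiniteDimensional F E] {B : Sesq σ E} (hB : IsEps B 1) [Fintype F] [Fintype E] {q : ℕ} (hU : UF σ q)
variable {X : Type*} [MulAction (SUb B) X] [Fintype X] {adj : X → X → Prop} {ω : X}

include hU in
theorem Sit.tf (hs : Sit B adj ω) (hn : 6 ≤ finrank F E) (hq : 3 ≤ q) (ho : O2 B ω) : TF hB ω := by
  intro v c v0 hv hc hω
  by_contra c0
  by_cases ha : ∀ v, v ≠ 0 → B v v = 0 → ∃ c, c ≠ 0 ∧ σ c = -c ∧ ut hB v c • ω = ω
  · exact H4.UT.T1 hB hU hs hn ha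
  push Not at ha
  obtain ⟨w, w0, hw, ha⟩ := ha
  have nr : ∀ v c (v0 : v ≠ 0) (hv : B v v = 0), c ≠ 0 → σ c = -c → ut hB v c • ω = ω →
      ¬ Rel B ω (pt v0 hv) (pt w0 hw) := by
    rintro v c v0 hv c0 hc hω ⟨g, g1, g2⟩
    obtain ⟨a, rfl⟩ := (smul_pt_eq g v0 hv w0 hw).1 g2
    have a0 : a * σ a ≠ 0 := mul_ne_zero (left_ne_zero_of_smul w0) ((map_ne_zero σ).2 (left_ne_zero_of_smul w0))
    have h1 : σ (c / (a * σ a)) = -(c / (a * σ a)) := by rw [map_div₀, hc, hU.norm_fixed, neg_div]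
    refine ha _ (div_ne_zero c0 a0) h1 ?_
    rw [ut_smul hB (sa_iso g hv) a h1, mul_div_cancel₀ _ a0]
    simpa [g1] using (ut_fix_conj hB (ω := ω) hv hc g).2 hω
  by_cases hx : ∃ u, u ≠ 0 ∧ B u u = 0 ∧ XX hB ω u
  · obtain ⟨u, u0, hu, hx⟩ := hx
    refine UT.T3 hB hU hs ho (UI.Sit.irr hB hU hs hn hq ho) hn hq u0 hu hx fun v c v0 hv c0 hc hω => ?_
    obtain ⟨e, e0, he⟩ := hU.exists_trace_zero
    rcases ho (pt u0 hu) (pt v0 hv) (pt w0 hw) with ⟨g, g1, g2⟩ | h | h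
    · obtain ⟨a, rfl⟩ := (smul_pt_eq g u0 hu v0 hv).1 g2
      exact (hx.map hB hu g1).smul hB (sa_iso g hu) a
    · exact absurd h (nr u e u0 hu e0 he (hx e he))
    · exact absurd h (nr v c v0 hv c0 hc hω)
  · push Not at hx
    exact H4.UT.T2 hB hU hs hn hq (fun h => nr v c v0 hv c0 hc hω (h _ _)) v0 hv c0 hc hω hx

include hB hU in
theorem su_rank3 (hq : 3 ≤ q) (hs : Sit B adj ω) {k : ℕ} (hn : finrank F E = k + 6) :
    (Fintype.card X : ℝ) * ((-(q : ℝ)) ^ 2 - 1) = -((-(q : ℝ)) ^ (k + 6) - 1) * ((-(q : ℝ)) ^ (k + 5) - 1) := by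
  by_cases ho : O2 B ω
  swap
  · exact three_orb hB hU hs hn hq rfl ho
  exfalso
  have ht := hs.tf hB hU (by omega) hq ho
  have dN : (q : ℤ) ^ (k + 5) ∣ Fintype.card X := by
    have := hs.pow_dvd hB hU ht (by omega)
    rw [hn] at this
    exact_mod_cast this
  have qz : (3 : ℤ) ≤ q := by exact_mod_cast hq
  have qr : (3 : ℝ) ≤ q := by exact_mod_cast hq
  have y1 : -(q : ℝ) - 1 ≠ 0 := by linarith
  obtain ⟨θ₀, h0⟩ := exists_th (-q) (k + 6) (k + 5)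
  have h0' : ((q : ℝ) + 1) * θ₀ = cI q (finrank F E) - 1 := by
    rw [hn, cI_succ (by linarith) rfl]
    have : (θ₀ : ℝ) * (-q - 1) = ((-q) ^ (k + 6) - 1) * ((-q) ^ (k + 5) - 1) := by exact_mod_cast h0
    linear_combination -this
  have six : k = 0 → θ₀ = (q ^ 3 - 1) * (q ^ 2 - q + 1) * (q ^ 5 + 1) := by
    rintro rfl
    apply mul_right_cancel₀ (by linarith : -(q : ℤ) - 1 ≠ 0)
    linear_combination h0
  have noA : ∀ r d g, Pd q (finrank F E) r d → TA B ω r g → (Tr B ω 1 ∨ k = 0 ∧ Fintype.card X < q ^ 10 ∧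
      ¬ q ^ 9 ∣ Fintype.card X) → False := fun r d g hp hg h => by
    by_cases h2 : (2 : F) = 0
    · refine even_false hB hU hs ht hp hq h2 hg fun h3 => h.resolve_right ?_
      rintro ⟨rfl, -⟩
      rw [hn] at h3
      exact absurd h3 (by decide)
    rcases h with h | ⟨rfl, h3, h4⟩
    · exact H9.UL.geom hB hU ht hp h2 hg h fun g hg u hu u0 he =>
        H6.UL.Ln_exists hB hU hs ht hp h2 hg (fun y y' _ _ => h y y') hu u0 he
    · exact (H2.UF6.six_bound hB hU hs ht hn hp h2 hg ho).elim h4 h3.not_ge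
  have phi : k = 0 → (Tr B ω 1 ∨ k = 0 ∧ Fintype.card X < q ^ 10 ∧ ¬ q ^ 9 ∣ Fintype.card X) →
      H6.UN.PhiD q (Fintype.card X) := fun hk h => H6.UL.phi_dvd hB hU hs (by omega) hq fun r hp hA => by
    obtain ⟨g, hg⟩ := hA.exists_TA
    exact noA r 3 g (by rw [hn, hk]; exact hp) hg h
  by_cases h1 : Tr B ω 1
  · obtain ⟨j, hj | hj⟩ := Nat.even_or_odd' k
    rcases j.eq_zero_or_pos with rfl | j0
    · obtain rfl : k = 0 := hj
      obtain ⟨r, hr, ho⟩ := H2.zsigmondy (q := q) (d := 6) (by omega) (by omega) (Or.inl hq)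
      have hp : Pd q 6 r 3 := ⟨hr, ho, by decide, Or.inr rfl, le_rfl⟩
      have hΦ := phi rfl (Or.inl h1)
      rcases H2.UE.lines6 hB hU hn hq h1 (fun h2 => by
        obtain ⟨g, hg⟩ := (H6.UL.tr2_TyA hB hU hn hp h2 (H2.UE.card_lines6 hB hU hn)).exists_TA
        exact noA r 3 g (by rw [hn]; exact hp) hg (Or.inl h1)) with h | h
      · have q5 : (q : ℤ) ^ 2 + 1 < q ^ 5 * (q - 1) := by
          have : (q : ℤ) ^ 2 ≤ q ^ 5 := pow_le_pow_right₀ (by omega) (by omega)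
          nlinarith
        obtain ⟨f, a, e1, e2, e3⟩ := Occ.key hB hU hs ht (θ := -(q - 1) * (q ^ 6 - q ^ 5 - q ^ 2 - 1))
          (by exact_mod_cast h) h0' (ne_of_lt (by
            rw [six rfl]
            have : (0 : ℤ) < q ^ 3 - 1 := by nlinarith
            have : (0 : ℤ) < q ^ 2 - q + 1 := by nlinarith
            have : (0 : ℤ) < (q ^ 3 - 1) * (q ^ 2 - q + 1) * (q ^ 5 + 1) := by positivity
            nlinarith))
        exact H6.UN.num6E qz e3 e2 (six rfl) rfl (by exact_mod_cast e1) dN hΦ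
      · have : (0 : ℤ) < q - 1 := by omega
        obtain ⟨f, k₁, k₂, μ, ρ, s, β, γ, e1, e2⟩ := Occ.num hB hU hs ht (θ := (q - 1) * (q ^ 2 + 1) * (q ^ 3 + 1))
          (by exact_mod_cast h) h0' (by positivity) (ne_of_lt (by
            rw [six rfl, show ((q : ℤ) ^ 3 - 1) * (q ^ 2 - q + 1) * (q ^ 5 + 1) = (q - 1) * (q ^ 2 + 1) * (q ^ 3 + 1) +
              (q - 1) * q ^ 3 * (q ^ 6 + q ^ 4 + (q - 1)) by ring]
            exact lt_add_of_pos_right _ (by positivity)))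
        exact H6.UN.num6Z e2 qz (six rfl) rfl (by exact_mod_cast e1) dN hΦ
    all_goals
      obtain ⟨t, d, h3, h4, h5, h6⟩ : ∃ (t : ℤ) (d : ℕ),
          ((finrank F E = 2 * j + 6 ∧ (t : ℝ) = q ∧ d = 2 * j + 3 ∧ 1 ≤ j) ∨
            (finrank F E = 2 * j + 7 ∧ (t : ℝ) = q ^ 3 ∧ d = 2 * j + 5)) ∧
          ((t = q ∧ ((q : ℤ) ^ 2) ^ j = (q ^ 2) ^ (j - 1 + 1) ∧ t * (q ^ 2) ^ 2 * (q ^ 2) ^ j ∣ Fintype.card X) ∨
            (t = q ^ 3 ∧ (q ^ 2) ^ 3 * ((q : ℤ) ^ 2) ^ j ∣ Fintype.card X)) ∧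
          θ₀ * (q + 1) = ((q ^ 2) ^ 3 * (q ^ 2) ^ j - 1) * (t * (q ^ 2) ^ 2 * (q ^ 2) ^ j + 1) ∧
          (q : ℤ) ^ 3 ≤ t * (q ^ 2) ^ j := by
        subst hj
        first
        | refine ⟨q, _, Or.inl ⟨hn, rfl, rfl, j0⟩, Or.inl ⟨rfl, by rw [Nat.sub_add_cancel j0],
            by convert dN using 1; ring⟩, ?_, ?_⟩
          · rw [Even.neg_pow ⟨j + 3, by ring⟩, Odd.neg_pow ⟨j + 2, by ring⟩] at h0
            linear_combination -h0
          · have : (q : ℤ) ^ 2 ≤ (q ^ 2) ^ j := le_self_pow₀ (by nlinarith) (by omega)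
            nlinarith
        | refine ⟨q ^ 3, _, Or.inr ⟨hn, by simp, rfl⟩, Or.inr ⟨rfl, by convert dN using 1; ring⟩, ?_, ?_⟩
          · rw [Odd.neg_pow ⟨j + 3, by ring⟩, Even.neg_pow ⟨j + 3, by ring⟩] at h0
            linear_combination -h0
          · exact le_mul_of_one_le_right (by positivity) (one_le_pow₀ (by nlinarith))
      obtain ⟨r, hr, ho⟩ := H2.zsigmondy (q := q) (d := 2 * d) (by omega) (by omega) (Or.inl hq)
      have hp : Pd q (finrank F E) r d := ⟨hr, ho, by rw [Nat.odd_iff]; omega, by omega, by omega⟩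
      obtain ⟨θ, f, oc, e1, e2⟩ := H2.UE.eta_occ hB hU (ω := ω) hq rfl rfl h3 hr ho fun g g1 g2 =>
        noA r d g hp ⟨g1, g2, fun e => by
          have := (hp.fx_spec hB hU g2 (Or.inr (by omega))).1
          rw [e, finrank_bot] at this
          omega⟩ (Or.inl h1)
      have S1 : (1 : ℤ) ≤ (q ^ 2) ^ j := one_le_pow₀ (by nlinarith)
      have h4' : ∃ i, (t = q ∧ ((q : ℤ) ^ 2) ^ j = (q ^ 2) ^ (i + 1) ∧ t * (q ^ 2) ^ 2 * (q ^ 2) ^ j ∣ Fintype.card X) ∨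
          (t = q ^ 3 ∧ ((q : ℤ) ^ 2) ^ j = (q ^ 2) ^ i ∧ (q ^ 2) ^ 3 * ((q : ℤ) ^ 2) ^ j ∣ Fintype.card X) :=
        h4.elim (fun h => ⟨_, Or.inl h⟩) fun h => ⟨_, Or.inr ⟨h.1, rfl, h.2⟩⟩
      obtain ⟨i, h4'⟩ := h4'
      have hS : ((q : ℝ) ^ 2) ^ j = (((q : ℤ) ^ 2) ^ j : ℤ) := by push_cast; rfl
      rw [hS] at e1 e2
      generalize ((q : ℤ) ^ 2) ^ j = S at *
      have t0 : 0 < t * S := lt_of_lt_of_le (by positivity) h6
      have e3 : (θ₀ - (q - 1) * (q ^ 2 + 1) * (q ^ 2) ^ 2 * S * (t * q ^ 2 * S + 1)) * (q + 1) =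
          t * (q ^ 2) ^ 3 * S ^ 2 + (q ^ 2) ^ 3 * S - t * (q ^ 2) ^ 2 * S - ((q ^ 2) ^ 2 - 1) * (q ^ 2) ^ 2 * S - 1 := by
        linear_combination h5
      have e4 : 0 < (q - 1) * (q ^ 2 + 1) * (q ^ 2) ^ 2 * S * (t * q ^ 2 * S + 1) := by
        have : (0 : ℤ) < q - 1 := by omega
        have : 0 < t * q ^ 2 * S + 1 := by nlinarith [mul_pos t0 (by positivity : (0 : ℤ) < q ^ 2)]
        positivity
      have e5 : θ₀ - (q - 1) * (q ^ 2 + 1) * (q ^ 2) ^ 2 * S * (t * q ^ 2 * S + 1) ≠ θ₀ := by omega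
      generalize θ₀ - (q - 1) * (q ^ 2 + 1) * (q ^ 2) ^ 2 * S * (t * q ^ 2 * S + 1) = θ' at e3 e5
      obtain rfl : θ = θ' := by
        apply mul_right_cancel₀ (by linarith : (q : ℝ) + 1 ≠ 0)
        rw [e1]; exact_mod_cast e3.symm
      have e6 : 0 < θ' := by
        have a1 : t * S * q ^ 4 ≤ t * S * q ^ 4 * S := le_mul_of_one_le_right (by positivity) S1
        have a2 : (q : ℤ) ^ 3 * q ≤ t * S * (q ^ 2 - 1) := mul_le_mul h6 (by nlinarith) (by omega) t0.le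
        have a3 := mul_le_mul_of_nonneg_right a2 (by positivity : (0 : ℤ) ≤ q ^ 4 * S)
        have a4 : (1 : ℤ) ≤ q ^ 4 * S := one_le_mul_of_one_le_of_one_le (one_le_pow₀ (by omega)) S1
        have a5 : (0 : ℤ) < q ^ 6 * S := by positivity
        exact (mul_pos_iff_of_pos_right (by omega : (0 : ℤ) < q + 1)).1 (by rw [e3]; linarith)
      obtain ⟨f, k₁, k₂, μ, ρ, s, β, γ, rfl, e7⟩ := Occ.num hB hU hs ht oc h0' e6 e5
      exact L0.UN.numE e7 qz rfl h4' h5 e3 (by exact_mod_cast e2)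
  obtain ⟨n1, n2, -⟩ := th_ne (y := -(q : ℝ)) (by linarith) k
  have cast : ∀ {θ : ℤ} {a b : ℕ}, θ * (-q - 1) = ((-q) ^ a - 1) * ((-q) ^ b - 1) →
      (θ : ℝ) * (-q - 1) = ((-q) ^ a - 1) * ((-q) ^ b - 1) := fun h => by exact_mod_cast h
  rcases two_orb hB hU hn hq rfl h1 with ⟨f, oc, e1⟩ | ⟨f, oc, e1⟩
  · obtain ⟨θ, hθ⟩ := exists_th (-q) (k + 5) (k + 4)
    rw [← cast hθ, mul_div_cancel_right₀ _ y1] at oc
    have ne : θ ≠ θ₀ := fun e => n1 (by rw [← cast hθ, ← cast h0, e])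
    have pos : 0 < θ := by have := prod_neg (y := -q) (by omega) (k + 3) 0; rw [← hθ] at this; nlinarith
    obtain ⟨f', k₁, k₂, μ, ρ, s, β, γ, rfl, e2⟩ := Occ.num hB hU hs ht oc h0' pos ne
    rcases k with _ | k
    swap
    · exact L0.UN.numA (k := k) e2 qz rfl h0 hθ (by exact_mod_cast e1) dN
    have e3 : θ = (q ^ 5 + 1) * (q - 1) * (q ^ 2 + 1) := by
      apply mul_right_cancel₀ (by linarith : -(q : ℤ) - 1 ≠ 0)
      linear_combination hθ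
    have e4 : f' = q ^ 2 * (q ^ 4 + q ^ 2 + 1) * (q ^ 2 - q + 1) := by
      have : f' * ((-q - 1) * ((-q) ^ 2 - 1)) = (-q) ^ 2 * ((-q) ^ 6 - 1) * ((-q) ^ 3 - 1) := by exact_mod_cast e1
      apply mul_right_cancel₀ (mul_ne_zero (by linarith : -(q : ℤ) - 1 ≠ 0) (by nlinarith : (-(q : ℤ)) ^ 2 - 1 ≠ 0))
      linear_combination this
    by_cases g0 : γ = 0
    · subst g0; exact L0.UN.numA6 e2 qz (six rfl) e3 e4 dN
    have lt : (Fintype.card X : ℤ) < q ^ 10 := by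
      have h3 : 1 ≤ γ := by have := e2.g0; omega
      have h4 : 0 ≤ k₁ := by have := mul_nonneg e2.rho.le e2.s0; linarith [e2.h2, e2.mu]
      have h5 : (Fintype.card X : ℤ) ≤ θ₀ + 1 := by nlinarith [e2.h1, e2.h5, e2.lt, e2.k2]
      rw [six rfl] at h5
      have : (0 : ℤ) < (q ^ 8 + q ^ 6 + q ^ 3 + q) * (q - 1) := by
        have : (0 : ℤ) < q - 1 := by omega
        positivity
      linarith
    obtain ⟨f, a, e5, e6, e7⟩ := Occ.key hB hU hs ht oc h0' ne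
    obtain rfl : f = f' := by exact_mod_cast e5
    by_cases h9 : q ^ 9 ∣ Fintype.card X
    · exact H6.UN.num6A9 qz e7 e6 (six rfl) e3 e4 (by exact_mod_cast h9) lt
    · exact H6.UN.num6A qz e7 e6 (six rfl) e3 e4 dN (phi rfl (Or.inr ⟨rfl, by exact_mod_cast lt, h9⟩))
  · obtain ⟨θ, hθ⟩ := exists_th (-q) (k + 6) (k + 3)
    rw [← cast hθ, mul_div_cancel_right₀ _ y1] at oc
    have ne : θ ≠ θ₀ := fun e => n2 (by rw [← cast hθ, ← cast h0, e])
    have pos : 0 < θ := by have := prod_neg (y := -q) (by omega) (k + 2) 1; rw [← hθ] at this; nlinarith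
    obtain ⟨f', k₁, k₂, μ, ρ, s, β, γ, rfl, e2⟩ := Occ.num hB hU hs ht oc h0' pos ne
    exact L0.UN.numB e2 qz rfl h0 hθ (by exact_mod_cast e1) dN

end Cfsg.Agent.H1.UR
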