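import Cfsg.Agent.H1.Weil

/-!
# Irreducible representations of `Sp(E)` whose Siegel weights have rank at most one
-/

set_option autoImplicit false
set_option linter.unusedSectionVars false

namespace Cfsg.Agent.H1

open Cfsg Module H5

variable {F : Type*} [Field F] [Fintype F] {E : Type*} [AddCommGroup E] [Module F E]
  [FiniteDimensional F E]
variable {B : Bil F E} (hB : IsSp B)
variable {V : Type*} [AddCommGroup V] [Module ℂ V] [FiniteDimensional ℂ V]

/-- weight space of a long root subgroup -/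
noncomputable def Xw (ρ : Isom B →* Module.End ℂ V) (ψ : AddChar F ℂ) (w : E) (d : F) :
    Submodule ℂ V :=
  Wt (fun c : F => ρ (hB.transv w c)) (fun c => ψ (c * d))

theorem mem_Xw {ρ : Isom B →* Module.End ℂ V} {ψ : AddChar F ℂ} {w : E} {d : F} {z : V} :
    z ∈ Xw hB ρ ψ w d ↔ ∀ c, ρ (hB.transv w c) z = ψ (c * d) • z := Iff.rfl

theorem Xw_of_Wq {ρ : Isom B →* Module.End ℂ V} {ψ : AddChar F ℂ} {L : Submodule F E}
    {Q : L → F} {z : V} (hz : z ∈ Wq hB ρ ψ L Q) (x : L) : z ∈ Xw hB ρ ψ x (Q x) :=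
  (mem_Wq hB).mp hz x

theorem Xw_unique {ρ : Isom B →* Module.End ℂ V} {ψ : AddChar F ℂ} (hψ : ψ ≠ 1) {w : E}
    {d d' : F} {z : V} (hz0 : z ≠ 0) (h : z ∈ Xw hB ρ ψ w d) (h' : z ∈ Xw hB ρ ψ w d') : d = d' :=
  eq_of_psi hψ fun c => smul_left_injective ℂ hz0 ((h c).symm.trans (h' c))

theorem Xw_stable {ρ : Isom B →* Module.End ℂ V} {ψ : AddChar F ℂ} {w : E} {d : F}
    {A : Module.End ℂ V} (hA : ∀ c, ρ (hB.transv w c) * A = A * ρ (hB.transv w c)) {z : V}
    (hz : z ∈ Xw hB ρ ψ w d) : A z ∈ Xw hB ρ ψ w d := by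
  intro c
  simp only
  rw [← Module.End.mul_apply, hA, Module.End.mul_apply, (mem_Xw hB).mp hz c, map_smul]

theorem rep_tr_comm (ρ : Isom B →* Module.End ℂ V) {u v : E} (h : B u v = 0) (c d : F) :
    ρ (hB.transv u c) * ρ (hB.transv v d) = ρ (hB.transv v d) * ρ (hB.transv u c) := by
  rw [← map_mul, tr_comm hB h, map_mul]

theorem ext_of_Xw (ρ : Isom B →* Module.End ℂ V) {ψ : AddChar F ℂ} (hψ : ψ ≠ 1) (w : E)
    {A A' : Module.End ℂ V} (h : ∀ d, ∀ z ∈ Xw hB ρ ψ w d, A z = A' z) : A = A' := by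
  classical
  ext z
  have := le_of_Wt (fun c : F => ρ (hB.transv w c)) (by simp [tr_zero])
    (fun c c' => by rw [tr_add, map_mul]) (fun (d : F) c => ψ (c * d)) (by simp)
    (fun d c c' => by rw [add_mul, AddChar.map_add_eq_mul])
    (fun c hc => by simpa [mul_comm c, hc] using sum_psi_mul hψ c)
    (card_module_ne_zero hψ F) ⊤ (LinearMap.ker (A - A')) (fun _ _ _ => Submodule.mem_top)
    (fun d z _ hz => by simp [h d z hz]) (Submodule.mem_top (x := z))
  simpa [sub_eq_zero] using this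

/-- functional calculus for a long root subgroup -/
noncomputable def fop (ρ : Isom B →* Module.End ℂ V) (ψ : AddChar F ℂ) (w : E) (f : F → ℂ) :
    Module.End ℂ V := ∑ c, fhat ψ f c • ρ (hB.transv w c)

theorem fop_apply {ρ : Isom B →* Module.End ℂ V} {ψ : AddChar F ℂ} (hψ : ψ ≠ 1) {w : E} {d : F}
    {z : V} (hz : z ∈ Xw hB ρ ψ w d) (f : F → ℂ) : fop hB ρ ψ w f z = f d • z := by
  simp only [fop, LinearMap.sum_apply, LinearMap.smul_apply, (mem_Xw hB).mp hz, smul_smul,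
    ← Finset.sum_smul, sum_fhat hψ]

theorem fop_comm {ρ : Isom B →* Module.End ℂ V} {ψ : AddChar F ℂ} {w : E} {A : Module.End ℂ V}
    (hA : ∀ c, A * ρ (hB.transv w c) = ρ (hB.transv w c) * A) (f : F → ℂ) :
    A * fop hB ρ ψ w f = fop hB ρ ψ w f * A := by
  simp only [fop, Finset.mul_sum, Finset.sum_mul, mul_smul_comm, smul_mul_assoc, hA]

theorem fop_conj (ρ : Isom B →* Module.End ℂ V) (ψ : AddChar F ℂ) (g : Isom B) (w : E)
    (f : F → ℂ) : ρ g * fop hB ρ ψ w f = fop hB ρ ψ (isoAct B g w) f * ρ g := by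
  simp only [fop, Finset.mul_sum, Finset.sum_mul, mul_smul_comm, smul_mul_assoc, ← map_mul,
    tr_conj]

theorem tr_fop_comm (ρ : Isom B →* Module.End ℂ V) (ψ : AddChar F ℂ) {u v : E} (h : B u v = 0)
    (c : F) (f : F → ℂ) :
    ρ (hB.transv u c) * fop hB ρ ψ v f = fop hB ρ ψ v f * ρ (hB.transv u c) :=
  fop_comm hB (fun d => rep_tr_comm hB ρ h c d) f

theorem fix_eta {ρ : Isom B →* Module.End ℂ V} {ψ : AddChar F ℂ} (hψ : ψ ≠ 1)
    (hR : RkOne hB ρ ψ) {a w : E} (h : B a w = 0) {z : V} (hz : z ∈ Xw hB ρ ψ w 0) :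
    ρ (eta hB a w) z = z := by
  obtain ⟨L, ha, hw, hL⟩ := exists_lag_pair hB h
  have := le_of_Wq hB ρ hψ hL.iso (Xw hB ρ ψ w 0) (LinearMap.ker (ρ (eta hB a w) - 1))
    (fun v hv c z hz => Xw_stable hB (fun d => rep_tr_comm hB ρ (hL.iso _ hw _ hv) d c) hz)
    (fun H z hz hz' => by
      by_cases hz0 : z = 0
      · simp [hz0]
      have h1 := hR L hL H ((Submodule.ne_bot_iff _).mpr ⟨z, hz', hz0⟩) ⟨a, ha⟩ ⟨w, hw⟩
      have h2 := Xw_unique hB hψ hz0 (Xw_of_Wq hB hz' ⟨w, hw⟩) hz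
      rw [h2, mul_zero] at h1
      have h3 := pow_eq_zero_iff (two_ne_zero) |>.mp h1
      have := eta_Wq hB hz' ⟨a, ha⟩ ⟨w, hw⟩
      simp only [map_add, LinearMap.add_apply] at this
      rw [show H ⟨a, ha⟩ ⟨a, ha⟩ + H ⟨w, hw⟩ ⟨a, ha⟩ + (H ⟨a, ha⟩ ⟨w, hw⟩ + H ⟨w, hw⟩ ⟨w, hw⟩) -
        H ⟨a, ha⟩ ⟨a, ha⟩ - H ⟨w, hw⟩ ⟨w, hw⟩ = 0 by linear_combination h3] at this
      simp [this]) hz
  simpa [sub_eq_zero] using this

include hB in
theorem exists_pair_perp_plane (h4 : 4 ≤ finrank F E) {u v : E} (huv : B u v ≠ 0) (c : F) :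
    ∃ x y, B x u = 0 ∧ B x v = 0 ∧ B y u = 0 ∧ B y v = 0 ∧ B y x = c := by
  let P : Submodule F E := (F ∙ u) ⊔ F ∙ v
  have hu : u ∈ P := Submodule.mem_sup_left (Submodule.mem_span_singleton_self _)
  have hv : v ∈ P := Submodule.mem_sup_right (Submodule.mem_span_singleton_self _)
  have : ∃ x ∈ perp B P, ∃ y ∈ perp B P, B y x ≠ 0 := by
    by_contra hc
    push Not at hc
    have h1 : perp B P ≤ perp B (perp B P) := fun y hy x hx => hc x hx y hy
    rw [hB.isEps.perp_perp] at h1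
    have h2 : perp B P = ⊥ := by
      rw [eq_bot_iff]
      intro x hx
      obtain ⟨a, ha, b, hb, rfl⟩ := Submodule.mem_sup.mp (h1 hx)
      obtain ⟨s, rfl⟩ := Submodule.mem_span_singleton.mp ha
      obtain ⟨t, rfl⟩ := Submodule.mem_span_singleton.mp hb
      have e1 := hx u hu
      have e2 := hx v hv
      simp [hB.alt, hB.skew u v, huv] at e1 e2
      simp [e1, e2]
    have h3 := hB.isEps.finrank_perp P
    have h5 := finrank_sup_span_le (F ∙ u) v
    have h6 := finrank_span_le (F := F) u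
    rw [h2, finrank_bot] at h3
    change finrank F P ≤ _ at h5
    omega
  obtain ⟨x, hx, y, hy, h0⟩ := this
  exact ⟨x, (c * (B y x)⁻¹) • y, hx u hu, hx v hv, by simp [hy u hu], by simp [hy v hv],
    by simp [h0]⟩

theorem eq_zero_of_fixed_perp (h4 : 4 ≤ finrank F E) {ρ : Isom B →* Module.End ℂ V}
    {ψ : AddChar F ℂ} (hψ : ψ ≠ 1) (hR : RkOne hB ρ ψ) (hG : ∀ z, (∀ g, ρ g z = z) → z = 0)
    {u v : E} (huv : B u v ≠ 0) {z : V}
    (hz : ∀ w, B w u = 0 → B w v = 0 → z ∈ Xw hB ρ ψ w 0) : z = 0 := by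
  refine hG z fun g => ?_
  have hw : ∀ w, B w u = 0 → B w v = 0 → ∀ c, hB.transv w c ∈ actStab ρ z := by
    intro w h1 h2 c
    rw [mem_actStab]
    simpa using (mem_Xw hB).mp (hz w h1 h2) c
  have hperp : ∀ (s t : F) (w : E), B w u = 0 → B w v = 0 → B w (s • u + t • v) = 0 := by
    intro s t w h1 h2
    simp [h1, h2]
  have he : ∀ (s t : F) (w : E), B w u = 0 → B w v = 0 →
      eta hB w (s • u + t • v) ∈ actStab ρ z := by
    intro s t w h1 h2
    rw [eta_comm hB (hperp s t w h1 h2)]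
    exact fix_eta hB hψ hR (by rw [hB.skew, hperp s t w h1 h2, neg_zero]) (hz w h1 h2)
  have ha : ∀ (s t c : F), hB.transv (s • u + t • v) c ∈ actStab ρ z := by
    intro s t c
    obtain ⟨x, y, h1, h2, h3, h5, rfl⟩ := exists_pair_perp_plane hB h4 huv c
    have := eta_mul hB (hperp s t x h1 h2) (hperp s t y h3 h5)
    rw [← Subgroup.mul_mem_cancel_left _ (he s t (x + y) (by simp [h1, h3]) (by simp [h2, h5])),
      ← this]
    exact Subgroup.mul_mem _ (he s t x h1 h2) (he s t y h3 h5)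
  have := sp_eq_top hB (actStab ρ z) fun x c => by
    obtain ⟨s, hs⟩ : ∃ s, s = B x v / B u v := ⟨_, rfl⟩
    obtain ⟨t, ht⟩ : ∃ t, t = -B x u / B u v := ⟨_, rfl⟩
    have h1 : B (x - (s • u + t • v)) u = 0 := by
      simp only [map_sub, map_add, map_smul, LinearMap.sub_apply, LinearMap.add_apply,
        LinearMap.smul_apply, hB.alt, hB.skew u v, smul_eq_mul, ht]
      field_simp; ring
    have h2 : B (x - (s • u + t • v)) v = 0 := by
      simp only [map_sub, map_add, map_smul, LinearMap.sub_apply, LinearMap.add_apply,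
        LinearMap.smul_apply, hB.alt, smul_eq_mul, hs]
      field_simp; ring
    rw [← sub_add_cancel x (s • u + t • v), tr_add_vec hB (hperp s t _ h1 h2)]
    exact Subgroup.mul_mem _ (Subgroup.mul_mem _ (he s t _
      (by rw [map_smul, LinearMap.smul_apply, h1, smul_zero])
      (by rw [map_smul, LinearMap.smul_apply, h2, smul_zero]))
      (ha s t c)) (hw _ h1 h2 c)
  exact (show g ∈ actStab ρ z from this ▸ Subgroup.mem_top g)

theorem principle (h4 : 4 ≤ finrank F E) {ρ : Isom B →* Module.End ℂ V}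
    {ψ : AddChar F ℂ} (hψ : ψ ≠ 1) (hR : RkOne hB ρ ψ) (hG : ∀ z, (∀ g, ρ g z = z) → z = 0)
    {u v : E} (huv : B u v ≠ 0) {T : Module.End ℂ V}
    (hc : ∀ w, B w u = 0 → B w v = 0 → ∀ c, ρ (hB.transv w c) * T = T * ρ (hB.transv w c))
    (hT : ∀ w, B w u = 0 → B w v = 0 → ∀ d, d ≠ 0 → ∀ z ∈ Xw hB ρ ψ w d, T z = 0) : T = 0 := by
  ext z
  refine eq_zero_of_fixed_perp hB h4 hψ hR hG huv fun w h1 h2 c => ?_
  have := ext_of_Xw hB ρ hψ w (A := ρ (hB.transv w c) * T) (A' := T) (fun d z hz => by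
    by_cases hd : d = 0
    · subst hd
      rw [hc w h1 h2, Module.End.mul_apply, (mem_Xw hB).mp hz]
      simp
    · simp [hT w h1 h2 d hd z hz])
  simpa using DFunLike.congr_fun this z

open Classical in
theorem one_type (h2 : (2 : F) ≠ 0) (h4 : 4 ≤ finrank F E) (ρ : Representation ℂ (Isom B) V)
    (hρ : ρ.IsIrreducible) {ψ : AddChar F ℂ} (hψ : ψ ≠ 1) (hR : RkOne hB ρ ψ)
    (hG : ∀ z, (∀ g, ρ g z = z) → z = 0) :
    (∀ w d, Xw hB ρ ψ w d ≠ ⊥ → IsSquare d) ∨
    (∀ w d, Xw hB ρ ψ w d ≠ ⊥ → d = 0 ∨ ¬IsSquare d) := by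
  let fp : F → ℂ := fun d => if d ≠ 0 ∧ IsSquare d then 1 else 0
  let fm : F → ℂ := fun d => if IsSquare d then 0 else 1
  have hiso : ∀ u v, B u v = 0 → fop hB ρ ψ u fp * fop hB ρ ψ v fm = 0 := by
    intro u v h
    obtain ⟨L, hu, hv, hL⟩ := exists_lag_pair hB h
    have := le_of_Wq hB ρ hψ hL.iso ⊤ (LinearMap.ker (fop hB ρ ψ u fp * fop hB ρ ψ v fm))
      (fun _ _ _ _ _ => Submodule.mem_top) (fun H z _ hz => by
        by_cases hz0 : z = 0
        · simp [hz0]
        have h1 := hR L hL H ((Submodule.ne_bot_iff _).mpr ⟨z, hz, hz0⟩) ⟨u, hu⟩ ⟨v, hv⟩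
        rw [LinearMap.mem_ker, Module.End.mul_apply, fop_apply hB hψ (Xw_of_Wq hB hz ⟨v, hv⟩),
          map_smul, fop_apply hB hψ (Xw_of_Wq hB hz ⟨u, hu⟩), smul_smul]
        by_cases e1 : IsSquare (H ⟨v, hv⟩ ⟨v, hv⟩)
        · simp [fm, e1]
        by_cases e2 : H ⟨u, hu⟩ ⟨u, hu⟩ ≠ 0 ∧ IsSquare (H ⟨u, hu⟩ ⟨u, hu⟩)
        · exfalso
          obtain ⟨e3, r, e4⟩ := e2
          rw [e4] at h1 e3
          have hr : r ≠ 0 := left_ne_zero_of_mul e3
          refine e1 ⟨(H ⟨u, hu⟩ ⟨v, hv⟩ + H ⟨v, hv⟩ ⟨u, hu⟩) / (2 * r), ?_⟩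
          field_simp
          linear_combination -h1
        · simp only [fp, if_neg e2, mul_zero, zero_smul])
    ext z
    exact this Submodule.mem_top
  have hall : ∀ u v, fop hB ρ ψ u fp * fop hB ρ ψ v fm = 0 := by
    intro u v
    by_cases h : B u v = 0
    · exact hiso u v h
    refine principle hB h4 hψ hR hG h (fun w h1 h3 c => ?_) fun w h1 h3 d hd z hz => ?_
    · rw [← mul_assoc, tr_fop_comm hB ρ ψ h1, mul_assoc, tr_fop_comm hB ρ ψ h3, mul_assoc]
    · rw [Module.End.mul_apply]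
      by_cases hs : IsSquare d
      · have e : z = fop hB ρ ψ w fp z := by rw [fop_apply hB hψ hz]; simp [fp, hd, hs]
        rw [e, ← Module.End.mul_apply _ (fop hB ρ ψ w fp),
          fop_comm hB (fun c => (tr_fop_comm hB ρ ψ h3 c fm).symm), hiso w v h3]
        simp
      · have hz' := Xw_stable hB (fun c => tr_fop_comm hB ρ ψ h3 c fm) hz
        have e : fop hB ρ ψ v fm z = fop hB ρ ψ w fm (fop hB ρ ψ v fm z) := by
          rw [fop_apply hB hψ hz']; simp [fm, hs]
        rw [e, ← Module.End.mul_apply, hiso u w (by rw [hB.skew, h1, neg_zero])]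
        simp
  by_cases hm : ∀ v, fop hB ρ ψ v fm = 0
  · left
    intro w d h
    obtain ⟨z, hz, hz0⟩ := (Submodule.ne_bot_iff _).mp h
    have := fop_apply hB hψ hz fm
    rw [hm] at this
    by_contra hs
    simp [fm, hs] at this
    exact hz0 this.symm
  · right
    push Not at hm
    obtain ⟨v, hv⟩ := hm
    obtain ⟨y, hy⟩ := DFunLike.ne_iff.mp hv
    have := eq_top_of_invariant ρ hρ (⨅ u, LinearMap.ker (fop hB ρ ψ u fp)) (fun g z hz => by
      simp only [Submodule.mem_iInf, LinearMap.mem_ker] at hz ⊢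
      intro u
      have := fop_conj hB ρ ψ g (isoAct B g⁻¹ u) fp
      rw [act_apply_inv] at this
      rw [← Module.End.mul_apply, ← this, Module.End.mul_apply, hz, map_zero])
      ((Submodule.ne_bot_iff _).mpr ⟨fop hB ρ ψ v fm y, by
        simp only [Submodule.mem_iInf, LinearMap.mem_ker]
        intro u
        rw [← Module.End.mul_apply, hall]; rfl, hy⟩)
    intro w d h
    obtain ⟨z, hz, hz0⟩ := (Submodule.ne_bot_iff _).mp h
    have h1 : z ∈ ⨅ u, LinearMap.ker (fop hB ρ ψ u fp) := this ▸ Submodule.mem_top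
    have h3 := LinearMap.mem_ker.mp ((Submodule.mem_iInf _).mp h1 w)
    rw [fop_apply hB hψ hz] at h3
    by_contra hs
    push Not at hs
    simp [fp, hs.1, hs.2] at h3
    exact hz0 h3

theorem le_of_lin (h2 : (2 : F) ≠ 0) {ρ : Isom B →* Module.End ℂ V} {ψ : AddChar F ℂ}
    (hψ : ψ ≠ 1) (hR : RkOne hB ρ ψ) (hS : ∀ w d, Xw hB ρ ψ w d ≠ ⊥ → IsSquare d)
    {L : Submodule F E} (hL : IsLag B L) (S P : Submodule ℂ V)
    (hSt : ∀ v ∈ L, ∀ c, ∀ z ∈ S, ρ (hB.transv v c) z ∈ S)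
    (h : ∀ l : Dual F L, ∀ z ∈ S, z ≠ 0 → z ∈ Wq hB ρ ψ L (fun x => l x ^ 2) → z ∈ P) : S ≤ P := by
  refine le_of_Wq hB ρ hψ hL.iso S P hSt fun H z hz hz' => ?_
  by_cases hz0 : z = 0
  · simp [hz0]
  have h1 := hR L hL H ((Submodule.ne_bot_iff _).mpr ⟨z, hz', hz0⟩)
  by_cases h0 : ∀ x, H x x = 0
  · exact h 0 z hz hz0 (by simpa [h0] using hz')
  · push Not at h0
    obtain ⟨u, hu⟩ := h0
    obtain ⟨r, hr⟩ := hS u _ ((Submodule.ne_bot_iff _).mpr ⟨z, Xw_of_Wq hB hz' u, hz0⟩)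
    have hr0 : r ≠ 0 := by rintro rfl; simp [hr] at hu
    refine h ((2 * r)⁻¹ • (H + H.flip) u) z hz hz0 ?_
    convert hz' using 3 with x
    have := h1 u x
    simp only [LinearMap.smul_apply, LinearMap.add_apply, LinearMap.flip_apply, smul_eq_mul]
    rw [hr] at this
    field_simp
    linear_combination this

open Classical in
/-- the function `y ^ 2 ↦ ψ (2 y) + ψ (-2 y)` -/
noncomputable def fD (ψ : AddChar F ℂ) (d : F) : ℂ :=
  if h : IsSquare d then ψ (2 * h.choose) + ψ (-(2 * h.choose)) else 0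

theorem fD_sq (ψ : AddChar F ℂ) (y : F) : fD ψ (y ^ 2) = ψ (2 * y) + ψ (-(2 * y)) := by
  have h : IsSquare (y ^ 2) := ⟨y, pow_two y⟩
  rw [fD, dif_pos h]
  have := h.choose_spec
  rw [← pow_two] at this
  rcases sq_eq_sq_iff_eq_or_eq_neg.mp this with e | e
  · rw [← e]
  · rw [← neg_eq_iff_eq_neg.mpr e]
    simp [add_comm]

theorem exists_D (h2 : (2 : F) ≠ 0) (h4 : 4 ≤ finrank F E) {ρ : Isom B →* Module.End ℂ V}
    {ψ : AddChar F ℂ} (hψ : ψ ≠ 1) (hR : RkOne hB ρ ψ) (hG : ∀ z, (∀ g, ρ g z = z) → z = 0)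
    (hS : ∀ w d, Xw hB ρ ψ w d ≠ ⊥ → IsSquare d) : ∃ D : E → Module.End ℂ V,
    (∀ u v, D u * D v = ψ (B v u) • D (u + v) + ψ (-B v u) • D (u - v)) ∧
    (∀ v, D (-v) = D v) ∧ D 0 = 2 ∧
    ∀ w c, ρ (hB.transv w c) = ∑ s, (gam ψ c s / 2) • D (s • w) := by
  let D : E → Module.End ℂ V := fun w => fop hB ρ ψ w (fD ψ)
  have hD : ∀ w y, ∀ z ∈ Xw hB ρ ψ w (y ^ 2), D w z = (ψ (2 * y) + ψ (-(2 * y))) • z :=
    fun w y z hz => by rw [fop_apply hB hψ hz, fD_sq]
  refine ⟨D, fun u v => ?_, fun v => ?_, ?_, fun w c => ?_⟩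
  · by_cases h : B u v = 0
    · obtain ⟨L, hu, hv, hL⟩ := exists_lag_pair hB h
      have := le_of_lin hB h2 hψ hR hS hL ⊤ (LinearMap.ker (D u * D v - (D (u + v) + D (u - v))))
        (fun _ _ _ _ _ => Submodule.mem_top) (fun l z _ _ hz => by
          have e1 := hD _ _ z (Xw_of_Wq hB hz ⟨u, hu⟩)
          have e2 := hD _ _ z (Xw_of_Wq hB hz ⟨v, hv⟩)
          have e3 := hD _ _ z (Xw_of_Wq hB hz (⟨u, hu⟩ + ⟨v, hv⟩))
          have e4 := hD _ _ z (Xw_of_Wq hB hz (⟨u, hu⟩ - ⟨v, hv⟩))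
          simp only [Submodule.coe_add, Submodule.coe_sub, map_add, map_sub] at e1 e2 e3 e4
          rw [LinearMap.mem_ker, LinearMap.sub_apply, LinearMap.add_apply, Module.End.mul_apply,
            e2, map_smul, e1, e3, e4, smul_smul, ← add_smul, ← sub_smul]
          simp only [sub_eq_add_neg, mul_add, neg_add, mul_neg, neg_neg, AddChar.map_add_eq_mul]
          convert zero_smul ℂ z
          ring)
      rw [hB.skew u v, h]
      ext z
      simpa [sub_eq_zero] using this (Submodule.mem_top (x := z))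
    · rw [← sub_eq_zero]
      refine principle hB h4 hψ hR hG h (fun w h1 h3 c => ?_) fun w h1 h3 d hd z hz => ?_
      · have e : ∀ x, B w x = 0 → ρ (hB.transv w c) * D x = D x * ρ (hB.transv w c) :=
          fun x hx => tr_fop_comm hB ρ ψ hx c _
        simp only [mul_sub, sub_mul, mul_add, add_mul, mul_smul_comm, smul_mul_assoc]
        rw [← mul_assoc, e u h1, mul_assoc, e v h3, e (u + v) (by simp [h1, h3]),
          e (u - v) (by simp [h1, h3]), mul_assoc]
      · by_cases hz0 : z = 0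
        · simp [hz0]
        obtain ⟨b, rfl⟩ := hS w d ((Submodule.ne_bot_iff _).mpr ⟨z, hz, hz0⟩)
        have hb : b ≠ 0 := left_ne_zero_of_mul hd
        let r : E → Module.End ℂ V := fun x => ρ (eta hB (b⁻¹ • x) w)
        have hr : ∀ x, B x w = 0 → ∀ z ∈ Xw hB ρ ψ w (b * b), r x z ∈ Xw hB ρ ψ w (b * b) :=
          fun x hx z hz => Xw_stable hB (fun c => by
            rw [← map_mul, ← map_mul, eta_mul_tr hB (by simp [hx])]) hz
        have hrr : ∀ x y, B x w = 0 → B y w = 0 → ∀ z ∈ Xw hB ρ ψ w (b * b),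
            r x (r y z) = ψ (B y x) • r (x + y) z := by
          intro x y hx hy z hz
          simp only [r]
          rw [← act_mul_apply, eta_mul hB (by simp [hx]) (by simp [hy]), act_mul_apply,
            (mem_Xw hB).mp hz, map_smul, smul_add]
          congr 2
          simp only [map_smul, LinearMap.smul_apply, smul_eq_mul, RingHom.id_apply]
          field_simp
        have hDr : ∀ x, B x w = 0 → ∀ z ∈ Xw hB ρ ψ w (b * b), D x z = r x z + r (-x) z := by
          intro x hx z hz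
          obtain ⟨L, hxL, hw, hL⟩ := exists_lag_pair hB hx
          have := le_of_lin hB h2 hψ hR hS hL (Xw hB ρ ψ w (b * b))
            (LinearMap.ker (D x - (r x + r (-x))))
            (fun v hv c z hz => Xw_stable hB (fun d => rep_tr_comm hB ρ (hL.iso _ hw _ hv) d c) hz)
            (fun l z hz hz0 hz' => by
              have e0 := Xw_unique hB hψ hz0 (Xw_of_Wq hB hz' ⟨w, hw⟩) hz
              have e1 := hD _ _ z (Xw_of_Wq hB hz' ⟨x, hxL⟩)
              have e2 := eta_Wq hB hz' (b⁻¹ • ⟨x, hxL⟩) ⟨w, hw⟩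
              have e3 := eta_Wq hB hz' (b⁻¹ • -⟨x, hxL⟩) ⟨w, hw⟩
              simp only [Submodule.coe_smul, Submodule.coe_neg, map_add, map_smul, map_neg,
                smul_eq_mul] at e0 e1 e2 e3
              rw [LinearMap.mem_ker, LinearMap.sub_apply, LinearMap.add_apply, e1, e2, e3,
                ← add_smul, ← sub_smul]
              convert zero_smul ℂ z
              rw [← pow_two] at e0
              rcases sq_eq_sq_iff_eq_or_eq_neg.mp e0 with e | e
              · rw [e, sub_eq_zero]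
                congr 2 <;> field_simp <;> ring
              · rw [e, sub_eq_zero, add_comm]
                congr 2 <;> field_simp <;> ring) hz
          simpa [sub_eq_zero] using this
        have hu : B u w = 0 := by rw [hB.skew, h1, neg_zero]
        have hv : B v w = 0 := by rw [hB.skew, h3, neg_zero]
        have hu' : B (-u) w = 0 := by simp [hu]
        have hv' : B (-v) w = 0 := by simp [hv]
        rw [LinearMap.sub_apply, LinearMap.add_apply, LinearMap.smul_apply, LinearMap.smul_apply,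
          Module.End.mul_apply, hDr v hv z hz, map_add, hDr u hu _ (hr v hv z hz),
          hDr u hu _ (hr _ hv' z hz), hDr (u + v) (by simp [hu, hv]) z hz,
          hDr (u - v) (by simp [hu, hv]) z hz, hrr u v hu hv z hz, hrr _ v hu' hv z hz,
          hrr u _ hu hv' z hz, hrr _ _ hu' hv' z hz]
        simp only [map_neg, LinearMap.neg_apply, neg_neg, sub_eq_add_neg, neg_add, smul_add]
        abel
  · have : ∀ c, hB.transv (-v) c = hB.transv v c := fun c => by
      rw [← neg_one_smul F v, tr_smul]; simp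
    simp only [D, fop, this]
  · ext z
    rw [hD 0 0 z (fun c => by simp [tr_zero_left])]
    simp [two_smul, add_smul]
  · refine ext_of_Xw hB ρ hψ w fun d z hz => ?_
    by_cases hz0 : z = 0
    · simp [hz0]
    obtain ⟨y, rfl⟩ := hS w d ((Submodule.ne_bot_iff _).mpr ⟨z, hz, hz0⟩)
    have e : ∀ s : F, D (s • w) z = (ψ (2 * (s * y)) + ψ (-(2 * (s * y)))) • z := fun s =>
      hD _ _ z fun c => by
        simp only
        rw [tr_smul, (mem_Xw hB).mp hz]
        congr 2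
        ring
    simp only [LinearMap.sum_apply, LinearMap.smul_apply, e, smul_smul, ← Finset.sum_smul,
      (mem_Xw hB).mp hz, mul_add, Finset.sum_add_distrib]
    congr 1
    have e1 := sum_gam hψ h2 c y
    have e2 := sum_gam hψ h2 c (-y)
    rw [neg_sq, pow_two] at e2
    rw [pow_two] at e1
    rw [← add_halves (ψ (c * (y * y)))]
    congr 1
    · rw [← e1, Finset.sum_div]
      refine Finset.sum_congr rfl fun s _ => ?_
      rw [div_mul_eq_mul_div]
      congr 3
      ring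
    · rw [← e2, Finset.sum_div]
      refine Finset.sum_congr rfl fun s _ => ?_
      rw [div_mul_eq_mul_div]
      congr 3
      ring

end Cfsg.Agent.H1
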