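import Cfsg.Agent.H1.WeilClass

/-!
# Classification of the low-dimensional representations of `Sp(E)`, `q` odd
-/

set_option autoImplicit false
set_option linter.unusedSectionVars false

namespace Cfsg.Agent.H1

open Cfsg Module H5

variable {F : Type*} [Field F] [Fintype F] {E : Type*} [AddCommGroup E] [Module F E]
  [FiniteDimensional F E] [Fintype E]
variable {B : Bil F E} (hB : IsSp B)
variable {V : Type*} [AddCommGroup V] [Module ℂ V] [FiniteDimensional ℂ V]

theorem isSquare_of_not_isSquare_mul {a b : F} (ha : ¬IsSquare a) (h : ¬IsSquare (a * b)) :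
    IsSquare b := by
  classical
  by_contra hb
  apply h
  have ha0 : a ≠ 0 := by rintro rfl; simp at ha
  have hb0 : b ≠ 0 := by rintro rfl; simp at hb
  rw [← quadraticChar_one_iff_isSquare (mul_ne_zero ha0 hb0), map_mul,
    quadraticChar_neg_one_iff_not_isSquare.mpr ha, quadraticChar_neg_one_iff_not_isSquare.mpr hb]
  simp

theorem mulShift_ne_one {ψ : AddChar F ℂ} (hψ : ψ ≠ 1) {ν : F} (hν : ν ≠ 0) :
    ψ.mulShift ν ≠ 1 := AddChar.IsPrimitive.of_ne_one hψ hν

theorem Xw_mulShift {ρ : Isom B →* Module.End ℂ V} {ψ : AddChar F ℂ} (ν : F) (w : E) (d : F) :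
    Xw hB ρ (ψ.mulShift ν) w d = Xw hB ρ ψ w (ν * d) := by
  ext z
  simp only [mem_Xw, AddChar.mulShift_apply, mul_left_comm]

theorem Heis.sq_weil {ψ : AddChar F ℂ} {W : Type*} [AddCommGroup W] [Module ℂ W]
    [FiniteDimensional ℂ W] (H : Heis B ψ W) (h4 : 4 ≤ finrank F E) (ε : ℂ) (w : E) (d : F)
    (h : Xw H.sp (H.sub ε).toRepresentation ψ w d ≠ ⊥) : IsSquare d := by
  classical
  obtain ⟨z, hz, hz0⟩ := (Submodule.ne_bot_iff _).mp h
  have hz' : z.1 ∈ Xw H.sp H.weil ψ w d := fun c => congrArg Subtype.val (hz c)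
  have := H.ext_of_heis (H.iso_span w) (A := fop H.sp H.weil ψ w fun d => if IsSquare d then 0 else 1)
    (A' := 0) fun l y hy => by
      have e := H.T_apply' hy ⟨w, Submodule.mem_span_singleton_self w⟩
      rw [fop_apply H.sp H.psi (d := l ⟨w, Submodule.mem_span_singleton_self w⟩ ^ 2)
        (fun c => by simp only [H.weil_transv h4]; exact e c), if_pos ⟨_, pow_two _⟩]
      simp
  have e := fop_apply H.sp H.psi hz' fun d => if IsSquare d then 0 else 1
  rw [this] at e
  by_contra hd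
  simp only [hd, if_false, one_smul, LinearMap.zero_apply] at e
  exact hz0 (Subtype.ext e.symm)

theorem trivial_of_char_eq {V' : Type*} [AddCommGroup V'] [Module ℂ V'] [FiniteDimensional ℂ V']
    (ρ : Representation ℂ (Isom B) V) (ρ' : Representation ℂ (Isom B) V') {ψ : AddChar F ℂ}
    (hψ : ψ ≠ 1) (h : ∀ w d, Xw hB ρ ψ w d ≠ ⊥ → IsSquare d)
    (h' : ∀ w d, Xw hB ρ' ψ w d ≠ ⊥ → d = 0 ∨ ¬IsSquare d) (e : ρ.character = ρ'.character)
    (g : Isom B) : ρ' g = 1 := by
  classical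
  have := finite_Isom B
  refine sp_eq_one hB ρ' (fun w c => rep_eq_one_of_character_eq ρ' ?_) g
  let f : F → ℂ := fun d => if d = 0 ∨ ¬IsSquare d then 1 else 0
  have h1 : fop hB ρ' ψ w f = 1 := ext_of_Xw hB ρ' hψ w fun d z hz => by
    by_cases hz0 : z = 0
    · simp [hz0]
    rw [fop_apply hB hψ hz]
    simp only [f, if_pos (h' w d ((Submodule.ne_bot_iff _).mpr ⟨z, hz, hz0⟩)), one_smul,
      Module.End.one_apply]
  have h2 : fop hB ρ ψ w f * ρ (hB.transv w c) = fop hB ρ ψ w f :=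
    ext_of_Xw hB ρ hψ w fun d z hz => by
      by_cases hz0 : z = 0
      · simp [hz0]
      rw [Module.End.mul_apply, (mem_Xw hB).mp hz, map_smul, fop_apply hB hψ hz]
      by_cases hd : d = 0
      · simp [hd]
      · simp [f, hd, h w d ((Submodule.ne_bot_iff _).mpr ⟨z, hz, hz0⟩)]
  have h3 : ∀ x, LinearMap.trace ℂ V (fop hB ρ ψ w f * ρ x) = ρ'.character x := by
    intro x
    have : LinearMap.trace ℂ V (fop hB ρ ψ w f * ρ x) =
        LinearMap.trace ℂ V' (fop hB ρ' ψ w f * ρ' x) := by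
      simp only [fop, Finset.sum_mul, smul_mul_assoc, ← map_mul, map_sum, map_smul]
      refine Finset.sum_congr rfl fun c _ => ?_
      congr 1
      exact congrFun e _
    rw [this, h1, one_mul]
    rfl
  rw [← h3, ← h3, h2, map_one, mul_one]

theorem weil_class (h4 : 4 ≤ finrank F E) {n : ℕ} (hn : finrank F E = 2 * n) {ψ : AddChar F ℂ}
    {ν : F} (hν : ¬IsSquare ν) {W W' : Type*} [AddCommGroup W] [Module ℂ W] [FiniteDimensional ℂ W]
    [AddCommGroup W'] [Module ℂ W'] [FiniteDimensional ℂ W'] (H : Heis B ψ W)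
    (H' : Heis B (ψ.mulShift ν) W') (ρ : Representation ℂ (Isom B) V) (hρ : ρ.IsIrreducible)
    (hV : 2 ≤ finrank ℂ V) :
    (Fintype.card F ^ n - 1) * (Fintype.card F ^ n - Fintype.card F) ≤
      2 * (Fintype.card F + 1) * finrank ℂ V ∨
    (ρ.character = H.chi 1 ∨ ρ.character = H.chi (-1)) ∨
    (ρ.character = H'.chi 1 ∨ ρ.character = H'.chi (-1)) := by
  have := finite_Isom B
  have := Fintype.ofFinite (Isom B)
  have hG : ∀ z, (∀ g, ρ g z = z) → z = 0 := by
    intro z hz
    by_contra h0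
    have := eq_top_of_invariant ρ hρ (ℂ ∙ z) (fun g v hv => by
      obtain ⟨c, rfl⟩ := Submodule.mem_span_singleton.mp hv
      rw [map_smul, hz]; exact hv) (by simpa using h0)
    have h1 := finrank_span_le (F := ℂ) z
    rw [this, finrank_top] at h1
    omega
  rcases rkOne_or_bound H.sp ρ H.psi hn with hR | hR
  swap
  · exact Or.inl hR
  rcases rkOne_or_bound H.sp ρ H'.psi hn with hR' | hR'
  swap
  · exact Or.inl hR'
  right
  rcases one_type H.sp H.two h4 ρ hρ H.psi hR hG with h | h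
  · left
    obtain ⟨D, h1, h2, h3, h5⟩ := exists_D H.sp H.two h4 H.psi hR hG h
    obtain ⟨Φ, hΦ⟩ := H.exists_linear h4 ρ D h1 h2 h3 h5
    have hi := H.isIrreducible_sub (by omega)
    exact character_eq_of_linear ρ hρ H.weil _ _ H.isCompl_Wp hi.1 hi.2 Φ hΦ
  · right
    obtain ⟨D, h1, h2, h3, h5⟩ := exists_D H.sp H.two h4 H'.psi hR' hG (fun w d hd => by
      rw [Xw_mulShift] at hd
      rcases h w _ hd with e | e
      · rcases mul_eq_zero.mp e with e | e
        · simp [e] at hν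
        · simp [e]
      · exact isSquare_of_not_isSquare_mul hν e)
    obtain ⟨Φ, hΦ⟩ := H'.exists_linear h4 ρ D h1 h2 h3 h5
    have hi := H'.isIrreducible_sub (by omega)
    exact character_eq_of_linear ρ hρ H'.weil _ _ H'.isCompl_Wp hi.1 hi.2 Φ hΦ

theorem chi_ne (h4 : 4 ≤ finrank F E) {ψ : AddChar F ℂ}
    {ν : F} (hν : ¬IsSquare ν) {W W' : Type*} [AddCommGroup W] [Module ℂ W] [FiniteDimensional ℂ W]
    [AddCommGroup W'] [Module ℂ W'] [FiniteDimensional ℂ W'] (H : Heis B ψ W)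
    (H' : Heis B (ψ.mulShift ν) W') (ε : ℂ) (hirr : (H'.sub ε).toRepresentation.IsIrreducible)
    (hd : 2 ≤ finrank ℂ (H'.Wp ε)) : H.chi ε ≠ H'.chi ε := by
  intro e
  have := finrank_le_one_of_trivial _ hirr (trivial_of_char_eq H.sp _ _ H.psi (H.sq_weil h4 ε)
    (fun w d hd => by
      have hν0 : ν ≠ 0 := by rintro rfl; simp at hν
      by_cases h0 : d = 0
      · exact Or.inl h0
      right
      intro hs
      have := H'.sq_weil h4 ε w (ν⁻¹ * d) (by
        rwa [Xw_mulShift, ← mul_assoc, mul_inv_cancel₀ hν0, one_mul])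
      apply hν
      obtain ⟨a, ha⟩ := hs
      obtain ⟨b, hb⟩ := this
      have hb0 : b ≠ 0 := by
        rintro rfl
        simp [hν0, h0] at hb
      refine ⟨a / b, ?_⟩
      field_simp at hb ⊢
      linear_combination ha - hb) e)
  change finrank ℂ (H'.Wp ε) ≤ 1 at this
  omega

end Cfsg.Agent.H1
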